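import Cfsg.Agent.H35.S4Defs

/-! Type III for `Sp₄(q)`: the group `X̂_1` stabilizes the chain `R > W_2 S > S`. -/

set_option autoImplicit false

namespace Cfsg.Agent.H92.S4B1

open Cfsg Cfsg.Agent.H63 Cfsg.Agent.H63.SL Cfsg.Agent.H35.S4 Subgroup
open scoped commutatorElement

universe u v

theorem comm_triv {G : Type u} [Group G] {S V : G → Prop} {h π : G}
    (mul : ∀ a b, S a → S b → S (a * b)) (hπ : ∀ s, S s → S (π * s * π⁻¹))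
    (hh : ∀ s, S s → S (h * s * h⁻¹)) (hV : ∀ g, V g → V (π⁻¹ * g * π))
    (h1 : ∀ g, V g → S (h * g * h⁻¹ * g⁻¹)) (h2 : ∀ g, V g → S (h⁻¹ * g * h⁻¹⁻¹ * g⁻¹)) {g : G}
    (hg : V g) : S ⁅h * π * h⁻¹ * π⁻¹, g⁆ := by
  have e : ⁅h * π * h⁻¹ * π⁻¹, g⁆ = h * (π * (h⁻¹ * (π⁻¹ * g * π) * h⁻¹⁻¹ * (π⁻¹ * g * π)⁻¹) * π⁻¹) *
      h⁻¹ * (h * g * h⁻¹ * g⁻¹) := by
    simp only [commutatorElement_def]; group
  rw [e]
  exact mul _ _ (hh _ (hπ _ (h2 _ (hV g hg)))) (h1 g hg)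

theorem cjn {G : Type u} [Group G] {S : Subgroup G} {g s : G} (hg : g ∈ N[S]) (hs : s ∈ S) :
    g * s * g⁻¹ ∈ S := (mem_normalizer_iff.1 hg s).1 hs

theorem cjn' {G : Type u} [Group G] {S : Subgroup G} {g s : G} (hg : g ∈ N[S]) (hs : s ∈ S) :
    g⁻¹ * s * g ∈ S := by simpa using cjn (inv_mem hg) hs

variable {F : Type v} [Field F] {G : Type u} [Group G] {L : Subgroup G} {x : ZMod 8 → F → G}
  {t : G} {A : Type v} [CommRing A] {j : F →+* A} {σ : A ≃+* A} {y : ZMod 8 → A → G}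
  {Yh : ZMod 8 → Subgroup G} {S P R W2 W4 : Subgroup G}

theorem x0 (hC : Ctx L x t) (i : ZMod 8) : x i 0 = 1 := by
  have h := hC.mod.pin.add i 0 0
  rw [add_zero] at h
  exact mul_eq_left.1 h.symm

theorem y0 (T : T3 L x t j σ y Yh S P R W2 W4) {i : ZMod 8} (hi : sh i) : y i 0 = 1 := by
  have h := T.ds.add i hi 0 0
  rw [add_zero] at h
  exact mul_eq_left.1 h.symm

theorem ysq (T : T3 L x t j σ y Yh S P R W2 W4) (a : A) : y 1 a * y 1 a = 1 := by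
  rw [← T.ds.add 1 (by decide), ← two_mul, T.ds.quad.two, zero_mul, y0 T (by decide)]

theorem yS (hC : Ctx L x t) (T : T3 L x t j σ y Yh S P R W2 W4) (b : A) : y 3 b ∈ S :=
  (T.l1.memS _).2 ⟨0, b, 0, by rw [x0 hC, x0 hC, one_mul, mul_one]⟩

theorem x4S (hC : Ctx L x t) (T : T3 L x t j σ y Yh S P R W2 W4) (c : F) : x 4 c ∈ S :=
  (T.l1.memS _).2 ⟨0, 0, c, by rw [x0 hC, y0 T (by decide), one_mul, one_mul]⟩

theorem RN (T : T3 L x t j σ y Yh S P R W2 W4) {g : G} (hg : g ∈ R) : g ∈ N[S] :=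
  centralizer_le_normalizer _ ((T.l2.mem g).1 hg).2.1

theorem W2R (T : T3 L x t j σ y Yh S P R W2 W4) {g : G} (hg : g ∈ W2) : g ∈ R :=
  (T.l3.two ▸ hg).1

theorem W4R (T : T3 L x t j σ y Yh S P R W2 W4) {g : G} (hg : g ∈ W4) : g ∈ R :=
  (T.l3.four ▸ hg).1

/-- `C_R(t) ≤ S`. -/
theorem fixT (hC : Ctx L x t) (T : T3 L x t j σ y Yh S P R W2 W4) {g : G} (hg : g ∈ R)
    (hc : Commute g t) : g ∈ S := by
  obtain ⟨h1, h2, -⟩ := (T.l2.mem g).1 hg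
  have hP := T.l1.fix g h2 h1 (by rw [commutatorElement_eq_one_iff_commute.2 hc]; exact one_mem _)
  obtain ⟨p, hp, b, p', hp', rfl⟩ := (T.l1.memP g).1 hP
  obtain ⟨-, -, ⟨v, hv, -⟩, -⟩ := (T.hl.mem 2 (by decide) p).1 hp
  obtain ⟨-, -, ⟨w, hw, -⟩, -⟩ := (T.hl.mem 4 (by decide) p').1 hp'
  have pP : p ∈ P := (T.l1.memP p).2 ⟨p, hp, 0, 1, one_mem _, by
    rw [y0 T (by decide), mul_one, mul_one]⟩
  have c1 : ∀ s ∈ S, p * s * p⁻¹ = s := fun s hs => by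
    rw [← T.l1.cS pP s hs, mul_inv_cancel_right]
  have c2 : y 3 b * x 4 w * (y 3 b)⁻¹ = x 4 w := by
    rw [← T.l1.cS (T.l1.SP (yS hC T b)) _ (x4S hC T w), mul_inv_cancel_right]
  have c3 : y 3 b * t * (y 3 b)⁻¹ = t * y 3 (σ b - b) := by
    have e1 := T.ds.conj 3 (by decide) (σ b)
    have e2 := T.ds.add 3 (by decide) (σ b - b) b
    rw [T.ds.quad.sq] at e1
    rw [sub_add_cancel] at e2
    rw [mul_inv_eq_iff_eq_mul, mul_assoc t, ← e2, ← mul_inv_eq_iff_eq_mul.1 e1]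
  have e : t * (x 2 v * y 3 (σ b - b) * x 4 w) = t := by
    calc t * (x 2 v * y 3 (σ b - b) * x 4 w)
        = p * t * p⁻¹ * (p * y 3 (σ b - b) * p⁻¹) * (p * x 4 w * p⁻¹) := by
          rw [hv, c1 _ (yS hC T _), c1 _ (x4S hC T _)]; group
      _ = p * (y 3 b * t * (y 3 b)⁻¹ * (y 3 b * x 4 w * (y 3 b)⁻¹)) * p⁻¹ := by
          rw [c2, c3]; group
      _ = p * y 3 b * (t * x 4 w) * (p * y 3 b)⁻¹ := by group
      _ = p * y 3 b * p' * t * (p * y 3 b * p')⁻¹ := by rw [← hw]; group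
      _ = t := by rw [hc.eq, mul_inv_cancel_right]
  obtain ⟨rfl, -, rfl⟩ := T.l1.uniqS _ _ _ (mul_eq_left.1 e)
  rw [x0 hC, mul_one, mul_inv_eq_iff_eq_mul] at hv hw
  obtain ⟨a, rfl⟩ := T.hl.fix 2 (by decide) p hp hv
  obtain ⟨c, rfl⟩ := T.hl.fix 4 (by decide) p' hp' hw
  exact (T.l1.memS _).2 ⟨a, b, c, rfl⟩

theorem back (hC : Ctx L x t) (T : T3 L x t j σ y Yh S P R W2 W4) {p : G}
    (hp : n2 x 1 * p * (n2 x 1)⁻¹ ∈ Yh 2) : p ∈ Yh 4 := by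
  have h := hC.kb.hatN 1 1 2 _ ((T.hl.mem 2 (by decide) _).1 hp)
  rw [show (2 * 1 + 4 - 2 : ZMod 8) = 4 by decide, show n2 x 1 * (n2 x 1 * p * (n2 x 1)⁻¹) *
    (n2 x 1)⁻¹ = (n2 x 1 * n2 x 1) * p * (n2 x 1 * n2 x 1)⁻¹ by group, hC.kb.nsq, one_mul, inv_one,
    mul_one] at h
  exact (T.hl.mem 4 (by decide) _).2 h

theorem lam_cj {n t e : G} (h : Commute t n) :
    t⁻¹ * (n * e * n⁻¹ * t * (n * e * n⁻¹)⁻¹) = n * (t⁻¹ * (e * t * e⁻¹)) * n⁻¹ := by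
  have h1 : n⁻¹ * t * n = t := by rw [mul_assoc, h.eq, inv_mul_cancel_left]
  calc t⁻¹ * (n * e * n⁻¹ * t * (n * e * n⁻¹)⁻¹)
      = n * ((n⁻¹ * t * n)⁻¹ * (e * (n⁻¹ * t * n) * e⁻¹)) * n⁻¹ := by group
    _ = _ := by rw [h1]

theorem mov4 (hC : Ctx L x t) (T : T3 L x t j σ y Yh S P R W2 W4) {e : G} (he : e ∈ W4) :
    t⁻¹ * (e * t * e⁻¹) ∈ Yh 4 := by
  have h := T.l3.mov _ ((T.l3.sw e).1 he)
  rw [lam_cj (hC.kb.tL _ (hC.kb.nL 1))] at h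
  exact back hC T h

theorem ker4 (hC : Ctx L x t) (T : T3 L x t j σ y Yh S P R W2 W4) {e : G} (he : e ∈ W4) {a : F}
    (ha : t⁻¹ * (e * t * e⁻¹) = x 4 a) : e ∈ Yh 4 := by
  refine back hC T (T.l3.ker _ ((T.l3.sw e).1 he) ?_)
  rw [lam_cj (hC.kb.tL _ (hC.kb.nL 1)), ha, hC.kp.nn, hC.kp.memX]
  exact ⟨a, by rw [show (2 * 1 + 4 - 4 : ZMod 8) = 2 by decide]⟩

theorem fix4 (hC : Ctx L x t) (T : T3 L x t j σ y Yh S P R W2 W4) {p : G} (hp : p ∈ Yh 4)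
    (h : x 1 1 * p * (x 1 1)⁻¹ * p⁻¹ ∈ S) : ∃ a, p = x 4 a := by
  obtain ⟨-, -, ⟨w, hw, -⟩, -⟩ := (T.hl.mem 4 (by decide) p).1 hp
  obtain ⟨p', hp', b, h1, -, h3⟩ := T.hl.l3 p hp w hw 1
  have c := (T.hl.cy 4 (by decide) p hp b).2
  rw [show (4 - 1 : ZMod 8) = 3 by decide] at c
  rw [h3, mul_assoc p', c.eq, ← mul_assoc, mul_inv_cancel_right] at h
  have h4 : p' * 1 ∈ S := by
    rw [mul_one]; exact (mul_mem_cancel_right (yS hC T b)).1 h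
  obtain ⟨a, rfl⟩ := (hC.kp.memX 2 p').1 (T.l1.uniqP p' hp' 1 (one_mem _) h4).1
  rw [← (hC.kb.tL _ (hC.kb.xL 2 a)).eq, mul_inv_cancel_right, one_pow, one_mul] at h1
  obtain rfl := hC.mod.pin.inj 2 w (mul_eq_left.1 h1.symm)
  rw [x0 hC, mul_one, mul_inv_eq_iff_eq_mul] at hw
  exact T.hl.fix 4 (by decide) p hp hw

theorem xR (T : T3 L x t j σ y Yh S P R W2 W4) : x 1 1 ∈ N[R] :=
  T.ds.res 1 (by decide) 1 ▸ (T.l2'.n1 _).1

theorem xS (T : T3 L x t j σ y Yh S P R W2 W4) : x 1 1 ∈ N[S] :=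
  T.ds.res 1 (by decide) 1 ▸ (T.l1.nS.2.2 _).1

/-- `x_1(1)` centralizes `W_2` modulo `S`. -/
theorem one (hC : Ctx L x t) (T : T3 L x t j σ y Yh S P R W2 W4) {e : G} (he : e ∈ W2) :
    e⁻¹ * (x 1 1 * e * (x 1 1)⁻¹) ∈ S := by
  refine fixT hC T (mul_mem (inv_mem (W2R T he)) (cjn (xR T) (W2R T he))) ?_
  have c := (T.hl.cy 2 (by decide) _ (T.l3.mov e he) (j 1)).2
  rw [show (2 - 1 : ZMod 8) = 1 by decide, T.ds.res 1 (by decide)] at c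
  have h := lam_cj (e := e) (hC.kb.tL _ (hC.kb.xL 1 1))
  rw [← c.eq, mul_inv_cancel_right, mul_right_inj] at h
  change e⁻¹ * (x 1 1 * e * (x 1 1)⁻¹) * t = t * (e⁻¹ * (x 1 1 * e * (x 1 1)⁻¹))
  calc e⁻¹ * (x 1 1 * e * (x 1 1)⁻¹) * t
      = e⁻¹ * (x 1 1 * e * (x 1 1)⁻¹ * t * (x 1 1 * e * (x 1 1)⁻¹)⁻¹) *
        (x 1 1 * e * (x 1 1)⁻¹) := by group
    _ = _ := by rw [h]; group

/-- The set `W_2 S`. -/
def V (W S : Subgroup G) (g : G) : Prop := ∃ e ∈ W, ∃ s ∈ S, g = e * s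

theorem two (hC : Ctx L x t) (T : T3 L x t j σ y Yh S P R W2 W4) {g : G} (hg : g ∈ R)
    (h : x 1 1 * g * (x 1 1)⁻¹ * g⁻¹ ∈ S) : V W2 S g := by
  obtain ⟨e, he, b, e', he', rfl⟩ := T.l3.dec g hg
  have h1 : x 1 1 * e' * (x 1 1)⁻¹ * e'⁻¹ ∈ S := by
    have := mul_mem (mul_mem (mul_mem (inv_mem (cjn (xS T) (yS hC T b)))
      (cjn' (RN T (cjn (xR T) (W2R T he))) h)) (inv_mem (one hC T he))) (yS hC T b)
    convert this using 1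
    group
  have h2 : x 1 1 * (t⁻¹ * (e' * t * e'⁻¹)) * (x 1 1)⁻¹ * (t⁻¹ * (e' * t * e'⁻¹))⁻¹ ∈ S := by
    rw [← lam_cj (hC.kb.tL _ (hC.kb.xL 1 1))]
    have := mul_mem (cjn' T.l1.nS.1 h1)
      (cjn (RN T (T.l2.le ((T.l2.mem e').1 (W4R T he')).2.2.2)) (inv_mem h1))
    convert this using 1
    group
  obtain ⟨a, ha⟩ := fix4 hC T (mov4 hC T he') h2
  obtain ⟨c, rfl⟩ := fix4 hC T (ker4 hC T he' ha) h1
  exact ⟨e, he, _, mul_mem (yS hC T b) (x4S hC T c), mul_assoc _ _ _⟩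

theorem nV (hC : Ctx L x t) (T : T3 L x t j σ y Yh S P R W2 W4) (a : A) (g : G) (hg : V W2 S g) :
    V W2 S (y 1 a * g * (y 1 a)⁻¹) := by
  obtain ⟨e, he, s, hs, rfl⟩ := hg
  have c : (y 1 a)⁻¹ * x 1 1 * y 1 a = x 1 1 := by
    rw [← T.ds.res 1 (by decide), mul_assoc, ← T.ds.add 1 (by decide), add_comm,
      T.ds.add 1 (by decide), inv_mul_cancel_left]
  obtain ⟨e1, he1, s1, hs1, h⟩ := two hC T (cjn (T.l2'.n1 a).1 (W2R T he)) (by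
    have := cjn (T.l1.nS.2.2 a).1 (cjn (RN T (W2R T he)) (one hC T he))
    rw [← c] at this
    convert this using 1
    group)
  exact ⟨e1, he1, _, mul_mem hs1 (cjn (T.l1.nS.2.2 a).1 hs), by rw [← mul_assoc e1, ← h]; group⟩

theorem hW (hC : Ctx L x t) (T : T3 L x t j σ y Yh S P R W2 W4) {h e : G} (hh : h ∈ HH x L)
    (he : e ∈ W2) : h * e * h⁻¹ ∈ W2 := by
  rw [T.l3.two] at he ⊢
  refine ⟨cjn (T.l2.nR.2.1 hh) he.1, fun k hk => ?_⟩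
  have c1 := (hC.kb.comH k hk.1 h hh).eq
  have c2 := he.2 k hk
  have c3 := (hC.kb.comH k hk.1 _ (inv_mem hh)).eq
  rw [← mul_assoc, ← mul_assoc, c1, mul_assoc h k, c2, mul_assoc, mul_assoc e, c3]
  group

/-- Every element of `X̂_1` is a commutator with an element of `T_2` and of `T_4`. -/
theorem as_comm (hC : Ctx L x t) (T : T3 L x t j σ y Yh S P R W2 W4) (i : ZMod 8)
    (hi : ∀ α : Fˣ, ∃ β, wt α β i = 1) (a : A) :
    ∃ h ∈ TT x L i, ∃ a', y 1 a = h * y 1 a' * h⁻¹ * (y 1 a')⁻¹ := by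
  obtain ⟨α, h1, -⟩ := hC.kb.ne1
  obtain ⟨β, hβ⟩ := hi α
  obtain ⟨h, hh, ht⟩ := hC.kp.tor α β
  have h2 : (α : F) - 1 ≠ 0 := fun c => h1 (Units.ext (sub_eq_zero.1 c))
  refine ⟨h, (hC.kb.memT i h).2 ⟨hh.1, α, β, ht, hβ⟩, j ((α : F) - 1)⁻¹ * a, ?_⟩
  rw [T.ds.tor h hh.1 α β ht 1 (by decide), eq_mul_inv_iff_mul_eq, ← T.ds.add 1 (by decide)]
  congr 1
  have h3 : (1 : F) + ((α : F) - 1)⁻¹ = α * ((α : F) - 1)⁻¹ := by field_simp; ring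
  rw [show wt α β 1 = α from if_pos rfl, ← mul_assoc, ← map_mul, ← h3, map_add, map_one, add_mul,
    one_mul]

theorem lv3b1 : Lv3b1Stmt.{u, v} := by
  intro F _ _ G _ _ L x t hC A _ j σ y Yh S P R W2 W4 T a
  have inv : ∀ a', (y 1 a')⁻¹ = y 1 a' := fun a' => inv_eq_of_mul_eq_one_right (ysq T a')
  refine ⟨fun e he => ?_, fun e' he' => ?_⟩
  · obtain ⟨h, hh, a', ha⟩ := as_comm hC T 2 (fun α => ⟨(α ^ 2)⁻¹, by
      rw [show wt α (α ^ 2)⁻¹ 2 = α ^ 2 * (α ^ 2)⁻¹ from (if_neg (by decide)).trans (if_pos rfl),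
        mul_inv_cancel]⟩) a
    have key : ∀ k ∈ TT x L 2, ∀ g, V W2 S g → k * g * k⁻¹ * g⁻¹ ∈ S := by
      rintro k hk _ ⟨e, he, s, hs, rfl⟩
      have c : k * e = e * k := (T.l3.two ▸ he).2 k hk
      have := cjn (RN T (W2R T he)) (mul_mem (cjn (T.l1.nS.2.1 hk.1) hs) (inv_mem hs))
      rw [← mul_assoc k, c]
      convert this using 1
      group
    rw [ha]
    refine comm_triv (S := (· ∈ S)) (V := V W2 S) (fun _ _ => mul_mem)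
      (fun _ => cjn (T.l1.nS.2.2 a').1) (fun _ => cjn (T.l1.nS.2.1 hh.1)) (fun g hg => ?_)
      (key h hh) (key _ (inv_mem hh)) ⟨e, he, 1, one_mem _, (mul_one e).symm⟩
    have := nV hC T a' g hg
    rwa [inv] at this ⊢
  · obtain ⟨h, hh, a', ha⟩ := as_comm hC T 4 (fun α => ⟨1, (if_neg (by decide)).trans
      ((if_neg (by decide)).trans ((if_neg (by decide)).trans (if_pos rfl)))⟩) a
    have key : ∀ k ∈ TT x L 4, ∀ g, g ∈ R → V W2 S (k * g * k⁻¹ * g⁻¹) := by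
      intro k hk g hg
      obtain ⟨e, he, b, e', he', rfl⟩ := T.l3.dec g hg
      have c0 : k * e' = e' * k := (T.l3.four ▸ he').2 k hk
      have c : k * e' * k⁻¹ = e' := by rw [c0, mul_inv_cancel_right]
      refine ⟨_, mul_mem (hW hC T hk.1 he) (inv_mem he), _, cjn (RN T (W2R T he))
        (mul_mem (cjn (T.l1.nS.2.1 hk.1) (yS hC T b)) (inv_mem (yS hC T b))), ?_⟩
      calc k * (e * y 3 b * e') * k⁻¹ * (e * y 3 b * e')⁻¹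
          = k * e * y 3 b * k⁻¹ * (k * e' * k⁻¹) * (e * y 3 b * e')⁻¹ := by group
        _ = _ := by rw [c]; group
    rw [ha]
    refine comm_triv (S := V W2 S) (V := (· ∈ R)) ?_ (nV hC T a') ?_
      (fun _ => cjn' (T.l2'.n1 a').1) (key h hh) (key _ (inv_mem hh)) (W4R T he')
    · rintro _ _ ⟨e, he, s, hs, rfl⟩ ⟨e1, he1, s1, hs1, rfl⟩
      exact ⟨_, mul_mem he he1, _, mul_mem (cjn' (RN T (W2R T he1)) hs) hs1, by group⟩
    · rintro _ ⟨e, he, s, hs, rfl⟩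
      exact ⟨_, hW hC T hh.1 he, _, cjn (T.l1.nS.2.1 hh.1) hs, by group⟩

end Cfsg.Agent.H92.S4B1
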