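import Cfsg.Agent.H92.RcA
import Cfsg.Agent.S3862
import Cfsg.Agent.S0199

/-! Real class sizes with equal 2-part (S3860): the local lemmas valid in all cases. -/

set_option autoImplicit false

namespace Cfsg.Agent.H92.RC

open Subgroup H98

/-- all noncentral real elements have centralizers with Sylow 2-subgroups of order `c` -/
structure Hyp (G : Type*) [Group G] (c : ℕ) : Prop where
  z2 : IsPGroup 2 (center G)
  syl : ∀ x : G, Re x → x ∉ center G → ∀ Q, SylIn 2 Q Ce[x] → Nat.card Q = c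

variable {G : Type*} [Group G] [Finite G] {c : ℕ}

theorem Hyp.le (h : Hyp G c) {x : G} (hx : Re x) (hz : x ∉ center G) {Q : Subgroup G}
    (hQ : IsPGroup 2 Q) (hle : Q ≤ Ce[x]) : Nat.card Q ≤ c := by
  obtain ⟨T, hT, -⟩ := exists_sylIn_ge hle hQ
  rw [← h.syl x hx hz T hT]
  exact hT.card_le hle hQ

theorem Hyp.two (h : Hyp G c) {z : G} (hz : z ∈ center G) : Two z := two_of_mem h.z2 hz

theorem Hyp.two_of_sq (h : Hyp G c) {z : G} (hz : z * z ∈ center G) : Two z := (h.two hz).of_sq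

theorem Hyp.odd_not_center (h : Hyp G c) {x : G} (ho : Odd (orderOf x)) (hx : x ≠ 1) :
    x ∉ center G := fun hz => hx ((h.two hz).eq_one ho)

theorem Hyp.center_le (h : Hyp G c) {R K : Subgroup G} (hR : SylIn 2 R K) (hK : center G ≤ K) :
    center G ≤ R := fun z hz => SylIn_mem hR (h.two hz) (hK hz)
  (mem_normalizer_of fun q hq => by rwa [cj_of_comm (comm_of_center hz q)])

theorem Hyp.eq_of_card (h : Hyp G c) {x : G} (hx : Re x) (hz : x ∉ center G) {Q R : Subgroup G}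
    (hQ : Nat.card Q = c) (hQR : Q ≤ R) (hR : IsPGroup 2 R) (hle : R ≤ Ce[x]) : Q = R :=
  eq_of_le_card hQR (hQ ▸ h.le hx hz hR hle)

theorem Hyp.mem_of_card (h : Hyp G c) {x : G} (hx : Re x) (hz : x ∉ center G) {Q : Subgroup G}
    (hQ : Nat.card Q = c) (h2 : IsPGroup 2 Q) (hle : Q ≤ Ce[x]) {g : G} (hg : Two g)
    (hgx : Commute g x) (hn : g ∈ normalizer (Q : Set G)) : g ∈ Q := by
  rw [h.eq_of_card hx hz hQ le_sup_left (isP_sup h2 hg hn)
    (sup_le hle ((zpowers_le).2 (mem_C.2 hgx)))]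
  exact (le_sup_right : zpowers g ≤ _) (mem_zpowers g)

theorem syl_inf_Cs {x : G} {P : Subgroup G} (hP : SylIn 2 P (Cs x)) : SylIn 2 (P ⊓ Ce[x]) Ce[x] :=
  hP.inf_of_normal (C_le_Cs x) (Cs_le_norm x)

theorem syl_inf_Cz {x : G} {P : Subgroup G} (hP : SylIn 2 P (Cz x)) : SylIn 2 (P ⊓ Ce[x]) Ce[x] :=
  hP.inf_of_normal (C_le_Cz x) (Cz_le_norm x)

theorem card_Cs_aux {x u : G} {P : Subgroup G} (hP : P ≤ Cs x) (hx : x * x ≠ 1) (hu : u ∈ P)
    (hi : Inv u x) : Nat.card P = 2 * Nat.card ↥(P ⊓ Ce[x]) := by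
  have h1 := ((P ⊓ Ce[x]).subgroupOf P).card_mul_index
  rw [Nat.card_congr (subgroupOfEquivOfLe inf_le_left).toEquiv] at h1
  have h2 : ((P ⊓ Ce[x]).subgroupOf P).index = 2 := by
    refine index_eq_two_iff'.2 ⟨⟨u, hu⟩, fun b => ?_⟩
    simp only [mem_subgroupOf, mem_inf, mem_C, coe_mul]
    rcases hP b.2 with hb | hb
    · exact Or.inr ⟨⟨b.2, hb⟩, fun h => hx ((hi.mul_comm hb).sq_eq_one h.2)⟩
    · exact Or.inl ⟨⟨mul_mem hu b.2, hi.mul_inv hb⟩, fun h => hx (hb.sq_eq_one h.2)⟩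
  rw [← h1, h2, mul_comm]

theorem Hyp.card_Cs (h : Hyp G c) {x : G} (hx : Re x) (hx2 : x * x ≠ 1) {P : Subgroup G}
    (hP : SylIn 2 P (Cs x)) : Nat.card ↥(P ⊓ Ce[x]) = c ∧ Nat.card P = 2 * c ∧ ∃ u ∈ P, Inv u x := by
  obtain ⟨u, hu⟩ := hx
  obtain ⟨r, hr, hi⟩ := exists_inv_syl hP le_rfl (Or.inr hu) hu
  have h1 := h.syl x ⟨u, hu⟩ (hu.not_center hx2) _ (syl_inf_Cs hP)
  exact ⟨h1, by rw [card_Cs_aux hP.le hx2 hr hi, h1], r, hr, hi⟩

theorem Hyp.pos (h : Hyp G c) {x : G} (hx : Re x) (hz : x ∉ center G) : 0 < c := by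
  obtain ⟨T, hT⟩ := exists_sylIn 2 Ce[x]
  rw [← h.syl x hx hz T hT]
  exact Nat.card_pos

/-- F1 -/
theorem Hyp.f1 (h : Hyp G c) {x w u u' : G} (ho : Odd (orderOf x)) (hx : x ≠ 1) (hw : Two w)
    (hc : Commute x w) (hux : Inv u x) (huw : Inv u w) (hu'x : Inv u' x) (hu'w : Commute u' w) :
    w ∈ center G := by
  by_contra hz
  have hco := hw.coprime ho
  have hC := C_mul_of_coprime hc hco
  have hg : x * w ∉ center G := fun hg =>
    h.odd_not_center ho hx ((zpowers_le).2 hg (mem_zpowers_mul_of_coprime hc hco))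
  obtain ⟨Q, hQ⟩ := exists_sylIn 2 Ce[x * w]
  have hQc := h.syl _ ⟨u, hux.mul_right huw hc⟩ hg Q hQ
  have hle : Q ≤ Cs x ⊓ Ce[w] := hQ.le.trans (hC ▸ inf_le_inf_right _ (C_le_Cs x))
  obtain ⟨R, hR, hQR⟩ := exists_sylIn_ge hle hQ.isPGroup
  have h1 := h.eq_of_card ⟨u, huw⟩ hz hQc hQR hR.isPGroup (hR.le.trans inf_le_right)
  obtain ⟨r, hr, hi⟩ := exists_inv_syl hR inf_le_left ⟨Or.inr hu'x, mem_C.2 hu'w⟩ hu'x
  rw [← h1] at hr
  have h2 := hQ.le hr
  rw [hC] at h2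
  exact odd_sq_ne ho hx (hi.sq_eq_one (mem_C.1 h2.1))

theorem Hyp.f1' (h : Hyp G c) {x w u : G} (ho : Odd (orderOf x)) (hx : x ≠ 1) (hw : w * w = 1)
    (hc : Commute x w) (hux : Inv u x) (huw : Commute u w) : w ∈ center G :=
  h.f1 ho hx ⟨1, by rw [pow_one, sq, hw]⟩ hc hux (inv_of_sq hw huw) hux huw

/-- F3: involutions in the cyclic group of a real element are central -/
theorem Hyp.f3 (h : Hyp G c) {w i : G} (hw : Re w) (hw2 : w * w ≠ 1) (hi : i ∈ zpowers w)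
    (hi2 : i * i = 1) : i ∈ center G := by
  by_contra hz
  obtain ⟨P, hP⟩ := exists_sylIn 2 (Cs w)
  obtain ⟨-, h1, -⟩ := h.card_Cs hw hw2 hP
  have h2 := h.le (re_of_sq hi2) hz hP.isPGroup fun g hg => by
    rcases Cs_le_Cs hi (hP.le hg) with hg | hg
    exacts [mem_C.2 hg, mem_C.2 (hg.comm_of_sq hi2)]
  have := h.pos (re_of_sq hi2) hz
  omega

/-- real noncentral elements with central square -/
structure Y (v : G) : Prop where
  re : Re v
  nc : v ∉ center G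
  sq : v * v ∈ center G

theorem Y.conj {v : G} (hv : Y v) (g : G) : Y (g * v * g⁻¹) :=
  ⟨hv.re.conj g, fun h => hv.nc (conj_mem_center_iff.1 h), by
    have := (conj_mem_center_iff (g := g)).2 hv.sq
    convert this using 1
    group⟩

theorem Hyp.self_mem (h : Hyp G c) {v : G} (hv : v * v ∈ center G) {S : Subgroup G}
    (hS : SylIn 2 S (Cz v)) : v ∈ S := by
  refine SylIn_mem hS (h.two_of_sq hv) (mem_Cz_of_comm (Commute.refl v))
    (mem_normalizer_of fun q hq => ?_)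
  obtain ⟨z, hz, h1⟩ := cj_eq_of_Cz (Cz_symm (hS.le hq))
  rw [h1]
  exact mul_mem (h.center_le hS (fun z hz => mem_Cz_of_comm (comm_of_center hz v)) hz) hq

/-- Lemma A: elements of `Y` are 2-central modulo the centre -/
theorem Hyp.lemA (h : Hyp G c) {v : G} (hv : Y v) {S : Subgroup G} (hS : SylIn 2 S (Cz v)) :
    SylIn 2 S ⊤ := by
  obtain ⟨T, hT, hST⟩ := exists_sylIn_ge (le_top : S ≤ ⊤) hS.isPGroup
  by_contra hne
  obtain ⟨t, htT, htS, htn, ht2⟩ := exists_step hT.isPGroup hST (fun e => hne (e ▸ hT))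
  have ht := two_of_mem hT.isPGroup htT
  have hvS := h.self_mem hv.sq hS
  have hv'S : t * v * t⁻¹ ∈ S := conj_mem_of_normalizer htn hvS
  set v' := t * v * t⁻¹ with hv'
  have hsq : v' * v' = v * v := by rw [← center_conj hv.sq t, hv']; group
  have hη : Inv v' (v' * v⁻¹) := inv_div hsq (hsq ▸ hv.sq)
  have hnc : v' * v⁻¹ ∉ center G := fun hz => htS (SylIn_mem hS ht hz htn)
  -- the subgroup of elements whose commutator with `η` is a commutator with `v`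
  let K : Subgroup G :=
    { carrier := {g | ∃ s ∈ S, g * (v' * v⁻¹) * g⁻¹ * (v' * v⁻¹)⁻¹ = s * v * s⁻¹ * v⁻¹}
      one_mem' := ⟨1, one_mem _, by simp⟩
      mul_mem' := by
        rintro a b ⟨s, hs, ha⟩ ⟨r, hr, hb⟩
        have hb' : b ∈ Cz (v' * v⁻¹) := by rw [mem_Cz, hb]; exact hS.le hr
        exact ⟨s * r, mul_mem hs hr, by rw [cz_mul hb', cz_mul (hS.le hr), ha, hb]⟩
      inv_mem' := by
        rintro a ⟨s, hs, ha⟩
        have ha' : a ∈ Cz (v' * v⁻¹) := by rw [mem_Cz, ha]; exact hS.le hs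
        refine ⟨s⁻¹, inv_mem hs, ?_⟩
        have h1 := cz_mul (a := a⁻¹) ha'
        have h2 := cz_mul (a := s⁻¹) (hS.le hs)
        rw [inv_mul_cancel, one_mul, inv_one, mul_one, mul_inv_cancel] at h1 h2
        rw [ha] at h1
        exact mul_left_cancel (h1.symm.trans h2) }
  have hSK : S ≤ K := by
    intro s hs
    have hs' : t⁻¹ * s * t⁻¹⁻¹ ∈ S := conj_mem_of_normalizer (inv_mem htn) hs
    refine ⟨s⁻¹ * (t⁻¹ * s * t⁻¹⁻¹), mul_mem (inv_mem hs) hs', ?_⟩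
    obtain ⟨z, hz, h1⟩ := cj_eq_of_Cz (hS.le hs')
    obtain ⟨y, hy, h2⟩ := cj_eq_of_Cz (hS.le hs)
    have h3 : s⁻¹ * v * s⁻¹⁻¹ * v⁻¹ = y⁻¹ := by
      have h4 := cz_mul (a := s⁻¹) (hS.le hs)
      rw [inv_mul_cancel, one_mul, inv_one, mul_one, mul_inv_cancel, h2,
        mul_inv_cancel_right] at h4
      exact eq_inv_of_mul_eq_one_right h4.symm
    rw [cz_mul (hS.le hs'), h1, mul_inv_cancel_right, h3]
    calc s * (v' * v⁻¹) * s⁻¹ * (v' * v⁻¹)⁻¹
        = t * (t⁻¹ * s * t⁻¹⁻¹ * v * (t⁻¹ * s * t⁻¹⁻¹)⁻¹) * t⁻¹ * (s * v * s⁻¹)⁻¹ * (v' * v⁻¹)⁻¹ := by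
          rw [hv']; group
      _ = (t * z * t⁻¹) * (v' * v⁻¹ * y⁻¹ * (v' * v⁻¹)⁻¹) := by rw [h1, h2, hv']; group
      _ = _ := by rw [center_conj hz, center_conj (inv_mem hy)]
  have htK : t ∈ K := by
    refine ⟨v'⁻¹ * v'⁻¹ * v' * (t * t), mul_mem (mul_mem (mul_mem (inv_mem hv'S) (inv_mem hv'S)) hv'S) ht2, ?_⟩
    obtain ⟨z, hz, h1⟩ := cj_eq_of_Cz (hS.le ht2)
    obtain ⟨y, hy, h2⟩ := cj_eq_of_Cz (hS.le (inv_mem hv'S))
    have h0 : v'⁻¹ * v'⁻¹ * v' = v'⁻¹ := by group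
    rw [h0, cz_mul (hS.le ht2), h1, h2, mul_inv_cancel_right, mul_inv_cancel_right]
    have h3 : v * v'⁻¹ * (v * v'⁻¹) = y := by
      have h4 : v'⁻¹ * v = y * v * v'⁻¹ := by rw [← h2]; group
      calc v * v'⁻¹ * (v * v'⁻¹) = v * (v'⁻¹ * v) * v'⁻¹ := by group
        _ = (v * y * v⁻¹) * ((v * v) * (v' * v')⁻¹) := by rw [h4]; group
        _ = y := by rw [center_conj hy, hsq]; group
    calc t * (v' * v⁻¹) * t⁻¹ * (v' * v⁻¹)⁻¹
        = (t * t * v * (t * t)⁻¹) * v'⁻¹ * (v * v'⁻¹) := by rw [hv']; group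
      _ = z * (v * v'⁻¹ * (v * v'⁻¹)) := by rw [h1]; group
      _ = _ := by rw [h3]
  have hS2 : S ⊔ zpowers t ≤ K := sup_le hSK ((zpowers_le).2 htK)
  have h2 := isP_sup hS.isPGroup ht htn
  have h3 := card_conjSet_mul (S ⊔ zpowers t) (v' * v⁻¹)
  have h4 := card_conjSet_mul S v
  rw [h.syl v hv.re hv.nc _ (syl_inf_Cz hS)] at h4
  have h5 := h.le ⟨_, hη⟩ hnc (h2.to_le (inf_le_left : (S ⊔ zpowers t) ⊓ Ce[v' * v⁻¹] ≤ _))
    inf_le_right
  have h6 : Nat.card (conjSet (S ⊔ zpowers t) (v' * v⁻¹)) ≤ Nat.card (conjSet S v) := by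
    refine Nat.card_le_card_of_injective
      (fun a => ⟨a.1 * (v' * v⁻¹)⁻¹ * v, ?_⟩) fun a b hab => ?_
    · obtain ⟨g, hg, e⟩ := mem_conjSet.1 a.2
      obtain ⟨s, hs, e'⟩ := hS2 hg
      exact mem_conjSet.2 ⟨s, hs, by rw [← e, e']; group⟩
    · exact Subtype.ext (by simpa using hab)
  have h7 : Nat.card ↥(S ⊔ zpowers t) ≤ Nat.card S := by
    rw [← h3, ← h4]; exact Nat.mul_le_mul h6 h5
  exact htS (eq_of_le_card le_sup_left h7 ▸ (le_sup_right : zpowers t ≤ _) (mem_zpowers t))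

/-- a frame: a real element of odd order with a Sylow 2-subgroup of its extended centralizer -/
structure Fr (x : G) (P : Subgroup G) : Prop where
  odd : Odd (orderOf x)
  ne : x ≠ 1
  re : Re x
  syl : SylIn 2 P (Cs x)

theorem exists_fr {x u : G} (ho : Odd (orderOf x)) (hx : x ≠ 1) (hu : Inv u x) {R : Subgroup G}
    (hR : IsPGroup 2 R) (hle : R ≤ Cs x) : ∃ P, Fr x P ∧ R ≤ P :=
  let ⟨P, hP, h⟩ := exists_sylIn_ge hle hR
  ⟨P, ⟨ho, hx, ⟨u, hu⟩, hP⟩, h⟩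

theorem Fr.sq {x : G} {P : Subgroup G} (f : Fr x P) : x * x ≠ 1 := odd_sq_ne f.odd f.ne

theorem Fr.two {x : G} {P : Subgroup G} (f : Fr x P) : IsPGroup 2 P := f.syl.isPGroup

theorem Fr.two0 {x : G} {P : Subgroup G} (f : Fr x P) : IsPGroup 2 ↥(P ⊓ Ce[x]) :=
  f.two.to_le inf_le_left

theorem Fr.cases {x : G} {P : Subgroup G} (f : Fr x P) {p : G} (hp : p ∈ P) :
    Commute p x ∨ Inv p x := f.syl.le hp

theorem Fr.not_comm {x : G} {P : Subgroup G} (f : Fr x P) {u : G} (hu : Inv u x) : ¬ Commute u x :=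
  fun h => f.sq (hu.sq_eq_one h)

theorem Fr.norm0 {x : G} {P : Subgroup G} (f : Fr x P) {p : G} (hp : p ∈ P) :
    p ∈ normalizer ((P ⊓ Ce[x] : Subgroup G) : Set G) :=
  mem_normalizer_of fun _ hq => mem_inf.2 ⟨mul_mem (mul_mem hp (mem_inf.1 hq).1) (inv_mem hp),
    conj_mem_of_normalizer (Cs_le_norm x (f.syl.le hp)) hq.2⟩

theorem Hyp.card0 (h : Hyp G c) {x : G} {P : Subgroup G} (f : Fr x P) :
    Nat.card ↥(P ⊓ Ce[x]) = c := (h.card_Cs f.re f.sq f.syl).1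

theorem Hyp.card1 (h : Hyp G c) {x : G} {P : Subgroup G} (f : Fr x P) :
    Nat.card P = 2 * c := (h.card_Cs f.re f.sq f.syl).2.1

theorem Hyp.center_le0 (h : Hyp G c) {x : G} {P : Subgroup G} (f : Fr x P) :
    center G ≤ P ⊓ Ce[x] := h.center_le (syl_inf_Cs f.syl) (center_le_C x)

theorem Fr.conj {x : G} {P : Subgroup G} (f : Fr x P) (g : G) :
    Fr (g * x * g⁻¹) (P.map (MulAut.conj g).toMonoidHom) := by
  refine ⟨odd_conj f.odd g, fun h => f.ne (by simpa using h), f.re.conj g, ?_⟩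
  have : Cs (g * x * g⁻¹) = (Cs x).map (MulAut.conj g).toMonoidHom := by
    ext a
    rw [mem_map_conj]
    constructor
    · rintro (h | h)
      · exact Or.inl (by simpa [mul_assoc] using comm_conj h g⁻¹)
      · exact Or.inr (by simpa [mul_assoc] using h.conj g⁻¹)
    · rintro (h | h)
      · exact Or.inl (by simpa [mul_assoc] using comm_conj h g)
      · exact Or.inr (by simpa [mul_assoc] using h.conj g)
  rw [this]
  exact f.syl.map_conj g

/-- real 2-elements centralizing a 2-subgroup of order `c` containing the centre lie in it -/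
theorem Hyp.mem_of_real (h : Hyp G c) {Q : Subgroup G} (hQ : Nat.card Q = c) (h2 : IsPGroup 2 Q)
    (hZ : center G ≤ Q) {w : G} (hw : Two w) (hr : Re w) (hc : ∀ q ∈ Q, Commute q w) : w ∈ Q := by
  by_cases hz : w ∈ center G
  · exact hZ hz
  · exact h.mem_of_card hr hz hQ h2 (fun q hq => mem_C.2 (hc q hq)) hw (Commute.refl w)
      (mem_normalizer_of fun q hq => by rwa [cj_of_comm (hc q hq).symm])

/-- the elements of odd order centralizing such a subgroup form a subgroup -/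
theorem Hyp.exists_U (h : Hyp G c) {Q : Subgroup G} (hQ : Nat.card Q = c) (h2 : IsPGroup 2 Q)
    (hZ : center G ≤ Q) : ∃ U : Subgroup G,
      ∀ g, g ∈ U ↔ (∀ q ∈ Q, Commute q g) ∧ Odd (orderOf g) := by
  have h1 : HasNormalPComplement 2 (centralizer (Q : Set G)) := by
    refine S3862.result fun w hw hr => ?_
    obtain ⟨u, hu⟩ := re_iff.2 hr
    have hw' : Two (w : G) := two_of_orderOf (by simpa using hw)
    have h3 := h.mem_of_real hQ h2 hZ hw' ⟨u, congrArg Subtype.val hu⟩ fun q hq => w.2 q hq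
    exact mem_center_iff.2 fun g => Subtype.ext (g.2 _ h3).symm
  refine ⟨(pResidual 2 (centralizer (Q : Set G))).map (centralizer (Q : Set G)).subtype,
    fun g => ⟨fun hg => ⟨fun q hq => map_subtype_le _ hg q hq, Nat.coprime_two_right.1
      (H8.hasNormalPComplement_subgroup_iff.1 h1 g hg)⟩, fun hg =>
      H8.mem_map_subtype_pResidual (fun q hq => hg.1 q hq) (Nat.coprime_two_right.2 hg.2)⟩⟩

/-- Lemma B -/
theorem Hyp.lemB (h : Hyp G c) {x : G} {P : Subgroup G} (f : Fr x P) {u t : G} (hu : u ∈ P)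
    (hi : Inv u x) (hn : t ∈ normalizer ((P ⊓ Ce[x] : Subgroup G) : Set G))
    (h2 : t * t ∈ P ⊓ Ce[x]) (hc : t * u * t⁻¹ * u⁻¹ ∈ P ⊓ Ce[x]) : t ∈ P := by
  have ht : Two t := (two_of_mem f.two0 h2).of_sq
  obtain ⟨U, hU⟩ := h.exists_U (h.card0 f) f.two0 (h.center_le0 f)
  have hUt : ∀ g ∈ U, t * g * t⁻¹ ∈ U := fun g hg => (hU _).2 ⟨fun q hq => by
    have := comm_conj (((hU g).1 hg).1 _ (conj_mem_of_normalizer (inv_mem hn) hq)) t
    simpa [mul_assoc] using this, odd_conj ((hU g).1 hg).2 t⟩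
  have hx : x ∈ U := (hU x).2 ⟨fun q hq => mem_C.1 hq.2, f.odd⟩
  have hb := hUt x hx
  set b := t * x * t⁻¹ with hbd
  have hub : Inv u b := by
    have h3 := ((hU b).1 hb).1 _ hc
    have h4 := (hi.conj t).comm_mul h3.inv_left
    rwa [show (t * u * t⁻¹ * u⁻¹)⁻¹ * (t * u * t⁻¹) = u by group] at h4
  have htb : t * b * t⁻¹ = x := by
    rw [← cj_of_comm (mem_C.1 h2.2), hbd]; group
  have hk : b * x⁻¹ ∈ U := mul_mem hb (inv_mem hx)
  obtain ⟨n, hs⟩ := exists_sqrt ((hU _).1 hk).2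
  have hsU : (b * x⁻¹) ^ n ∈ U := pow_mem hk n
  set s := (b * x⁻¹) ^ n with hsd
  have hso := ((hU _).1 hsU).2
  have hus : u * s * u⁻¹ = x⁻¹ * s⁻¹ * x⁻¹⁻¹ := by
    refine eq_of_sq_eq (odd_conj hso u) (odd_conj (by rwa [orderOf_inv]) _) ?_
    calc u * s * u⁻¹ * (u * s * u⁻¹) = u * (s * s) * u⁻¹ := by group
      _ = (u * b * u⁻¹) * (u * x * u⁻¹)⁻¹ := by rw [hs]; group
      _ = x⁻¹ * (s * s)⁻¹ * x := by rw [hub, hi, hs]; group
      _ = _ := by group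
  have hts : t * s * t⁻¹ = s⁻¹ := by
    refine eq_of_sq_eq (odd_conj hso t) (by rwa [orderOf_inv]) ?_
    calc t * s * t⁻¹ * (t * s * t⁻¹) = t * (s * s) * t⁻¹ := by group
      _ = (t * b * t⁻¹) * (t * x * t⁻¹)⁻¹ := by rw [hs]; group
      _ = (s * s)⁻¹ := by rw [htb, ← hbd, hs]; group
      _ = _ := by group
  have hum : Inv u (s * x) := by
    unfold Inv
    calc u * (s * x) * u⁻¹ = (u * s * u⁻¹) * (u * x * u⁻¹) := by group
      _ = _ := by rw [hus, hi]; group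
  have htm : Commute t (s * x) := by
    apply comm_of_cj
    calc t * (s * x) * t⁻¹ = (t * s * t⁻¹) * (t * x * t⁻¹) := by group
      _ = s⁻¹ * (b * x⁻¹) * x := by rw [hts, ← hbd]; group
      _ = _ := by rw [← hs]; group
  have hm := (hU _).1 (mul_mem hsU hx)
  by_cases h1 : s * x = 1
  · have htx : Inv t x := by
      have h5 : s = x⁻¹ := eq_inv_of_mul_eq_one_left h1
      rw [h5] at hs
      exact (mul_right_cancel hs).symm
    refine SylIn_mem f.syl ht (Or.inr htx) (mem_normalizer_of fun q hq => ?_)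
    rcases f.cases hq with hq' | hq'
    · exact (conj_mem_of_normalizer hn ⟨hq, mem_C.2 hq'⟩).1
    · have h6 := (mem_inf.1 (conj_mem_of_normalizer hn
        (mem_inf.2 ⟨mul_mem hq (inv_mem hu), mem_C.2 (hq'.mul_inv hi.inv)⟩))).1
      have h7 := mul_mem (mul_mem h6 (mem_inf.1 hc).1) hu
      rwa [show t * (q * u⁻¹) * t⁻¹ * (t * u * t⁻¹ * u⁻¹) * u = t * q * t⁻¹ by group] at h7
  · exact (h.mem_of_card ⟨u, hum⟩ (h.odd_not_center hm.2 h1) (h.card0 f) f.two0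
      (fun q hq => mem_C.2 (hm.1 q hq)) ht htm hn).1

/-- Lemma MN -/
theorem Hyp.lemMN (h : Hyp G c) {x e : G} {P T : Subgroup G} (f : Fr x P) (he : e * e ∈ center G)
    (hT : IsPGroup 2 T) (hPT : P ≤ T) (hne : P ≠ T) (hTe : T ≤ Cz e) :
    ∃ u ∈ P, Inv u x ∧ Commute u e := by
  by_contra hno
  have key : ∀ p ∈ P, Commute p e → p ∈ P ⊓ Ce[x] := fun p hp hc =>
    ⟨hp, mem_C.2 ((f.cases hp).resolve_right fun hi => hno ⟨p, hp, hi, hc⟩)⟩
  obtain ⟨t, htT, htP, htn, ht2⟩ := exists_step hT hPT hne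
  have k2 : ∀ p ∈ P, t * p * t⁻¹ * p⁻¹ ∈ P ⊓ Ce[x] := fun p hp =>
    key _ (mul_mem (conj_mem_of_normalizer htn hp) (inv_mem hp)) (comm_comm (hTe htT) (hTe (hPT hp)))
  obtain ⟨-, -, u, hu, hi⟩ := h.card_Cs f.re f.sq f.syl
  refine htP (h.lemB f hu hi (mem_normalizer_of fun q hq => ?_) (key _ ht2 (sq_comm he (hTe htT)))
    (k2 u hu))
  have := mul_mem (k2 q hq.1) hq
  rwa [inv_mul_cancel_right] at this

/-- Baer–Suzuki -/
theorem exists_odd_inv {y : G} (hy2 : Two y) (hy : y * y ∈ center G)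
    (hN : ∀ N : Subgroup G, N.Normal → IsPGroup 2 N → y ∉ N) :
    ∃ x : G, Odd (orderOf x) ∧ x ≠ 1 ∧ Inv y x := by
  by_contra hno
  obtain ⟨N, h1, h2, h3⟩ := S0199.result (p := 2) (zpowers y) hy2.isP fun g => by
    have hsq : y * y = g * y * g⁻¹ * (g * y * g⁻¹) := by rw [← center_conj hy g]; group
    have hi := inv_div hsq hy
    obtain ⟨x, w, hx, hw, e, ho, hw2, -⟩ := exists_parts (y * (g * y * g⁻¹)⁻¹)
    have hx1 : x = 1 := by
      by_contra hx1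
      exact hno ⟨x, ho, hx1, hi.of_mem_zpowers hx⟩
    rw [hx1, one_mul] at e
    rw [← e] at hw2
    have h4 := isP_sup hw2.isP hy2 (mem_normalizer_of fun q hq => by
      rw [hi.of_mem_zpowers hq]; exact inv_mem hq)
    refine h4.to_le (sup_le le_sup_right ?_)
    rw [MonoidHom.map_zpowers, zpowers_le]
    have h5 := mul_mem (inv_mem ((le_sup_left : _ ≤ zpowers (y * (g * y * g⁻¹)⁻¹) ⊔ zpowers y)
      (mem_zpowers _))) ((le_sup_right : zpowers y ≤ _) (mem_zpowers y))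
    simpa [mul_assoc] using h5
  exact hN N h1 h2 (h3 (mem_zpowers y))

end Cfsg.Agent.H92.RC
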