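import Cfsg.Agent.H53.UwDefs

/-! Orthogonally indecomposable unitary spaces of odd dimension are cyclic and primary. -/

set_option autoImplicit false

namespace Cfsg.Agent.H92.UwCyc

open Module Polynomial Cfsg.Agent.H31 Cfsg.Agent.H53.Uw

universe u

variable {E V : Type u} [Field E] [AddCommGroup V] [Module E V] {σ : E →+* E}
  {B : V →ₛₗ[σ] V →ₗ[E] E} {T : V →ₗ[E] V}

/-- The algebra generated by an isometry of finite order is closed under adjoints. -/
theorem adj (hT : ∀ x y, B (T x) (T y) = B x y) {N : ℕ} (hN : T ^ (N + 1) = 1) (p : E[X]) :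
    ∃ p' : E[X], ∀ x y, B (aeval T p x) y = B x (aeval T p' y) := by
  have h1 : ∀ (n : ℕ) x y, B ((T ^ n) x) ((T ^ n) y) = B x y := fun n => by
    induction n with
    | zero => intro x y; rfl
    | succ n ih => intro x y; rw [pow_succ', End.mul_apply, End.mul_apply, hT, ih]
  induction p using Polynomial.induction_on' with
  | add p r hp hr =>
    obtain ⟨p', hp⟩ := hp
    obtain ⟨r', hr⟩ := hr
    exact ⟨p' + r', fun x y => by
      rw [map_add, map_add, LinearMap.add_apply, LinearMap.add_apply, add_left, map_add, hp, hr]⟩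
  | monomial n a =>
    refine ⟨monomial (N * n) (σ a), fun x y => ?_⟩
    rw [aeval_monomial, aeval_monomial, End.mul_apply, End.mul_apply, algebraMap_end_apply,
      algebraMap_end_apply, smul_left, smul_right, ← h1 n x, ← End.mul_apply, ← pow_add,
      show n + N * n = (N + 1) * n by ring, pow_mul, hN, one_pow, End.one_apply]

theorem adj_symm (h : IsHermSymm B) {e e' : V →ₗ[E] V} (he : ∀ x y, B (e x) y = B x (e' y))
    (x y : V) : B (e' x) y = B x (e y) := by
  rw [← h.symm, ← he, h.symm]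

/-- A self-adjoint idempotent commuting with `T` is `0` or `1`. -/
theorem sa (h : IsHerm B)
    (hI : ∀ W : Submodule E V, (∀ w ∈ W, T w ∈ W) → NondegOn B W → W = ⊥ ∨ W = ⊤)
    {e : End E V} (h1 : e * e = e) (h2 : T * e = e * T) (h3 : ∀ x y, B (e x) y = B x (e y)) :
    e = 0 ∨ e = 1 := by
  have ee : ∀ x, e (e x) = e x := fun x => by rw [← End.mul_apply, h1]
  rcases hI (LinearMap.range e) (by
    rintro _ ⟨x, rfl⟩
    exact ⟨T x, by rw [← End.mul_apply, ← h2, End.mul_apply]⟩) (by
    rintro _ ⟨x, rfl⟩ hx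
    exact h.nondeg _ fun y => by rw [← ee, h3]; exact hx _ ⟨y, rfl⟩) with h4 | h4
  · exact Or.inl (LinearMap.range_eq_bot.1 h4)
  · refine Or.inr (LinearMap.ext fun x => ?_)
    obtain ⟨y, rfl⟩ := LinearMap.range_eq_top.1 h4 x
    exact ee y

theorem idem [FiniteDimensional E V] (h : IsHerm B) (hn : Odd (finrank E V))
    (hI : ∀ W : Submodule E V, (∀ w ∈ W, T w ∈ W) → NondegOn B W → W = ⊥ ∨ W = ⊤)
    {e e' : End E V} (h1 : e * e = e) (h2 : T * e = e * T) (h2' : T * e' = e' * T)
    (hc : e * e' = e' * e) (h3 : ∀ x y, B (e x) y = B x (e' y)) : e = 0 ∨ e = 1 := by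
  have h4 := adj_symm h.toIsHermSymm h3
  have h1' : e' * e' = e' := LinearMap.ext fun y => h.ext_right fun x => by
    rw [End.mul_apply, ← h3, ← h3, ← End.mul_apply, h1, h3]
  rcases sa h hI (e := e * e')
    (by rw [mul_assoc, ← mul_assoc e', ← hc, mul_assoc, h1', ← mul_assoc, h1])
    (by rw [← mul_assoc, h2, mul_assoc, h2', mul_assoc])
    (fun x y => by rw [End.mul_apply, h3, h4, End.mul_apply]) with h5 | h5
  swap
  · exact Or.inr (by rw [← h5, ← h1, mul_assoc, h5, mul_one, h1])
  have h6 : e' * e = 0 := hc ▸ h5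
  have e1 : (1 - e) * (1 - e') = 1 - e - e' := by
    rw [sub_mul, mul_sub, mul_sub, h5]; simp only [one_mul, mul_one, sub_zero]; abel
  rcases sa h hI (e := 1 - e - e')
    (by simp only [sub_mul, mul_sub, one_mul, mul_one, h1, h1', h5, h6]; abel)
    (by simp only [sub_mul, mul_sub, one_mul, mul_one, h2, h2'])
    (fun x y => by
      simp only [LinearMap.sub_apply, End.one_apply, sub_left, map_sub, h3, h4]; ring) with h7 | h7
  · exfalso
    have h8 : perp B (LinearMap.range e) = LinearMap.range e := by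
      ext y
      rw [mem_perp]
      constructor
      · intro hy
        have h9 : e' y = 0 := h.nondeg' _ fun x => by rw [← h3]; exact hy _ ⟨x, rfl⟩
        have h10 := LinearMap.congr_fun h7 y
        rw [LinearMap.sub_apply, LinearMap.sub_apply, h9, sub_zero, End.one_apply,
          LinearMap.zero_apply, sub_eq_zero] at h10
        exact ⟨y, h10.symm⟩
      · rintro ⟨y, rfl⟩ _ ⟨x, rfl⟩
        rw [h3, ← End.mul_apply, h6, LinearMap.zero_apply, map_zero]
    have h9 := h.finrank_add_finrank_perp (LinearMap.range e)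
    rw [h8] at h9
    obtain ⟨k, hk⟩ := hn
    omega
  · left
    have h8 : e * (1 - e - e') = 0 := by
      simp only [mul_sub, mul_one, h1, h5, sub_self]
    rwa [h7, mul_one] at h8

theorem diag (h : IsHerm B) {e : End E V} (he : ∀ v, B v (e v) = 0) : e = 0 := by
  obtain ⟨c, hc⟩ := h.inv.ne_id
  have h1 : ∀ x y, B x (e y) + B y (e x) = 0 := fun x y => by
    have := he (x + y)
    rw [add_left, map_add, map_add, map_add, he, he, zero_add, add_zero] at this
    exact this
  refine LinearMap.ext fun y => h.nondeg' _ fun x => ?_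
  have h2 := h1 (c • x) y
  rw [smul_left, map_smul, smul_right] at h2
  have h3 : (σ c - c) * B x (e y) = 0 := by linear_combination h2 - c * h1 x y
  exact (mul_eq_zero.1 h3).resolve_left (sub_ne_zero.2 hc)

theorem comm (p r : E[X]) : aeval T p * aeval T r = aeval T r * aeval T p := by
  rw [← map_mul, mul_comm, map_mul]

theorem commX (p : E[X]) : T * aeval T p = aeval T p * T := by
  simpa using comm (T := T) X p

theorem primary [FiniteDimensional E V] (h : IsHerm B) (hn : Odd (finrank E V))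
    (hI : ∀ W : Submodule E V, (∀ w ∈ W, T w ∈ W) → NondegOn B W → W = ⊥ ∨ W = ⊤)
    (ha : ∀ p : E[X], ∃ p' : E[X], ∀ x y, B (aeval T p x) y = B x (aeval T p' y)) :
    ∃ (f : E[X]) (k : ℕ), Irreducible f ∧ aeval T (f ^ k) = 0 := by
  have : Nontrivial V := nontrivial_of_finrank_pos (R := E) hn.pos
  have hi : IsIntegral E T := Algebra.IsIntegral.isIntegral T
  obtain ⟨f, hf, hd⟩ := WfDvdMonoid.exists_irreducible_factor (minpoly.not_isUnit E T)
    (minpoly.ne_zero hi)
  obtain ⟨k, m, hm, e⟩ := WfDvdMonoid.max_power_factor (minpoly.ne_zero hi) hf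
  obtain ⟨a, b, hab⟩ := hf.coprime_pow_of_not_dvd k hm
  have h0 : ∀ r, aeval T (r * (f ^ k * m)) = 0 := fun r => by
    rw [map_mul, ← e, minpoly.aeval, mul_zero]
  obtain ⟨p', hp'⟩ := ha (a * m)
  rcases idem h hn hI (e := aeval T (a * m)) (e' := aeval T p') (by
    rw [← map_mul, show a * m * (a * m) = a * m - a * b * (f ^ k * m) by
      linear_combination (a * m) * hab, map_sub, h0, sub_zero]) (commX _) (commX _) (comm _ _) hp'
    with h1 | h1
  · exfalso
    refine hm (hd.trans (minpoly.dvd E T ?_))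
    rw [show m = m * (a * m) + b * (f ^ k * m) by linear_combination (-m) * hab, map_add, h0,
      map_mul, h1, mul_zero, add_zero]
  · refine ⟨f, k, hf, ?_⟩
    rw [← mul_one (aeval T (f ^ k)), ← h1, ← map_mul, ← h0 a]
    congr 1
    ring

theorem cyc : CycStmt.{u} := by
  intro E V _ _ _ _ _ σ B q hS hn g hI
  have : FiniteDimensional E V := Module.Finite.of_finite
  have h := hS.herm
  set T : V →ₗ[E] V := (g.1 : V →ₗ[E] V)
  obtain ⟨N, hN⟩ : ∃ N, orderOf g.1 = N + 1 := ⟨_, (Nat.succ_pred_eq_of_pos (orderOf_pos _)).symm⟩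
  have ha := adj (B := B) (T := T) g.2 (N := N) (by
    have := map_pow LinearEquiv.automorphismGroup.toLinearMapMonoidHom g.1 (N + 1)
    rw [← hN, pow_orderOf_eq_one, map_one] at this
    rw [← hN]
    exact this.symm)
  obtain ⟨f, k, hf, hk⟩ := primary (T := T) h hn hI ha
  have : Nontrivial V := nontrivial_of_finrank_pos (R := E) hn.pos
  obtain ⟨j, j0, j1⟩ : ∃ j, aeval T (f ^ j) ≠ 0 ∧ aeval T (f ^ (j + 1)) = 0 := by
    classical
    have hex : ∃ k, aeval T (f ^ k) = 0 := ⟨k, hk⟩
    have h0 : Nat.find hex ≠ 0 := fun c => by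
      have := Nat.find_spec hex
      rw [c, pow_zero, map_one] at this
      exact one_ne_zero this
    obtain ⟨j, hj⟩ := Nat.exists_eq_succ_of_ne_zero h0
    exact ⟨j, Nat.find_min hex (by omega), by have := Nat.find_spec hex; rwa [hj] at this⟩
  obtain ⟨v, hv⟩ : ∃ v, B v (aeval T (f ^ j) v) ≠ 0 := by
    by_contra c
    exact j0 (diag h fun v => by_contra fun c' => c ⟨v, c'⟩)
  let W : Submodule E V := LinearMap.range ((LinearMap.applyₗ v).comp (aeval T).toLinearMap)
  have mW : ∀ w, w ∈ W ↔ ∃ p : E[X], aeval T p v = w := fun _ => Iff.rfl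
  rcases hI W (fun w hw => by
    obtain ⟨p, rfl⟩ := (mW w).1 hw
    exact (mW _).2 ⟨X * p, by rw [map_mul, aeval_X]; rfl⟩) (fun w hw hz => by
    obtain ⟨p, rfl⟩ := (mW w).1 hw
    by_contra c
    have p0 : p ≠ 0 := fun c' => c (by rw [c', map_zero, LinearMap.zero_apply])
    obtain ⟨i, r, hr, rfl⟩ := WfDvdMonoid.max_power_factor p0 hf
    obtain ⟨d, rfl⟩ : ∃ d, j = i + d := Nat.exists_eq_add_of_le (by
      by_contra c'
      obtain ⟨d, rfl⟩ := Nat.exists_eq_add_of_le (show j + 1 ≤ i by omega)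
      exact c (by rw [pow_add, mul_assoc, map_mul, j1, zero_mul, LinearMap.zero_apply]))
    obtain ⟨a, b, hab⟩ := hf.coprime_pow_of_not_dvd (i + d + 1) hr
    obtain ⟨s, hs⟩ := ha (a * f ^ d)
    refine hv ?_
    rw [show f ^ (i + d) = a * f ^ d * (f ^ i * r) + b * f ^ (i + d) * f ^ (i + d + 1) by
      linear_combination (-f ^ (i + d)) * hab, map_add, map_mul _ (b * _), j1, mul_zero, add_zero,
      map_mul, End.mul_apply, ← adj_symm h.toIsHermSymm hs]
    exact h.flip_zero (hz _ ((mW _).2 ⟨s, rfl⟩))) with h1 | h1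
  · exfalso
    have h2 : v ∈ W := (mW v).2 ⟨1, by rw [map_one]; rfl⟩
    rw [h1, Submodule.mem_bot] at h2
    exact hv (by rw [h2, zero_left])
  · refine ⟨f, k, v, hf, hk, fun w => ?_⟩
    obtain ⟨p, hp⟩ := (mW w).1 (h1 ▸ Submodule.mem_top)
    exact ⟨p, hp.symm⟩

end Cfsg.Agent.H92.UwCyc
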