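import Cfsg.Agent.H79.R3Defs

/-! Rank three actions of `PSL_n(q)`: plane stabilisers and involutions modulo scalars. -/

set_option autoImplicit false

namespace Cfsg.Agent.H92.R3Par1

open Cfsg Module Cfsg.Agent.H79.R3
open scoped Pointwise

universe u

/-- Equal numbers of classes upstairs and downstairs. -/
theorem lift_rel {X Y : Type*} {m : ℕ} (pX : X → Prop) (pY : Y → Prop) (π : X → Y)
    (rX : X → X → Prop) (rY : Y → Y → Prop) (cX : X → Fin m) (cY : Y → Fin m)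
    (sX : ∀ j, ∃ x, pX x ∧ cX x = j) (sY : ∀ j, ∃ y, pY y ∧ cY y = j)
    (hX : ∀ x x', pX x → pX x' → (cX x = cX x' ↔ rX x x'))
    (hY : ∀ y y', pY y → pY y' → (cY y = cY y' ↔ rY y y'))
    (hp : ∀ x, pX x → pY (π x)) (hr : ∀ x x', rX x x' → rY (π x) (π x'))
    (hl : ∀ y, pY y → ∃ x, pX x ∧ π x = y) {x x' : X} (h : pX x) (h' : pX x')
    (e : rY (π x) (π x')) : rX x x' := by
  choose s s1 s2 using sX
  have hf : ∀ z, pX z → cY (π (s (cX z))) = cY (π z) := fun z hz =>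
    (hY _ _ (hp _ (s1 _)) (hp _ hz)).2 (hr _ _ ((hX _ _ (s1 _) hz).1 (s2 _)))
  have hs : Function.Surjective fun j => cY (π (s j)) := fun j => by
    obtain ⟨y, h1, rfl⟩ := sY j
    obtain ⟨z, h2, rfl⟩ := hl y h1
    exact ⟨cX z, hf z h2⟩
  refine (hX _ _ h h').1 (Finite.injective_iff_surjective.2 hs ?_)
  exact (hf x h).trans (((hY _ _ (hp _ h) (hp _ h')).2 e).trans (hf x' h').symm)

theorem exists_between {F V : Type u} [Field F] [AddCommGroup V] [Module F V]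
    [FiniteDimensional F V] {A D : Submodule F V} (h : A ≤ D) {k : ℕ} (h1 : dm A ≤ k)
    (h2 : k ≤ dm D) : ∃ B, A ≤ B ∧ B ≤ D ∧ dm B = k := by
  induction k, h1 using Nat.le_induction with
  | base => exact ⟨A, le_rfl, h, rfl⟩
  | succ k _ ih =>
    obtain ⟨B, b1, b2, b3⟩ := ih (by omega)
    obtain ⟨v, v1, v2⟩ := SetLike.exists_of_lt (lt_of_le_of_ne b2 fun e => by subst e; omega)
    refine ⟨B ⊔ F ∙ v, b1.trans le_sup_left,
      sup_le b2 ((Submodule.span_singleton_le_iff_mem _ _).2 v1), ?_⟩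
    rw [← b3]
    exact Submodule.finrank_sup_span_singleton v2

theorem pl : PlStmt.{u} := by
  intro F V _ _ _ _ _ K a m ha ⟨c, c1, c2⟩ ⟨d, d1, d2⟩ E A A' hE l l' e e'
  obtain ⟨g, g1, g2, g3⟩ := lift_rel (X := Submodule F V × Submodule F V) (Y := Submodule F V)
    (fun x => x.1 ≤ x.2 ∧ dm x.1 = a ∧ dm x.2 = 3) (fun y => dm y = 3) Prod.snd
    (fun x x' => ∃ g ∈ K, g • x.1 = x'.1 ∧ g • x.2 = x'.2) (fun y y' => ∃ g ∈ K, g • y = y')
    (fun x => d x.1 x.2) c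
    (fun j => by
      obtain ⟨A, B, h1, h2, h3, h4⟩ := d1 j
      exact ⟨(A, B), ⟨h1, h2, h3⟩, h4⟩) c1
    (fun x x' h h' => d2 _ _ _ _ h.1 h.2.1 h.2.2 h'.1 h'.2.1 h'.2.2) c2 (fun x h => h.2.2)
    (fun x x' ⟨g, g1, _, g3⟩ => ⟨g, g1, g3⟩)
    (fun y hy => by
      obtain ⟨B, -, b2, b3⟩ := exists_between (bot_le : ⊥ ≤ y) (k := a) (by simp) (by omega)
      exact ⟨(B, y), ⟨b2, b3, hy⟩, rfl⟩)
    (x := (A, E)) (x' := (A', E)) ⟨l, e, hE⟩ ⟨l', e', hE⟩ ⟨1, one_mem _, one_smul _ _⟩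
  exact ⟨g, g1, g3, g2⟩

theorem ev : EvStmt.{u} := by
  intro F V _ _ _ _ _ Γ A h
  haveI : Finite (V ≃ₗ[F] V) := Finite.of_injective _ DFunLike.coe_injective
  let Z : Subgroup Γ :=
    { carrier := {g | IsSc g.1}
      one_mem' := ⟨1, fun v => (one_smul F v).symm⟩
      mul_mem' := fun {a b} ⟨c, hc⟩ ⟨d, hd⟩ => ⟨c * d, fun v => by
        change a.1 (b.1 v) = _
        rw [hc, hd, smul_smul]⟩
      inv_mem' := fun {a} ⟨c, hc⟩ => ⟨c⁻¹, fun v => by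
        change a.1.symm v = _
        rcases eq_or_ne v 0 with rfl | hv
        · simp
        · have h0 : c ≠ 0 := fun e => hv (a.1.injective (by rw [hc, e, zero_smul, map_zero]))
          rw [LinearEquiv.symm_apply_eq, hc, smul_smul, mul_inv_cancel₀ h0, one_smul]⟩ }
  haveI : Z.Normal := ⟨fun a ⟨c, hc⟩ g => ⟨c, fun v => by
    change g.1 (a.1 (g.1.symm v)) = _
    rw [hc, map_smul, LinearEquiv.apply_symm_apply]⟩⟩
  have hle : Z ≤ MulAction.stabilizer Γ A := fun g hg => IsSc.smul hg A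
  have h2 : 2 ∣ Nat.card (Γ ⧸ Z) := by
    rw [← MulAction.index_stabilizer] at h
    exact h.two_dvd.trans (Subgroup.index_dvd_of_le hle)
  obtain ⟨x, hx⟩ := exists_prime_orderOf_dvd_card' 2 h2
  obtain ⟨g, rfl⟩ := QuotientGroup.mk_surjective x
  refine ⟨g.1, g.2, fun hg => ?_, ?_⟩
  · rw [(QuotientGroup.eq_one_iff g).2 hg, orderOf_one] at hx
    omega
  · have := pow_orderOf_eq_one (g : Γ ⧸ Z)
    rw [hx, sq, ← QuotientGroup.mk_mul, QuotientGroup.eq_one_iff] at this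
    exact this

theorem par1 (cov : CovStmt.{u}) : Par1Stmt.{u} := by
  intro F V _ _ _ _ _ K m hn hq ⟨c, c1, c2⟩ ⟨d, d1, d2⟩
  obtain ⟨E, -, -, hE⟩ := exists_between (bot_le : (⊥ : Submodule F V) ≤ ⊤) (k := 3) (by simp)
    (by simpa using hn)
  obtain ⟨x, -, hxE, hx⟩ := exists_between (bot_le : ⊥ ≤ E) (k := 1) (by simp) (by omega)
  obtain ⟨L, hxL, hLE, hL⟩ := exists_between hxE (k := 2) (by omega) (by omega)
  let Γ : Subgroup (V ≃ₗ[F] V) :=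
    K ⊓ MulAction.stabilizer (V ≃ₗ[F] V) x ⊓ MulAction.stabilizer (V ≃ₗ[F] V) E
  have ho : MulAction.orbit Γ L = Cov x E := by
    ext L'
    constructor
    · rintro ⟨⟨g, ⟨-, g2⟩, g3⟩, rfl⟩
      have := (smul_mem_Cov (g := g)).2 (⟨hxL, hLE, by omega⟩ : L ∈ Cov x E)
      rwa [show g • x = x from g2, show g • E = E from g3] at this
    · rintro ⟨l1, l2, l3⟩
      obtain ⟨g, g1, g2, g3, g4⟩ := lift_rel (X := Submodule F V × Submodule F V × Submodule F V)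
        (Y := Submodule F V × Submodule F V) (fun x => Fl 1 2 3 x.1 x.2.1 x.2.2)
        (fun y => y.1 ≤ y.2 ∧ dm y.1 = 1 ∧ dm y.2 = 3) (fun x => (x.1, x.2.2))
        (fun x x' => ∃ g ∈ K, g • x.1 = x'.1 ∧ g • x.2.1 = x'.2.1 ∧ g • x.2.2 = x'.2.2)
        (fun y y' => ∃ g ∈ K, g • y.1 = y'.1 ∧ g • y.2 = y'.2) (fun x => d x.1 x.2.1 x.2.2)
        (fun y => c y.1 y.2)
        (fun j => by
          obtain ⟨A, B, D, h1, h2⟩ := d1 j
          exact ⟨(A, B, D), h1, h2⟩)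
        (fun j => by
          obtain ⟨A, B, h1, h2, h3, h4⟩ := c1 j
          exact ⟨(A, B), ⟨h1, h2, h3⟩, h4⟩)
        (fun x x' h h' => d2 _ _ _ _ _ _ h h')
        (fun x x' h h' => c2 _ _ _ _ h.1 h.2.1 h.2.2 h'.1 h'.2.1 h'.2.2)
        (fun x h => ⟨h.1.trans h.2.1, h.2.2.1, h.2.2.2.2⟩)
        (fun x x' ⟨g, g1, g2, _, g4⟩ => ⟨g, g1, g2, g4⟩)
        (fun y ⟨y1, y2, y3⟩ => by
          obtain ⟨B, b1, b2, b3⟩ := exists_between y1 (k := 2) (by omega) (by omega)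
          exact ⟨(y.1, B, y.2), ⟨b1, b2, y2, b3, y3⟩, rfl⟩)
        (x := (x, L, E)) (x' := (x, L', E)) ⟨hxL, hLE, hx, hL, hE⟩
        ⟨l1, l2, hx, l3.trans (by rw [hx]), hE⟩
        ⟨1, one_mem _, one_smul _ _, one_smul _ _⟩
      exact ⟨⟨g, ⟨g1, g2⟩, g4⟩, g3⟩
  obtain ⟨g, ⟨⟨g1, g2⟩, -⟩, g3, g4⟩ := ev F V Γ L (by
    rw [ho, cov F V x E hxE, hE, hx]
    simpa [br, Finset.sum_range_succ] using odd_one.add_odd hq)
  exact ⟨g, g1, x, hx, g2, g3, g4⟩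

end Cfsg.Agent.H92.R3Par1
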