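import Cfsg.Agent.H79.RbCl

/-! The Young embeddings of the double covers in the Clifford model. -/

set_option autoImplicit false

open Cfsg Equiv Finset CliffordAlgebra

namespace Cfsg.Agent.H92.RbEmb

open Cfsg.Agent.H79.RB

variable {m n : ℕ} (e : Fin m ↪ Fin n)

/-- Extension by zero. -/
noncomputable def ex : (Fin m → ℂ) →ₗ[ℂ] (Fin n → ℂ) := Function.ExtendByZero.linearMap ℂ e

theorem ex_apply (v : Fin m → ℂ) (i : Fin m) : ex e v (e i) = v i :=
  e.injective.extend_apply v 0 i

theorem ex_not (v : Fin m → ℂ) {k : Fin n} (hk : k ∉ Set.range e) : ex e v k = 0 :=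
  Function.extend_apply' v (0 : Fin n → ℂ) k hk

theorem Qn_ex (v : Fin m → ℂ) : Qn n (ex e v) = Qn m v := by
  rw [Qn_apply, Qn_apply]
  exact (Fintype.sum_of_injective e e.injective _ _ (fun k hk => by rw [ex_not e v hk, mul_zero])
    fun i => by rw [ex_apply]).symm

theorem ex_single (i : Fin m) : ex e (Pi.single i 1) = Pi.single (e i) 1 := by
  funext k
  by_cases hk : k ∈ Set.range e
  · obtain ⟨j, rfl⟩ := hk
    rw [ex_apply]
    by_cases h : j = i
    · subst h; simp
    · simp [h]
  · rw [ex_not e _ hk, Pi.single_eq_of_ne]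
    rintro rfl
    exact hk ⟨i, rfl⟩

/-- The embedding of Clifford algebras. -/
noncomputable def em : Cl m →ₐ[ℂ] Cl n :=
  CliffordAlgebra.lift (Qn m) ⟨(ι (Qn n)).comp (ex e), fun v => by
    rw [LinearMap.comp_apply, ι_sq_scalar, Qn_ex]⟩

theorem em_ι (v : Fin m → ℂ) : em e (ι (Qn m) v) = ι (Qn n) (ex e v) := lift_ι_apply _ _ _

theorem em_cc (i : Fin m) : em e (cc i) = cc (e i) := by rw [cc, em_ι, ex_single, cc]

theorem em_involute (x : Cl m) : involute (em e x) = em e (involute x) := by
  induction x using CliffordAlgebra.induction with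
  | algebraMap r => simp
  | ι v => rw [em_ι, involute_ι, involute_ι, map_neg, em_ι]
  | mul a b ha hb => simp only [map_mul, ha, hb]
  | add a b ha hb => simp only [map_add, ha, hb]

theorem em_reverse (x : Cl m) : reverse (em e x) = em e (reverse x) := by
  induction x using CliffordAlgebra.induction with
  | algebraMap r => simp
  | ι v => rw [em_ι, reverse_ι, reverse_ι, em_ι]
  | mul a b ha hb => simp only [map_mul, reverse.map_mul, ha, hb]
  | add a b ha hb => simp only [map_add, ha, hb]

theorem em_mul_ι (w : Fin n → ℂ) (hw : ∀ i, w (e i) = 0) (x : Cl m) :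
    em e x * ι (Qn n) w = ι (Qn n) w * em e (involute x) := by
  induction x using CliffordAlgebra.induction with
  | algebraMap r => simp [Algebra.commutes]
  | ι v =>
    rw [involute_ι, map_neg, em_ι, mul_neg]
    refine ι_mul_ι_comm_of_isOrtho ?_
    rw [QuadraticMap.IsOrtho, Qn_apply, Qn_apply, Qn_apply, ← Finset.sum_add_distrib]
    refine Finset.sum_congr rfl fun k _ => ?_
    by_cases hk : k ∈ Set.range e
    · obtain ⟨j, rfl⟩ := hk
      simp [hw]
    · simp [ex_not e v hk]
  | mul a b ha hb => rw [map_mul, map_mul, map_mul, mul_assoc, hb, ← mul_assoc, ha, mul_assoc]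
  | add a b ha hb => rw [map_add, map_add, map_add, add_mul, mul_add, ha, hb]

theorem sg_via (σ : Perm (Fin m)) : sg (σ.viaEmbedding e) = sg σ := by
  rw [sg, sg, Perm.viaEmbedding, Perm.sign_extendDomain]

/-- The embedding of double covers. -/
noncomputable def pe : Pin m →* Pin n :=
  (((Units.map (em e : Cl m →* Cl n)).prodMap (Perm.viaEmbeddingHom e)).comp
    (Pin m).subtype).codRestrict (Pin n) fun g => by
      refine ⟨fun k => ?_, ?_, ?_⟩
      · change em e (cl m g) * cc k = sg ((pr m g).viaEmbedding e) •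
          (cc ((pr m g).viaEmbedding e k) * em e (cl m g))
        rw [sg_via]
        by_cases hk : k ∈ Set.range e
        · obtain ⟨i, rfl⟩ := hk
          rw [Perm.viaEmbedding_apply, ← em_cc, ← em_cc, ← map_mul, cl_cc, map_smul, map_mul]
        · rw [Perm.viaEmbedding_apply_of_notMem _ _ _ hk, cc, em_mul_ι, involute_cl, map_smul,
            mul_smul_comm]
          intro i
          exact Pi.single_eq_of_ne (fun h => hk ⟨i, h⟩) _
      · change involute (em e (cl m g)) = sg ((pr m g).viaEmbedding e) • em e (cl m g)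
        rw [sg_via, em_involute, involute_cl, map_smul]
      · change reverse (em e (cl m g)) * em e (cl m g) = 1
        rw [em_reverse, ← map_mul, reverse_cl, map_one]

theorem cl_pe (g : Pin m) : cl n (pe e g) = em e (cl m g) := rfl

theorem pr_pe (g : Pin m) : pr n (pe e g) = (pr m g).viaEmbedding e := rfl

theorem pe_zz : pe e (zz m) = zz n :=
  pin_ext (by rw [cl_pe, cl_zz, cl_zz, map_neg, map_one])
    (by rw [pr_pe, pr_zz, pr_zz]; exact map_one (Perm.viaEmbeddingHom e))

theorem em_comm {m' : ℕ} (e' : Fin m' ↪ Fin n) (h : ∀ i j, e i ≠ e' j) {y : Cl m'}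
    (hy : involute y = y) (x : Cl m) : em e' y * em e x = em e x * em e' y := by
  induction x using CliffordAlgebra.induction with
  | algebraMap r => simp [Algebra.commutes]
  | ι v => rw [em_ι, em_mul_ι e' _ (fun j => ex_not e v fun ⟨i, hi⟩ => h i j hi), hy]
  | mul a b ha hb => rw [map_mul, ← mul_assoc, ha, mul_assoc, hb, mul_assoc]
  | add a b ha hb => rw [map_add, add_mul, mul_add, ha, hb]

theorem even_cl {g : Pin m} (h : Perm.sign (pr m g) = 1) : involute (cl m g) = cl m g := by
  rw [involute_cl, sg, h]; simp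

theorem embStmt (hB : ClBaseStmt) : EmbStmt := by
  intro a b
  refine ⟨pe (Fin.castAddEmb b), pe (Fin.natAddEmb a), pe_zz _, pe_zz _, pr_pe _, pr_pe _,
    fun x y hx hy => ?_⟩
  have hc := em_comm (Fin.castAddEmb b) (Fin.natAddEmb a) (fun i j h => by
    have := congrArg Fin.val h
    simp at this
    omega) (even_cl hy)
  have h1 := (hB a).2.2.1 ((trc (a + b)).comp ((LinearMap.mulRight ℂ
    (em (Fin.natAddEmb a) (cl b y))).comp (em (Fin.castAddEmb b)).toLinearMap)) (fun u v => by
      simp only [LinearMap.comp_apply, LinearMap.mulRight_apply, AlgHom.toLinearMap_apply, map_mul]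
      rw [mul_assoc, (hB (a + b)).2.1, mul_assoc, hc, ← mul_assoc]) _ (even_cl hx)
  have h2 := (hB b).2.2.1 ((trc (a + b)).comp (em (Fin.natAddEmb a)).toLinearMap) (fun u v => by
      simp only [LinearMap.comp_apply, AlgHom.toLinearMap_apply, map_mul]
      rw [(hB (a + b)).2.1]) _ (even_cl hy)
  simp only [LinearMap.comp_apply, LinearMap.mulRight_apply, AlgHom.toLinearMap_apply, map_one,
    one_mul] at h1 h2
  rw [map_mul, cl_pe, cl_pe, h1, h2, (hB (a + b)).1, one_mul, mul_comm]

end Cfsg.Agent.H92.RbEmb
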