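import Cfsg.Agent.H79.RbDefs
import Cfsg.Agent.S0892

/-! The quasisimple covers of `A_n`, `n ≥ 8`, are `A_n` and its double cover. -/

set_option autoImplicit false

open Cfsg Equiv Subgroup Function
open scoped commutatorElement

namespace Cfsg.Agent.H92.RbUniq

open Cfsg.Agent.H79.RB

theorem card_surj {X Y : Type*} [Group X] [Group Y] (f : X →* Y) (hf : Surjective f) :
    Nat.card X = Nat.card f.ker * Nat.card Y := by
  rw [← f.ker.card_mul_index, index_ker, MonoidHom.range_eq_top.2 hf, card_top]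

/-- Two proper perfect central extensions of a group with multiplier of order at most `2` are
isomorphic. -/
theorem two_covers {A H1 H2 : Type} [Group A] [Group H1] [Group H2] [Finite H1] [Finite H2]
    (hA : ∀ (Γ : Type) [Group Γ] [Finite Γ] (f : Γ →* A), Surjective f → f.ker ≤ center Γ →
      f.ker ≤ commutator Γ → Nat.card f.ker ≤ 2)
    (f1 : H1 →* A) (f2 : H2 →* A) (s1 : Surjective f1) (s2 : Surjective f2)
    (c1 : f1.ker ≤ center H1) (c2 : f2.ker ≤ center H2) (p1 : commutator H1 = ⊤)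
    (p2 : commutator H2 = ⊤) (n1 : f1.ker ≠ ⊥) (n2 : f2.ker ≠ ⊥) : Nonempty (H1 ≃* H2) := by
  let P : Subgroup (H1 × H2) :=
    (f1.comp (MonoidHom.fst H1 H2)).eqLocus (f2.comp (MonoidHom.snd H1 H2))
  have mP : ∀ g : H1 × H2, g ∈ P ↔ f1 g.1 = f2 g.2 := fun _ => Iff.rfl
  have m1 : P.map (MonoidHom.fst H1 H2) = ⊤ := eq_top_iff.2 fun a _ =>
    let ⟨b, hb⟩ := s2 (f1 a); ⟨(a, b), (mP _).2 hb.symm, rfl⟩
  have m2 : P.map (MonoidHom.snd H1 H2) = ⊤ := eq_top_iff.2 fun b _ =>
    let ⟨a, ha⟩ := s1 (f2 b); ⟨(a, b), (mP _).2 ha, rfl⟩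
  let K : Subgroup (H1 × H2) := ⁅P, P⁆
  have KP : K ≤ P := commutator_le_self P
  have k1 : K.map (MonoidHom.fst H1 H2) = ⊤ := by
    rw [map_commutator, m1, ← commutator_def, p1]
  have k2 : K.map (MonoidHom.snd H1 H2) = ⊤ := by
    rw [map_commutator, m2, ← commutator_def, p2]
  have cen : ∀ z ∈ P, f1 z.1 = 1 → ∀ g : H1 × H2, g * z = z * g := fun z hz h g =>
    Prod.ext (mem_center_iff.1 (c1 h) g.1) (mem_center_iff.1 (c2 (((mP z).1 hz).symm.trans h)) g.2)
  have dec : ∀ g ∈ P, ∃ k ∈ K, ∃ z : H1 × H2, (∀ a, a * z = z * a) ∧ g = k * z := fun g hg => by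
    obtain ⟨k, hk, h⟩ : g.1 ∈ K.map (MonoidHom.fst H1 H2) := k1 ▸ mem_top _
    refine ⟨k, hk, k⁻¹ * g, cen _ (mul_mem (inv_mem (KP hk)) hg) ?_, by group⟩
    have h' : k.1 = g.1 := h
    rw [Prod.fst_mul, Prod.fst_inv, h', inv_mul_cancel, map_one]
  have pf : commutator K = ⊤ := by
    refine map_injective K.subtype_injective ?_
    rw [map_subtype_commutator, ← MonoidHom.range_eq_map, range_subtype]
    refine le_antisymm (commutator_le_self K) (commutator_le.2 fun g hg g' hg' => ?_)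
    obtain ⟨k, hk, z, hz, rfl⟩ := dec g hg
    obtain ⟨k', hk', z', hz', rfl⟩ := dec g' hg'
    have e : ⁅k * z, k' * z'⁆ = ⁅k, k'⁆ := by
      simp only [commutatorElement_def]
      calc k * z * (k' * z') * (k * z)⁻¹ * (k' * z')⁻¹
          = k * (z * (k' * z')) * z⁻¹ * k⁻¹ * z'⁻¹ * k'⁻¹ := by group
        _ = k * k' * (z' * k⁻¹) * z'⁻¹ * k'⁻¹ := by rw [← hz]; group
        _ = _ := by rw [← hz']; group
    exact e ▸ commutator_mem_commutator hk hk'
  let φ1 : K →* H1 := (MonoidHom.fst H1 H2).comp K.subtype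
  let φ2 : K →* H2 := (MonoidHom.snd H1 H2).comp K.subtype
  have t1 : Surjective φ1 := fun a =>
    let ⟨k, hk, h⟩ : a ∈ K.map (MonoidHom.fst H1 H2) := k1 ▸ mem_top _; ⟨⟨k, hk⟩, h⟩
  have t2 : Surjective φ2 := fun a =>
    let ⟨k, hk, h⟩ : a ∈ K.map (MonoidHom.snd H1 H2) := k2 ▸ mem_top _; ⟨⟨k, hk⟩, h⟩
  have hs : Surjective (f1.comp φ1) := s1.comp t1
  have h2 := hA K (f1.comp φ1) hs (fun z hz => mem_center_iff.2 fun g =>
    Subtype.ext (cen z (KP z.2) hz g)) (pf ▸ le_top)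
  have hK := card_surj _ hs
  have b1 : Bijective φ1 := t1.bijective_of_nat_card_le (by
    rw [hK, card_surj f1 s1]
    exact Nat.mul_le_mul_right _ (h2.trans ((one_lt_card_iff_ne_bot _).2 n1)))
  have b2 : Bijective φ2 := t2.bijective_of_nat_card_le (by
    rw [hK, card_surj f2 s2]
    exact Nat.mul_le_mul_right _ (h2.trans ((one_lt_card_iff_ne_bot _).2 n2)))
  exact ⟨(MulEquiv.ofBijective φ1 b1).symm.trans (MulEquiv.ofBijective φ2 b2)⟩

variable (F : SpinFam) (n : ℕ)

theorem z_comm (g : F.G n) : g * F.z n = F.z n * g := by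
  have h : F.π n (F.z n) = 1 := (F.ker n _).2 (Or.inr rfl)
  rcases (F.ker n (g * F.z n * g⁻¹)).1 (by rw [map_mul, map_mul, h, map_inv]; group) with e | e
  · exact absurd (by simpa using e) (F.z_ne n)
  · exact mul_inv_eq_iff_eq_mul.1 e

theorem z_sq : F.z n * F.z n = 1 := by
  have h : F.π n (F.z n) = 1 := (F.ker n _).2 (Or.inr rfl)
  rcases (F.ker n (F.z n * F.z n)).1 (by rw [map_mul, h, one_mul]) with e | e
  · exact e
  · exact absurd (mul_eq_left.1 e) (F.z_ne n)

theorem anti {a b : F.G n} {i j k l : Fin n} (ha : F.π n a = swap i j) (hb : F.π n b = swap k l)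
    (h : [i, j, k, l].Nodup) : a * b = F.z n * (b * a) := by
  have h1 : i ≠ j := by rintro rfl; simp at h
  have h2 : k ≠ l := by rintro rfl; simp at h
  have := F.sc n a b (by rw [ha, hb]; exact Perm.disjoint_swap_swap h)
  rwa [ha, hb, if_pos ⟨Perm.sign_swap h1, Perm.sign_swap h2⟩] at this

theorem z_mem (hn : 6 ≤ n) : ∃ x ∈ F.Alt n, ∃ y ∈ F.Alt n, ⁅x, y⁆ = F.z n := by
  obtain ⟨a, ha⟩ := F.surj n (swap ⟨0, by omega⟩ ⟨1, by omega⟩)
  obtain ⟨b, hb⟩ := F.surj n (swap ⟨2, by omega⟩ ⟨3, by omega⟩)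
  obtain ⟨c, hc⟩ := F.surj n (swap ⟨4, by omega⟩ ⟨5, by omega⟩)
  have ab := anti F n ha hb (by simp)
  have ca := anti F n hc ha (by simp)
  have cb := anti F n hc hb (by simp)
  have sa : Perm.sign (F.π n a) = -1 := ha ▸ Perm.sign_swap (by simp)
  have sb : Perm.sign (F.π n b) = -1 := hb ▸ Perm.sign_swap (by simp)
  have sc : Perm.sign (F.π n c) = -1 := hc ▸ Perm.sign_swap (by simp)
  refine ⟨a * c, ?_, b * c, ?_, ?_⟩
  · change Perm.sign (F.π n (a * c)) = 1
    rw [map_mul, map_mul, sa, sc]; simp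
  · change Perm.sign (F.π n (b * c)) = 1
    rw [map_mul, map_mul, sb, sc]; simp
  · rw [commutatorElement_def, mul_inv_eq_iff_eq_mul, mul_inv_eq_iff_eq_mul]
    calc a * c * (b * c) = a * (c * b) * c := by group
      _ = (a * F.z n) * b * c * c := by rw [cb]; group
      _ = F.z n * (a * b) * c * c := by rw [z_comm]; group
      _ = F.z n * (F.z n * b) * a * c * c := by rw [ab]; group
      _ = F.z n * (b * F.z n) * a * c * c := by rw [z_comm F n b]
      _ = F.z n * b * (F.z n * (a * c)) * c := by group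
      _ = _ := by rw [← ca]; group

theorem uniqStmt : UniqStmt := by
  rintro F n hn H _ _ ⟨hp, -⟩ ⟨e⟩
  by_cases hZ : center H = ⊥
  · exact Or.inl ⟨e.symm.trans ((QuotientGroup.quotientMulEquivOfEq hZ).trans
      QuotientGroup.quotientBot)⟩
  right
  let f1 : F.Alt n →* alternatingGroup (Fin n) := (F.π n).subgroupComap _
  have s1 : Surjective f1 := (F.π n).subgroupComap_surjective_of_surjective _ (F.surj n)
  have hz : F.π n (F.z n) = 1 := (F.ker n _).2 (Or.inr rfl)
  have zA : F.z n ∈ F.Alt n := by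
    change F.π n (F.z n) ∈ alternatingGroup (Fin n)
    rw [hz]; exact one_mem _
  have k1 : ∀ g ∈ f1.ker, g = 1 ∨ g = ⟨F.z n, zA⟩ := fun g hg =>
    ((F.ker n g).1 (congrArg Subtype.val hg)).imp Subtype.ext Subtype.ext
  let f2 : H →* alternatingGroup (Fin n) := e.toMonoidHom.comp (QuotientGroup.mk' _)
  have k2 : f2.ker = center H := by
    ext g
    rw [MonoidHom.mem_ker, ← QuotientGroup.eq_one_iff]
    exact e.map_eq_one_iff
  refine two_covers (fun Γ _ _ f hf h1 h2 => S0892.result n (by omega) (by omega) (by omega) f.ker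
    h1 h2 (QuotientGroup.quotientKerEquivOfSurjective f hf)) f1 f2 s1
    (e.surjective.comp (QuotientGroup.mk'_surjective _)) (fun g hg => ?_) k2.le ?_
    hp.commutator_eq_top (fun h => F.z_ne n ?_) (k2 ▸ hZ)
  · rcases k1 g hg with rfl | rfl
    · exact one_mem _
    · exact mem_center_iff.2 fun a => Subtype.ext (z_comm F n a)
  · have h1 : f1.ker ≤ commutator (F.Alt n) := fun g hg => by
      rcases k1 g hg with rfl | rfl
      · exact one_mem _
      · obtain ⟨x, hx, y, hy, h⟩ := z_mem F n (by omega)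
        have : (⟨F.z n, zA⟩ : F.Alt n) = ⁅(⟨x, hx⟩ : F.Alt n), (⟨y, hy⟩ : F.Alt n)⁆ :=
          Subtype.ext h.symm
        exact this ▸ commutator_mem_commutator (mem_top _) (mem_top _)
    rw [← comap_map_eq_self h1, commutator_def, map_commutator, ← MonoidHom.range_eq_map,
      MonoidHom.range_eq_top.2 s1, ← commutator_def,
      commutator_alternatingGroup_eq_top (by simp; omega), comap_top]
  · have : (⟨F.z n, zA⟩ : F.Alt n) ∈ f1.ker := Subtype.ext hz
    rw [h, mem_bot] at this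
    exact congrArg Subtype.val this

end Cfsg.Agent.H92.RbUniq
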