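import Cfsg.Agent.H45.IvDefs

/-! Project CY, chapter IV, piece COR: the commutator computation. -/

set_option autoImplicit false

namespace Cfsg.Agent.H92.CyCor

open Subgroup MulAction Cfsg.Agent.H11.Cy Cfsg.Agent.H45.Iv
open scoped commutatorElement

variable {G : Type} [Group G]

theorem cj_comm {M : Subgroup G} {m t : G} (hm : m ∈ M) (ht : t ∈ ⁅M, M⁆) : m * t * m⁻¹ ∈ ⁅M, M⁆ :=
  (mem_normalizer_iff.1 (normalizer_commutator_ge_left M M hm) t).1 ht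

theorem cen {M : Subgroup G} {k a : G} (hk : k ∈ centralizer (M : Set G)) (ha : a ∈ M) :
    a * k = k * a := mem_centralizer_iff.1 hk a ha

theorem cen' {M : Subgroup G} {k a : G} (hk : k ∈ centralizer (M : Set G)) (ha : a ∈ M) :
    a * k * a⁻¹ = k := by rw [cen hk ha, mul_inv_cancel_right]

theorem kl {M : Subgroup G} {k a b : G} (hk : k ∈ centralizer (M : Set G)) (ha : a ∈ M) (hb : b ∈ M) :
    ⁅k * a, b⁆ = ⁅a, b⁆ := by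
  have h := cen hk (M.mul_mem (M.mul_mem ha hb) (M.inv_mem ha))
  calc ⁅k * a, b⁆ = k * (a * b * a⁻¹) * k⁻¹ * b⁻¹ := by rw [commutatorElement_def]; group
    _ = ⁅a, b⁆ := by rw [← h, commutatorElement_def]; group

theorem kr {M : Subgroup G} {k a b : G} (hk : k ∈ centralizer (M : Set G)) (ha : a ∈ M) (hb : b ∈ M) :
    ⁅a, k * b⁆ = ⁅a, b⁆ := by
  rw [← commutatorElement_inv, kl hk hb ha, commutatorElement_inv]

theorem conj_cm (u a b : G) : u * ⁅a, b⁆ * u⁻¹ = ⁅u * a * u⁻¹, u * b * u⁻¹⁆ := by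
  simp only [commutatorElement_def]; group

theorem L_eq (u g : G) : u * g * u⁻¹ = ⁅u, g⁆ * g := by rw [commutatorElement_def]; group

theorem L2_eq (u g : G) : u * u * g * (u * u)⁻¹ = ⁅u, ⁅u, g⁆⁆ * (⁅u, g⁆ * ⁅u, g⁆) * g := by
  simp only [commutatorElement_def]; group

theorem cor : CorStmt := by
  intro G _ _ Ω _ _ p A st sk ls ani Ψ sub d hd ga gb u hu4 huΨ hua hne
  obtain ⟨-, nT, nC⟩ := sk.nrm Ψ u huΨ
  have TM : Ts A Ψ ≤ Ms A Ψ := commutator_le_self _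
  have AM : A d ≤ Ms A Ψ := le_iSup₂_of_le (f := fun w (_ : w ∈ Ψ) => A w) d hd le_rfl
  have nu : ∀ t ∈ Ts A Ψ, ⁅u, t⁆ ∈ Ts A Ψ := fun t ht => by
    rw [commutatorElement_def]
    exact mul_mem (nT t ht) (inv_mem ht)
  obtain ⟨t1, h1, e1⟩ := ga.tr (u • d) ((huΨ d).2 hd)
  have h2 := nu _ h1
  have h3 := nu _ h2
  have h4 := nu _ h3
  have n2 : ⁅u, t1⁆ ∉ Cs A Ψ := by
    intro c
    apply hne
    have e : (u * u) • d = (⁅u, t1⁆ * (t1 * t1)) • d := by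
      rw [mul_smul, ← e1, ← mul_assoc, ← L_eq, mul_smul _ t1, e1, smul_smul (u * t1 * u⁻¹),
        inv_mul_cancel_right, mul_smul, e1]
    rw [e]
    exact sk.csfix Ψ _ (mul_mem c (ga.sq _ h1)) d hd
  have n5 : ⁅u, ⁅u, ⁅u, ⁅u, t1⁆⁆⁆⁆ ∈ Cs A Ψ := by
    have a1 := L2_eq u t1
    have a3 := L2_eq u ⁅u, ⁅u, t1⁆⁆
    have c1 := ga.sq _ h2
    have c3 := ga.sq _ h4
    have c4 := ga.sq _ h3
    have c2 := nC _ (nC _ c1)
    have h3M := TM h3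
    generalize ⁅u, ⁅u, ⁅u, ⁅u, t1⁆⁆⁆⁆ = t5 at *
    generalize ⁅u, ⁅u, ⁅u, t1⁆⁆⁆ * ⁅u, ⁅u, ⁅u, t1⁆⁆⁆ = k3 at *
    generalize ⁅u, ⁅u, t1⁆⁆ = t3 at *
    generalize ⁅u, t1⁆ * ⁅u, t1⁆ = k1 at *
    have uu : u * u * (u * u) = 1 := by rw [← hu4, show 4 = 2 + 2 from rfl, pow_add, sq]
    have e : t1 = t5 * k3 * t3 * (u * (u * k1 * u⁻¹) * u⁻¹) * (t3 * k1 * t1) := by
      calc t1 = u * u * (u * u) * t1 * (u * u * (u * u))⁻¹ := by rw [uu]; group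
        _ = u * u * (u * u * t1 * (u * u)⁻¹) * (u * u)⁻¹ := by group
        _ = u * u * t3 * (u * u)⁻¹ * (u * (u * k1 * u⁻¹) * u⁻¹) * (u * u * t1 * (u * u)⁻¹) := by
          rw [a1]; nth_rewrite 2 [← a1]; group
        _ = _ := by rw [a1, a3]
    generalize u * (u * k1 * u⁻¹) * u⁻¹ = k2 at e c2
    have e' : t5 = (k3 * (t3 * k2 * t3⁻¹) * (t3 * t3) * k1)⁻¹ := by
      have : t5 * (k3 * (t3 * k2 * t3⁻¹) * (t3 * t3) * k1) * t1 = 1 * t1 := by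
        rw [one_mul]; nth_rewrite 2 [e]; group
      exact eq_inv_of_mul_eq_one_left (mul_right_cancel this)
    rw [e', cen' c2 h3M]
    exact inv_mem (mul_mem (mul_mem (mul_mem c3 c2) c4) c1)
  obtain ⟨x, hx, hy, hk⟩ : ∃ x ∈ Ts A Ψ, ⁅u, x⁆ ∉ Cs A Ψ ∧ ⁅u, ⁅u, x⁆⁆ ∈ Cs A Ψ := by
    by_cases c3 : ⁅u, ⁅u, t1⁆⁆ ∈ Cs A Ψ
    · exact ⟨t1, h1, n2, c3⟩
    by_cases c4 : ⁅u, ⁅u, ⁅u, t1⁆⁆⁆ ∈ Cs A Ψ
    · exact ⟨_, h2, c3, c4⟩
    · exact ⟨_, h3, c4, n5⟩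
  have hyT := nu x hx
  have Lx := L_eq u x
  have Ly := L_eq u ⁅u, x⁆
  generalize ⁅u, ⁅u, x⁆⁆ = k1 at hk Ly
  generalize ⁅u, x⁆ = y at hy hyT Lx Ly
  obtain ⟨a, ha, a1⟩ : ∃ a ∈ A d, a ≠ 1 := by
    by_contra c
    have : A d = ⊥ := (eq_bot_iff_forall _).2 fun a ha => by_contra fun h => c ⟨a, ha, h⟩
    have h := st.card d
    rw [this, card_bot] at h
    exact st.pp.one_lt.ne h
  have hs := hua a ha
  have La := L_eq u a
  generalize ⁅u, a⁆ = s at hs La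
  have aT : ∀ t ∈ Ts A Ψ, a * t * a⁻¹ ∈ Ts A Ψ := fun t ht => cj_comm (AM ha) ht
  have La' : ∀ g, u * (a * g * a⁻¹) * u⁻¹ = s * (a * (u * g * u⁻¹) * a⁻¹) * s⁻¹ := fun g => by
    calc u * (a * g * a⁻¹) * u⁻¹ = u * a * u⁻¹ * (u * g * u⁻¹) * (u * a * u⁻¹)⁻¹ := by group
      _ = _ := by rw [La]; group
  have hx' := aT x hx
  have hy' := aT y hyT
  have z0C := ga.com _ hyT _ hx'
  have wC := ga.com _ hyT _ hy'
  have cT : ∀ b ∈ Ts A Ψ, ∀ c ∈ Ts A Ψ, ⁅b, c⁆ ∈ Ts A Ψ := fun b hb c hc =>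
    commutator_mem_commutator (TM hb) (TM hc)
  have e1 : u * ⁅y, a * x * a⁻¹⁆ * u⁻¹ = ⁅y, a * y * a⁻¹⁆ * ⁅y, a * x * a⁻¹⁆ := by
    have e : a * (y * x) * a⁻¹ = a * y * a⁻¹ * (a * x * a⁻¹) := by group
    have m := mul_mem hy' hx'
    rw [conj_cm, La', Lx, Ly, e, L_eq s, kl hk (TM hyT) (TM (mul_mem (cT _ hs _ m) m)),
      kr (ga.com _ hs _ m) (TM hyT) (TM m), ← cen' z0C (TM hy')]
    simp only [commutatorElement_def]
    group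
  have e2 : u * ⁅y, a * y * a⁻¹⁆ * u⁻¹ = ⁅y, a * y * a⁻¹⁆ := by
    have e : a * (k1 * y) * a⁻¹ = a * k1 * a⁻¹ * (a * y * a⁻¹) := by group
    have e' : s * (k1 * (a * y * a⁻¹)) * s⁻¹ = s * k1 * s⁻¹ * ⁅s, a * y * a⁻¹⁆ * (a * y * a⁻¹) := by
      rw [commutatorElement_def]; group
    have m : u * (a * y * a⁻¹) * u⁻¹ ∈ Ts A Ψ := nT _ hy'
    rw [conj_cm, Ly, kl hk (TM hyT) (TM m), La', Ly, e, cen' hk (AM ha), e', cen' hk (TM hs),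
      kr (mul_mem hk (ga.com _ hs _ hy')) (TM hyT) (TM hy')]
  have ww := gb _ ⟨cT _ hyT _ hy', wC⟩
  obtain ⟨y2, hy2, y2d, r, hr, rZ, k, hkK, rfl⟩ := ga.lin y hyT hy
  obtain ⟨-, lb, lc, -⟩ := ls d y2 y2d.symm
  have rM : r ∈ Ms A Ψ := TM ((sk.fle Ψ d hd y2 hy2).2 hr)
  have aF : a ∈ Fl A d y2 := mem_sup_left ha
  have hr' : a * r * a⁻¹ ∈ Rl A d y2 := cj_comm aF hr
  have r'M : a * r * a⁻¹ ∈ Ms A Ψ := TM ((sk.fle Ψ d hd y2 hy2).2 hr')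
  have ew : ⁅r * k, a * (r * k) * a⁻¹⁆ = ⁅r, a * r * a⁻¹⁆ := by
    have e : a * (k * r) * a⁻¹ = a * k * a⁻¹ * (a * r * a⁻¹) := by group
    rw [cen hkK.2 rM, e, cen' hkK.2 (AM ha), kl hkK.2 rM (mul_mem (TM hkK.1) r'M), kr hkK.2 rM r'M]
  have e3 : ⁅u, ⁅r * k, a * x * a⁻¹⁆⁆ = ⁅r, a * r * a⁻¹⁆ := by
    rw [commutatorElement_def u, e1, mul_inv_cancel_right, ew]
  refine ⟨⁅r * k, a * x * a⁻¹⁆, ⟨cT _ hyT _ hx', z0C⟩, ?_, y2, hy2, y2d, ?_, ?_⟩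
  · generalize ⁅r * k, a * x * a⁻¹⁆ = z at e1
    generalize ⁅r * k, a * (r * k) * a⁻¹⁆ = w at e1 e2 ww
    have : u * u * z * (u * u)⁻¹ = z := by
      calc u * u * z * (u * u)⁻¹ = u * (u * z * u⁻¹) * u⁻¹ := by group
        _ = u * w * u⁻¹ * (u * z * u⁻¹) := by rw [e1]; nth_rewrite 2 [← e1]; group
        _ = z := by rw [e1, e2, ← mul_assoc, ww, one_mul]
    exact (mul_inv_eq_iff_eq_mul.1 this).symm
  · rw [e3]
    exact lb.com _ hr _ hr'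
  · rw [e3]
    intro c
    have cm : r * (a * r * a⁻¹) = a * r * a⁻¹ * r := commutatorElement_eq_one_iff_mul_comm.1 c
    have rr := lb.sq r hr
    have zf : ∀ z ∈ Zl A d y2, z • d = d := fun z hz =>
      (sk.fx d y2 y2d.symm z hz).2.1 (sk.ln d y2).1
    have q : r * (a * r * a⁻¹) ∈ Zl A d y2 := by
      by_contra n
      refine ani d y2 y2d.symm _ (mul_mem hr hr') n ?_
      calc r * (a * r * a⁻¹) * (r * (a * r * a⁻¹)) = r * (a * r * a⁻¹ * r) * (a * r * a⁻¹) := by group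
        _ = r * r * (a * (r * r) * a⁻¹) := by rw [← cm]; group
        _ = 1 := by rw [cen' rr.2 aF, lc.zsq _ rr]
    have f1 := zf _ q
    have f2 := zf _ rr
    rw [mul_smul, mul_smul, st.fix d _ (inv_mem ha), mul_smul] at f1
    rw [mul_smul] at f2
    rcases st.semi d (r • d) a ha (MulAction.injective r (f1.trans f2.symm)) with h | h
    · exact a1 h
    · exact rZ (lb.stab r hr d (sk.ln d y2).1 h)

end Cfsg.Agent.H92.CyCor
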