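import Cfsg.Agent.H56.SpDefs
import Cfsg.Agent.H18.MaxOff

/-! Project CY, chapter SP, piece N0: involutions of `F T'`. -/

set_option autoImplicit false

namespace Cfsg.Agent.H92.CyN0

open Subgroup MulAction Cfsg.Agent.H11.Cy Cfsg.Agent.H56.Sp

variable {G : Type} [Group G] {Ω : Type} [MulAction G Ω] {p : ℕ} {A : Ω → Subgroup G}

theorem iv_cj (cz : CZ A) (g : G) {t : G} (h : Iv A t) : Iv A (g * t * g⁻¹) := by
  obtain ⟨x, y, hxy, hz⟩ := h
  exact ⟨g • x, g • y, fun e => hxy (MulAction.injective g e), cz.cj g x y t hz⟩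

theorem fk_mul {x y : Ω} {g h : G} (hg : FK A x y g) (hh : FK A x y h) : FK A x y (g * h) := by
  obtain ⟨f, hf, k, hk, rfl⟩ := hg
  obtain ⟨f', hf', k', hk', rfl⟩ := hh
  refine ⟨f * f', mul_mem hf hf', k * k', mul_mem hk hk', ?_⟩
  rw [mul_assoc, ← mul_assoc k, ← mem_centralizer_iff.1 hk f' hf']
  simp only [mul_assoc]

theorem dec {F T : Subgroup G} (h : T ≤ normalizer (F : Set G)) {g : G} (hg : g ∈ F ⊔ T) :
    ∃ f ∈ F, ∃ t ∈ T, g = f * t := by
  rw [sup_comm] at hg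
  obtain ⟨t, ht, f, hf, rfl⟩ := Cfsg.Agent.H18.MaxOff.mem_sup_prod h hg
  exact ⟨t * f * t⁻¹, (mem_normalizer_iff.1 (h ht) f).1 hf, t, ht, by group⟩

theorem pow_card {T : Subgroup G} {n : ℕ} (h : Nat.card T = n) {t : G} (ht : t ∈ T) : t ^ n = 1 := by
  have := pow_card_eq_one' (x := (⟨t, ht⟩ : T))
  rw [h] at this
  exact congrArg Subtype.val this

theorem n0 : N0Stmt := by
  intro G _ _ Ω _ _ p A st hy uq _ bb x y x' y' z u pr g hg gg g1
  have lf := hy.lf x y pr.ne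
  have lf' := hy.lf x' y' pr.ne'
  have pg := hy.pg x y pr.ne
  have iu : Iv A u := ⟨x', y', pr.ne', pr.hu⟩
  obtain ⟨hu, fu⟩ := hy.cz.hi x y pr.ne z pr.hz u iu pr.zu pr.cm
  obtain ⟨hz, fz⟩ := hy.cz.hi x' y' pr.ne' u pr.hu z ⟨x, y, pr.ne, pr.hz⟩ pr.zu.symm pr.cm.symm
  obtain ⟨cy, c1⟩ := (hy.pg x' y' pr.ne').tor z hz fz
  obtain ⟨-, c0⟩ := pg.tor u hu fu
  obtain ⟨tt, tN, -⟩ := bb x y x' y' z u pr
  have uT : u ∈ Tl A x' y' z := ⟨pr.hu.1, mem_centralizer_singleton_iff.2 pr.cm⟩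
  obtain ⟨t1, ht1⟩ := cy.exists_generator
  have pw : ∀ t ∈ Tl A x' y' z, ∃ i : ℕ, (t1 : G) ^ i = t := fun t ht => by
    obtain ⟨i, hi⟩ := mem_powers_iff_mem_zpowers.2 (ht1 ⟨t, ht⟩)
    exact ⟨i, congrArg Subtype.val hi⟩
  have o1 : orderOf (t1 : G) = p + 1 := by
    rw [orderOf_coe, orderOf_eq_card_of_forall_mem_zpowers ht1, c1]
  have k0 : ∀ k ∈ Kl A x y, k ∈ Fl A x y ⊔ Tl A x' y' z → Commute u k ∧ k ^ (p + 1) = 1 := by
    intro k hk hk'
    obtain ⟨f, hf, t, ht, e⟩ := dec tN hk'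
    have fT : f ∈ Tl A x y u := (pg.cyc u hu fu).1 f hf ⟨le_normalizer hf, mem_centralizer_iff.2
      fun s hs => by
        have h1 : Commute s k := mem_centralizer_iff.1 hk s hs.1
        have h2 : Commute s t := tt s hs t ht
        rw [eq_mul_inv_of_mul_eq e.symm]
        exact h1.mul_right h2.inv_right⟩
    have h1 : Commute u f := (mem_centralizer_singleton_iff.1 fT.2).symm
    have h2 : Commute u t := by
      obtain ⟨i, rfl⟩ := pw t ht
      obtain ⟨j, rfl⟩ := pw u uT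
      exact Commute.pow_pow_self _ _ _
    have h3 : Commute f t := tt f fT t ht
    rw [e]
    exact ⟨h1.mul_right h2, by rw [h3.mul_pow, pow_card c0 fT, pow_card c1 ht, mul_one]⟩
  by_cases gK : g ∈ Kl A x y
  · exact ⟨x, y, pr.ne, (uq x y pr.ne g gK gg).resolve_left g1⟩
  have hi : Hi A x y g := ⟨sup_le le_normalizer tN hg, by rw [gg]; exact one_mem _, gK⟩
  by_cases fg : Fp A x y g
  · obtain ⟨f, hf, hk⟩ := pg.cj g u hi hu fg fu
    have cu := (k0 _ hk (mul_mem (mul_mem (mul_mem (mem_sup_left hf) hg) (inv_mem (mem_sup_left hf)))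
      (inv_mem (mem_sup_right uT)))).1
    have e : g = f⁻¹ * (f * g * f⁻¹ * u⁻¹ * u) * f⁻¹⁻¹ := by group
    have e2 : f * g * f⁻¹ * u⁻¹ * u * (f * g * f⁻¹ * u⁻¹ * u) = f * (g * g) * f⁻¹ := by group
    generalize f * g * f⁻¹ * u⁻¹ = k at hk cu e e2
    have kk : k * k = 1 := by
      rw [gg, mul_one, mul_inv_cancel, mul_assoc, ← mul_assoc u, cu.eq, mul_assoc, pr.hu.2.2,
        mul_one] at e2
      exact e2
    rw [e]
    refine iv_cj hy.cz _ ?_
    rcases uq x y pr.ne k hk kk with h | h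
    · rw [h, one_mul]; exact iu
    · obtain ⟨f', -, -, h1, -⟩ := pg.inv u hu fu z pr.hz
      rw [lf.uq _ _ h pr.hz, ← pr.cm, ← h1]
      exact iv_cj hy.cz _ iu
  exfalso
  have par := pg.par g hi
  have odd : p % 2 = 1 := st.pp.eq_two_or_odd.resolve_left hy.mc.p2
  by_cases fk : FK A x y g
  · have p1 : p % 4 = 1 := by
      have : p % 4 ≠ 3 := fun e => fg (par.2 (iff_of_true fk e))
      omega
    obtain ⟨f, hf, k, hk, rfl⟩ := fk
    have c : Commute f k := mem_centralizer_iff.1 hk f hf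
    have hk' : k ∈ Fl A x y ⊔ Tl A x' y' z := by
      have := mul_mem (inv_mem (mem_sup_left hf)) hg
      rwa [inv_mul_cancel_left] at this
    have kp := (k0 k hk hk').2
    have e : f * f = (k * k)⁻¹ := by
      refine eq_inv_of_mul_eq_one_left ?_
      rw [← gg, ← c.mul_mul_mul_comm]
    have f4 := lf.fk _ (mul_mem hf hf) (e ▸ inv_mem (mul_mem hk hk))
    have k4 : k ^ 4 = 1 := by
      rw [e, ← mul_inv_rev, inv_eq_one] at f4
      rw [← f4, show 4 = 2 + 2 from rfl, pow_add, sq]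
    have k2 : k * k = 1 := by
      rw [show p + 1 = 4 * (p / 4) + 2 by omega, pow_add, pow_mul, k4, one_pow, one_mul, sq] at kp
      exact kp
    rw [k2, inv_one] at e
    refine gK (mul_mem ?_ hk)
    by_cases f1 : f = 1
    · rw [f1]; exact one_mem _
    · exact lf.cen f ⟨hf, f1, e⟩
  · have p3 : p % 4 = 3 := by_contra fun e => fg (par.2 (iff_of_false fk e))
    obtain ⟨f, hf, t, ht, rfl⟩ := dec tN hg
    have nt : ¬ FK A x y t := fun c => fk (fk_mul ⟨f, hf, 1, one_mem _, (mul_one f).symm⟩ c)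
    have t2 : t * t ∈ Fl A x y := by
      have e : t * t = (f * (t * f * t⁻¹))⁻¹ := by
        refine eq_inv_of_mul_eq_one_right ?_
        rw [← gg]; group
      rw [e]
      exact inv_mem (mul_mem hf ((mem_normalizer_iff.1 (tN ht) f).1 hf))
    obtain ⟨i, rfl⟩ := pw t ht
    obtain ⟨j, rfl | rfl⟩ := Nat.even_or_odd' i
    · apply nt
      rw [two_mul, pow_add]
      by_cases c : FK A x y ((t1 : G) ^ j)
      · exact fk_mul c c
      · have m := tN (pow_mem t1.2 j)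
        exact pg.idx _ m _ m c c
    · obtain ⟨m, hm⟩ : ∃ m, p + 1 = 4 * m := ⟨(p + 1) / 4, by omega⟩
      have ww : (t1 : G) ^ (2 * m) * (t1 : G) ^ (2 * m) = 1 := by
        rw [← pow_add, show 2 * m + 2 * m = p + 1 by omega, ← o1, pow_orderOf_eq_one]
      have w1 : (t1 : G) ^ (2 * m) ≠ 1 := pow_ne_one_of_lt_orderOf (by omega) (by omega)
      have wF : (t1 : G) ^ (2 * m) ∈ Fl A x y := by
        have := pow_mem t2 m
        rwa [← pow_add, ← pow_mul, show (2 * j + 1 + (2 * j + 1)) * m = 4 * m * j + 2 * m by ring,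
          pow_add, pow_mul, ← hm, ← o1, pow_orderOf_eq_one, one_pow, one_mul] at this
      exact pr.zu ((lf'.uq _ _ pr.hu ⟨(pow_mem t1.2 _).1, w1, ww⟩).trans
        (lf.uq _ _ ⟨wF, w1, ww⟩ pr.hz))

end Cfsg.Agent.H92.CyN0
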