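import Cfsg.Agent.H14.InduceChar
import Cfsg.Agent.H11.Irr

/-!
A Hecke algebra of dimension two: the eigenvalues of a bi-equivariant function on the two
constituents of an induced linear character.
-/

set_option autoImplicit false

namespace Cfsg.Agent.H92.Dg62

open Module
open scoped ComplexConjugate

section Lin

variable {V : Type*} [AddCommGroup V] [Module ℂ V] [FiniteDimensional ℂ V]

theorem trace_idem {E : Module.End ℂ V} (hE : IsIdempotentElem E) :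
    LinearMap.trace ℂ V E = (finrank ℂ (LinearMap.range E) : ℂ) :=
  (LinearMap.IsIdempotentElem.isProj_range E hE).trace

theorem idem_zero {E : Module.End ℂ V} (hE : IsIdempotentElem E)
    (h : LinearMap.trace ℂ V E = 0) : E = 0 := by
  rw [trace_idem hE, Nat.cast_eq_zero, Submodule.finrank_eq_zero] at h
  exact LinearMap.range_eq_bot.1 h

theorem idem_scalar {E : Module.End ℂ V} (hE : IsIdempotentElem E)
    (h : LinearMap.trace ℂ V E = 1) (A : Module.End ℂ V) : ∃ c : ℂ, E * A * E = c • E := by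
  rw [trace_idem hE, Nat.cast_eq_one, finrank_eq_one_iff'] at h
  obtain ⟨u, -, hu⟩ := h
  obtain ⟨c, hc⟩ := hu ⟨E (A u), _, rfl⟩
  refine ⟨c, LinearMap.ext fun x => ?_⟩
  obtain ⟨d, hd⟩ := hu ⟨E x, _, rfl⟩
  have h1 : c • (u : V) = E (A u) := congrArg Subtype.val hc
  have h2 : d • (u : V) = E x := congrArg Subtype.val hd
  simp only [Module.End.mul_apply, LinearMap.smul_apply]
  rw [← h2, map_smul, map_smul, ← h1, smul_comm]

end Lin

variable {G : Type*} [Group G] [Fintype G]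

/-- The operator attached to a function. -/
noncomputable def op {V : Type*} [AddCommGroup V] [Module ℂ V] (ρ : Representation ℂ G V)
    (f : G → ℂ) : Module.End ℂ V := ∑ x, f x • ρ x

open Classical in
/-- The extension by zero. -/
noncomputable def ez (S : Subgroup G) (ξ : G → ℂ) (x : G) : ℂ := if x ∈ S then ξ x else 0

section Op

variable {V : Type*} [AddCommGroup V] [Module ℂ V] (ρ : Representation ℂ G V)
  {S : Subgroup G} {ξ f : G → ℂ}

theorem sum_ite (S : Subgroup G) [DecidablePred (· ∈ S)] (A : Module.End ℂ V) :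
    ∑ a : G, (if a ∈ S then A else 0) = (Nat.card S : ℂ) • A := by
  rw [← Finset.sum_filter, Finset.sum_const, Nat.card_eq_fintype_card, Fintype.card_subtype,
    Nat.cast_smul_eq_nsmul]

theorem op_left (hl : ∀ a ∈ S, ∀ g, f g = ξ a * f (a⁻¹ * g)) :
    op ρ (ez S ξ) * op ρ f = (Nat.card S : ℂ) • op ρ f := by
  classical
  rw [← sum_ite S, op, Finset.sum_mul]
  refine Finset.sum_congr rfl fun a _ => ?_
  by_cases ha : a ∈ S
  · rw [ez, if_pos ha, if_pos ha, op, Finset.mul_sum]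
    refine Fintype.sum_equiv (Equiv.mulLeft a) _ _ fun x => ?_
    simp only [Equiv.coe_mulLeft]
    rw [hl a ha (a * x), inv_mul_cancel_left, map_mul, smul_mul_smul_comm]
  · rw [ez, if_neg ha, if_neg ha, zero_smul, zero_mul]

theorem op_right (hr : ∀ a ∈ S, ∀ g, f g = f (g * a⁻¹) * ξ a) :
    op ρ f * op ρ (ez S ξ) = (Nat.card S : ℂ) • op ρ f := by
  classical
  rw [← sum_ite S]
  conv_lhs => rw [op.eq_1 ρ (ez S ξ), Finset.mul_sum]
  refine Finset.sum_congr rfl fun a _ => ?_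
  by_cases ha : a ∈ S
  · rw [ez, if_pos ha, if_pos ha, op, Finset.sum_mul]
    refine Fintype.sum_equiv (Equiv.mulRight a) _ _ fun x => ?_
    rw [Equiv.coe_mulRight, hr a ha (x * a), mul_inv_cancel_right, map_mul, smul_mul_smul_comm]
  · rw [ez, if_neg ha, if_neg ha, zero_smul, mul_zero]

theorem op_mul (f f' : G → ℂ) : op ρ f * op ρ f' = op ρ fun z => ∑ x, f x * f' (x⁻¹ * z) := by
  simp only [op, Finset.sum_smul]
  rw [Finset.sum_comm, Finset.sum_mul]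
  refine Finset.sum_congr rfl fun a _ => ?_
  rw [Finset.mul_sum]
  refine Fintype.sum_equiv (Equiv.mulLeft a) _ _ fun x => ?_
  rw [Equiv.coe_mulLeft, inv_mul_cancel_left, map_mul, smul_mul_smul_comm]

theorem trace_op [FiniteDimensional ℂ V] (f : G → ℂ) (g : G) :
    LinearMap.trace ℂ V (op ρ f * ρ g) = ∑ x, f x * ρ.character (x * g) := by
  simp only [op, Finset.sum_mul, map_sum, smul_mul_assoc, map_smul, smul_eq_mul,
    Representation.character, map_mul]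

end Op

theorem fourier [Fintype (IrrCharacter G)] (f : G → ℂ) (g : G) :
    ∑ θ : IrrCharacter G, (θ : G → ℂ) 1 * ∑ x, f x * (θ : G → ℂ) (x * g⁻¹) =
      Nat.card G * f g := by
  simp only [Finset.mul_sum]
  rw [Finset.sum_comm]
  have : ∀ x, ∑ θ : IrrCharacter G, (θ : G → ℂ) 1 * (f x * (θ : G → ℂ) (x * g⁻¹)) =
      f x * H11.regChar G (x * g⁻¹) := fun x => by
    rw [← H11.sum_degree_mul_apply, Finset.mul_sum]
    exact Finset.sum_congr rfl fun θ _ => by ring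
  simp only [this]
  rw [Finset.sum_eq_single g (fun x _ hx => by
    rw [H11.regChar_of_ne_one (by simpa [mul_inv_eq_one] using hx), mul_zero]) (by simp),
    mul_inv_cancel, H11.regChar_one, mul_comm]

theorem loc {S : Subgroup G} [Fintype S] {ξ τ : G → ℂ}
    (hξ : ∀ a ∈ S, ∀ b ∈ S, ξ (a * b) = ξ a * ξ b) (hξ1 : ξ 1 = 1)
    (hre : ∀ a ∈ S, conj (ξ a) = ξ a) (hl : ∀ a ∈ S, ∀ g, τ (a * g) = ξ a * τ g)
    (hr : ∀ a ∈ S, ∀ g, τ (g * a) = τ g * ξ a) {θ : G → ℂ} (hθ : IsIrrCharacter G θ) :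
    ∃ (c : ℂ) (p : G → ℂ), p 1 = classInner (fun h : S => θ h) (fun h => ξ h) ∧
      (p 1 = 0 → ∀ g, p g = 0) ∧ (p 1 = 0 ∨ p 1 = 1 → ∀ g,
        ∑ x, ez S ξ x * θ (x * g) = Nat.card S * p g ∧ ∑ x, τ x * θ (x * g) = c * p g ∧
        ∑ z, (∑ x, τ x * τ (x⁻¹ * z)) * θ (z * g) = c ^ 2 * p g) := by
  classical
  obtain ⟨n, ρ, -, rfl⟩ := hθ
  have hS : (Nat.card S : ℂ) ≠ 0 := Nat.cast_ne_zero.2 Nat.card_pos.ne'
  obtain ⟨E, hE⟩ : ∃ E, E = (Nat.card S : ℂ)⁻¹ • op ρ (ez S ξ) := ⟨_, rfl⟩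
  have hE' : op ρ (ez S ξ) = (Nat.card S : ℂ) • E := by rw [hE, smul_inv_smul₀ hS]
  have h1 : E * op ρ τ = op ρ τ := by
    rw [hE, smul_mul_assoc, op_left ρ fun a ha g => by rw [← hl a ha, mul_inv_cancel_left],
      inv_smul_smul₀ hS]
  have h2 : op ρ τ * E = op ρ τ := by
    rw [hE, mul_smul_comm, op_right ρ fun a ha g => by rw [← hr a ha, inv_mul_cancel_right],
      inv_smul_smul₀ hS]
  have h3 : IsIdempotentElem E := by
    have : op ρ (ez S ξ) * op ρ (ez S ξ) = (Nat.card S : ℂ) • op ρ (ez S ξ) := by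
      refine op_left ρ fun a ha g => ?_
      by_cases hg : g ∈ S
      · have hg' := S.mul_mem (S.inv_mem ha) hg
        rw [ez, ez, if_pos hg, if_pos hg', ← hξ a ha _ hg', mul_inv_cancel_left]
      · have hg' : a⁻¹ * g ∉ S := fun h => hg (by simpa using S.mul_mem ha h)
        rw [ez, ez, if_neg hg, if_neg hg', mul_zero]
    rw [IsIdempotentElem, hE, smul_mul_smul_comm, this, mul_smul, inv_smul_smul₀ hS]
  have h4 : LinearMap.trace ℂ _ (E * ρ 1) =
      classInner (fun h : S => ρ.character h) (fun h => ξ h) := by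
    rw [hE, smul_mul_assoc, map_smul, trace_op, H11.classInner_def, smul_eq_mul]
    congr 1
    simp only [ez, ite_mul, zero_mul, mul_one]
    rw [← Finset.sum_filter, Finset.sum_subtype (p := (· ∈ S)) _ (by simp)]
    exact Finset.sum_congr rfl fun a _ => by rw [hre a a.2, mul_comm]
  have h5 : LinearMap.trace ℂ _ (E * ρ 1) = LinearMap.trace ℂ _ E := by rw [map_one, mul_one]
  have h6 : ∃ c : ℂ, LinearMap.trace ℂ _ E = 0 ∨ LinearMap.trace ℂ _ E = 1 → op ρ τ = c • E := by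
    by_cases h : LinearMap.trace ℂ _ E = 1
    · obtain ⟨c, hc⟩ := idem_scalar h3 h (op ρ τ)
      exact ⟨c, fun _ => by rw [← hc, h1, h2]⟩
    · refine ⟨0, fun h' => ?_⟩
      rw [← h1, idem_zero h3 (h'.resolve_right h), zero_mul, smul_zero]
  obtain ⟨c, hc⟩ := h6
  refine ⟨c, fun g => LinearMap.trace ℂ _ (E * ρ g), h4, fun h g => ?_, fun h g => ?_⟩
  · simp only [idem_zero h3 (h5 ▸ h), zero_mul, map_zero]
  · have hc' := hc (h5 ▸ h)
    refine ⟨?_, ?_, ?_⟩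
    · rw [← trace_op, hE', smul_mul_assoc, map_smul, smul_eq_mul]
    · rw [← trace_op, hc', smul_mul_assoc, map_smul, smul_eq_mul]
    · rw [← trace_op, ← op_mul, hc', smul_mul_smul_comm, h3.eq, smul_mul_assoc, map_smul,
        smul_eq_mul, sq]

/-- The eigenvalues of `τ` on the two constituents. -/
theorem hecke2 {S : Subgroup G} {ξ τ : G → ℂ}
    (hξ : ∀ a ∈ S, ∀ b ∈ S, ξ (a * b) = ξ a * ξ b) (hξ1 : ξ 1 = 1)
    (hre : ∀ a ∈ S, conj (ξ a) = ξ a) (hl : ∀ a ∈ S, ∀ g, τ (a * g) = ξ a * τ g)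
    (hr : ∀ a ∈ S, ∀ g, τ (g * a) = τ g * ξ a) {χ χ' : G → ℂ} (hχ : IsIrrCharacter G χ)
    (hχ' : IsIrrCharacter G χ') (hne : χ ≠ χ')
    (hind : ∀ g, indFun S (fun h => ξ h) g = χ g + χ' g) {w : G} (hw : w ∉ S) (hτw : τ w = 1)
    (hτ1 : τ 1 = 0) :
    ∃ l l' : ℂ, χ 1 * l + χ' 1 * l' = 0 ∧
      χ 1 * l ^ 2 + χ' 1 * l' ^ 2 = Nat.card G * ∑ x, τ x * τ x⁻¹ ∧
      l + l' = ∑ x, τ x * τ (x⁻¹ * w) := by
  classical
  have := Fintype.ofFinite S
  have := Fintype.ofFinite (IrrCharacter G)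
  choose c p h1 h2 h3 using fun θ : IrrCharacter G => loc hξ hξ1 hre hl hr θ.2
  have hi : ∀ θ : IrrCharacter G, p θ 1 = classInner θ.1 χ + classInner θ.1 χ' := fun θ => by
    rw [h1, ← H14.classInner_indFun_right S _ (H14.IsIrrCharacter.isClassFunction θ.2),
      ← H11.classInner_add_right]
    congr 1
    exact funext hind
  have hne' : (⟨χ, hχ⟩ : IrrCharacter G) ≠ ⟨χ', hχ'⟩ := fun h => hne (congrArg Subtype.val h)
  have p1 : p ⟨χ, hχ⟩ 1 = 1 := by
    rw [hi, H11.classInner_irr_self hχ, H11.classInner_irr_of_ne hχ hχ' hne, add_zero]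
  have p2 : p ⟨χ', hχ'⟩ 1 = 1 := by
    rw [hi, H11.classInner_irr_self hχ', H11.classInner_irr_of_ne hχ' hχ hne.symm, zero_add]
  have p0 : ∀ θ : IrrCharacter G, θ ≠ ⟨χ, hχ⟩ ∧ θ ≠ ⟨χ', hχ'⟩ → p θ 1 = 0 := fun θ h => by
    rw [hi, H11.classInner_irr_of_ne θ.2 hχ fun h' => h.1 (Subtype.ext h'),
      H11.classInner_irr_of_ne θ.2 hχ' fun h' => h.2 (Subtype.ext h'), add_zero]
  have pa : ∀ θ : IrrCharacter G, p θ 1 = 0 ∨ p θ 1 = 1 := fun θ => by
    by_cases a1 : θ = ⟨χ, hχ⟩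
    · exact Or.inr (a1 ▸ p1)
    by_cases a2 : θ = ⟨χ', hχ'⟩
    · exact Or.inr (a2 ▸ p2)
    exact Or.inl (p0 θ ⟨a1, a2⟩)
  have key : ∀ (f : G → ℂ) (k : IrrCharacter G → ℂ),
      (∀ (θ : IrrCharacter G) g, ∑ x, f x * θ.1 (x * g) = k θ * p θ g) → ∀ g,
      χ 1 * (k ⟨χ, hχ⟩ * p ⟨χ, hχ⟩ g⁻¹) + χ' 1 * (k ⟨χ', hχ'⟩ * p ⟨χ', hχ'⟩ g⁻¹) =
        Nat.card G * f g := fun f k hk g => by
    rw [← fourier f g]
    simp only [hk]
    rw [Fintype.sum_eq_add _ _ hne' fun θ h => by rw [h2 θ (p0 θ h), mul_zero, mul_zero]]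
  have k0 := key _ _ fun θ g => (h3 θ (pa θ) g).1
  have k1 := key _ _ fun θ g => (h3 θ (pa θ) g).2.1
  have k2 := key _ _ fun θ g => (h3 θ (pa θ) g).2.2
  have hS : (Nat.card S : ℂ) ≠ 0 := Nat.cast_ne_zero.2 Nat.card_pos.ne'
  have hG : (Nat.card G : ℂ) ≠ 0 := Nat.cast_ne_zero.2 Nat.card_pos.ne'
  refine ⟨c ⟨χ, hχ⟩, c ⟨χ', hχ'⟩, ?_, ?_, ?_⟩
  · have := k1 1
    rwa [inv_one, p1, p2, hτ1, mul_one, mul_one, mul_zero] at this
  · have := k2 1
    rw [inv_one, p1, p2, mul_one, mul_one] at this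
    simpa using this
  · have a0 := k0 w
    have a1 := k1 w
    have a2 := k2 w
    rw [ez, if_neg hw, mul_zero] at a0
    rw [hτw, mul_one] at a1
    have a3 : χ 1 * p ⟨χ, hχ⟩ w⁻¹ + χ' 1 * p ⟨χ', hχ'⟩ w⁻¹ = 0 :=
      mul_left_cancel₀ hS (by linear_combination a0)
    refine mul_left_cancel₀ hG ?_
    linear_combination a2 - (c ⟨χ, hχ⟩ + c ⟨χ', hχ'⟩) * a1 + c ⟨χ, hχ⟩ * c ⟨χ', hχ'⟩ * a3

end Cfsg.Agent.H92.Dg62
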