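import Cfsg.Agent.H92.DgSp62A
import Cfsg.Agent.H92.DgHecke

/-!
Project DG, piece SP62: `Sp₆(2)` has an irreducible character of degree `210`.
-/

set_option autoImplicit false

namespace Cfsg.Agent.H92.Dg62

open Module Cfsg.Agent.H26 Cfsg.Agent.H78 Cfsg.Agent.H53.Dg
open scoped ComplexConjugate

variable {F V : Type} [Field F] [Finite F] [AddCommGroup V] [Module F V] [Finite V]
  {P : PForm F V}

variable (P) in
/-- A symplectic basis. -/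
structure Bas (e₁ e₂ e₃ f₁ f₂ f₃ : V) : Prop where
  exp : ∀ x, x = P.f x f₁ • e₁ + P.f x f₂ • e₂ + P.f x f₃ • e₃ + P.f x e₁ • f₁ + P.f x e₂ • f₂ +
    P.f x e₃ • f₃
  ee : P.f e₁ e₂ = 0
  ff : P.f f₁ f₂ = 0
  h11 : P.f e₁ f₁ = 1
  h12 : P.f e₁ f₂ = 0
  h21 : P.f e₂ f₁ = 0
  h22 : P.f e₂ f₂ = 1

theorem f_comm (hT : Ty P true 3 1) (hq : Nat.card F = 2) (x y : V) : P.f y x = P.f x y := by
  rw [P.herm, hT.sig, (hT.symp rfl).1]
  linear_combination (-P.f x y) * one_add_one hq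

theorem exists_bas (hT : Ty P true 3 1) (hq : Nat.card F = 2) :
    ∃ e₁ e₂ e₃ f₁ f₂ f₃ : V, Bas P e₁ e₂ e₃ f₁ f₂ f₃ := by
  obtain ⟨Fr, -, hA⟩ := hT.frame
  have h1 : ∀ a, P.f (Fr.e a) (Fr.e (ng a)) = 1 := fun a => (cases2 hq _).resolve_left (Fr.pair a)
  refine ⟨Fr.e (0, false), Fr.e (1, false), Fr.e (2, false), Fr.e (0, true), Fr.e (1, true),
    Fr.e (2, true), fun x => ?_, Fr.orth _ _ (by decide), Fr.orth _ _ (by decide), h1 (0, false),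
    Fr.orth _ _ (by decide), Fr.orth _ _ (by decide), h1 (1, false)⟩
  have h2 := sub_eq_zero.1 (hA _ (Fr.sub_sum_mem x) (sing_all hT _))
  simp only [h1, div_one] at h2
  rw [Fintype.sum_prod_type, Fin.sum_univ_three] at h2
  simp only [Fintype.sum_bool, ng, Bool.not_true, Bool.not_false] at h2
  refine h2.trans ?_
  abel

theorem Bas.map {e₁ e₂ e₃ f₁ f₂ f₃ : V} (h : Bas P e₁ e₂ e₃ f₁ f₂ f₃) (g : P.isom) :
    Bas P (g.1 e₁) (g.1 e₂) (g.1 e₃) (g.1 f₁) (g.1 f₂) (g.1 f₃) := by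
  have hg := g.2.1
  refine ⟨fun x => ?_, by rw [hg, h.ee], by rw [hg, h.ff], by rw [hg, h.h11], by rw [hg, h.h12],
    by rw [hg, h.h21], by rw [hg, h.h22]⟩
  obtain ⟨y, rfl⟩ := g.1.surjective x
  simp only [hg, ← map_smul, ← map_add]
  exact congrArg g.1 (h.exp y)

theorem Bas.om {e₁ e₂ e₃ f₁ f₂ f₃ : V} (h : Bas P e₁ e₂ e₃ f₁ f₂ f₃) :
    P.f e₁ e₂ = 0 ∧ e₁ ≠ 0 ∧ e₂ ≠ 0 ∧ e₁ ≠ e₂ :=
  ⟨h.ee, fun h' => zero_ne_one (α := F) (by rw [← h.h11, h', P.f_zero_left]),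
    fun h' => zero_ne_one (α := F) (by rw [← h.h22, h', P.f_zero_left]),
    fun h' => zero_ne_one (α := F) (by rw [← h.h11, h', h.h21])⟩

theorem Bas.om' {e₁ e₂ e₃ f₁ f₂ f₃ : V} (h : Bas P e₁ e₂ e₃ f₁ f₂ f₃) :
    P.f f₁ f₂ = 0 ∧ f₁ ≠ 0 ∧ f₂ ≠ 0 ∧ f₁ ≠ f₂ :=
  ⟨h.ff, fun h' => zero_ne_one (α := F) (by rw [← h.h11, h', P.f_zero_right]),
    fun h' => zero_ne_one (α := F) (by rw [← h.h22, h', P.f_zero_right]),
    fun h' => zero_ne_one (α := F) (by rw [← h.h11, h', h.h12])⟩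

/-- Sums over the group become sums in coordinates. -/
theorem Bas.sum (hW : WittStmt) (hT : Ty P true 3 1) (hq : Nat.card F = 2) [Fintype P.isom]
    {e₁ e₂ e₃ f₁ f₂ f₃ : V} (h : Bas P e₁ e₂ e₃ f₁ f₂ f₃) (φ : F ≃+* ZMod 2) :
    ∃ m : ℕ, ∀ Φ : K6 → K6 → ℤ, ∑ g : P.isom,
      (Φ (φ (P.f f₁ (g.1 e₁)), φ (P.f f₂ (g.1 e₁)), φ (P.f f₃ (g.1 e₁)), φ (P.f e₁ (g.1 e₁)),
          φ (P.f e₂ (g.1 e₁)), φ (P.f e₃ (g.1 e₁)))
        (φ (P.f f₁ (g.1 e₂)), φ (P.f f₂ (g.1 e₂)), φ (P.f f₃ (g.1 e₂)), φ (P.f e₁ (g.1 e₂)),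
          φ (P.f e₂ (g.1 e₂)), φ (P.f e₃ (g.1 e₂))) : ℂ) =
      m * ((∑ u : K6, ∑ v : K6, if Om u v then Φ u v else 0 : ℤ) : ℂ) := by
  classical
  have := Fintype.ofFinite V
  obtain ⟨κ, hκ⟩ : ∃ κ : V → K6, ∀ x, κ x = (φ (P.f f₁ x), φ (P.f f₂ x), φ (P.f f₃ x),
    φ (P.f e₁ x), φ (P.f e₂ x), φ (P.f e₃ x)) := ⟨_, fun _ => rfl⟩
  have hi : Function.Injective κ := fun x y hxy => by
    simp only [hκ, Prod.ext_iff, φ.injective.eq_iff, f_comm hT hq x, f_comm hT hq y] at hxy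
    obtain ⟨a1, a2, a3, a4, a5, a6⟩ := hxy
    rw [h.exp x, a1, a2, a3, a4, a5, a6, ← h.exp y]
  have hb : Function.Bijective κ := by
    rw [Nat.bijective_iff_injective_and_card]
    refine ⟨hi, ?_⟩
    rw [Module.natCard_eq_pow_finrank (K := F), hq, (hT.symp rfl).2.2.2]
    simp
  have h0 : κ 0 = 0 := by simp only [hκ, P.f_zero_right, map_zero]; rfl
  have hJ : ∀ x y, J (κ x) (κ y) = φ (P.f x y) := fun x y => by
    conv_rhs => rw [h.exp x]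
    simp only [hκ, J, P.f_add_left, P.f_smul_left, map_add, map_mul, f_comm hT hq x]
  have hO : ∀ x y, (P.f x y = 0 ∧ x ≠ 0 ∧ y ≠ 0 ∧ x ≠ y) ↔ Om (κ x) (κ y) := fun x y => by
    rw [Om, hJ, ← h0, hi.ne_iff, hi.ne_iff, hi.ne_iff, map_eq_zero_iff φ φ.injective]
  obtain ⟨m, hm⟩ := sum_orbit hW hT hq h.om
  refine ⟨m, fun Φ => ?_⟩
  simp only [← hκ]
  rw [hm (fun x y => Φ (κ x) (κ y)) fun _ _ => inferInstance]
  congr 1
  push_cast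
  refine Fintype.sum_bijective κ hb _ _ fun x => Fintype.sum_bijective κ hb _ _ fun y => ?_
  by_cases hp : Om (κ x) (κ y)
  · rw [if_pos hp, if_pos ((hO x y).2 hp)]
  · rw [if_neg hp, if_neg fun h' => hp ((hO x y).1 h')]

theorem arith {n n' m : ℕ} {l l' : ℂ} (hm : m ≠ 0) (h0 : n + n' = 315) (h1 : n * l + n' * l' = 0)
    (h2 : n * l ^ 2 + n' * l' ^ 2 = m * 1890 * (m * 768)) (h3 : l + l' = m * 48) :
    n = 210 ∨ n' = 210 := by
  have hm' : (m : ℂ) ≠ 0 := Nat.cast_ne_zero.2 hm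
  have h0' : (n : ℂ) + n' = 315 := by exact_mod_cast h0
  have h4 : (l - 96 * m) * (l + 48 * m) = 0 := by
    linear_combination (1 / 315 : ℂ) * h2 - (1 / 315 : ℂ) * (l + l') * h1 +
      (1 / 315 : ℂ) * l * l' * h0' + l * h3
  rcases mul_eq_zero.1 h4 with h | h
  · right
    have : (n' : ℂ) * m = 210 * m := by
      linear_combination (-1 / 144 : ℂ) * h1 + (1 / 144 : ℂ) * n' * h3 +
        (1 / 144 : ℂ) * (n - n') * h + (2 / 3 : ℂ) * m * h0'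
    exact_mod_cast mul_right_cancel₀ hm' this
  · left
    have : (n : ℂ) * m = 210 * m := by
      linear_combination (-1 / 144 : ℂ) * h1 + (1 / 144 : ℂ) * n' * h3 +
        (1 / 144 : ℂ) * (n - n') * h + (2 / 3 : ℂ) * m * h0'
    exact_mod_cast mul_right_cancel₀ hm' this

theorem deg (hW : WittStmt) (hT : Ty P true 3 1) (hq : Nat.card F = 2) (L : Lev P 2)
    {ψ : (L.X ≃ₗ[F] L.X) → ℂ} (hψ : CuspFn ψ true 1) {χ χ' : P.isom → ℂ} {n n' : ℕ}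
    (hχ : IsIrrCharacter _ χ) (hχ' : IsIrrCharacter _ χ')
    (hs : ∀ g, L.hc ψ (fun _ => 1) g = χ g + χ' g) (hn : χ 1 = n) (hn' : χ' 1 = n')
    (h0 : n + n' = 315) : n = 210 ∨ n' = 210 := by
  classical
  letI : Fintype P.isom := Fintype.ofFinite _
  have := Fintype.ofFinite F
  have φ : F ≃+* ZMod 2 :=
    (ZMod.ringEquivOfPrime F Nat.prime_two (by rw [← Nat.card_eq_fintype_card, hq])).symm
  have b : Basis (Fin 2) F L.X := Module.finBasisOfFinrankEq F L.X L.dim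
  have hpl : Pl (b 0) (b 1) := by
    refine ⟨fun y => ?_, b.ne_zero 0, b.ne_zero 1, fun h => absurd (b.injective h) (by decide)⟩
    rw [← b.sum_repr y, Fin.sum_univ_two]
    rcases cases2 hq (b.repr y 0) with h | h <;> rcases cases2 hq (b.repr y 1) with h' | h' <;>
      simp [h, h']
  have hXX : ∀ x ∈ L.X, ∀ y ∈ L.X, P.f x y = 0 := fun x hx y hy =>
    PForm.f_of_mem_perp (L.ts.2 hx) hy
  obtain ⟨e₁, e₂, e₃, f₁, f₂, f₃, hB, he₁, he₂⟩ : ∃ e₁ e₂ e₃ f₁ f₂ f₃ : V,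
      Bas P e₁ e₂ e₃ f₁ f₂ f₃ ∧ e₁ = b 0 ∧ e₂ = b 1 := by
    obtain ⟨e₁, e₂, e₃, f₁, f₂, f₃, hB⟩ := exists_bas hT hq
    obtain ⟨g, g1, g2⟩ := trans2 hW hT hq hB.om (x' := b 0) (y' := b 1)
      ⟨hXX _ (b 0).2 _ (b 1).2, by simpa using hpl.h1, by simpa using hpl.h2,
        by simpa using hpl.h3⟩
    exact ⟨_, _, _, _, _, _, hB.map g, g1, g2⟩
  obtain ⟨w, w1, w2⟩ := trans2 hW hT hq hB.om hB.om'
  obtain ⟨m, hm⟩ := hB.sum hW hT hq φ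
  have h1 : ψ 1 = 1 := by rw [hψ.deg, L.dim, hq]; simp [cd]
  have hmul := H11.map_mul_of_apply_one_eq_one (H14.IsIrrCharacter.isCharacter hψ.irr) h1
  obtain ⟨τ, hτ⟩ : ∃ τ : P.isom → ℂ, ∀ g, τ g = sg (φ (P.f e₁ (g.1 e₁))) (φ (P.f e₁ (g.1 e₂)))
    (φ (P.f e₂ (g.1 e₁))) (φ (P.f e₂ (g.1 e₂))) := ⟨_, fun _ => rfl⟩
  have hinv : ∀ (g : P.isom) x y, P.f x ((g⁻¹).1 y) = P.f y (g.1 x) := fun g x y => by
    rw [← g.2.1, f_comm hT hq]
    exact congrArg (P.f · (g.1 x)) (PForm.apply_inv_apply _ _)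
  have hτi : ∀ g, τ g⁻¹ = τ g := fun g => by
    rw [hτ, hτ, hinv, hinv, hinv, hinv, sg_t]
  have hξ : ∀ a, L.xi ψ (fun _ => 1) a = ψ (rs L.X a.1) := fun a => mul_one _
  have hξm : ∀ a ∈ stab P.isom L.X, ∀ b ∈ stab P.isom L.X, L.xi ψ (fun _ => 1) (a * b) =
      L.xi ψ (fun _ => 1) a * L.xi ψ (fun _ => 1) b := fun a ha b hb => by
    rw [hξ, hξ, hξ, Subgroup.coe_mul, rs_mul (g := a.1) (k := b.1) ha hb, hmul]
  have hξ1 : L.xi ψ (fun _ => 1) 1 = 1 := by rw [hξ, OneMemClass.coe_one, rs_one, h1]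
  have hv : ∀ a ∈ stab P.isom L.X, (∀ g, τ (g * a) = τ g * L.xi ψ (fun _ => 1) a) ∧
      L.xi ψ (fun _ => 1) a * L.xi ψ (fun _ => 1) a = 1 := fun a ha => by
    have r1 : a.1 e₁ = (rs L.X a.1 (b 0) : V) := by rw [rs_apply (g := a.1) ha, he₁]
    have r2 : a.1 e₂ = (rs L.X a.1 (b 1) : V) := by rw [rs_apply (g := a.1) ha, he₂]
    simp only [hτ, hξ, Subgroup.coe_mul, PForm.mul_apply', r1, r2]
    rcases psi_val hq hpl hψ.cusp hmul h1 (hψ.real rfl) (rs L.X a.1) with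
      ⟨k1, k2, k3⟩ | ⟨k1, k2, k3⟩ | ⟨k1, k2, k3⟩ | ⟨k1, k2, k3⟩ | ⟨k1, k2, k3⟩ | ⟨k1, k2, k3⟩ <;>
      refine ⟨fun g => ?_, by rw [k3]; norm_num⟩ <;>
      simp only [k1, k2, k3, Submodule.coe_add, ← he₁, ← he₂, map_add, P.f_add_right, mul_one,
        mul_neg]
    · rw [sg_2, Int.cast_neg]
    · rw [sg_3, Int.cast_neg]
    · rw [sg_4]
    · rw [sg_5]
    · rw [sg_6, Int.cast_neg]
  have hl : ∀ a ∈ stab P.isom L.X, ∀ g, τ (a * g) = L.xi ψ (fun _ => 1) a * τ g := fun a ha g => by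
    have k1 := hξm a ha a⁻¹ (inv_mem ha)
    rw [mul_inv_cancel, hξ1] at k1
    rw [← hτi, mul_inv_rev, (hv _ (inv_mem ha)).1, hτi]
    linear_combination τ g * L.xi ψ (fun _ => 1) a * (-k1) -
      τ g * L.xi ψ (fun _ => 1) a⁻¹ * (hv a ha).2
  have hne : χ ≠ χ' := fun h => by
    have : (n : ℂ) = n' := by rw [← hn, ← hn', h]
    have : n = n' := by exact_mod_cast this
    omega
  have hw : w ∉ stab P.isom L.X := fun h => by
    have k1 : e₁ ∈ L.X := he₁ ▸ (b 0).2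
    have : P.f e₁ (w.1 e₁) = 0 := hXX _ k1 _ ((h e₁).1 k1)
    rw [w1, hB.h11] at this
    exact one_ne_zero this
  obtain ⟨l, l', a1, a2, a3⟩ := hecke2 hξm hξ1 (fun a _ => by rw [hξ, hψ.real rfl]) hl
    (fun a ha => (hv a ha).1) hχ hχ' hne hs hw
    (by
      rw [hτ, w1, w2, hB.h11, hB.h12, hB.h21, hB.h22, map_one, map_zero]
      exact Int.cast_one)
    (by
      have k1 : ∀ x, (1 : P.isom).1 x = x := fun _ => rfl
      rw [hτ, k1, k1, (sing_all hT e₁).f_self, (sing_all hT e₂).f_self, hB.ee,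
        PForm.f_symm_zero hB.ee, map_zero]
      exact Int.cast_zero)
  have s1 : (Nat.card P.isom : ℂ) = m * 1890 := by
    have := hm fun _ _ => 1
    rw [c1] at this
    simpa using this
  have s2 : ∑ x, τ x * τ x⁻¹ = m * 768 := by
    have := hm fun u v => sg u.2.2.2.1 v.2.2.2.1 u.2.2.2.2.1 v.2.2.2.2.1 *
      sg u.2.2.2.1 u.2.2.2.2.1 v.2.2.2.1 v.2.2.2.2.1
    rw [c2] at this
    refine (Finset.sum_congr rfl fun x _ => ?_).trans (this.trans (by norm_num))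
    rw [hτ, hτ, hinv, hinv, hinv, hinv, Int.cast_mul]
  have s3 : ∑ x, τ x * τ (x⁻¹ * w) = m * 48 := by
    have := hm fun u v => sg u.2.2.2.1 v.2.2.2.1 u.2.2.2.2.1 v.2.2.2.2.1 * sg u.1 u.2.1 v.1 v.2.1
    rw [c3] at this
    refine (Finset.sum_congr rfl fun x _ => ?_).trans (this.trans (by norm_num))
    rw [hτ, hτ, Subgroup.coe_mul, PForm.mul_apply', PForm.mul_apply', w1, w2, hinv, hinv, hinv,
      hinv, Int.cast_mul]
  have hm0 : m ≠ 0 := by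
    rintro rfl
    rw [Nat.cast_zero, zero_mul, Nat.cast_eq_zero] at s1
    exact Nat.card_pos.ne' s1
  rw [hn, hn'] at a1 a2
  exact arith hm0 h0 a1 (by rw [a2, s1, s2]) (a3.trans s3)

/-- `Sp₆(2)` has an irreducible character of degree divisible by `210`. -/
theorem sp62 (hL : LeviStmt) (hS : SdStmt) (hW : WittStmt) (hD : DescStmt) : Sp62Stmt := by
  intro F V _ _ _ _ _ P hT hq hC
  obtain ⟨L, -⟩ := hL F V P true 3 1 2 hT (by omega)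
  obtain ⟨ψ, hψ⟩ := hC L.X L.dim
  obtain ⟨χ, χ', n, n', hχ, hχ', hs, hn, hn', h0, s1, s2⟩ :=
    hS F V P true 3 1 2 1 L ψ hT (by omega) (by omega) hψ
  rw [hq, show Nk 2 3 1 2 = 945 by decide] at h0
  have hd : Dg P 210 1 := by
    rcases deg hW hT hq L hψ hχ hχ' hs hn hn' (by omega) with rfl | rfl
    · exact ⟨χ, hχ, hn, s1⟩
    · exact ⟨χ', hχ', hn', s2⟩
  obtain ⟨m, h1, h2⟩ := hD F V P true 3 1 210 1 hT (by omega) (Or.inl rfl) hd (Or.inl rfl)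
  exact ⟨m, by simpa [cc] using h2, h1⟩

end Cfsg.Agent.H92.Dg62
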