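import Cfsg.Agent.H53.DgDefs

/-!
Project DG, piece SP62: three counts in `F₂⁶`, the cuspidal character of `GL₂(2)`, and
transitivity on the ordered bases of the totally singular lines.
-/

set_option autoImplicit false

namespace Cfsg.Agent.H92.Dg62

open Module Cfsg.Agent.H26 Cfsg.Agent.H78 Cfsg.Agent.H53.Dg
open scoped ComplexConjugate

/-- Coordinates. -/
abbrev K6 := ZMod 2 × ZMod 2 × ZMod 2 × ZMod 2 × ZMod 2 × ZMod 2

/-- The form in coordinates. -/
def J (u v : K6) : ZMod 2 := u.1 * v.2.2.2.1 + u.2.1 * v.2.2.2.2.1 + u.2.2.1 * v.2.2.2.2.2 +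
  u.2.2.2.1 * v.1 + u.2.2.2.2.1 * v.2.1 + u.2.2.2.2.2 * v.2.2.1

/-- The sign of a two by two matrix over `F₂` (zero if it is singular). -/
def sg (a b c d : ZMod 2) : ℤ :=
  if a * d + b * c = 0 then 0 else if a + d = 1 ∨ (b = 0 ∧ c = 0) then 1 else -1

/-- Ordered bases of totally singular lines. -/
abbrev Om (u v : K6) : Prop := J u v = 0 ∧ u ≠ 0 ∧ v ≠ 0 ∧ u ≠ v

theorem c1 : ∑ u : K6, ∑ v : K6, (if Om u v then (1 : ℤ) else 0) = 1890 := by decide +kernel

theorem c2 : ∑ u : K6, ∑ v : K6, (if Om u v then sg u.2.2.2.1 v.2.2.2.1 u.2.2.2.2.1 v.2.2.2.2.1 *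
    sg u.2.2.2.1 u.2.2.2.2.1 v.2.2.2.1 v.2.2.2.2.1 else 0) = 768 := by decide +kernel

theorem c3 : ∑ u : K6, ∑ v : K6, (if Om u v then sg u.2.2.2.1 v.2.2.2.1 u.2.2.2.2.1 v.2.2.2.2.1 *
    sg u.1 u.2.1 v.1 v.2.1 else 0) = 48 := by decide +kernel

theorem sg_t : ∀ a b c d : ZMod 2, sg a c b d = sg a b c d := by decide

theorem sg_2 : ∀ a b c d : ZMod 2, sg a (a + b) c (c + d) = -sg a b c d := by decide

theorem sg_3 : ∀ a b c d : ZMod 2, sg b a d c = -sg a b c d := by decide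

theorem sg_4 : ∀ a b c d : ZMod 2, sg b (a + b) d (c + d) = sg a b c d := by decide

theorem sg_5 : ∀ a b c d : ZMod 2, sg (a + b) a (c + d) c = sg a b c d := by decide

theorem sg_6 : ∀ a b c d : ZMod 2, sg (a + b) b (c + d) d = -sg a b c d := by decide

section Two

variable {F : Type} [Field F]

theorem cases2 (hq : Nat.card F = 2) (c : F) : c = 0 ∨ c = 1 := by
  obtain ⟨y, -, hy⟩ := (Nat.card_eq_two_iff' (0 : F)).1 hq
  by_cases h : c = 0
  · exact Or.inl h
  · exact Or.inr ((hy c h).trans (hy 1 one_ne_zero).symm)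

theorem one_add_one (hq : Nat.card F = 2) : (1 : F) + 1 = 0 :=
  (cases2 hq _).resolve_right (by simp)

variable {X : Type} [AddCommGroup X] [Module F X]

theorem add_self (hq : Nat.card F = 2) (x : X) : x + x = 0 := by
  rw [← one_smul F x, ← add_smul, one_add_one hq, zero_smul]

theorem li2 (hq : Nat.card F = 2) {x y : X} (hx : x ≠ 0) (hy : y ≠ 0) (hxy : x ≠ y) :
    LinearIndependent F ![x, y] := by
  rw [LinearIndependent.pair_iff]
  intro s t h
  rcases cases2 hq s with rfl | rfl <;> rcases cases2 hq t with rfl | rfl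
  · exact ⟨rfl, rfl⟩
  · exact absurd (by simpa using h) hy
  · exact absurd (by simpa using h) hx
  · refine absurd ?_ hxy
    rw [one_smul, one_smul, ← add_self hq y] at h
    exact add_right_cancel h

/-- A plane over `F₂` with a basis. -/
structure Pl (z x : X) : Prop where
  all : ∀ y, y = 0 ∨ y = z ∨ y = x ∨ y = z + x
  h1 : z ≠ 0
  h2 : x ≠ 0
  h3 : z ≠ x

theorem Pl.ext {z x : X} (h : Pl z x) {A B : X ≃ₗ[F] X} (h1 : A z = B z) (h2 : A x = B x) :
    A = B := by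
  ext y
  rcases h.all y with rfl | rfl | rfl | rfl
  · rw [map_zero, map_zero]
  · exact h1
  · exact h2
  · rw [map_add, map_add, h1, h2]

theorem Pl.swap {z x : X} (h : Pl z x) : Pl x z :=
  ⟨fun y => by rw [add_comm x z]; have := h.all y; tauto, h.h2, h.h1, h.h3.symm⟩

theorem Pl.add (hq : Nat.card F = 2) {z x : X} (h : Pl z x) : Pl (z + x) z := by
  have e : z + x + z = x := by rw [add_right_comm, add_self hq, zero_add]
  refine ⟨fun y => by rw [e]; have := h.all y; tauto, fun h' => h.h3 ?_, h.h1, fun h' => h.h2 ?_⟩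
  · rw [← add_self hq x] at h'
    exact add_right_cancel h'
  · simpa using h'

theorem psi_tv (hq : Nat.card F = 2) [Finite X] {z x : X} (h : Pl z x)
    {ψ : (X ≃ₗ[F] X) → ℂ} (hc : IsCusp ψ) (h1 : ψ 1 = 1) {A : X ≃ₗ[F] X} (hz : A z = z)
    (hx : A x = z + x) : ψ A = -1 := by
  have hm : ∀ y, y ∈ F ∙ z ↔ y = 0 ∨ y = z := fun y => by
    rw [Submodule.mem_span_singleton]
    constructor
    · rintro ⟨c, rfl⟩
      rcases cases2 hq c with rfl | rfl <;> simp
    · rintro (rfl | rfl)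
      · exact ⟨0, zero_smul _ _⟩
      · exact ⟨1, one_smul _ _⟩
  have hA : A ∈ UZ (F ∙ z) := by
    refine ⟨fun y hy => ?_, fun y => ?_⟩
    · rcases (hm y).1 hy with rfl | rfl
      · exact map_zero _
      · exact hz
    · rw [hm]
      rcases h.all y with rfl | rfl | rfl | rfl
      · simp
      · simp [hz]
      · simp [hx]
      · simp [hz, hx]
  have := hc (F ∙ z) (by simpa using h.h1) (fun ht => by
    have : x ∈ F ∙ z := ht ▸ Submodule.mem_top
    rcases (hm x).1 this with h' | h'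
    · exact h.h2 h'
    · exact h.h3 h'.symm) 1
  have i1 := Fintype.ofFinite (UZ (F ∙ z) : Subgroup (X ≃ₗ[F] X))
  rw [finsum_eq_sum_of_fintype, Fintype.sum_eq_add 1 ⟨A, hA⟩ (fun h' => ?_) fun u hu => ?_] at this
  · simp only [one_mul, OneMemClass.coe_one, h1] at this
    linear_combination this
  · have h2 : (1 : X ≃ₗ[F] X) = A := congrArg Subtype.val h'
    rw [← h2] at hx
    exact h.h1 (by simpa using hx)
  · exfalso
    have u1 : u.1 z = z := u.2.1 z ((hm z).2 (Or.inr rfl))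
    rcases (hm _).1 (u.2.2 x) with h' | h'
    · exact hu.1 (Subtype.ext (h.ext u1 (sub_eq_zero.1 h')))
    · exact hu.2 (Subtype.ext (h.ext (u1.trans hz.symm) ((sub_eq_iff_eq_add.1 h').trans hx.symm)))

theorem psi_three {ψ : (X ≃ₗ[F] X) → ℂ} (hm : ∀ a b, ψ (a * b) = ψ a * ψ b) (h1 : ψ 1 = 1)
    (hre : ∀ g, conj (ψ g) = ψ g) {A : X ≃ₗ[F] X} (hA : A * (A * A) = 1) : ψ A = 1 := by
  have h3 : ψ A * (ψ A * ψ A) = 1 := by rw [← hm, ← hm, hA, h1]
  obtain ⟨r, hr⟩ := Complex.conj_eq_iff_real.1 (hre A)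
  rw [hr] at h3 ⊢
  have h4 : r * (r * r) = 1 := by exact_mod_cast h3
  have h5 : r = 1 := by
    have h6 : (r - 1) * (r * r + r + 1) = 0 := by linear_combination h4
    have h7 : r * r + r + 1 ≠ 0 := by nlinarith [sq_nonneg (r + 1 / 2)]
    exact sub_eq_zero.1 ((mul_eq_zero.1 h6).resolve_right h7)
  rw [h5, Complex.ofReal_one]

theorem psi_val (hq : Nat.card F = 2) [Finite X] {u v : X} (h : Pl u v)
    {ψ : (X ≃ₗ[F] X) → ℂ} (hc : IsCusp ψ) (hm : ∀ a b, ψ (a * b) = ψ a * ψ b) (h1 : ψ 1 = 1)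
    (hre : ∀ g, conj (ψ g) = ψ g) (A : X ≃ₗ[F] X) :
    (A u = u ∧ A v = v ∧ ψ A = 1) ∨ (A u = u ∧ A v = u + v ∧ ψ A = -1) ∨
    (A u = v ∧ A v = u ∧ ψ A = -1) ∨ (A u = v ∧ A v = u + v ∧ ψ A = 1) ∨
    (A u = u + v ∧ A v = u ∧ ψ A = 1) ∨ (A u = u + v ∧ A v = v ∧ ψ A = -1) := by
  have e1 : u + (u + v) = v := by rw [← add_assoc, add_self hq, zero_add]
  have e2 : v + (u + v) = u := by rw [add_comm u v, ← add_assoc, add_self hq, zero_add]
  have n1 : A u ≠ 0 := by simpa using h.h1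
  have n2 : A v ≠ 0 := by simpa using h.h2
  have n3 : A u ≠ A v := by simpa using h.h3
  rcases h.all (A u) with a | a | a | a
  · exact absurd a n1
  · rcases h.all (A v) with b | b | b | b
    · exact absurd b n2
    · exact absurd (a.trans b.symm) n3
    · exact Or.inl ⟨a, b, by rw [h.ext (B := 1) a b, h1]⟩
    · exact Or.inr (Or.inl ⟨a, b, psi_tv hq h hc h1 a b⟩)
  · rcases h.all (A v) with b | b | b | b
    · exact absurd b n2
    · refine Or.inr (Or.inr (Or.inl ⟨a, b, psi_tv hq (h.add hq) hc h1 ?_ ?_⟩))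
      · rw [map_add, a, b, add_comm]
      · rw [a, add_comm, e1]
    · exact absurd (a.trans b.symm) n3
    · refine Or.inr (Or.inr (Or.inr (Or.inl ⟨a, b, psi_three hm h1 hre (h.ext ?_ ?_)⟩)))
      · change A (A (A u)) = u
        rw [a, b, map_add, a, b, e2]
      · change A (A (A v)) = v
        rw [b, map_add, a, b, e2, a]
  · rcases h.all (A v) with b | b | b | b
    · exact absurd b n2
    · refine Or.inr (Or.inr (Or.inr (Or.inr (Or.inl
        ⟨a, b, psi_three hm h1 hre (h.ext ?_ ?_)⟩))))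
      · change A (A (A u)) = u
        rw [a, map_add, a, b, add_comm (u + v), e1, b]
      · change A (A (A v)) = v
        rw [b, a, map_add, a, b, add_comm (u + v), e1]
    · exact Or.inr (Or.inr (Or.inr (Or.inr (Or.inr
        ⟨a, b, psi_tv hq h.swap hc h1 b (a.trans (add_comm _ _))⟩))))
    · exact absurd (a.trans b.symm) n3

end Two

section Geo

variable {F V : Type} [Field F] [Finite F] [AddCommGroup V] [Module F V] [Finite V]
  {P : PForm F V}

theorem sing_all (hT : Ty P true 3 1) (x : V) : P.Sing x := by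
  rw [PForm.Sing, (hT.symp rfl).2.1]; trivial

theorem ts_pair (hT : Ty P true 3 1) {x y : V} (h : P.f x y = 0) :
    TS P (Submodule.span F (Set.range ![x, y])) := by
  refine ⟨fun z _ => sing_all hT z, Submodule.span_le.2 ?_⟩
  rintro _ ⟨i, rfl⟩
  refine PForm.mem_perp_span.2 ?_
  rintro _ ⟨j, rfl⟩
  fin_cases i <;> fin_cases j
  · exact (sing_all hT x).f_self
  · exact h
  · exact PForm.f_symm_zero h
  · exact (sing_all hT y).f_self

theorem trans2 (hW : WittStmt) (hT : Ty P true 3 1) (hq : Nat.card F = 2) {x y x' y' : V}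
    (h : P.f x y = 0 ∧ x ≠ 0 ∧ y ≠ 0 ∧ x ≠ y) (h' : P.f x' y' = 0 ∧ x' ≠ 0 ∧ y' ≠ 0 ∧ x' ≠ y') :
    ∃ g : P.isom, g.1 x = x' ∧ g.1 y = y' := by
  have l := li2 hq h.2.1 h.2.2.1 h.2.2.2
  have l' := li2 hq h'.2.1 h'.2.2.1 h'.2.2.2
  obtain ⟨g, hg, H⟩ := (hW F V P true 3 1 hT).2 _ _ (ts_pair hT h.1) (ts_pair hT h'.1)
    ((Basis.span l).equiv (Basis.span l') (Equiv.refl _))
  refine ⟨⟨g, hg⟩, ?_, ?_⟩
  · have := H (Basis.span l 0)
    rwa [Basis.equiv_apply, Equiv.refl_apply, Basis.coe_span_apply, Basis.coe_span_apply] at this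
  · have := H (Basis.span l 1)
    rwa [Basis.equiv_apply, Equiv.refl_apply, Basis.coe_span_apply, Basis.coe_span_apply] at this

theorem sum_orbit (hW : WittStmt) (hT : Ty P true 3 1) (hq : Nat.card F = 2) [Fintype P.isom]
    [Fintype V] {e₁ e₂ : V} (h : P.f e₁ e₂ = 0 ∧ e₁ ≠ 0 ∧ e₂ ≠ 0 ∧ e₁ ≠ e₂) :
    ∃ m : ℕ, ∀ Φ : V → V → ℂ, ∀ D : ∀ x y : V, Decidable (P.f x y = 0 ∧ x ≠ 0 ∧ y ≠ 0 ∧ x ≠ y),
      ∑ g : P.isom, Φ (g.1 e₁) (g.1 e₂) =
      m * ∑ x, ∑ y, if P.f x y = 0 ∧ x ≠ 0 ∧ y ≠ 0 ∧ x ≠ y then Φ x y else 0 := by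
  classical
  refine ⟨(Finset.univ.filter fun g : P.isom => (g.1 e₁, g.1 e₂) = (e₁, e₂)).card, fun Φ D => ?_⟩
  rw [← Finset.sum_fiberwise (s := Finset.univ) (g := fun g : P.isom => (g.1 e₁, g.1 e₂)),
    ← Fintype.sum_prod_type', Finset.mul_sum]
  refine Finset.sum_congr rfl fun p _ => ?_
  rw [Finset.sum_congr rfl (g := fun _ => Φ p.1 p.2) fun g hg => by
    rw [← (Finset.mem_filter.1 hg).2], Finset.sum_const, nsmul_eq_mul]
  split_ifs with hp
  · obtain ⟨k, k1, k2⟩ := trans2 hW hT hq h hp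
    congr 2
    refine Finset.card_bijective (Equiv.mulLeft k⁻¹) (Equiv.bijective _) fun g => ?_
    simp only [Finset.mem_filter, Finset.mem_univ, true_and, Equiv.coe_mulLeft, Prod.ext_iff,
      Subgroup.coe_mul, PForm.mul_apply', ← k1, ← k2]
    have : ∀ a b : V, (k⁻¹).1 a = b ↔ a = k.1 b := fun a b =>
      ⟨fun h => by rw [← h]; exact (PForm.apply_inv_apply _ _).symm,
        fun h => by rw [h]; exact PForm.inv_apply_apply _ _⟩
    rw [this, this]
  · rw [mul_zero, Finset.filter_eq_empty_iff.2, Finset.card_empty, Nat.cast_zero, zero_mul]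
    rintro g - rfl
    exact hp ⟨by rw [g.2.1, h.1], by simpa using h.2.1, by simpa using h.2.2.1,
      by simpa using h.2.2.2⟩

end Geo

end Cfsg.Agent.H92.Dg62
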