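import Cfsg.Agent.H92.Direct
import Cfsg.Agent.H92.Kazarin
import Cfsg.Agent.H93.ClassNumber

/-! Class sizes: a coset covering lemma and a fixed-point count for two actions of a simple group. -/

set_option autoImplicit false

namespace Cfsg.Agent.H92.Di

open Subgroup
open scoped Pointwise

variable {G : Type*} [Group G] [Finite G]

/-- If every element of a coset `cW` centralizes a Sylow `t`-subgroup of the normal subgroup `W`,
then `W` has a normal `t`-complement. -/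
theorem coset_npc {t : ℕ} [Fact t.Prime] (W : Subgroup G) [W.Normal] (c : G)
    (h : ∀ w ∈ W, ¬ t ∣ (Ce[c * w]).relIndex W) : HasNormalPComplement t W := by
  classical
  obtain ⟨T⟩ : Nonempty (Sylow t W) := inferInstance
  refine H8.hasNormalPComplement_of_normalizer_le_centralizer T ?_
  have h1 : ∀ w : W, ∃ S : Sylow t W, (S : Subgroup W) ≤ (Ce[c * (w : G)]).subgroupOf W :=
    fun w => exists_sylow_le_of_not_dvd_index (h w w.2)
  choose f hf using h1
  haveI := Fintype.ofFinite W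
  haveI := Fintype.ofFinite (Sylow t W)
  set C := centralizer ((T : Subgroup W) : Set W) with hC
  have h2 : ∀ S ∈ (Finset.univ : Finset (Sylow t W)),
      (Finset.univ.filter fun w => f w = S).card ≤ Nat.card C := by
    intro S _
    obtain ⟨y, rfl⟩ := MulAction.exists_smul_eq W T S
    by_cases hne : (Finset.univ.filter fun w => f w = y • T).Nonempty
    · obtain ⟨w₀, hw₀⟩ := hne
      rw [Finset.mem_filter] at hw₀
      rw [← Nat.card_eq_finsetCard]
      have key : ∀ w : W, f w = y • T → y⁻¹ * (w₀⁻¹ * w) * y ∈ C := by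
        intro w hw
        rw [hC, mem_centralizer_iff]
        intro a ha
        have ha' : y * a * y⁻¹ ∈ ((y • T : Sylow t W) : Subgroup W) := by
          rw [Sylow.coe_subgroup_smul, mem_conj_smul, show y⁻¹ * (y * a * y⁻¹) * y = a by group]
          exact ha
        have e1 := mem_C.1 (mem_subgroupOf.1 (hf w (hw ▸ ha')))
        have e0 := mem_C.1 (mem_subgroupOf.1 (hf w₀ (hw₀.2 ▸ ha')))
        have e2 : Commute ((y * a * y⁻¹ : W) : G) ((w₀⁻¹ * w : W) : G) := by
          have := e0.inv_right.mul_right e1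
          simpa [mul_assoc] using this
        have e3 : (y * a * y⁻¹) * (w₀⁻¹ * w) = (w₀⁻¹ * w) * (y * a * y⁻¹) := Subtype.ext e2.eq
        calc a * (y⁻¹ * (w₀⁻¹ * w) * y) = y⁻¹ * ((y * a * y⁻¹) * (w₀⁻¹ * w)) * y := by group
          _ = _ := by rw [e3]; group
      refine Nat.card_le_card_of_injective
        (fun w => (⟨_, key w.1 (Finset.mem_filter.1 w.2).2⟩ : C)) fun a b e => ?_
      have := congrArg Subtype.val e
      simp only [mul_left_inj, mul_right_inj] at this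
      exact Subtype.ext this
    · rw [Finset.not_nonempty_iff_eq_empty.1 hne]; simp
  have h3 := Finset.card_le_mul_card_image_of_maps_to (s := Finset.univ) (t := Finset.univ) (f := f)
    (fun _ _ => Finset.mem_univ _) _ h2
  rw [Finset.card_univ, Finset.card_univ, ← Nat.card_eq_fintype_card, ← Nat.card_eq_fintype_card,
    T.card_eq_index_normalizer] at h3
  have hle : C ≤ normalizer ((T : Subgroup W) : Set W) := centralizer_le_normalizer _
  have h4 := (normalizer ((T : Subgroup W) : Set W)).card_mul_index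
  have hpos : 0 < (normalizer ((T : Subgroup W) : Set W)).index := Nat.pos_of_ne_zero FiniteIndex.index_ne_zero
  have h5 : Nat.card (normalizer ((T : Subgroup W) : Set W)) ≤ Nat.card C :=
    Nat.le_of_mul_le_mul_right (h4 ▸ h3) hpos
  exact (eq_of_le_of_card_ge hle h5).ge

section count

variable {Ω : Type*} [Finite Ω] [MulAction G Ω] [MulAction.IsPretransitive G Ω]

/-- number of fixed points -/
noncomputable def fx (Ω : Type*) [MulAction G Ω] (x : G) : ℕ := Nat.card (MulAction.fixedBy Ω x)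

/-- derangement -/
def De (Ω : Type*) [MulAction G Ω] (x : G) : Prop := ∀ ω : Ω, x • ω ≠ ω

omit [Finite G] [MulAction.IsPretransitive G Ω] in
theorem fx_pos {x : G} (h : ¬ De Ω x) : 1 ≤ fx Ω x := by
  unfold De at h
  push Not at h
  obtain ⟨ω, hω⟩ := h
  haveI : Nonempty (MulAction.fixedBy Ω x) := ⟨⟨ω, hω⟩⟩
  exact Nat.card_pos

omit [Finite G] [Finite Ω] [MulAction.IsPretransitive G Ω] in
theorem fx_zero {x : G} (h : De Ω x) : fx Ω x = 0 := by
  haveI : IsEmpty (MulAction.fixedBy Ω x) := ⟨fun ω => h ω.1 ω.2⟩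
  exact Nat.card_of_isEmpty

omit [Finite G] [Finite Ω] [MulAction.IsPretransitive G Ω] in
theorem fx_one : fx Ω (1 : G) = Nat.card Ω := by
  unfold fx
  rw [MulAction.fixedBy_one_eq_univ]
  exact Nat.card_congr (Equiv.Set.univ Ω)

theorem sum_fx [Fintype G] [Nonempty Ω] : ∑ x : G, fx Ω x = Fintype.card G := by
  classical
  haveI := Fintype.ofFinite Ω
  haveI : Fintype (Quotient (MulAction.orbitRel G Ω)) := Fintype.ofFinite _
  have h := MulAction.sum_card_fixedBy_eq_card_orbits_mul_card_group G Ω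
  have h1 : Fintype.card (Quotient (MulAction.orbitRel G Ω)) = 1 := by
    haveI : Subsingleton (Quotient (MulAction.orbitRel G Ω)) :=
      (MulAction.pretransitive_iff_subsingleton_quotient G Ω).1 inferInstance
    obtain ⟨ω⟩ := ‹Nonempty Ω›
    exact Fintype.card_eq_one_iff.2 ⟨Quotient.mk _ ω, fun _ => Subsingleton.elim _ _⟩
  rw [h1, one_mul] at h
  rw [← h]
  exact Finset.sum_congr rfl fun x _ => Nat.card_eq_fintype_card

theorem ncard_le_de [Nonempty Ω] (E : Set G) (hE : ∀ x ∈ E, 2 ≤ fx Ω x) :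
    E.ncard ≤ {x : G | De Ω x}.ncard := by
  classical
  haveI := Fintype.ofFinite G
  have h := sum_fx (G := G) (Ω := Ω)
  have h1 : ∑ x : G, (1 + if x ∈ E then 1 else 0) ≤ ∑ x : G, (fx Ω x + if De Ω x then 1 else 0) := by
    refine Finset.sum_le_sum fun x _ => ?_
    by_cases a : x ∈ E
    · have := hE x a
      simp only [a, if_true]; omega
    · by_cases b : De Ω x
      · simp [a, b]
      · have := fx_pos b
        simp only [a, b, if_false]; omega
  rw [Finset.sum_add_distrib, Finset.sum_add_distrib, h, Finset.sum_const, Finset.card_univ,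
    Finset.sum_boole, Finset.sum_boole] at h1
  simp only [smul_eq_mul, mul_one, Nat.cast_id, add_le_add_iff_left] at h1
  rw [Set.ncard_eq_toFinset_card', Set.ncard_eq_toFinset_card']
  convert h1 using 2 <;> ext <;> simp

theorem ncard_de_lt [Nonempty Ω] (h1 : ∀ x : G, x ≠ 1 → fx Ω x ≤ 1) :
    {x : G | De Ω x}.ncard + 1 ≤ Nat.card Ω := by
  classical
  haveI := Fintype.ofFinite G
  have h := sum_fx (G := G) (Ω := Ω)
  have hp : 0 < Nat.card Ω := Nat.card_pos
  have h2 : ∑ x : G, (fx Ω x + if De Ω x then 1 else 0) ≤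
      ∑ x : G, (1 + if x = 1 then Nat.card Ω - 1 else 0) := by
    refine Finset.sum_le_sum fun x _ => ?_
    by_cases a : x = 1
    · subst a
      have : ¬ De Ω (1 : G) := fun hd => hd (Classical.arbitrary Ω) (one_smul _ _)
      simp only [fx_one, this, if_true, if_false]; omega
    · by_cases b : De Ω x
      · simp [a, b, fx_zero b]
      · have := h1 x a
        simp only [a, b, if_false]; omega
  rw [Finset.sum_add_distrib, Finset.sum_add_distrib, h, Finset.sum_const, Finset.card_univ,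
    Finset.sum_boole, Finset.sum_ite_eq'] at h2
  simp only [smul_eq_mul, mul_one, Nat.cast_id, add_le_add_iff_left, Finset.mem_univ, if_true] at h2
  rw [Set.ncard_eq_toFinset_card']
  have e : ({x : G | De Ω x}.toFinset).card = (Finset.univ.filter fun x : G => De Ω x).card := by
    congr 1; ext; simp
  omega

end count

/-- the end-game hypothesis supplied by the automorphism group -/
def En (G Ω : Type*) [Group G] [MulAction G Ω] : Prop :=
  ∀ (u : ℕ) (_ : Fact u.Prime) (U : Sylow u G), ∃ ω : Ω,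
    ∀ y ∈ centralizer ((U : Subgroup G) : Set G), y • ω ≠ ω →
      ∃ z ∈ centralizer ((U : Subgroup G) : Set G), z ≠ 1 ∧
        ∀ h : G, h • ω = ω → h • y • ω = y • ω → Commute h z

theorem half {Ω : Type*} [Finite Ω] [Nontrivial Ω] [MulAction G Ω] [MulAction.IsPretransitive G Ω]
    [IsSimpleGroup G] (hns : ¬ Group.IsSolvable G) (A B : Set ℕ)
    (hAB : ∀ r : ℕ, r.Prime → r ∈ A ∨ r ∈ B) (hA : ∀ x : G, De Ω x → ∀ r ∈ A, ¬ r ∣ cs[x])
    (hen : En G Ω) {b' : G} (hb1 : b' ≠ 1) (hb : ∀ r ∈ B, ¬ r ∣ cs[b']) (hf : fx Ω b' = 1) :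
    False := by
  classical
  obtain ⟨⟨ω₀, hω₀⟩, hu₀⟩ := Nat.card_eq_one_iff_exists.1 hf
  have hst : ∀ c ∈ Ce[b'], c • ω₀ = ω₀ := fun c hc => by
    have : b' • c • ω₀ = c • ω₀ := by
      rw [← mul_smul, ← (mem_C.1 hc).eq, mul_smul, (hω₀ : b' • ω₀ = ω₀)]
    exact congrArg Subtype.val (hu₀ ⟨_, this⟩)
  have hT : ∀ z : G, (∀ r ∈ A, ¬ r ∣ cs[z]) → ∀ ω : Ω, ∃ c ∈ Ce[z], c • ω₀ = ω := by
    intro z hz ω
    obtain ⟨g, rfl⟩ := MulAction.exists_smul_eq G ω₀ ω
    obtain ⟨c, hc, y, hy, rfl⟩ := H93.exists_mul_of_coprime_index (Ce[b']) (Ce[z])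
      (Nat.Coprime.symm (Nat.coprime_of_dvd fun r hr h1 h2 =>
        (hAB r hr).elim (fun a => hz r a h1) (fun a => hb r a h2))) g
    exact ⟨c, hc, by rw [mul_smul, hst y hy]⟩
  have hD : ∀ z : G, z ≠ 1 → (∀ r ∈ A, ¬ r ∣ cs[z]) → De Ω z := by
    intro z hz1 hz ω hω
    have h1 : ∀ ω' : Ω, z • ω' = ω' := fun ω' => by
      obtain ⟨c, hc, e⟩ := hT z hz ω
      obtain ⟨c', hc', rfl⟩ := hT z hz ω'
      have : c' • ω₀ = (c' * c⁻¹) • ω := by rw [← e, ← mul_smul]; simp
      rw [this, ← mul_smul, ← (mem_C.1 (mul_mem hc' (inv_mem hc))).eq, mul_smul, hω]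
    have h2 : z ∈ (MulAction.toPermHom G Ω).ker := by
      rw [MonoidHom.mem_ker]; ext ω'; exact h1 ω'
    rcases (MonoidHom.normal_ker (MulAction.toPermHom G Ω)).eq_bot_or_eq_top with e | e
    · exact hz1 (by rwa [e] at h2)
    · obtain ⟨ω₁, ω₂, hne⟩ := exists_pair_ne Ω
      obtain ⟨g, rfl⟩ := MulAction.exists_smul_eq G ω₁ ω₂
      have : g ∈ (MulAction.toPermHom G Ω).ker := e ▸ mem_top g
      exact hne (congrArg (fun f : Equiv.Perm Ω => f ω₁) (MonoidHom.mem_ker.1 this)).symm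
  have hdv : ∀ {x y : G}, Ce[x] ≤ Ce[y] → De Ω x → y ≠ 1 → De Ω y := fun h hx hy =>
    hD _ hy fun r a h1 => hA _ hx r a (h1.trans (cs_dvd_of_le h))
  have hpw : ∀ {x y : G}, x ∈ zpowers y → De Ω x → De Ω y := fun {x y} h hx ω hω =>
    hx ω ((zpowers_le.2 (MulAction.mem_stabilizer_iff.2 hω) : zpowers y ≤ MulAction.stabilizer G ω) h)
  have hF : ∀ (c : G) (r : ℕ), r.Prime → r ∈ B → orderOf c = r → ¬ De Ω c := by
    intro c r hr hrB hc hd
    haveI := Fact.mk hr
    obtain ⟨R, hR⟩ := not_dvd_cs_iff.1 (hb r hrB)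
    obtain ⟨x, hx⟩ := exists_conj_mem_sylow R (g := c) ⟨1, by rw [hc, pow_one]⟩
    refine hd (x⁻¹ • ω₀) ?_
    have := hst _ (hR hx)
    rw [← mul_smul, eq_inv_smul_iff, ← mul_smul, ← mul_assoc, this]
  have hF' : ∀ b : G, De Ω b → ∀ r : ℕ, r.Prime → r ∣ Nat.card (Ce[b]) → r ∉ B := by
    intro b hd r hr h hrB
    haveI := Fact.mk hr
    by_cases h1 : r ∣ orderOf b
    · have h2 := orderOf_pow_orderOf_div (x := b) (orderOf_pos b).ne' h1
      refine hF _ r hr hrB h2 (hdv (C_le_C_pow b _) hd fun e => ?_)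
      rw [e, orderOf_one] at h2
      exact hr.one_lt.ne h2
    · obtain ⟨c, hc⟩ := exists_prime_orderOf_dvd_card' r h
      rw [← Subgroup.orderOf_coe] at hc
      have hcom : Commute b (c : G) := mem_C'.1 c.2
      have hco : (orderOf b).Coprime (orderOf (c : G)) := by
        rw [hc]; exact ((Nat.Prime.coprime_iff_not_dvd hr).2 h1).symm
      refine hF _ r hr hrB hc (hdv (C_le_C_of_mem_zpowers (mem_zpowers_mul_of_coprime' hcom hco))
        (hpw (mem_zpowers_mul_of_coprime hcom hco) hd) fun e => ?_)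
      rw [e, orderOf_one] at hc
      exact hr.one_lt.ne hc
  have hG : ∀ {b b₂ : G}, De Ω b → De Ω b₂ → Ce[b₂] ≤ Ce[b] → Ce[b₂] = Ce[b] := by
    intro b b₂ hd hd₂ hle
    refine le_antisymm hle (relIndex_eq_one.1 (Nat.eq_one_iff_not_exists_prime_dvd.2 ?_))
    intro r hr h
    exact hA _ hd₂ r ((hAB r hr).resolve_right (hF' b hd r hr (h.trans (relIndex_dvd_card _ _))))
      (h.trans (relIndex_dvd_index_of_le hle))
  have hH : ∀ {b c : G} {u : ℕ}, u.Prime → De Ω b → orderOf b = u → c ∈ Ce[b] → ¬ u ∣ orderOf c →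
      Ce[b] ≤ Ce[c] := by
    intro b c u hu hd ho hc h
    have hcom : Commute b c := mem_C'.1 hc
    have hco : (orderOf b).Coprime (orderOf c) := by
      rw [ho]; exact (Nat.Prime.coprime_iff_not_dvd hu).2 h
    have e := C_mul_of_coprime hcom hco
    have := hG hd (hpw (mem_zpowers_mul_of_coprime hcom hco) hd) (e ▸ inf_le_left)
    rw [← this, e]; exact inf_le_right
  -- a derangement of prime order
  have h2 : 2 ≤ Nat.card Ω := Finite.one_lt_card
  obtain ⟨b₀, hb₀⟩ : {x : G | De Ω x}.Nonempty := by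
    have := ncard_le_de (Ω := Ω) ({1} : Set G) fun x hx => by rw [hx, fx_one]; exact h2
    rw [Set.ncard_singleton] at this
    exact Set.nonempty_of_ncard_ne_zero (by omega)
  have hne : ∀ {x : G}, De Ω x → x ≠ 1 := fun hx e => hx ω₀ (by rw [e, one_smul])
  obtain ⟨u, hu, hud⟩ := Nat.exists_prime_and_dvd (n := orderOf b₀) fun e => hne hb₀ (orderOf_eq_one_iff.1 e)
  have hbo := orderOf_pow_orderOf_div (x := b₀) (orderOf_pos b₀).ne' hud
  set b := b₀ ^ (orderOf b₀ / u) with hbdef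
  have one_ne : ∀ {x : G} {r : ℕ}, r.Prime → orderOf x = r → x ≠ 1 := fun hr h e => by
    rw [e, orderOf_one] at h; exact hr.one_lt.ne h
  have hd : De Ω b := hdv (C_le_C_pow b₀ _) hb₀ (one_ne hu hbo)
  by_cases hY : ∀ w : ℕ, w.Prime → w ∣ Nat.card (Ce[b]) → w = u
  · have h1 : ∃ k, cs[b'] = u ^ k := by
      refine (eq_pow_iff_forall hu (cs_ne_zero b')).2 fun r hr h => hY r hr ?_
      have hrA := (hAB r hr).resolve_right fun a => hb r a h
      have := h.trans (cs_dvd_card b')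
      rw [← cs_mul_card b] at this
      exact ((Nat.Prime.dvd_mul hr).1 this).resolve_left (hA b hd r hrA)
    have h3 := kazarin hu G b' h1
    rcases (normalClosure_normal (s := ({b'} : Set G))).eq_bot_or_eq_top with e | e
    · exact hb1 (by simpa [e] using subset_normalClosure (s := ({b'} : Set G)) (Set.mem_singleton b'))
    · rw [e] at h3
      exact hns (solvable_of_surjective (f := (⊤ : Subgroup G).subtype) fun g => ⟨⟨g, mem_top g⟩, rfl⟩)
  push Not at hY
  obtain ⟨w, hw, hwd, hwu⟩ := hY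
  haveI := Fact.mk hw
  obtain ⟨c, hc⟩ := exists_prime_orderOf_dvd_card' w hwd
  rw [← Subgroup.orderOf_coe] at hc
  have hbc : Ce[b] ≤ Ce[(c : G)] := hH hu hd hbo c.2 fun h =>
    hwu ((Nat.prime_dvd_prime_iff_eq hu hw).1 (hc ▸ h)).symm
  have hdc : De Ω (c : G) := hdv hbc hd (one_ne hw hc)
  have ebc : Ce[b] = Ce[(c : G)] := hG hdc hd hbc
  have hab : ∀ g ∈ Ce[b], Ce[b] ≤ Ce[g] := by
    intro g hg
    rw [le_C_iff]
    refine mem_of_forall_primePow fun y hy s hs _ hys => le_C_iff.1 ?_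
    have hy' : y ∈ Ce[b] := (zpowers_le.2 hg) hy
    by_cases e : s = u
    · subst e
      rw [ebc] at hy' ⊢
      exact hH hw hdc hc hy' (not_dvd_of_eq_pow hw hs hwu hys)
    · exact hH hu hd hbo hy' (not_dvd_of_eq_pow hu hs (Ne.symm e) hys)
  have hdY : ∀ y ∈ Ce[b], y ≠ 1 → De Ω y := fun y hy h1 => hdv (hab y hy) hd h1
  haveI := Fact.mk hu
  have huA : u ∈ A := (hAB u hu).resolve_right
    (hF' b hd u hu (hbo ▸ orderOf_dvd_natCard _ (self_mem_C b)))
  obtain ⟨U, hU1, hU2⟩ := exists_sylow_between (hA b hd u huA)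
    ((isPGroup_zpowers_iff b).2 ⟨1, by rw [hbo, pow_one]⟩) (zpowers_le_C b)
  have hCU : centralizer ((U : Subgroup G) : Set G) = Ce[b] := by
    refine le_antisymm (centralizer_le ?_) fun y hy => le_C_iff.1 (hU2.trans (hab y hy))
    rintro _ rfl
    exact hU1 (mem_zpowers b)
  obtain ⟨ω, hω⟩ := hen u inferInstance U
  rw [hCU] at hω
  have htr : ∀ ω' : Ω, ∃ y ∈ Ce[b], y • ω = ω' := fun ω' => by
    obtain ⟨c₁, hc₁, e₁⟩ := hT b (hA b hd) ω
    obtain ⟨c₂, hc₂, e₂⟩ := hT b (hA b hd) ω'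
    exact ⟨c₂ * c₁⁻¹, mul_mem hc₂ (inv_mem hc₁), by rw [← e₁, ← mul_smul, ← e₂]; simp⟩
  have hle1 : ∀ x : G, x ≠ 1 → fx Ω x ≤ 1 := by
    intro x hx
    refine Finite.card_le_one_iff_subsingleton.2 ⟨fun ⟨ω₁, h₁⟩ ⟨ω₂, h₂⟩ => Subtype.ext ?_⟩
    by_contra hn
    obtain ⟨g, rfl⟩ := MulAction.exists_smul_eq G ω ω₁
    obtain ⟨y, hy, e⟩ := htr (g⁻¹ • ω₂)
    have e2 : ω₂ = g • y • ω := by rw [e, smul_inv_smul]
    have f1 : (g⁻¹ * x * g) • ω = ω := by
      rw [mul_smul, mul_smul, (h₁ : x • g • ω = g • ω), inv_smul_smul]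
    have f2 : (g⁻¹ * x * g) • y • ω = y • ω := by
      rw [mul_smul, mul_smul, ← e2, (h₂ : x • ω₂ = ω₂), e]
    obtain ⟨z, hz, hz1, hzc⟩ := hω y hy fun e3 => hn (show g • ω = ω₂ by rw [e2, e3])
    have f3 : g⁻¹ * x * g ∈ Ce[b] := by
      rw [hG (hdY z hz hz1) hd (hab z hz)]; exact mem_C.2 (hzc _ f1 f2)
    refine hdY _ f3 (fun e4 => hx ?_) ω f1
    calc x = g * (g⁻¹ * x * g) * g⁻¹ := by group
      _ = 1 := by rw [e4]; group
  have c1 := ncard_de_lt hle1
  have c2 : Nat.card Ω ≤ Nat.card (Ce[b]) :=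
    Nat.card_le_card_of_surjective (fun y : Ce[b] => (y : G) • ω) fun ω' => by
      obtain ⟨y, hy, e⟩ := htr ω'
      exact ⟨⟨y, hy⟩, e⟩
  have hsub : ((Ce[b] : Subgroup G) : Set G) \ {1} ⊆ {x : G | De Ω x} := fun y hy => hdY y hy.1 hy.2
  have c3 : (((Ce[b] : Subgroup G) : Set G) \ {1}).ncard + 1 = Nat.card (Ce[b]) := by
    rw [Set.ncard_diff_singleton_add_one (one_mem (Ce[b]))]; rfl
  have heq := Set.eq_of_subset_of_ncard_le hsub (by omega)
  have hN : (Ce[b]).Normal := ⟨fun y hy g => by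
    by_cases h1 : y = 1
    · simp [h1]
    · have : g * y * g⁻¹ ∈ {x : G | De Ω x} := fun ω' e => hdY y hy h1 (g⁻¹ • ω') (by
        rw [← mul_smul, eq_inv_smul_iff, ← mul_smul, ← mul_assoc, e])
      rw [← heq] at this
      exact this.1⟩
  rcases hN.eq_bot_or_eq_top with e | e
  · exact hne hd (by simpa [e] using self_mem_C b)
  · exact hns (isSolvable_of_comm fun x y => (mem_C.1 (hab y (e ▸ mem_top y) (e ▸ mem_top x))).eq)

theorem crux {Ω₁ Ω₂ : Type*} [Finite Ω₁] [Nontrivial Ω₁] [MulAction G Ω₁]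
    [MulAction.IsPretransitive G Ω₁] [Finite Ω₂] [Nontrivial Ω₂] [MulAction G Ω₂]
    [MulAction.IsPretransitive G Ω₂] [IsSimpleGroup G] (hns : ¬ Group.IsSolvable G) (A B : Set ℕ)
    (hAB : ∀ r : ℕ, r.Prime → r ∈ A ∨ r ∈ B) (hA : ∀ x : G, De Ω₁ x → ∀ r ∈ A, ¬ r ∣ cs[x])
    (hB : ∀ x : G, De Ω₂ x → ∀ r ∈ B, ¬ r ∣ cs[x]) (h12 : ∀ x : G, De Ω₁ x → ¬ De Ω₂ x)
    (e₁ : En G Ω₁) (e₂ : En G Ω₂) : False := by
  have n1 : ¬ De Ω₁ (1 : G) := fun h => h (Classical.arbitrary Ω₁) (one_smul _ _)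
  have n2 : ¬ De Ω₂ (1 : G) := fun h => h (Classical.arbitrary Ω₂) (one_smul _ _)
  have k1 : ∀ x : G, De Ω₂ x → 2 ≤ fx Ω₁ x := fun x hx => by
    by_contra h
    have := fx_pos fun h1 => h12 x h1 hx
    exact half hns A B hAB hA e₁ (fun e => n2 (e ▸ hx)) (hB x hx) (by omega)
  have k2 : ∀ x : G, De Ω₁ x → 2 ≤ fx Ω₂ x := fun x hx => by
    by_contra h
    have := fx_pos (h12 x hx)
    exact half hns B A (fun r hr => (hAB r hr).symm) hB e₂ (fun e => n1 (e ▸ hx)) (hA x hx) (by omega)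
  have c1 := ncard_le_de (Ω := Ω₁) (insert 1 {x : G | De Ω₂ x}) fun x hx =>
    hx.elim (fun e => by rw [e, fx_one]; exact Finite.one_lt_card) (k1 x)
  have c2 := ncard_le_de (Ω := Ω₂) {x : G | De Ω₁ x} k2
  rw [Set.ncard_insert_of_notMem n2] at c1
  omega

end Cfsg.Agent.H92.Di
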