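import Cfsg.Agent.H50.L81Defs

/-! Project L81, piece CASEA: the regular cases. -/

set_option autoImplicit false

namespace Cfsg.Agent.H92.L81CaseA

open Cfsg.Lie H37 H40 H34 H29 H82 H50.SL2S H50.E83 H50.L81

theorem prim2 : IsPrimitiveRoot (-1 : Kˣ) 2 := by
  rw [← IsPrimitiveRoot.coe_units_iff]
  exact IsPrimitiveRoot.neg_one 3 (by norm_num)

theorem comm_of {g : GK} {a b : G0} (h : Commute (g⁻¹ * ι a * g) (g⁻¹ * ι b * g)) : Commute a b := by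
  apply ι_injective
  have e := h.eq
  rw [map_mul, map_mul]
  calc ι a * ι b = g * (g⁻¹ * ι a * g * (g⁻¹ * ι b * g)) * g⁻¹ := by group
    _ = g * (g⁻¹ * ι b * g * (g⁻¹ * ι a * g)) * g⁻¹ := by rw [e]
    _ = ι b * ι a := by group

theorem casea (par : ParStmt) (fr : FrameStmt) (zel : ZelStmt) (nrm : NrmStmt) (top : TopStmt)
    (good : GoodStmt) (hc : ∀ i < 3, CombStmt i) (stw : StwStmt) (neg : NgStmt) : CaseaStmt := by
  intro i hi H ψ hH hE p hch t ht hconj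
  obtain ⟨-, hcl, -, hp⟩ := par
  obtain ⟨-, -, -, -, -, -, hzy, -, -, hw, -⟩ := hp p
  obtain ⟨w, hwW, hw3, hA⟩ := hc i hi
  obtain ⟨n, hn, rfl⟩ := zel.2.2.1 w hwW
  obtain ⟨g, hg, hgt⟩ := fr (ψ (t0 p)) 40 (zy p) t (ff i) (by norm_num) hzy ht hconj n hn hw3
  obtain ⟨A, hgood, hU⟩ := good ψ hE.1 p i hch (stw i hi).1 g n hn hg (hgt ▸ ht)
  obtain ⟨χ, hadd, hχ, ⟨r, hr⟩, hev⟩ := hA A hgood
  obtain ⟨z, hz⟩ := zel.2.1 g n hg hn χ hadd hχ
  have c1 : ∀ s, Commute z (ψ (uu s)) := fun s => comm_of (top.2.2 _ χ hz A hev _ (hU s))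
  have c2 : Commute z (ψ (ww F)) := by
    refine comm_of (neg i hi (zy p) t hzy ht _ ?_ _ χ hz)
    have e : ι (ψ (ww F)) * ι (ψ (t0 p)) * (ι (ψ (ww F)))⁻¹ = (ι (ψ (t0 p)))⁻¹ := by
      rw [← map_inv, ← map_inv, ← map_mul, ← map_mul, ← map_mul, ← map_mul, hw, map_inv, map_inv]
    rw [← hgt]
    calc g⁻¹ * ι (ψ (ww F)) * g * (g⁻¹ * ι (ψ (t0 p)) * g) * (g⁻¹ * ι (ψ (ww F)) * g)⁻¹
        = g⁻¹ * (ι (ψ (ww F)) * ι (ψ (t0 p)) * (ι (ψ (ww F)))⁻¹) * g := by group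
      _ = (g⁻¹ * ι (ψ (t0 p)) * g)⁻¹ := by rw [e]; group
  have c3 : ∀ s, Commute z (ψ s) := by
    intro s
    have hs : s ∈ Subgroup.closure (insert (ww F) (UU F : Set SL)) := hcl ▸ Subgroup.mem_top s
    induction hs using Subgroup.closure_induction with
    | mem x hx =>
      rcases hx with rfl | ⟨s, rfl⟩
      · exact c2
      · exact c1 _
    | one => rw [map_one]; exact Commute.one_right _
    | mul x y _ _ hx hy => rw [map_mul]; exact hx.mul_right hy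
    | inv x _ hx => rw [map_inv]; exact Commute.inv_right hx
  have hz1 := (nrm H ψ hH hE).1 z c3
  rw [hz1, map_one, mul_one, inv_mul_cancel] at hz
  have := (hz.eq_one_iff prim2).1 rfl r
  exact (Int.not_even_iff_odd.2 hr) (even_iff_two_dvd.2 ((ZMod.intCast_zmod_eq_zero_iff_dvd _ 2).1 this))

end Cfsg.Agent.H92.L81CaseA
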