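import Cfsg.Agent.H92.Ito
import Cfsg.Agent.H67.Hall
import Cfsg.Agent.H67.Elem
import Cfsg.Agent.H3.Frattini
import Cfsg.Agent.H51.Thompson
import Cfsg.Agent.H8.Tate
import Cfsg.Agent.S0659
import Cfsg.Agent.S0055

/-!
Normal subgroups all of whose non-central elements have a maximal centralizer.
-/

set_option autoImplicit false

namespace Cfsg.Agent.H92

open Subgroup Cfsg.Agent.H63 Cfsg.Agent.H67
open scoped Pointwise commutatorElement

variable {G : Type*} [Group G] [Finite G]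

theorem nilpotent_of_primePow_central {D : Subgroup G} {r : ℕ} (hr : r.Prime)
    (h : ∀ v ∈ D, ∀ q : ℕ, q.Prime → q ≠ r → (∃ k, orderOf v = q ^ k) → v ∈ C[D]) :
    Group.IsNilpotent D := by
  haveI := Fact.mk hr
  obtain ⟨k, hk⟩ : ∃ k, (C[D]).relIndex D = r ^ k := by
    refine (eq_pow_iff_forall hr (relIndex_ne_zero' _ _)).2 fun q hq hd => ?_
    obtain ⟨y, hy, hk, hyZ⟩ := exists_not_mem_of_dvd_relIndex hq hd
    by_contra hne
    exact hyZ (h y hy q hq hne hk)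
  have hle : (C[D]).subgroupOf D ≤ center D := fun z hz => mem_center_iff.2 fun g =>
    Subtype.ext (mem_centralizer_iff.1 hz g g.2)
  haveI : Group.IsNilpotent (D ⧸ center D) := by
    obtain ⟨j, hj⟩ := eq_pow_of_dvd_pow hr (hk ▸ index_dvd_of_le hle : (center D).index ∣ r ^ k)
    exact IsPGroup.isNilpotent (IsPGroup.of_card (p := r) hj)
  exact Group.of_quotient_center_nilpotent this

omit [Finite G] in
theorem le_normalizer_normal (K N : Subgroup G) [N.Normal] : K ≤ N[N] := by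
  rw [normalizer_eq_top]; exact le_top

/-- Every element of `N` outside `C(N)` has a maximal centralizer. -/
def MaxCent (N : Subgroup G) : Prop := ∀ x : G, x ∈ N → x ∉ C[N] → IsCoatom (Ce[x])

namespace MaxCent

variable {N : Subgroup G} [N.Normal]

theorem cop (h : MaxCent N) {a b : G} (ha : a ∈ N) (hb : b ∈ N) (haZ : a ∉ C[N]) (hbZ : b ∉ C[N])
    (hab : Commute a b) (hc : (orderOf a).Coprime (orderOf b)) : Ce[a] = Ce[b] := by
  have e := C_mul_of_coprime hab hc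
  have hZ : a * b ∉ C[N] := fun h => haZ (zpowers_le.2 h (mem_zpowers_mul_of_coprime hab hc))
  have h1 := h _ (mul_mem ha hb) hZ
  rw [← (h1.le_iff_eq (h a ha haZ).1).1 (e ▸ inf_le_left) |>.symm,
    (h1.le_iff_eq (h b hb hbZ).1).1 (e ▸ inf_le_right)]

theorem frattini_le (h : MaxCent N) {W : Subgroup G} [W.Normal] (hW : W ≤ N) :
    (frattini W).map W.subtype ≤ C[N] := fun φ hφ => mem_centralizer_iff.2 fun n hn => by
  by_cases hnZ : n ∈ C[N]
  · exact (mem_centralizer_iff.1 hnZ φ (hW (map_subtype_le _ hφ))).symm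
  · exact (mem_C.1 (H3.mem_frattini_iff.1 (H3.map_frattini_le_frattini W hφ) _ (h n hn hnZ))).symm

theorem nilp (h : MaxCent N) {x : G} (hx : x ∈ N) (hxZ : x ∉ C[N]) {r : ℕ} (hr : r.Prime)
    (hxr : ∃ k, orderOf x = r ^ k) : Group.IsNilpotent ↥(N ⊓ Ce[x]) := by
  refine nilpotent_of_primePow_central hr fun v hv q hq hqr hvq => ?_
  by_cases hvZ : v ∈ C[N]
  · exact centralizer_anti inf_le_left hvZ
  · rw [mem_centralizer_iff_le,
      h.cop hv.1 hx hvZ hxZ (mem_C.1 hv.2) (coprime_of_pow_of_pow hq hr hqr hvq hxr)]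
    exact inf_le_right

theorem caseP (h : MaxCent N) {p : ℕ} (hp : p.Prime)
    (hall : ∀ v ∈ N, ∀ q : ℕ, q.Prime → q ≠ p → (∃ k, orderOf v = q ^ k) → v ∈ C[N]) :
    ∀ a ∈ N, a ^ p ∈ C[N] ∧ ∀ b ∈ N, ⁅a, b⁆ ∈ C[N] := by
  haveI := Fact.mk hp
  have hnil := nilpotent_of_primePow_central hp hall
  haveI : (O[{p}](N)).Normal := normalIn_top_iff.1 ((normalIn_top_iff.2 inferInstance).piCoreOf _)
  have hP := isPGroup_pCoreOf hp N
  have hΦ := h.frattini_le (piCoreOf_le {p} N)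
  have dec : ∀ a ∈ N, ∃ u z : G, u ∈ O[{p}](N) ∧ z ∈ C[N] ∧ a = u * z := fun a ha => by
    obtain ⟨u, z, hu, hz, hab, hup, hzp⟩ := exists_p_parts hp a
    refine ⟨u, z, zpowers_le.1 (le_piCoreOf_of_isNilpotent hnil (zpowers_le.2 (zpowers_le.2 ha hu))
      (isPi_of_isPGroup hp ((H92.isPGroup_zpowers_iff u).2 hup))), ?_, hab⟩
    exact mem_of_forall_primePow fun y hy q hq hqz hyq =>
      hall y (zpowers_le.2 (zpowers_le.2 ha hz) hy) q hq (fun e => hzp (e ▸ hqz)) hyq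
  intro a ha
  obtain ⟨u, z, hu, hz, rfl⟩ := dec a ha
  have hc : ∀ n ∈ N, Commute n z := fun n hn => mem_centralizer_iff.1 hz n hn
  have huN := piCoreOf_le {p} N hu
  refine ⟨?_, fun b hb => ?_⟩
  · rw [(hc u huN).mul_pow]
    exact mul_mem (hΦ (H3.pow_mem_map_frattini hP hu)) (pow_mem hz p)
  · obtain ⟨u', z', hu', hz', rfl⟩ := dec b hb
    have e1 : ⁅u * z, u' * z'⁆ = ⁅u, u' * z'⁆ := by
      rw [commutatorElement_def, commutatorElement_def, mul_assoc u z, ← (hc _ hb).eq]; group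
    have e2 : ⁅u, u' * z'⁆ = ⁅u, u'⁆ := by
      have e3 : z' * u⁻¹ = u⁻¹ * z' := (mem_centralizer_iff.1 hz' _ (inv_mem huN)).symm
      calc ⁅u, u' * z'⁆ = u * u' * (z' * u⁻¹) * z'⁻¹ * u'⁻¹ := by rw [commutatorElement_def]; group
        _ = _ := by rw [e3, commutatorElement_def]; group
    rw [e1, e2]
    exact hΦ (H3.commutator_le_map_frattini hP (commutator_mem_commutator hu hu'))

theorem caseI (h : MaxCent N) {p q : ℕ} (hp : p.Prime) (hq : q.Prime) (hqp : q ≠ p)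
    {W : Subgroup G} [W.Normal] (hWN : W ≤ N) (hWab : IsMulCommutative W) (hWp : IsPGroup p W)
    (hWZ : ¬ W ≤ C[N]) {y : G} (hy : y ∈ N) (hyZ : y ∉ C[N]) (hyq : ∃ k, orderOf y = q ^ k)
    (hyq' : y ^ q ∈ C[N]) :
    W ⊓ Ce[y] ≤ C[N] ∧ zpowers y ⊔ (N ⊓ C[N] ⊔ W) = N := by
  haveI := Fact.mk hp
  have hWC : ∀ w ∈ W, W ≤ Ce[w] := fun w hw v hv => mem_C.2 (comm_of_isMulCommutative hWab hv hw)
  have hconj : ∀ w g : G, w ∉ C[N] → g * w * g⁻¹ ∉ C[N] := fun w g hw hc => hw (by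
    simpa [mul_assoc] using (inferInstance : (C[N]).Normal).conj_mem _ hc g⁻¹)
  have hsup : ∀ u ∈ N, u ∉ C[N] → ∀ L : Subgroup G, ¬ L ≤ Ce[u] → Ce[u] ⊔ L = ⊤ := fun u hu huZ L hL =>
    (h u hu huZ).2 _ (left_lt_sup.2 hL)
  have I1 : ∀ v ∈ N, v ∉ C[N] → ∀ s : ℕ, s.Prime → s ≠ p → (∃ k, orderOf v = s ^ k) →
      W ⊓ Ce[v] ≤ C[N] := by
    intro v hv hvZ s hs hsp hvs w hw
    by_contra hwZ
    haveI := Fact.mk hs
    have e : ∀ w ∈ W, w ∉ C[N] → Commute w v → Ce[w] = Ce[v] := fun w hw hwZ hc =>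
      h.cop (hWN hw) hv hwZ hvZ hc
        (coprime_of_pow_of_pow hp hs hsp.symm (orderOf_eq_pow_of_mem hWp hw) hvs)
    have e1 := e w hw.1 hwZ (mem_C.1 hw.2)
    have e2 : ∀ g : G, Ce[g * v * g⁻¹] = Ce[v] := fun g => by
      have h1 : g * w * g⁻¹ ∈ W := Normal.conj_mem inferInstance w hw.1 g
      rw [C_conj, ← e1, ← C_conj, e1]
      exact e _ h1 (hconj w g hwZ) (mem_C.1 (e1 ▸ hWC w hw.1 h1))
    obtain ⟨u, hu, huv⟩ := SetLike.not_le_iff_exists.1 (fun hle => hvZ (mem_centralizer_iff_le.2 hle))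
    have huZ : u ∉ C[N] := fun hc => huv (mem_C.2 (mem_centralizer_iff.1 hc v hv).symm)
    have h1 := hsup u hu huZ W fun hle => huv (e1 ▸ mem_C_comm.1 (hle hw.1))
    have h2 : ¬ s ∣ cs[u] := fun hd => by
      rw [H3.index_eq_relIndex_of_sup_eq_top h1] at hd
      obtain ⟨k, hk⟩ := IsPGroup.iff_card.1 hWp
      exact not_dvd_of_eq_pow hs hp hsp ⟨k, hk⟩ (hd.trans (index_dvd_card _))
    obtain ⟨S, hS⟩ := not_dvd_cs_iff.1 h2
    obtain ⟨g, hg⟩ := exists_conj_mem_sylow S hvs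
    exact huv (e2 g ▸ mem_C_comm.1 (hS hg))
  have hy1 := I1 y hy hyZ q hq hqp hyq
  refine ⟨hy1, ?_⟩
  have hWy : ¬ W ≤ Ce[y] := fun hle => hWZ ((le_inf le_rfl hle).trans hy1)
  have I2 : ∀ u ∈ N ⊓ Ce[y], (∃ k, orderOf u = p ^ k) → u ∈ C[N] := by
    intro u hu hup
    by_contra huZ
    have e := h.cop hu.1 hy huZ hyZ (mem_C.1 hu.2) (coprime_of_pow_of_pow hp hq hqp.symm hup hyq)
    haveI := Fact.mk hq
    obtain ⟨h1, h2⟩ := S0055.result (zpowers y) W (le_normalizer_normal _ _)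
      (IsPGroup.coprime_card_of_ne q p hqp _ _ ((H92.isPGroup_zpowers_iff y).2 hyq) hWp)
    rw [centralizer_zpowers] at h1 h2
    have hB : ⁅W, zpowers y⁆ ≤ W := h2.le.trans' le_sup_right
    refine H67.inf_centralizer_ne_bot_of_isPGroup hp ((H92.isPGroup_zpowers_iff u).2 hup)
      (hWp.to_le hB) (le_normalizer_commutator (le_normalizer_normal _ _)
        (le_normalizer_of_le_centralizer (by rw [centralizer_zpowers]; exact zpowers_le.2 hu.2)))
      (fun hb => hWy (by rw [hb, sup_bot_eq] at h2; exact h2.ge.trans inf_le_right)) ?_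
    rw [centralizer_zpowers, e, eq_bot_iff, ← h1]
    exact fun a ha => ⟨⟨hB ha.1, ha.2⟩, ha.1⟩
  have I3 : ∀ v ∈ N ⊓ Ce[y], v ∉ C[N] → W ⊓ Ce[v] ≤ C[N] := fun v hv hvZ => by
    obtain ⟨v', hv', s, hs, -, hvs, hv'Z⟩ := exists_primePow_not_mem hvZ
    have h1 : v' ∈ N ⊓ Ce[y] := zpowers_le.2 hv hv'
    exact (inf_le_inf_left W (C_le_C_of_mem_zpowers hv')).trans
      (I1 v' h1.1 hv'Z s hs (fun e => hv'Z (I2 v' h1 (e ▸ hvs))) hvs)
  obtain ⟨w, hw, hwZ⟩ := SetLike.not_le_iff_exists.1 hWZ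
  have h1 := hsup y hy hyZ W hWy
  have hK : N ⊓ Ce[w] ≤ N ⊓ C[N] ⊔ W := fun n hn => by
    obtain ⟨d, hd, w', hw', rfl⟩ := mem_sup_of_normal_right.1 (show n ∈ Ce[y] ⊔ W by rw [h1]; trivial)
    have hdN : d ∈ N := (N.mul_mem_cancel_right (hWN hw')).1 hn.1
    refine mul_mem_sup ⟨hdN, ?_⟩ hw'
    by_contra hdZ
    exact hwZ (I3 d ⟨hdN, hd⟩ hdZ ⟨hw, mem_C_comm.1
      ((Subgroup.mul_mem_cancel_right _ (hWC w hw hw')).1 hn.2)⟩)
  set L := zpowers y ⊔ (N ⊓ C[N] ⊔ W) with hL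
  have hLN : L ≤ N := sup_le (zpowers_le.2 hy) (sup_le inf_le_left hWN)
  haveI hLn : L.Normal := by
    rw [← normalizer_eq_top_iff, eq_top_iff, ← h1]
    refine sup_le (le_normalizer_sup ?_ (le_normalizer_normal _ _))
      (le_normalizer_of_le (le_sup_right.trans le_sup_right))
    exact le_normalizer_of_le_centralizer (by rw [centralizer_zpowers])
  have h2 := hsup w (hWN hw) hwZ L fun hle =>
    hwZ (hy1 ⟨hw, mem_C_comm.1 (hle (le_sup_left (a := zpowers y) (mem_zpowers y)))⟩)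
  refine le_antisymm hLN fun n hn => ?_
  obtain ⟨c, hc, l, hl, rfl⟩ := mem_sup_of_normal_right.1 (show n ∈ Ce[w] ⊔ L by rw [h2]; trivial)
  exact mul_mem (le_sup_right (a := zpowers y) (hK ⟨(N.mul_mem_cancel_right (hLN hl)).1 hn, hc⟩)) hl

theorem caseII (h : MaxCent N)
    (hno : ∀ (p : ℕ) (W : Subgroup G), p.Prime → W.Normal → W ≤ N → IsMulCommutative W →
      IsPGroup p W → W ≤ C[N])
    {r : ℕ} (hr : r.Prime) (hr2 : r ≠ 2) {x : G} (hx : x ∈ N) (hxZ : x ∉ C[N])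
    (hxr : ∃ k, orderOf x = r ^ k) : False := by
  have key : ∀ s : ℕ, s.Prime → ∀ u ∈ N, u ∉ C[N] → (∃ k, orderOf u = s ^ k) →
      ∀ W : Subgroup G, u ∈ W → W ≤ O[{s}](N ⊓ Ce[u]) → IsMulCommutative W →
        N[O[{s}](N ⊓ Ce[u])] ≤ N[W] → N[W] = Ce[u] := by
    intro s hs u hu huZ hus W huW hW hWab hn
    have h1 : Ce[u] ≤ N[W] := (le_normalizer_piCoreOf (le_normalizer_inf (le_normalizer_normal _ _)
      le_normalizer)).trans hn
    refine ((h u hu huZ).le_iff_eq fun ht => huZ ?_).1 h1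
    exact hno s W hs (normalizer_eq_top_iff.1 ht) (hW.trans ((piCoreOf_le _ _).trans inf_le_left)) hWab
      ((isPGroup_pCoreOf hs _).to_le hW) huW
  have hmem : ∀ s : ℕ, s.Prime → ∀ u ∈ N, u ∉ C[N] → (∃ k, orderOf u = s ^ k) →
      u ∈ Z[O[{s}](N ⊓ Ce[u])] := by
    intro s hs u hu huZ hus
    haveI := Fact.mk hs
    refine ⟨zpowers_le.1 (le_piCoreOf_of_isNilpotent (h.nilp hu huZ hs hus)
      (zpowers_le.2 ⟨hu, self_mem_C u⟩) (isPi_of_isPGroup hs ((H92.isPGroup_zpowers_iff u).2 hus))), ?_⟩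
    exact mem_centralizer_iff_le.2 ((piCoreOf_le _ _).trans inf_le_right)
  have hsyl : ∀ s : ℕ, s.Prime → ∀ u ∈ N, u ∉ C[N] → (∃ k, orderOf u = s ^ k) →
      N[O[{s}](N ⊓ Ce[u])] ≤ Ce[u] ∧ IsSyl s O[{s}](N ⊓ Ce[u]) N := by
    intro s hs u hu huZ hus
    haveI := Fact.mk hs
    have h1 := (normalizer_le_normalizer_center _).trans (key s hs u hu huZ hus _
      (hmem s hs u hu huZ hus) inf_le_left (isMulCommutative_center _)
      (normalizer_le_normalizer_center _)).le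
    exact ⟨h1, syl_of_normalizer_le (hall_piCoreOf_of_isNilpotent _ (h.nilp hu huZ hs hus)) inf_le_left
      (inf_le_inf_left N h1)⟩
  haveI := Fact.mk hr
  set R := O[{r}](N ⊓ Ce[x]) with hR
  obtain ⟨-, hRs⟩ := hsyl r hr x hx hxZ hxr
  have hxR := hmem r hr x hx hxZ hxr
  have hWR : centerThompsonAOf R ≤ R := H51.centerThompsonAOf_eq R ▸ H51.centerThompsonOf_le 0 R
  have hW : N[centerThompsonAOf R] = Ce[x] := key r hr x hx hxZ hxr _
    (H51.center_le_centerThompsonAOf R hxR) hWR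
    (H51.centerThompsonAOf_eq R ▸ H51.centerThompsonOf_comm 0 R)
    (H51.centerThompsonAOf_eq R ▸ H51.normalizer_le_normalizer_centerThompsonOf 0 R)
  obtain ⟨P, hP⟩ := exists_sylow_subgroupOf hRs
  have hnpc : HasNormalPComplement r N := by
    refine S0659.result hr2 P ?_
    have e1 : centerThompsonAOf (P : Subgroup N) = (centerThompsonAOf R).subgroupOf N := by
      rw [← subgroupOf_map_subtype' (centerThompsonAOf (P : Subgroup N)), H51.centerThompsonAOf_eq,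
        H51.map_centerThompsonOf 0 _ N.subtype_injective, hP, map_subtype_subgroupOf (hall_le hRs),
        H51.centerThompsonAOf_eq]
    rw [e1, normalizer_subgroupOf (hWR.trans (hall_le hRs)), hW,
      ← inf_subgroupOf_left]
    haveI := h.nilp hx hxZ hr hxr
    haveI : Group.IsNilpotent ((N ⊓ Ce[x]).subgroupOf N) :=
      nilpotent_of_mulEquiv (subgroupOfEquivOfLe inf_le_left).symm
    exact H8.hasNormalPComplement_of_isNilpotent r
  obtain ⟨P', K', hK'n, hK'⟩ := hnpc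
  set K := K'.map N.subtype with hK
  have hKN : K ⊴ N := map_subtype_normalIn K'
  have hKr : ¬ r ∣ Nat.card K := by
    rw [H67.card_map_subtype, ← hK'.index_eq_card]; exact P'.not_dvd_index
  have hKh : IsPiHallOf {r}ᶜ K N := hall_mk hKN.le ((isPi_compl_singleton_iff hr).2 hKr) (by
    rw [piNat_compl_compl, relIndex_map_subtype, hK'.symm.index_eq_card]
    exact (piNat_singleton_iff hr Nat.card_pos.ne').2 (IsPGroup.iff_card.1 P'.isPGroup'))
  have hnd : ∀ {s : ℕ} [Fact s.Prime] {S : Subgroup G}, IsSyl s S N → S ≤ Ce[x] →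
      ¬ s ∣ (Ce[x]).relIndex N := fun hS hle hd =>
    syl_not_dvd hS (hd.trans (relIndex_dvd_of_le_left N hle))
  refine hxZ (mem_centralizer_iff_le.2 (relIndex_eq_one.1 ?_))
  refine Nat.eq_one_iff_not_exists_prime_dvd.2 fun s hs hd => ?_
  haveI := Fact.mk hs
  by_cases hsr : s = r
  · subst hsr
    exact hnd hRs ((piCoreOf_le _ _).trans inf_le_right) hd
  obtain ⟨u, hu, hus, hux⟩ := exists_not_mem_of_dvd_relIndex hs hd
  have huZ : u ∉ C[N] := fun hc => hux (mem_C.2 (mem_centralizer_iff.1 hc x hx).symm)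
  obtain ⟨hS1, hS⟩ := hsyl s hs u hu huZ hus
  set D := N ⊓ Ce[u] with hD
  have hSK : O[{s}](D) ≤ K := le_of_normal_hall hKh hKN (hall_le hS)
    (isPi_compl_of_isPGroup hs (syl_isPGroup hS) hsr)
  have h1 : D ⊔ K = N := le_antisymm (sup_le inf_le_left hKN.le) (by
    rw [← frattini_arg hKN (hall_of_le hS hSK hKN.le)]
    exact sup_le le_sup_right ((inf_le_inf_left N hS1).trans le_sup_left))
  have h2 : ¬ r ∣ D.relIndex N := fun hd => hKr (by
    rw [← h1, sup_comm, relIndex_sup_of_le_normalizer' (Or.inl (inf_le_left.trans hKN.norm))] at hd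
    exact hd.trans (index_dvd_card _))
  have hDn := h.nilp hu huZ hs hus
  have hR' : IsSyl r O[{r}](D) N := hall_of_relIndex (hall_piCoreOf_of_isNilpotent _ hDn) inf_le_left
    ((piNat_compl_singleton_iff hr).2 h2)
  obtain ⟨g, hg, hgR⟩ := syl_conj hR' hRs
  have h3 : O[{s}](D) ≤ C[O[{r}](D)] := le_centralizer_of_isNilpotent_of_coprime hDn (piCoreOf_le _ _)
    (piCoreOf_le _ _) (IsPGroup.coprime_card_of_ne s r hsr _ _ (syl_isPGroup hS) (syl_isPGroup hR'))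
  refine hnd (hall_cj_of_mem hS hg) ((cj_mono h3).trans ?_) hd
  rw [cj_centralizer, ← hgR]
  exact centralizer_le_centralizer_singleton hxR.1

/-- The structure theorem. -/
theorem main (h : MaxCent N) :
    (∃ p : ℕ, p.Prime ∧ ∀ a ∈ N, a ^ p ∈ C[N] ∧ ∀ b ∈ N, ⁅a, b⁆ ∈ C[N]) ∨
    ∃ (p q : ℕ) (W : Subgroup G) (y : G), p.Prime ∧ q.Prime ∧ q ≠ p ∧ W.Normal ∧ W ≤ N ∧
      IsMulCommutative W ∧ IsPGroup p W ∧ ¬ W ≤ C[N] ∧ (∀ w ∈ W, w ^ p ∈ C[N]) ∧ y ∈ N ∧ y ∉ C[N] ∧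
      (∃ k, orderOf y = q ^ k) ∧ y ^ q ∈ C[N] ∧ W ⊓ Ce[y] ≤ C[N] ∧
      zpowers y ⊔ (N ⊓ C[N] ⊔ W) = N := by
  by_cases hP : ∃ p : ℕ, p.Prime ∧
      ∀ v ∈ N, ∀ q : ℕ, q.Prime → q ≠ p → (∃ k, orderOf v = q ^ k) → v ∈ C[N]
  · obtain ⟨p, hp, hall⟩ := hP
    exact Or.inl ⟨p, hp, h.caseP hp hall⟩
  push Not at hP
  right
  by_cases hno : ∀ (p : ℕ) (W : Subgroup G), p.Prime → W.Normal → W ≤ N → IsMulCommutative W →
      IsPGroup p W → W ≤ C[N]
  · obtain ⟨x, hx, r, hr, hr2, hxr, hxZ⟩ := hP 2 Nat.prime_two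
    exact (h.caseII hno hr hr2 hx hxZ hxr).elim
  push Not at hno
  obtain ⟨p, W, hp, hWn, hWN, hWab, hWp, hWZ⟩ := hno
  haveI := Fact.mk hp
  obtain ⟨v, hv, q, hq, hqp, hvq, hvZ⟩ := hP p hp
  have hex : ∃ j : ℕ, v ^ q ^ j ∈ C[N] := by
    obtain ⟨k, hk⟩ := hvq
    exact ⟨k, by rw [← hk, pow_orderOf_eq_one]; exact one_mem _⟩
  classical
  have hj := Nat.find_spec hex
  have hj0 : Nat.find hex ≠ 0 := fun e => hvZ (by simpa [e] using hj)
  obtain ⟨j, hj'⟩ := Nat.exists_eq_succ_of_ne_zero hj0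
  have hyZ : v ^ q ^ j ∉ C[N] := Nat.find_min hex (by omega)
  have hyq : ∃ k, orderOf (v ^ q ^ j) = q ^ k := eq_pow_of_dvd hq (orderOf_pow_dvd _) hvq
  have hyq' : (v ^ q ^ j) ^ q ∈ C[N] := by rwa [← pow_mul, ← pow_succ, ← Nat.succ_eq_add_one, ← hj']
  obtain ⟨h1, h2⟩ := h.caseI hp hq hqp hWN hWab hWp hWZ (pow_mem hv _) hyZ hyq hyq'
  exact ⟨p, q, W, _, hp, hq, hqp, hWn, hWN, hWab, hWp, hWZ,
    fun w hw => h.frattini_le hWN (H3.pow_mem_map_frattini hWp hw), pow_mem hv _, hyZ, hyq, hyq', h1, h2⟩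

end MaxCent

end Cfsg.Agent.H92
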