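import Cfsg.Agent.H67.Hall
import Cfsg.Agent.H92.Basic
import Cfsg.Agent.S0205
import Cfsg.Agent.S0215
import Cfsg.Agent.S0071

/-!
Groups without solvable normal subgroups in which the normalizers of the nontrivial
solvable `{p, q}`-subgroups are maximal: first consequences.
-/

set_option autoImplicit false

namespace Cfsg.Agent.H92

open Subgroup Cfsg Cfsg.Agent.H63 Cfsg.Agent.H67

variable {G : Type*} [Group G]

theorem exists_conj_eq_pow [Finite G] {y a : G} (ha : a ∈ N[zpowers y]) :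
    ∃ k : ℕ, a * y * a⁻¹ = y ^ k := by
  have h := conj_mem_of_mem_normalizer ha (mem_zpowers y)
  rw [← mem_powers_iff_mem_zpowers] at h
  obtain ⟨k, hk⟩ := h
  exact ⟨k, hk.symm⟩

theorem conj_pow_iter {y a : G} {k : ℕ} (h : a * y * a⁻¹ = y ^ k) (n : ℕ) :
    a ^ n * y * (a ^ n)⁻¹ = y ^ (k ^ n) := by
  induction n with
  | zero => simp
  | succ n ih =>
    have : a ^ (n + 1) * y * (a ^ (n + 1))⁻¹ = a * (a ^ n * y * (a ^ n)⁻¹) * a⁻¹ := by
      rw [pow_succ']; group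
    rw [this, ih, ← conj_pow, h, ← pow_mul, pow_succ']

theorem not_dvd_of_conj_pow {y a : G} {k q : ℕ} (hq : q.Prime) (hy : orderOf y = q)
    (h : a * y * a⁻¹ = y ^ k) : ¬ q ∣ k := by
  intro hd
  rw [← hy, orderOf_dvd_iff_pow_eq_one] at hd
  rw [hd, conj_eq_one_iff] at h
  rw [h, orderOf_one] at hy
  exact hq.one_lt.ne hy

theorem pow_pred_mem_cent [Finite G] {y a : G} {q : ℕ} (hq : q.Prime) (hy : orderOf y = q)
    (ha : a ∈ N[zpowers y]) : a ^ (q - 1) ∈ C1[y] := by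
  obtain ⟨k, hk⟩ := exists_conj_eq_pow ha
  have h1 := conj_pow_iter hk (q - 1)
  have h2 : k ^ (q - 1) ≡ 1 [MOD q] := by
    have := Nat.ModEq.pow_totient ((Nat.Prime.coprime_iff_not_dvd hq).2
      (not_dvd_of_conj_pow hq hy hk)).symm
    rwa [Nat.totient_prime hq] at this
  rw [← hy, ← pow_eq_pow_iff_modEq, pow_one, hy] at h2
  rw [h2, mul_inv_eq_iff_eq_mul] at h1
  exact mem_centralizer_singleton_iff.2 h1

theorem inv_of_sq [Finite G] {y a : G} {q : ℕ} (hq : q.Prime) (hy : orderOf y = q)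
    (ha : a ∈ N[zpowers y]) (h2 : a ^ 2 ∈ C1[y]) (h1 : a ∉ C1[y]) : a * y * a⁻¹ = y⁻¹ := by
  obtain ⟨k, hk⟩ := exists_conj_eq_pow ha
  have h3 := conj_pow_iter hk 2
  rw [mem_centralizer_singleton_iff.1 h2, mul_inv_cancel_right] at h3
  have h4 : (q : ℤ) ∣ ((k : ℤ) - 1) * ((k : ℤ) + 1) := by
    rw [← hy, orderOf_dvd_iff_zpow_eq_one,
      show ((k : ℤ) - 1) * ((k : ℤ) + 1) = ((k ^ 2 : ℕ) : ℤ) - 1 by push_cast; ring,
      zpow_sub, zpow_natCast, ← h3, zpow_one, mul_inv_cancel]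
  rcases (Nat.prime_iff_prime_int.1 hq).dvd_or_dvd h4 with h | h
  · rw [← hy, orderOf_dvd_iff_zpow_eq_one, zpow_sub, zpow_natCast, zpow_one, mul_inv_eq_one,
      ← hk, mul_inv_eq_iff_eq_mul] at h
    exact absurd (mem_centralizer_singleton_iff.2 h) h1
  · rw [← hy, orderOf_dvd_iff_zpow_eq_one, zpow_add, zpow_natCast, zpow_one, ← hk] at h
    exact eq_inv_of_mul_eq_one_left h

theorem comm_mem_cent [Finite G] {y a b : G} (ha : a ∈ N[zpowers y]) (hb : b ∈ N[zpowers y]) :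
    a * b * a⁻¹ * b⁻¹ ∈ C1[y] := by
  obtain ⟨k, hk⟩ := exists_conj_eq_pow ha
  obtain ⟨l, hl⟩ := exists_conj_eq_pow hb
  have h1 : (a * b) * y * (a * b)⁻¹ = (b * a) * y * (b * a)⁻¹ := by
    have e1 : (a * b) * y * (a * b)⁻¹ = a * (b * y * b⁻¹) * a⁻¹ := by group
    have e2 : (b * a) * y * (b * a)⁻¹ = b * (a * y * a⁻¹) * b⁻¹ := by group
    rw [e1, e2, hk, hl, ← conj_pow, ← conj_pow, hk, hl, ← pow_mul, ← pow_mul, mul_comm]
  have h2 : (b * a) * y * (b * a)⁻¹ ∈ zpowers y :=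
    conj_mem_of_mem_normalizer (mul_mem hb ha) (mem_zpowers y)
  have h3 : a * b * a⁻¹ * b⁻¹ ∈ C1[(b * a) * y * (b * a)⁻¹] := by
    rw [mem_centralizer_singleton_iff]
    conv_rhs => rw [← h1]
    group
  have h4 : zpowers ((b * a) * y * (b * a)⁻¹) = zpowers y := by
    rw [← cj_zpowers, cj_eq_self (mul_mem hb ha)]
  rwa [← centralizer_zpowers, h4, centralizer_zpowers] at h3

theorem mul_mem_cent_of_inv {y a b : G} (ha : a * y * a⁻¹ = y⁻¹) (hb : b * y * b⁻¹ = y⁻¹) :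
    a * b ∈ C1[y] := by
  rw [mem_centralizer_singleton_iff]
  have : a * b * y * (a * b)⁻¹ = y := by
    rw [show a * b * y * (a * b)⁻¹ = a * (b * y * b⁻¹) * a⁻¹ by group, hb,
      show a * y⁻¹ * a⁻¹ = (a * y * a⁻¹)⁻¹ by group, ha, inv_inv]
  exact mul_inv_eq_iff_eq_mul.1 this

theorem eq_of_mem_zpowers_two {t x : G} (ht : orderOf t = 2) (hx : x ∈ zpowers t) :
    x = 1 ∨ x = t := by
  obtain ⟨k, rfl⟩ := hx
  have h2 : t ^ (2 : ℤ) = 1 := by
    have := pow_orderOf_eq_one t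
    rw [ht] at this
    exact_mod_cast this
  obtain ⟨j, rfl | rfl⟩ := Int.even_or_odd' k
  · left; show t ^ (2 * j) = 1; rw [zpow_mul, h2, one_zpow]
  · right; show t ^ (2 * j + 1) = t; rw [zpow_add, zpow_mul, h2, one_zpow, one_mul, zpow_one]

theorem mul_self_of_two {t : G} (ht : orderOf t = 2) : t * t = 1 := by
  rw [← sq, ← ht, pow_orderOf_eq_one]

theorem inv_of_two {t : G} (ht : orderOf t = 2) : t⁻¹ = t :=
  inv_eq_of_mul_eq_one_right (mul_self_of_two ht)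

theorem ne_one_of_prime {t : G} {p : ℕ} (hp : p.Prime) (ht : orderOf t = p) : t ≠ 1 := by
  rintro rfl
  rw [orderOf_one] at ht
  exact hp.one_lt.ne ht

theorem two_of_mul_self {t : G} (h : t * t = 1) (h1 : t ≠ 1) : orderOf t = 2 :=
  orderOf_eq_prime (by rw [sq, h]) h1

theorem norm_le_cent_sq [Finite G] {c : G} (ht : orderOf (c ^ 2) = 2) :
    N[zpowers c] ≤ C1[c ^ 2] := by
  intro g hg
  obtain ⟨k, hk⟩ := exists_conj_eq_pow hg
  have h1 : g * c ^ 2 * g⁻¹ ∈ zpowers (c ^ 2) := by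
    rw [← conj_pow, hk, ← pow_mul, mul_comm, pow_mul]
    exact pow_mem (mem_zpowers _) k
  rcases eq_of_mem_zpowers_two ht h1 with h | h
  · exact absurd (conj_eq_one_iff.1 h) (ne_one_of_prime Nat.prime_two ht)
  · exact mem_centralizer_singleton_iff.2 (mul_inv_eq_iff_eq_mul.1 h)

theorem norm_zpowers_two [Finite G] {t : G} (ht : orderOf t = 2) : N[zpowers t] = C1[t] := by
  refine le_antisymm (fun g hg => ?_) ?_
  · rcases eq_of_mem_zpowers_two ht (conj_mem_of_mem_normalizer hg (mem_zpowers t)) with h | h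
    · exact absurd (conj_eq_one_iff.1 h) (ne_one_of_prime Nat.prime_two ht)
    · exact mem_centralizer_singleton_iff.2 (mul_inv_eq_iff_eq_mul.1 h)
  · rw [← centralizer_zpowers]
    exact centralizer_le_normalizer _

theorem cent_le_norm_zpowers (y : G) : C1[y] ≤ N[zpowers y] := by
  rw [← centralizer_zpowers]
  exact centralizer_le_normalizer _

theorem isPGroup_zpowers_of [Finite G] {p k : ℕ} (hp : p.Prime) {x : G} (hx : orderOf x = p ^ k) :
    IsPGroup p (zpowers x) := by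
  haveI := Fact.mk hp
  exact (isPGroup_zpowers_iff x).2 ⟨k, hx⟩

theorem isPGroup_zpowers_prime [Finite G] {p : ℕ} (hp : p.Prime) {x : G} (hx : orderOf x = p) :
    IsPGroup p (zpowers x) := isPGroup_zpowers_of (k := 1) hp (by rw [pow_one, hx])

theorem exists_prime_pow [Finite G] {x : G} (hx : x ≠ 1) :
    ∃ (p k : ℕ), p.Prime ∧ p ∣ orderOf x ∧ orderOf (x ^ k) = p := by
  obtain ⟨p, hp, hd⟩ := Nat.exists_prime_and_dvd (mt orderOf_eq_one_iff.1 hx)
  exact ⟨p, orderOf x / p, hp, hd, orderOf_pow_orderOf_div (orderOf_pos x).ne' hd⟩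

/-- A `2`-element with nontrivial square has a power of order `4`. -/
theorem exists_pow_four [Finite G] {x : G} {k : ℕ} (hx : orderOf x = 2 ^ k) (h2 : x * x ≠ 1) :
    ∃ j : ℕ, orderOf ((x ^ j) ^ 2) = 2 := by
  have hk : 2 ≤ k := by
    by_contra h
    apply h2
    rw [← sq, ← orderOf_dvd_iff_pow_eq_one, hx]
    exact (Nat.pow_dvd_pow 2 (by omega : k ≤ 1)).trans (by norm_num)
  obtain ⟨m, rfl⟩ := Nat.exists_eq_add_of_le' hk
  refine ⟨2 ^ m, ?_⟩
  rw [← pow_mul, ← pow_succ, orderOf_pow_of_dvd (by positivity) (hx ▸ pow_dvd_pow 2 (by omega)),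
    hx, pow_succ 2 (m + 1), Nat.mul_div_cancel_left _ (by positivity)]

theorem solvable_of_isPGroup [Finite G] {p : ℕ} (hp : p.Prime) {X : Subgroup G}
    (hX : IsPGroup p X) : Group.IsSolvable X := by
  haveI := Fact.mk hp
  haveI := hX.isNilpotent
  infer_instance

theorem inf_eq_bot_of_pq [Finite G] {p q : ℕ} (hp : p.Prime) (hq : q.Prime) (hne : p ≠ q)
    {P Q : Subgroup G} (hP : IsPGroup p P) (hQ : IsPGroup q Q) : P ⊓ Q = ⊥ := by
  haveI := Fact.mk hp
  haveI := Fact.mk hq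
  exact disjoint_iff.1 (IsPGroup.disjoint_of_ne p q hne P Q hP hQ)

theorem mem_of_coprime_pow {H : Subgroup G} {a : G} {m n : ℕ} (h : m.Coprime n) (hm : a ^ m ∈ H)
    (hn : a ^ n ∈ H) : a ∈ H := by
  have h1 := Nat.gcd_eq_gcd_ab m n
  rw [h.gcd_eq_one] at h1
  have : a = (a ^ m) ^ (m.gcdA n) * (a ^ n) ^ (m.gcdB n) := by
    rw [← zpow_natCast, ← zpow_natCast, ← zpow_mul, ← zpow_mul, ← zpow_add, ← h1]; simp
  rw [this]
  exact mul_mem (zpow_mem hm _) (zpow_mem hn _)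

/-- The hypothesis. -/
structure MN (G : Type*) [Group G] : Prop where
  rad : ∀ N : Subgroup G, N.Normal → Group.IsSolvable N → N = ⊥
  nt : (⊤ : Subgroup G) ≠ ⊥
  co : ∀ (p q : ℕ) (X : Subgroup G), p.Prime → q.Prime → X ≠ ⊥ → Group.IsSolvable X →
    IsPiSubgroup {p, q} X → IsCoatom N[X]

namespace MN

variable [Finite G] (h : MN G)
include h

theorem ne_top {X : Subgroup G} (h1 : X ≠ ⊥) (hs : Group.IsSolvable X) : N[X] ≠ ⊤ := fun e =>
  h1 (h.rad X (normalizer_eq_top_iff.1 e) hs)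

theorem sol_ne_top {X : Subgroup G} (hs : Group.IsSolvable X) : X ≠ ⊤ := by
  rintro rfl
  exact h.nt (h.rad ⊤ inferInstance hs)

theorem co1 {p : ℕ} (hp : p.Prime) {X : Subgroup G} (hX : IsPGroup p X) (h1 : X ≠ ⊥) :
    IsCoatom N[X] :=
  h.co p p X hp hp h1 (solvable_of_isPGroup hp hX) (isPi_of_isPGroup_of_mem hp hX (by simp))

theorem eq_of_le {p : ℕ} (hp : p.Prime) {X L : Subgroup G} (hX : IsPGroup p X) (h1 : X ≠ ⊥)
    (hL : L ≠ ⊤) (hle : N[X] ≤ L) : N[X] = L :=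
  ((h.co1 hp hX h1).le_iff_eq hL).1 hle |>.symm

theorem eqN {p q : ℕ} (hp : p.Prime) (hq : q.Prime) (hne : p ≠ q) {P Q : Subgroup G}
    (hP : IsPGroup p P) (hQ : IsPGroup q Q) (h1 : P ≠ ⊥) (hn : Q ≤ N[P]) : N[P ⊔ Q] = N[P] := by
  have h2 : N[P ⊔ Q] ≤ N[P] :=
    normalizer_le_normalizer_of_normal_hall (π := {p})
      (hall_sup_left (Or.inr hn) (isPi_of_isPGroup hp hP) (isPi_compl_of_isPGroup hq hQ hne.symm))
      (normalIn_sup_left hn)
  have h3 : IsCoatom N[P ⊔ Q] := h.co p q _ hp hq (ne_bot_mono h1 le_sup_left)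
    (by rw [sup_comm]
        exact isSolvable_sup (solvable_of_isPGroup hq hQ) (solvable_of_isPGroup hp hP) hn)
    (isPi_sup (isPi_of_isPGroup_of_mem hp hP (by simp)) (isPi_of_isPGroup_of_mem hq hQ (by simp))
      (Or.inr hn))
  exact ((h3.le_iff_eq (h.ne_top h1 (solvable_of_isPGroup hp hP))).1 h2).symm

theorem eqC {p q : ℕ} (hp : p.Prime) (hq : q.Prime) (hne : p ≠ q) {P Q : Subgroup G}
    (hP : IsPGroup p P) (hQ : IsPGroup q Q) (h1 : P ≠ ⊥) (h2 : Q ≠ ⊥) (hc : Q ≤ C[P]) :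
    N[P] = N[Q] := by
  rw [← h.eqN hp hq hne hP hQ h1 (le_normalizer_of_le_centralizer hc),
    ← h.eqN hq hp hne.symm hQ hP h2 (le_normalizer_of_le_centralizer' hc), sup_comm]

theorem co_inv {t : G} (ht : orderOf t = 2) : IsCoatom C1[t] := by
  rw [← norm_zpowers_two ht]
  exact h.co1 Nat.prime_two (isPGroup_zpowers_prime Nat.prime_two ht)
    (by simpa using ne_one_of_prime Nat.prime_two ht)

theorem norm_eq {t : G} (ht : orderOf t = 2) {q : ℕ} (hq : q.Prime) (hq2 : q ≠ 2)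
    {Y : Subgroup G} (hY : IsPGroup q Y) (h1 : Y ≠ ⊥) (hc : Y ≤ C1[t]) : N[Y] = C1[t] := by
  rw [← norm_zpowers_two ht]
  refine (h.eqC Nat.prime_two hq hq2.symm (isPGroup_zpowers_prime Nat.prime_two ht) hY
    (by simpa using ne_one_of_prime Nat.prime_two ht) h1 ?_).symm
  rwa [centralizer_zpowers]

theorem norm_eq' {t : G} (ht : orderOf t = 2) {q : ℕ} (hq : q.Prime) (hq2 : q ≠ 2)
    {y : G} (hy : orderOf y = q) (hc : y ∈ C1[t]) : N[zpowers y] = C1[t] :=
  h.norm_eq ht hq hq2 (isPGroup_zpowers_prime hq hy) (by simpa using ne_one_of_prime hq hy)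
    (zpowers_le.2 hc)

theorem comm_mem {t : G} (ht : orderOf t = 2) {q : ℕ} (hq : q.Prime) (hq2 : q ≠ 2)
    {x : G} (hx : orderOf x = q) (htx : t ∈ N[zpowers x]) {c : G} (hc : c ∈ N[zpowers x]) :
    c * t * c⁻¹ * t⁻¹ ∈ zpowers x := by
  have hn : zpowers t ≤ N[zpowers x] := zpowers_le.2 htx
  rw [← h.eqN hq Nat.prime_two hq2 (isPGroup_zpowers_prime hq hx)
    (isPGroup_zpowers_prime Nat.prime_two ht) (by simpa using ne_one_of_prime hq hx) hn] at hc
  have h1 := conj_mem_of_mem_normalizer hc (mem_sup_right (mem_zpowers t))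
  obtain ⟨a, ha, b, hb, e⟩ := (mem_sup_of_le_normalizer' hn).1 h1
  rcases eq_of_mem_zpowers_two ht hb with rfl | rfl
  · rw [mul_one] at e
    have h2 := orderOf_dvd_of_mem_zpowers ha
    rw [e, orderOf_conj', ht, hx] at h2
    exact absurd ((Nat.prime_dvd_prime_iff_eq Nat.prime_two hq).1 h2).symm hq2
  · rw [← e, mul_inv_cancel_right]
    exact ha

theorem odd_normal {N : Subgroup G} (hN : N.Normal) (ho : Odd (Nat.card N)) : N = ⊥ :=
  h.rad N hN (S0205.result ho)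

theorem zstar {S : Subgroup G} (hS : IsSyl 2 S ⊤) {u : G} (hu : orderOf u = 2) (huS : u ∈ S) :
    ∃ g : G, g * u * g⁻¹ ∈ S ∧ g * u * g⁻¹ ≠ u := by
  by_contra hc
  push Not at hc
  obtain ⟨P, rfl⟩ := exists_sylow_top hS
  obtain ⟨N, hN, ho, h1⟩ := S0215.result P u hu huS hc
  rw [h.odd_normal hN ho] at h1
  refine (h.co_inv hu).1 (eq_top_iff.2 fun g _ => mem_centralizer_singleton_iff.2 ?_)
  have := mem_bot.1 (h1 g)
  rw [mul_inv_eq_one, mul_inv_eq_iff_eq_mul] at this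
  exact this.symm

theorem norm_cent {t : G} (ht : orderOf t = 2) : N[C1[t]] = C1[t] := by
  refine ((h.co_inv ht).le_iff_eq ?_).1 le_normalizer
  refine ne_top_mono (h.ne_top (X := C1[t] ⊓ C[C1[t]]) (ne_bot_of_mem (x := t)
    ⟨mem_centralizer_singleton_self t, mem_centralizer_iff_le.2 le_rfl⟩
    (ne_one_of_prime Nat.prime_two ht)) ?_) (normalizer_le_normalizer_center _)
  haveI := isMulCommutative_center (C1[t])
  exact Group.isSolvable_of_comm fun a b => Subtype.ext (comm_of_isMulCommutative this a.2 b.2)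

theorem two_dvd : 2 ∣ Nat.card G := by
  by_contra hc
  refine h.nt (h.odd_normal inferInstance ?_)
  rw [card_top]
  exact Nat.odd_iff.2 (by omega)

end MN

end Cfsg.Agent.H92
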