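import Cfsg.Agent.H92.MaxNorm1

/-!
Groups with maximal normalizers: an involution `u` centralizing an element `y` of odd prime order.
-/

set_option autoImplicit false

namespace Cfsg.Agent.H92

open Subgroup Cfsg Cfsg.Agent.H63 Cfsg.Agent.H67

variable {G : Type*} [Group G]

theorem cent_comm {x y : G} (h : x ∈ C1[y]) : x * y = y * x := mem_centralizer_singleton_iff.1 h

theorem mem_cent {x y : G} (h : x * y = y * x) : x ∈ C1[y] := mem_centralizer_singleton_iff.2 h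

theorem conj_eq_of_cent {x y : G} (h : x ∈ C1[y]) : x * y * x⁻¹ = y := by
  rw [cent_comm h, mul_inv_cancel_right]

theorem cent_of_conj_eq {x y : G} (h : x * y * x⁻¹ = y) : x ∈ C1[y] :=
  mem_cent (mul_inv_eq_iff_eq_mul.1 h)

theorem exists_central_inv [Finite G] {S : Subgroup G} (hS : IsPGroup 2 S) (h1 : S ≠ ⊥) :
    ∃ z ∈ S, orderOf z = 2 ∧ S ≤ C1[z] := by
  haveI := Fact.mk Nat.prime_two
  haveI : Nontrivial S := (nontrivial_iff_ne_bot S).2 h1
  have h2 : (center S) ≠ ⊥ := (nontrivial_iff_ne_bot _).1 hS.center_nontrivial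
  obtain ⟨z, hz, ho⟩ := exists_orderOf_eq_prime Nat.prime_two
    (dvd_card_of_isPGroup Nat.prime_two (hS.to_subgroup _) h2)
  refine ⟨z, z.2, by rw [← ho]; exact orderOf_injective S.subtype Subtype.val_injective z,
    fun s hs => mem_cent (congrArg Subtype.val (mem_center_iff.1 hz ⟨s, hs⟩))⟩

/-- The set-up. -/
structure CI (u y : G) (q : ℕ) (T : Subgroup G) : Prop where
  mn : MN G
  hu : orderOf u = 2
  hq : q.Prime
  hq2 : q ≠ 2
  hy : orderOf y = q
  hyu : y ∈ C1[u]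
  hT : IsSyl 2 T C1[u]

namespace CI

variable [Finite G] {u y : G} {q : ℕ} {T : Subgroup G} (c : CI u y q T)
include c

theorem F1 : N[zpowers y] = C1[u] := c.mn.norm_eq' c.hu c.hq c.hq2 c.hy c.hyu

theorem HM : C1[y] ≤ C1[u] := c.F1 ▸ cent_le_norm_zpowers y

theorem uH : u ∈ C1[y] := mem_centralizer_singleton_comm.1 c.hyu

theorem F2 {v : G} (hv : orderOf v = 2) (h : v ∈ C1[y]) : C1[v] = C1[u] := by
  rw [← c.F1, c.mn.norm_eq' hv c.hq c.hq2 c.hy (mem_centralizer_singleton_comm.1 h)]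

theorem F3 {x : G} {r : ℕ} (hr : r.Prime) (hx : orderOf x = r) (h : x ∈ C1[y]) :
    N[zpowers x] = C1[u] := by
  by_cases h2 : r = 2
  · subst h2
    rw [norm_zpowers_two hx, c.F2 hx h]
  · exact c.mn.norm_eq' c.hu hr h2 hx (c.HM h)

theorem F4 {x g : G} (h : x ∈ C1[y]) (h1 : x ≠ 1) (hg : g * x * g⁻¹ ∈ C1[y]) : g ∈ C1[u] := by
  obtain ⟨r, k, hr, -, ho⟩ := exists_prime_pow h1
  have h2 := c.F3 hr ho (pow_mem h k)
  have h3 := c.F3 hr (x := g * x ^ k * g⁻¹) (by rw [orderOf_conj', ho])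
    (by rw [← conj_pow]; exact pow_mem hg k)
  rw [← cj_zpowers, ← cj_normalizer, h2, cj_eq_self_iff, c.mn.norm_cent c.hu] at h3
  exact h3

theorem conjH {m x : G} (hm : m ∈ C1[u]) (h : x ∈ C1[y]) : m * x * m⁻¹ ∈ C1[y] := by
  rw [← c.F1] at hm
  rw [← centralizer_zpowers] at h ⊢
  exact conj_mem_of_mem_normalizer (normalizer_le_normalizer_centralizer _ hm) h

theorem F5 {X : Subgroup G} {r : ℕ} (hr : r.Prime) (hne : r ≠ q) (hX : IsPGroup r X)
    (hle : X ≤ C1[u]) (hn : y ∈ N[X]) : X ≤ C1[y] := by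
  rw [← centralizer_zpowers]
  exact le_centralizer_of_inf_eq_bot (c.F1 ▸ hle) (zpowers_le.2 hn)
    (inf_eq_bot_of_pq hr c.hq hne hX (isPGroup_zpowers_prime c.hq c.hy)) |>
    le_centralizer_iff.1

theorem F6 {e : G} (he : e ^ 2 = u) : e ∈ C1[y] := by
  have h2 : orderOf (e ^ 2) = 2 := he ▸ c.hu
  have h4 : orderOf e ∣ 2 ^ 2 := orderOf_dvd_of_pow_eq_one (by
    rw [show 2 ^ 2 = 2 * 2 by norm_num, pow_mul, he, sq, mul_self_of_two c.hu])
  obtain ⟨k, -, hk⟩ := (Nat.dvd_prime_pow Nat.prime_two).1 h4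
  have hp := isPGroup_zpowers_of Nat.prime_two hk
  have h1 : e ≠ 1 := by
    rintro rfl
    simp at h2
  have h3 := c.mn.eq_of_le Nat.prime_two hp (by simpa using h1) (c.mn.co_inv c.hu).1
    (he ▸ norm_le_cent_sq h2)
  exact c.F5 Nat.prime_two c.hq2.symm hp (h3 ▸ le_normalizer) (h3 ▸ c.hyu) (mem_zpowers e)

theorem Tp : IsPGroup 2 T := syl_isPGroup c.hT

theorem TM : T ≤ C1[u] := c.hT.1

theorem uT : u ∈ T := by
  haveI := Fact.mk Nat.prime_two
  refine le_syl_of_le_normalizer c.hT (zpowers_le.2 (mem_centralizer_singleton_self u))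
    (isPGroup_zpowers_prime Nat.prime_two c.hu) (Or.inl ?_) (mem_zpowers u)
  rw [norm_zpowers_two c.hu]
  exact c.TM

theorem T_ne : T ≠ ⊥ := ne_bot_of_mem c.uT (ne_one_of_prime Nat.prime_two c.hu)

theorem inverts {v : G} (hv : v ∈ T) (h2 : v * v = 1) (h : v ∉ C1[y]) : v * y * v⁻¹ = y⁻¹ :=
  inv_of_sq c.hq c.hy (c.F1 ▸ c.TM hv) (by rw [sq, h2]; exact one_mem _) h

section g
variable {g : G} (hg : g ∈ N[T]) (hgM : g ∉ C1[u])
include hg hgM

theorem tT : g * u * g⁻¹ ∈ T := conj_mem_of_mem_normalizer hg c.uT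

theorem tH : g * u * g⁻¹ ∉ C1[y] := fun h =>
  hgM (c.F4 c.uH (ne_one_of_prime Nat.prime_two c.hu) h)

theorem t2 : orderOf (g * u * g⁻¹) = 2 := by rw [orderOf_conj', c.hu]

theorem comm {a b : G} (ha : a ∈ T) (hb : b ∈ T) : a * b = b * a := by
  have h1 := comm_mem_cent (y := y) (c.F1 ▸ c.TM ha) (c.F1 ▸ c.TM hb)
  have h2 := comm_mem_cent (y := y) (c.F1 ▸ c.TM (conj_mem_of_mem_normalizer' hg ha))
    (c.F1 ▸ c.TM (conj_mem_of_mem_normalizer' hg hb))
  by_contra hne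
  refine hgM (c.F4 h2 (fun h => hne ?_) ?_)
  · have : a * b = g * (g⁻¹ * a * g * (g⁻¹ * b * g) * (g⁻¹ * a * g)⁻¹ * (g⁻¹ * b * g)⁻¹) * g⁻¹ *
        (b * a) := by group
    rw [this, h]; group
  · convert h1 using 1
    group

theorem F7 {e : G} (he : e ∈ T) : e ^ 2 ≠ u := by
  intro h
  have h1 : (e * (g * u * g⁻¹)) ^ 2 = u := by
    rw [(show Commute e (g * u * g⁻¹) from c.comm hg hgM he (c.tT hg hgM)).mul_pow, h, sq,
      mul_self_of_two (c.t2 hg hgM), mul_one]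
  exact c.tH hg hgM ((mul_mem_cancel_left (c.F6 h)).1 (c.F6 h1))

theorem inv_eq {v : G} (hv : v ∈ T) (h2 : orderOf v = 2) (h : v ∈ C1[y]) : v = u := by
  have key : ∀ w ∈ T, orderOf w = 2 → w ∈ C1[y] → g⁻¹ * w * g * y * (g⁻¹ * w * g)⁻¹ = y⁻¹ := by
    intro w hw ho hwy
    refine c.inverts (conj_mem_of_mem_normalizer' hg hw) ?_ fun h' => hgM (c.F4 h' ?_ ?_)
    · rw [show g⁻¹ * w * g * (g⁻¹ * w * g) = g⁻¹ * (w * w) * g by group, mul_self_of_two ho]; simp
    · intro h1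
      refine ne_one_of_prime Nat.prime_two ho ?_
      rw [show w = g * (g⁻¹ * w * g) * g⁻¹ by group, h1]; simp
    · convert hwy using 1
      group
  have h3 := mul_mem_cent_of_inv (key v hv h2 h) (key u c.uT c.hu c.uH)
  by_contra hne
  refine hgM (c.F4 h3 (fun h1 => hne ?_) ?_)
  · have : v * u = 1 := by
      rw [show v * u = g * (g⁻¹ * v * g * (g⁻¹ * u * g)) * g⁻¹ by group, h1]; simp
    rw [eq_inv_of_mul_eq_one_left this, inv_of_two c.hu]
  · convert mul_mem h c.uH using 1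
    group

theorem F8 {x : G} (hx : x ∈ T) (h : x ∈ C1[y]) : x = 1 ∨ x = u := by
  haveI := Fact.mk Nat.prime_two
  by_cases h1 : x = 1
  · exact Or.inl h1
  by_cases h2 : x * x = 1
  · exact Or.inr (c.inv_eq hg hgM hx (two_of_mul_self h2 h1) h)
  obtain ⟨k, hk⟩ := orderOf_eq_pow_of_mem c.Tp hx
  obtain ⟨j, hj⟩ := exists_pow_four hk h2
  exact absurd (c.inv_eq hg hgM (pow_mem (pow_mem hx j) 2) hj (pow_mem (pow_mem h j) 2))
    (c.F7 hg hgM (pow_mem hx j))

theorem F9 {v : G} (hv : v ∈ T) (h2 : v * v = 1) :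
    v = 1 ∨ v = u ∨ v = g * u * g⁻¹ ∨ v = u * (g * u * g⁻¹) := by
  by_cases h : v ∈ C1[y]
  · rcases c.F8 hg hgM hv h with h | h <;> simp [h]
  have ht := mul_self_of_two (c.t2 hg hgM)
  have h3 := mul_mem_cent_of_inv (c.inverts hv h2 h)
    (c.inverts (c.tT hg hgM) ht (c.tH hg hgM))
  have h4 : v = v * (g * u * g⁻¹) * (g * u * g⁻¹) := by rw [mul_assoc, ht, mul_one]
  rcases c.F8 hg hgM (mul_mem hv (c.tT hg hgM)) h3 with h5 | h5 <;> rw [h5] at h4
  · rw [one_mul] at h4; simp [h4]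
  · exact Or.inr (Or.inr (Or.inr h4))

theorem F7' {e : G} (he : e ∈ T) : e ^ 2 ≠ g * u * g⁻¹ := fun h =>
  c.F7 hg hgM (conj_mem_of_mem_normalizer' hg he) (by
    rw [show (g⁻¹ * e * g) ^ 2 = g⁻¹ * e ^ 2 * g by rw [sq, sq]; group, h]; group)

theorem two_elt {x : G} {k : ℕ} (hk : orderOf x = 2 ^ k) (h : x ∈ C1[y]) : x = 1 ∨ x = u := by
  haveI := Fact.mk Nat.prime_two
  obtain ⟨m, hm, hle⟩ := exists_cj_le_syl c.hT (zpowers_le.2 (c.HM h))
    (isPGroup_zpowers_of Nat.prime_two hk)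
  rcases c.F8 hg hgM (hle (conj_mem_cj (mem_zpowers x))) (c.conjH hm h) with h1 | h1
  · exact Or.inl (conj_eq_one_iff.1 h1)
  · right
    rw [show x = m⁻¹ * (m * x * m⁻¹) * m⁻¹⁻¹ by group, h1, conj_eq_of_cent (inv_mem hm)]

/-- Elements commuting with `u` and its conjugate have `2`-power order. -/
theorem two_pow {x : G} (hx : x ∈ C1[u]) (ht : x ∈ C1[g * u * g⁻¹]) : ∃ k, orderOf x = 2 ^ k := by
  refine ⟨_, Nat.eq_prime_pow_of_unique_prime_dvd (orderOf_pos x).ne' fun {r} hr hd => ?_⟩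
  by_contra h2
  have ho := orderOf_pow_orderOf_div (orderOf_pos x).ne' hd
  have h1 := c.mn.norm_eq' c.hu hr h2 ho (pow_mem hx _)
  rw [c.mn.norm_eq' (c.t2 hg hgM) hr h2 ho (pow_mem ht _)] at h1
  exact c.tH hg hgM (mem_centralizer_singleton_comm.1 (h1.ge c.hyu))

theorem mem_T {x : G} (hx : x ∈ C1[u]) (ht : x ∈ C1[g * u * g⁻¹]) : x ∈ T := by
  haveI := Fact.mk Nat.prime_two
  have h1 : IsPGroup 2 ↥(C1[u] ⊓ C1[g * u * g⁻¹]) := fun a => by
    obtain ⟨k, hk⟩ := c.two_pow hg hgM a.2.1 a.2.2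
    exact ⟨k, Subtype.ext (by simp [← hk])⟩
  rw [← syl_eq_of_le c.hT h1 (le_inf c.TM fun a ha => mem_cent (c.comm hg hgM ha (c.tT hg hgM)))
    inf_le_left]
  exact ⟨hx, ht⟩

end g

theorem syl_top : IsSyl 2 T ⊤ := by
  haveI := Fact.mk Nat.prime_two
  by_contra hns
  obtain ⟨S, hS, hTS⟩ := exists_syl_ge le_top c.Tp
  have hSp := syl_isPGroup hS
  have hSM : ∀ s ∈ S, s ∈ C1[u] → s ∈ T := fun s hs hm => by
    rw [← syl_eq_of_le c.hT (hSp.to_inf_left (K := C1[u])) (le_inf hTS c.TM) inf_le_right]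
    exact ⟨hs, hm⟩
  have hlt : T < S := lt_of_le_of_ne hTS fun e => hns (e ▸ hS)
  obtain ⟨g, ⟨hgS, hg⟩, hgT⟩ := SetLike.exists_of_lt
    (lt_inf_normalizer_of_isNilpotent hSp.isNilpotent hlt)
  have hgM : g ∉ C1[u] := fun h => hgT (hSM g hgS h)
  have hu := mul_self_of_two c.hu
  have ht := mul_self_of_two (c.t2 hg hgM)
  have hut := c.comm hg hgM c.uT (c.tT hg hgM)
  have F9 := fun v => c.F9 hg hgM (v := v)
  have F7 := fun v => c.F7 hg hgM (e := v)
  have F7' := fun v => c.F7' hg hgM (e := v)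
  have mT := fun v => c.mem_T hg hgM (x := v)
  have tT := c.tT hg hgM
  obtain ⟨t', ht'⟩ : ∃ t', t' = g * u * g⁻¹ := ⟨_, rfl⟩
  rw [← ht'] at ht hut F9 F7' mT tT
  obtain ⟨z, hzS, hz, hSz⟩ := exists_central_inv hSp (ne_bot_mono c.T_ne hTS)
  have hz1 := ne_one_of_prime Nat.prime_two hz
  have hzT : z ∈ T := hSM z hzS (mem_centralizer_singleton_comm.1 (hSz (hTS c.uT)))
  have nconj : ∀ k : G, k * z * k⁻¹ ≠ u := fun k hk => by
    have h1 : cj k S ≤ C1[u] := by rw [← hk, ← cj_centralizer_singleton]; exact cj_mono hSz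
    have h2 := card_le_syl c.hT h1 (isPGroup_cj hSp k)
    rw [card_cj] at h2
    exact absurd (card_lt_of_lt hlt) (by omega)
  have nconj' : ∀ k : G, k * z * k⁻¹ ≠ t' := fun k hk =>
    nconj (g⁻¹ * k) (by
      rw [show g⁻¹ * k * z * (g⁻¹ * k)⁻¹ = g⁻¹ * (k * z * k⁻¹) * g by group, hk, ht']
      group)
  have hconj : ∀ k : G, k * z * k⁻¹ ∈ T → k * z * k⁻¹ = u * t' := fun k hk => by
    rcases F9 _ hk (mul_self_of_two (by rw [orderOf_conj', hz])) with h | h | h | h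
    · exact absurd (conj_eq_one_iff.1 h) hz1
    · exact absurd h (nconj k)
    · exact absurd h (nconj' k)
    · exact h
  have hze : z = u * t' := by simpa using hconj 1 (by simpa using hzT)
  have hNz : N[T] = C1[z] := c.mn.eq_of_le Nat.prime_two c.Tp c.T_ne (c.mn.co_inv hz).1
    fun n hn => cent_of_conj_eq (by rw [hconj n (conj_mem_of_mem_normalizer hn hzT), hze])
  have ht'e : t' = u * z := by rw [hze, ← mul_assoc, hu, one_mul]
  have hcent : ∀ n ∈ C1[z], n ∈ C1[u] → n ∈ T := fun n hn hm => mT n hm (mem_cent (by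
    rw [ht'e, ← mul_assoc, cent_comm hm, mul_assoc, cent_comm hn, mul_assoc]))
  have hmove : ∀ n ∈ C1[z], n ∉ T → n * u * n⁻¹ = t' := fun n hn hnT => by
    rcases F9 _ (conj_mem_of_mem_normalizer (hNz.ge hn) c.uT)
      (mul_self_of_two (by rw [orderOf_conj', c.hu])) with h | h | h | h
    · exact absurd (conj_eq_one_iff.1 h) (ne_one_of_prime Nat.prime_two c.hu)
    · exact absurd (hcent n hn (cent_of_conj_eq h)) hnT
    · exact h
    · exact absurd (by rw [hze, ← h]; group) (nconj n⁻¹)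
  have hCS : ∀ n ∈ C1[z], n ∈ S := fun n hn => by
    by_cases hnT : n ∈ T
    · exact hTS hnT
    have h1 := hcent (g⁻¹ * n) (mul_mem (inv_mem (hSz hgS)) hn) (cent_of_conj_eq (by
      rw [show g⁻¹ * n * u * (g⁻¹ * n)⁻¹ = g⁻¹ * (n * u * n⁻¹) * g by group, hmove n hn hnT, ht']
      group))
    simpa using mul_mem hgS (hTS h1)
  have hsq : ∀ e ∈ S, e ^ 2 ∈ T := fun e he => by
    by_cases heT : e ∈ T
    · exact pow_mem heT 2
    refine hSM _ (pow_mem he 2) (cent_of_conj_eq ?_)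
    rw [show e ^ 2 * u * (e ^ 2)⁻¹ = e * (e * u * e⁻¹) * e⁻¹ by rw [sq]; group,
      hmove e (hSz he) heT, ht'e, show e * (u * z) * e⁻¹ = e * u * e⁻¹ * (e * z * e⁻¹) by group,
      hmove e (hSz he) heT, conj_eq_of_cent (hSz he), hze, ← mul_assoc, ← hut, mul_assoc, ht,
      mul_one]
  obtain ⟨k, hkS, hkz⟩ := c.mn.zstar hS hz hzS
  obtain ⟨t, htk⟩ : ∃ t, t = k * z * k⁻¹ := ⟨_, rfl⟩
  have ht2 : orderOf t = 2 := by rw [htk, orderOf_conj', hz]
  have htT : t ∉ T := fun h => hkz (by rw [hconj k (htk ▸ h), hze])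
  rw [← htk] at hkS hkz
  have htu := hmove t (hSz hkS) htT
  have hback : ∀ e ∈ C1[t], k⁻¹ * e * k ∈ S := fun e he => hCS _ (by
    rw [htk, ← cj_centralizer_singleton, mem_cj] at he
    exact he)
  have hnz : k⁻¹ * z * k ∉ T := fun h => by
    have h1 := hconj k⁻¹ (by simpa using h)
    rw [← hze] at h1
    refine hkz ?_
    rw [htk]
    calc k * z * k⁻¹ = k * (k⁻¹ * z * k⁻¹⁻¹) * k⁻¹ := by rw [h1]
      _ = z := by group
  by_cases hex : ∀ a ∈ T, a * a = 1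
  · have hw := hmove _ (hSz (hback z (mem_centralizer_singleton_comm.1 (hSz hkS)))) hnz
    let W : Subgroup G := zpowers z ⊔ zpowers t
    have hzt := cent_comm (hSz hkS)
    have hWn : ∀ a : G, a * z * a⁻¹ ∈ W → a * t * a⁻¹ ∈ W → a ∈ N[W] := fun a h1 h2 =>
      mem_normalizer_of_cj_le (by
        rw [cj_sup, cj_zpowers, cj_zpowers]; exact sup_le (zpowers_le.2 h1) (zpowers_le.2 h2))
    have hzW : z ∈ W := mem_sup_left (mem_zpowers z)
    have htW : t ∈ W := mem_sup_right (mem_zpowers t)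
    have hut' : u * t * u⁻¹ = z * t := by
      rw [hze, ← htu, inv_of_two c.hu, inv_of_two ht2]
      simp only [mul_assoc, mul_self_of_two ht2, mul_one]
    have huW : u ∈ N[W] := hWn u (by
      rw [conj_eq_of_cent (hSz (hTS c.uT))]; exact hzW) (hut' ▸ mul_mem hzW htW)
    have hTW : T ≤ N[W] := fun a ha => by
      rcases F9 a ha (hex a ha) with h | h | h | h
      · exact h ▸ one_mem _
      · exact h ▸ huW
      · rw [h, ht'e]; exact mul_mem huW (le_normalizer hzW)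
      · rw [h, ← hze]; exact le_normalizer hzW
    have hSW : C1[z] ≤ N[W] := fun n hn => by
      by_cases hnT : n ∈ T
      · exact hTW hnT
      have h1 := hcent (t⁻¹ * n) (mul_mem (inv_mem (hSz hkS)) hn) (cent_of_conj_eq (by
        rw [show t⁻¹ * n * u * (t⁻¹ * n)⁻¹ = t⁻¹ * (n * u * n⁻¹) * t by group, hmove n hn hnT, ← htu]
        group))
      simpa using mul_mem (le_normalizer htW) (hTW h1)
    have hWp : IsPGroup 2 W := hSp.to_le (sup_le (zpowers_le.2 hzS) (zpowers_le.2 hkS))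
    have hNW := ((c.mn.co_inv hz).le_iff_eq (c.mn.ne_top (ne_bot_of_mem hzW hz1)
      (solvable_of_isPGroup Nat.prime_two hWp))).1 hSW
    have h3 : k * u * k⁻¹ * z * (k * u * k⁻¹)⁻¹ = t * z := by
      have h4 : u * (k⁻¹ * z * k) * u⁻¹ = z * (k⁻¹ * z * k) := by
        have h5 : (k⁻¹ * z * k) * (k⁻¹ * z * k) = 1 := by
          rw [show (k⁻¹ * z * k) * (k⁻¹ * z * k) = k⁻¹ * (z * z) * k by group,
            mul_self_of_two hz]; simp
        generalize k⁻¹ * z * k = w at hw h5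
        rw [hze, ← hw, inv_of_two c.hu, inv_eq_of_mul_eq_one_right h5]
        simp only [mul_assoc, h5, mul_one]
      rw [show k * u * k⁻¹ * z * (k * u * k⁻¹)⁻¹ = k * (u * (k⁻¹ * z * k) * u⁻¹) * k⁻¹ by group, h4,
        htk]
      group
    have h4 : k * u * k⁻¹ ∈ N[W] := hWn _ (h3 ▸ mul_mem htW hzW) (by
      rw [htk, show k * u * k⁻¹ * (k * z * k⁻¹) * (k * u * k⁻¹)⁻¹ = k * (u * z * u⁻¹) * k⁻¹ by group,
        conj_eq_of_cent (hSz (hTS c.uT)), ← htk]
      exact htW)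
    rw [hNW] at h4
    rw [conj_eq_of_cent h4] at h3
    exact ne_one_of_prime Nat.prime_two ht2 (by simpa using h3)
  push Not at hex
  obtain ⟨a, ha, ha2⟩ := hex
  obtain ⟨m, hm⟩ := orderOf_eq_pow_of_mem c.Tp ha
  obtain ⟨j, hj⟩ := exists_pow_four hm ha2
  have hbT := pow_mem ha j
  generalize a ^ j = b at hj hbT
  have hb : b ^ 2 = z := by
    rcases F9 _ (pow_mem hbT 2) (mul_self_of_two hj) with h | h | h | h
    · exact absurd h (ne_one_of_prime Nat.prime_two hj)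
    · exact absurd h (F7 b hbT)
    · exact absurd h (F7' b hbT)
    · rw [h, hze]
  have fin : ∀ e : G, e ^ 2 = z → e ∉ C1[t] := fun e he het => hnz (by
    have := hsq _ (hback e het)
    rwa [show (k⁻¹ * e * k) ^ 2 = k⁻¹ * e ^ 2 * k by rw [sq, sq]; group, he] at this)
  obtain ⟨l, hl⟩ := orderOf_eq_pow_of_mem c.Tp hbT
  have hb1 : b ≠ 1 := by
    rintro rfl
    simp at hj
  have hNb := c.mn.eq_of_le Nat.prime_two (isPGroup_zpowers_of Nat.prime_two hl)
    (by simpa using hb1) (c.mn.co_inv hz).1 (hb ▸ norm_le_cent_sq hj)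
  obtain ⟨i, hi⟩ := exists_conj_eq_pow (hNb.ge (hSz hkS))
  have hb4 : b ^ 4 = 1 := by rw [show 4 = 2 * 2 by rfl, pow_mul, hb, sq, mul_self_of_two hz]
  rw [← Nat.div_add_mod i 4, pow_add, pow_mul, hb4, one_pow, one_mul] at hi
  have hbu := c.comm hg hgM hbT c.uT
  have h4 : i % 4 = 0 ∨ i % 4 = 1 ∨ i % 4 = 2 ∨ i % 4 = 3 := by omega
  rcases h4 with h | h | h | h <;> rw [h] at hi
  · exact hb1 (by simpa using hi)
  · exact fin b hb (mem_centralizer_singleton_comm.1 (cent_of_conj_eq (by simpa using hi)))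
  · have h5 : t * b ^ 2 * t⁻¹ = 1 := by rw [← conj_pow, hi, ← pow_mul, hb4]
    exact hz1 (hb ▸ conj_eq_one_iff.1 h5)
  · refine fin (b * u) (by rw [(show Commute b u from hbu).mul_pow, hb, sq, hu, mul_one])
      (mem_centralizer_singleton_comm.1 (cent_of_conj_eq ?_))
    rw [show t * (b * u) * t⁻¹ = t * b * t⁻¹ * (t * u * t⁻¹) by group, hi, htu, pow_succ', hb, hze]
    simp only [mul_assoc, ht, mul_one]

end CI

end Cfsg.Agent.H92
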