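import Cfsg.Agent.H54.O84Defs

/-! Transitivity of the unitary blocks on pairs of coordinates. -/

set_option autoImplicit false

namespace Cfsg.Agent.H92.O84X3

open Cfsg.Agent.H54.O84 Multiplicative
open scoped Matrix

universe u

variable {F : Type u} [Field F] {o : F}

/-- The unitary block on the coordinates `i`, `j`. -/
def tl (i j : Fin 4) (u v : L F o) : UV F o →ₗ[F] UV F o where
  toFun y k := if k = i then star u * y i + star v * y j else
    if k = j then -v * y i + u * y j else y k
  map_add' y y' := by
    funext k
    simp only [Pi.add_apply]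
    split_ifs <;> ring
  map_smul' c y := by
    funext k
    simp only [Pi.smul_apply, RingHom.id_apply]
    split_ifs <;> simp only [smul_add, mul_smul_comm]

theorem tl_i (i j : Fin 4) (u v : L F o) (y : UV F o) :
    tl i j u v y i = star u * y i + star v * y j := by simp [tl]

theorem tl_j {i j : Fin 4} (h : i ≠ j) (u v : L F o) (y : UV F o) :
    tl i j u v y j = -v * y i + u * y j := by simp [tl, h.symm]

theorem tl_k {i j k : Fin 4} (hi : k ≠ i) (hj : k ≠ j) (u v : L F o) (y : UV F o) :
    tl i j u v y k = y k := by simp [tl, hi, hj]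

theorem ext3 {i j : Fin 4} {y y' : UV F o} (hi : y i = y' i) (hj : y j = y' j)
    (hk : ∀ k, k ≠ i → k ≠ j → y k = y' k) : y = y' := by
  funext k
  by_cases h1 : k = i
  · rw [h1, hi]
  by_cases h2 : k = j
  · rw [h2, hj]
  exact hk k h1 h2

theorem tl_inv {i j : Fin 4} (h : i ≠ j) {u v : L F o} (e : u * star u + v * star v = 1)
    (y : UV F o) : tl i j (star u) (-v) (tl i j u v y) = y := by
  refine ext3 (i := i) (j := j) ?_ ?_ fun k hi hj => by rw [tl_k hi hj, tl_k hi hj]
  · rw [tl_i, tl_i, tl_j h, star_star, star_neg]
    linear_combination y i * e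
  · rw [tl_j h, tl_i, tl_j h]
    linear_combination y j * e

/-- The block as an isometry. -/
noncomputable def te {i j : Fin 4} (h : i ≠ j) {u v : L F o} (e : u * star u + v * star v = 1) :
    H30.O (Qn F o) :=
  ⟨LinearEquiv.ofLinear (tl i j u v) (tl i j (star u) (-v))
    (LinearMap.ext fun y => by
      have := tl_inv h (u := star u) (v := -v) (by
        rw [star_star, star_neg]; linear_combination e) y
      rwa [star_star, neg_neg] at this)
    (LinearMap.ext fun y => tl_inv h e y), fun y => by
      change Qn F o (tl i j u v y) = Qn F o y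
      rw [Qn_apply, Qn_apply, ← sub_eq_zero, ← Finset.sum_sub_distrib,
        Fintype.sum_eq_add i j h fun k hk => by rw [tl_k hk.1 hk.2, sub_self]]
      apply (algebraMap F (L F o)).injective
      simp only [map_add, map_sub, map_zero, QuadraticAlgebra.algebraMap_norm_eq_mul_star, tl_i,
        tl_j h, star_add, star_mul, star_neg, star_star]
      linear_combination (y i * star (y i) + y j * star (y j)) * e⟩

theorem te_apply {i j : Fin 4} (h : i ≠ j) {u v : L F o} (e : u * star u + v * star v = 1)
    (y : UV F o) : (te h e).1 y = tl i j u v y := rfl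

theorem lam_ex : ∀ i j : Fin 4, i ≠ j → ∃ k, lam k = Pi.single i 1 - Pi.single j 1 ∨
    lam k = Pi.single j 1 - Pi.single i 1 := by decide

theorem x3 : X3Stmt.{u} := by
  intro F _ _ o _ _ ζ b hb i j h y y' hk hn h0
  set n := QuadraticAlgebra.norm (y i) + QuadraticAlgebra.norm (y j) with hn'
  let c : L F o := algebraMap F (L F o) n⁻¹
  have hc : star c = c := by ext <;> simp [c]
  have e0 : c * algebraMap F (L F o) n = 1 := by rw [← map_mul, inv_mul_cancel₀ h0, map_one]
  have e1 : c * (y i * star (y i) + y j * star (y j)) = 1 := by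
    rw [← e0, hn', map_add, QuadraticAlgebra.algebraMap_norm_eq_mul_star,
      QuadraticAlgebra.algebraMap_norm_eq_mul_star]
  have e2 : c * (y' i * star (y' i) + y' j * star (y' j)) = 1 := by
    rw [← e0, hn, map_add, QuadraticAlgebra.algebraMap_norm_eq_mul_star,
      QuadraticAlgebra.algebraMap_norm_eq_mul_star]
  have e : c * (star (y' i) * y i + y' j * star (y j)) *
      star (c * (star (y' i) * y i + y' j * star (y j))) +
      c * (star (y' i) * y j - y' j * star (y i)) *
      star (c * (star (y' i) * y j - y' j * star (y i))) = 1 := by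
    simp only [star_add, star_mul, star_sub, star_star, hc]
    linear_combination (c * (y' i * star (y' i) + y' j * star (y' j))) * e1 + e2
  obtain ⟨k, hl⟩ := lam_ex i j h
  refine ⟨te h e, Subgroup.mem_iSup_of_mem k ?_, ?_⟩
  · rw [Cz, Subgroup.mem_centralizer_iff]
    rintro _ ⟨x, hx, rfl⟩
    have hij : x i = x j := by
      rcases hl with hl | hl <;>
        rw [hl, dotProduct_sub, dotProduct_single, dotProduct_single, mul_one, mul_one,
          sub_eq_zero] at hx
      exacts [hx, hx.symm]
    refine Subtype.ext (LinearEquiv.ext fun z => ?_)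
    rw [H30.O_mul_apply, H30.O_mul_apply, te_apply, te_apply]
    refine ext3 (i := i) (j := j) ?_ ?_ fun k hi hj => ?_
    · rw [hb.2.2, tl_i, tl_i, hb.2.2, hb.2.2, hij]
      ring
    · rw [hb.2.2, tl_j h, tl_j h, hb.2.2, hb.2.2, hij]
      ring
    · rw [hb.2.2, tl_k hi hj, tl_k hi hj, hb.2.2]
  · rw [te_apply]
    refine ext3 (i := i) (j := j) ?_ ?_ fun k hi hj => by rw [tl_k hi hj, hk k hi hj]
    · rw [tl_i]
      simp only [star_add, star_mul, star_sub, star_star, hc]
      linear_combination y' i * e1
    · rw [tl_j h]
      linear_combination y' j * e1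

end Cfsg.Agent.H92.O84X3
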