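import Cfsg.Agent.H92.Ito
import Cfsg.Agent.H1.FrobCount
import Cfsg.Agent.H1.SubCount
import Cfsg.Agent.H57.GK

/-!
Counting elements of a given order.
-/

set_option autoImplicit false

namespace Cfsg.Agent.H92

open Subgroup

/-- The number of elements of order `m`. -/
noncomputable def so (G : Type*) [Group G] (m : ℕ) : ℕ := Nat.card {g : G // orderOf g = m}

variable {G : Type*} [Group G] [Finite G]

theorem so_one : so G 1 = 1 := by
  unfold so
  rw [Nat.card_eq_one_iff_exists]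
  exact ⟨⟨1, orderOf_one⟩, fun y => Subtype.ext (orderOf_eq_one_iff.1 y.2)⟩

theorem so_ne_zero_iff {m : ℕ} : so G m ≠ 0 ↔ ∃ g : G, orderOf g = m := by
  unfold so
  rw [Nat.card_ne_zero]
  exact ⟨fun h => h.1.elim fun x => ⟨x.1, x.2⟩, fun ⟨g, hg⟩ => ⟨⟨⟨g, hg⟩⟩, inferInstance⟩⟩

theorem so_eq_zero_iff {m : ℕ} : so G m = 0 ↔ ∀ g : G, orderOf g ≠ m := by
  rw [← not_iff_not, ← Ne, so_ne_zero_iff]; simp

theorem so_orderOf_ne_zero (g : G) : so G (orderOf g) ≠ 0 := so_ne_zero_iff.2 ⟨g, rfl⟩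

theorem so_eq_zero_of_dvd {m n : ℕ} (h : so G m = 0) (hmn : m ∣ n) : so G n = 0 := by
  rw [so_eq_zero_iff] at h ⊢
  intro g hg
  obtain ⟨y, hy⟩ := H57.exists_orderOf_eq_of_dvd (y := g) (hg ▸ hmn)
  exact h y hy

theorem so_ne_zero_of_prime {p : ℕ} (hp : p.Prime) (h : p ∣ Nat.card G) : so G p ≠ 0 := by
  haveI := Fact.mk hp
  exact so_ne_zero_iff.2 (exists_prime_orderOf_dvd_card' p h)

theorem dvd_card_of_so_ne_zero {m : ℕ} (h : so G m ≠ 0) : m ∣ Nat.card G := by
  obtain ⟨g, rfl⟩ := so_ne_zero_iff.1 h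
  exact orderOf_dvd_natCard g

theorem totient_dvd_so (m : ℕ) : m.totient ∣ so G m := by
  unfold so
  rw [H1.card_orderOf_eq_nCyc]
  exact dvd_mul_left _ _

theorem two_dvd_so {m : ℕ} (hm : 2 < m) : 2 ∣ so G m :=
  (Nat.totient_even hm).two_dvd.trans (totient_dvd_so m)

theorem prime_dvd_so_of_sq_dvd {p m : ℕ} (hp : p.Prime) (h : p ^ 2 ∣ m) : p ∣ so G m := by
  refine Dvd.dvd.trans ?_ ((Nat.totient_dvd_of_dvd h).trans (totient_dvd_so m))
  rw [Nat.totient_prime_pow hp two_pos]
  exact ⟨p - 1, by simp⟩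

theorem four_dvd_so {a b m : ℕ} (ha : 2 < a) (hb : 2 < b) (hab : a.Coprime b) (h : a * b ∣ m) :
    4 ∣ so G m := by
  refine Dvd.dvd.trans ?_ ((Nat.totient_dvd_of_dvd h).trans (totient_dvd_so m))
  rw [Nat.totient_mul hab]
  exact mul_dvd_mul (Nat.totient_even ha).two_dvd (Nat.totient_even hb).two_dvd

theorem sum_so_eq_card {n : ℕ} (hn : n ≠ 0) :
    ∑ d ∈ n.divisors, so G d = Nat.card {x : G // x ^ n = 1} := by
  classical
  haveI := Fintype.ofFinite G
  rw [Nat.card_eq_fintype_card, Fintype.card_subtype]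
  refine Eq.trans (Finset.sum_congr rfl fun d _ => ?_)
    ((sum_card_orderOf_eq_card_pow_eq_one (G := G) hn).trans (by congr!))
  unfold so
  rw [Nat.card_eq_fintype_card, Fintype.card_subtype]

theorem sum_so_card : ∑ d ∈ (Nat.card G).divisors, so G d = Nat.card G := by
  rw [sum_so_eq_card Nat.card_pos.ne']
  exact Nat.card_congr (Equiv.subtypeUnivEquiv fun x => pow_card_eq_one')

/-- Frobenius' theorem. -/
theorem dvd_sum_so {n : ℕ} (hn : n ∣ Nat.card G) : n ∣ ∑ d ∈ n.divisors, so G d := by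
  rw [sum_so_eq_card (ne_zero_of_dvd_ne_zero Nat.card_pos.ne' hn)]
  exact H1.dvd_card_pow_eq_one hn

omit [Finite G] in
theorem sum_divisors_mul_of_coprime {m n : ℕ} (h : m.Coprime n) (f : ℕ → ℕ) :
    ∑ d ∈ (m * n).divisors, f d = ∑ d ∈ m.divisors, ∑ e ∈ n.divisors, f (d * e) := by
  rw [Nat.divisors_mul, Finset.mul_def, Finset.sum_image h.mul_injOn_divisors, Finset.sum_product]

theorem frob_p {p : ℕ} (hp : p.Prime) (h : p ∣ Nat.card G) : p ∣ 1 + so G p := by
  have := dvd_sum_so h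
  rwa [hp.sum_divisors, so_one, add_comm] at this

theorem frob_four (h : 4 ∣ Nat.card G) : 4 ∣ 1 + so G 2 + so G 4 := by
  have := dvd_sum_so h
  rwa [show Nat.divisors 4 = {1, 2, 4} by decide, Finset.sum_insert (by decide),
    Finset.sum_insert (by decide), Finset.sum_singleton, so_one, ← add_assoc] at this

theorem frob_pq {p q : ℕ} (hp : p.Prime) (hq : q.Prime) (hpq : p ≠ q) (h1 : p ∣ Nat.card G)
    (h2 : q ∣ Nat.card G) : p * q ∣ 1 + so G p + so G q + so G (p * q) := by
  have hc := (Nat.coprime_primes hp hq).2 hpq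
  have := dvd_sum_so (hc.mul_dvd_of_dvd_of_dvd h1 h2)
  rw [sum_divisors_mul_of_coprime hc, hp.sum_divisors, hq.sum_divisors, hq.sum_divisors] at this
  simp only [mul_one, one_mul, so_one] at this
  convert this using 1
  ring

theorem frob_pqr {p q r : ℕ} (hp : p.Prime) (hq : q.Prime) (hr : r.Prime) (hpq : p ≠ q)
    (hpr : p ≠ r) (hqr : q ≠ r) (h1 : p ∣ Nat.card G) (h2 : q ∣ Nat.card G) (h3 : r ∣ Nat.card G) :
    p * q * r ∣ 1 + so G p + so G q + so G r + so G (p * q) + so G (p * r) + so G (q * r) +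
      so G (p * q * r) := by
  have hc := (Nat.coprime_primes hp hq).2 hpq
  have hc2 : (p * q).Coprime r :=
    Nat.Coprime.mul_left ((Nat.coprime_primes hp hr).2 hpr) ((Nat.coprime_primes hq hr).2 hqr)
  have := dvd_sum_so (hc2.mul_dvd_of_dvd_of_dvd (hc.mul_dvd_of_dvd_of_dvd h1 h2) h3)
  rw [sum_divisors_mul_of_coprime hc2, sum_divisors_mul_of_coprime hc] at this
  simp only [hp.sum_divisors, hq.sum_divisors, hr.sum_divisors, mul_one, one_mul, so_one] at this
  convert this using 1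
  ring

theorem coprime_four {p : ℕ} (hp : p.Prime) (hp2 : p ≠ 2) : Nat.Coprime 4 p :=
  Nat.Coprime.pow_left 2 ((Nat.coprime_primes Nat.prime_two hp).2 hp2.symm)

theorem frob_4p {p : ℕ} (hp : p.Prime) (hp2 : p ≠ 2) (h1 : 4 ∣ Nat.card G) (h2 : p ∣ Nat.card G) :
    4 * p ∣ 1 + so G 2 + so G 4 + so G p + so G (2 * p) + so G (4 * p) := by
  have hc := coprime_four hp hp2
  have := dvd_sum_so (hc.mul_dvd_of_dvd_of_dvd h1 h2)
  rw [sum_divisors_mul_of_coprime hc, show Nat.divisors 4 = {1, 2, 4} by decide,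
    Finset.sum_insert (by decide), Finset.sum_insert (by decide), Finset.sum_singleton] at this
  simp only [hp.sum_divisors, mul_one, one_mul, so_one] at this
  convert this using 1
  ring

theorem frob_4pq {p q : ℕ} (hp : p.Prime) (hq : q.Prime) (hpq : p ≠ q) (hp2 : p ≠ 2) (hq2 : q ≠ 2)
    (h1 : 4 ∣ Nat.card G) (h2 : p ∣ Nat.card G) (h3 : q ∣ Nat.card G) :
    4 * (p * q) ∣ 1 + so G 2 + so G 4 + so G p + so G (2 * p) + so G (4 * p) +
      so G q + so G (2 * q) + so G (4 * q) + so G (p * q) + so G (2 * (p * q)) +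
      so G (4 * (p * q)) := by
  have hc := (Nat.coprime_primes hp hq).2 hpq
  have hc2 : Nat.Coprime 4 (p * q) := (coprime_four hp hp2).mul_right (coprime_four hq hq2)
  have := dvd_sum_so (hc2.mul_dvd_of_dvd_of_dvd h1 (hc.mul_dvd_of_dvd_of_dvd h2 h3))
  rw [sum_divisors_mul_of_coprime hc2, show Nat.divisors 4 = {1, 2, 4} by decide,
    Finset.sum_insert (by decide), Finset.sum_insert (by decide), Finset.sum_singleton] at this
  simp only [sum_divisors_mul_of_coprime hc, hp.sum_divisors, hq.sum_divisors, mul_one, one_mul,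
    so_one] at this
  convert this using 1
  ring

/-- Prime powers when there is no element of order `p ^ 2`. -/
theorem frob_pow {p k : ℕ} (hp : p.Prime) (h0 : so G (p ^ 2) = 0) (hk : 0 < k)
    (h : p ^ k ∣ Nat.card G) : p ^ k ∣ 1 + so G p := by
  have := dvd_sum_so h
  obtain ⟨k, rfl⟩ : ∃ j, k = j + 1 := ⟨k - 1, by omega⟩
  rw [Nat.sum_divisors_prime_pow hp, Finset.sum_range_succ', Finset.sum_range_succ',
    Finset.sum_eq_zero (fun i _ => so_eq_zero_of_dvd h0 (pow_dvd_pow p (by omega)))] at this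
  simpa [so_one, add_comm] using this

theorem exists_unique_inv (h : so G 2 = 1) :
    ∃ z : G, orderOf z = 2 ∧ (∀ y : G, orderOf y = 2 → y = z) ∧ z ∈ center G := by
  obtain ⟨⟨z, hz⟩, hu⟩ := Nat.card_eq_one_iff_exists.1 h
  have hu' : ∀ y : G, orderOf y = 2 → y = z := fun y hy => congrArg Subtype.val (hu ⟨y, hy⟩)
  refine ⟨z, hz, hu', mem_center_iff.2 fun g => ?_⟩
  have := hu' (g * z * g⁻¹) (by rw [orderOf_conj, hz])
  calc g * z = g * z * g⁻¹ * g := by group
    _ = z * g := by rw [this]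

theorem so_two_mul (h : so G 2 = 1) {m : ℕ} (hm : Odd m) : so G (2 * m) = so G m := by
  obtain ⟨z, hz, hu, hzc⟩ := exists_unique_inv h
  have hc : ∀ g : G, Commute z g := fun g => (mem_center_iff.1 hzc g).symm
  have hz2 : z * z = 1 := by rw [← pow_two, ← hz, pow_orderOf_eq_one]
  have hm2 : Nat.Coprime 2 m := (Nat.coprime_two_left).2 hm
  have h1 : ∀ g : G, orderOf g = m → orderOf (z * g) = 2 * m := fun g hg => by
    rw [(hc g).orderOf_mul_eq_mul_orderOf_of_coprime (by rw [hz, hg]; exact hm2), hz, hg]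
  have h2 : ∀ g : G, orderOf g = 2 * m → orderOf (z * g) = m := fun g hg => by
    obtain ⟨a, b, ha, hb, hab, ha2, hbm⟩ := exists_coprime_parts hm2 (g := g)
      (by rw [← hg, pow_orderOf_eq_one])
    have hcab : Commute a b := commute_of_mem_zpowers ha hb
    have hb1 : orderOf b ∣ m := orderOf_dvd_of_pow_eq_one hbm
    have ha1 : orderOf a ∣ 2 := orderOf_dvd_of_pow_eq_one ha2
    have h3 : orderOf a * orderOf b = 2 * m := by
      rw [← hcab.orderOf_mul_eq_mul_orderOf_of_coprime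
        (Nat.Coprime.coprime_dvd_left ha1 (Nat.Coprime.coprime_dvd_right hb1 hm2)), ← hab, hg]
    have hbm' := Nat.le_of_dvd hm.pos hb1
    have hmp := hm.pos
    rcases (Nat.dvd_prime Nat.prime_two).1 ha1 with h4 | h4
    · rw [h4] at h3; omega
    · rw [h4] at h3
      rw [hab, hu a h4, ← mul_assoc, hz2, one_mul]; omega
  unfold so
  exact Nat.card_congr
    { toFun := fun g => ⟨z * g, h2 g g.2⟩
      invFun := fun g => ⟨z * g, h1 g g.2⟩
      left_inv := fun g => Subtype.ext (by simp only; rw [← mul_assoc, hz2, one_mul])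
      right_inv := fun g => Subtype.ext (by simp only; rw [← mul_assoc, hz2, one_mul]) }

/-- An element of prime order not dividing `so G m` centralizes an element of order `m`. -/
theorem exists_commute_of_not_dvd_so {p m : ℕ} (hp : p.Prime) {x : G} (hx : orderOf x = p)
    (h : ¬ p ∣ so G m) : ∃ y : G, orderOf y = m ∧ Commute x y := by
  by_contra hcon
  push Not at hcon
  apply h
  have := dvd_ncard_of_conj_invariant (zpowers x) p {y : G | orderOf y = m}
    (fun d _ s hs => by rw [Set.mem_setOf_eq, orderOf_conj]; exact hs) (fun s hs => ?_)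
  · rwa [← Nat.card_coe_set_eq] at this
  · have h1 : (Ce[s]).relIndex (zpowers x) ∣ p := by
      rw [← hx, ← Nat.card_zpowers]; exact index_dvd_card _
    rcases (Nat.dvd_prime hp).1 h1 with h2 | h2
    · exact absurd (mem_C.1 (relIndex_eq_one.1 h2 (mem_zpowers x))) (hcon s hs)
    · rw [h2]

theorem two_mul_so_le {p q : ℕ} (hpq : p.Coprime q) (hq : 3 ≤ q) (hqo : Odd q)
    (h : ∀ x : G, orderOf x = p → ∃ y : G, orderOf y = q ∧ Commute x y) :
    2 * so G p ≤ so G (p * q) := by
  classical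
  choose! f hf hfc using h
  have hinv : ∀ x : G, orderOf x = p → f x ≠ (f x)⁻¹ := fun x hx he => by
    have h2 : f x ^ 2 = 1 := by rw [pow_two]; nth_rw 1 [he]; exact inv_mul_cancel _
    have := Nat.le_of_dvd two_pos (orderOf_dvd_of_pow_eq_one h2)
    rw [hf x hx] at this; omega
  have hord : ∀ x y : G, orderOf x = p → orderOf y = q → Commute x y → orderOf (x * y) = p * q :=
    fun x y hx hy hc => by
      rw [hc.orderOf_mul_eq_mul_orderOf_of_coprime (by rw [hx, hy]; exact hpq), hx, hy]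
  have huniq : ∀ x y x' y' : G, orderOf x = p → orderOf y = q → Commute x y → orderOf x' = p →
      orderOf y' = q → Commute x' y' → x * y = x' * y' → x = x' := by
    intro x y x' y' hx hy hc hx' hy' hc' he
    have h1 : x ^ q = x' ^ q := by
      have := congrArg (· ^ q) he
      simp only [hc.mul_pow, hc'.mul_pow] at this
      rwa [show y ^ q = 1 by rw [← hy, pow_orderOf_eq_one], show y' ^ q = 1 by
        rw [← hy', pow_orderOf_eq_one], mul_one, mul_one] at this
    rcases Nat.lt_or_ge 1 p with hp1 | hp1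
    · obtain ⟨k, -, hk⟩ := Nat.exists_mul_mod_eq_one_of_coprime hpq.symm hp1
      have e : ∀ w : G, orderOf w = p → w = (w ^ q) ^ k := fun w hw => by
        rw [← pow_mul, ← pow_mod_orderOf, hw, hk, pow_one]
      rw [e x hx, e x' hx', h1]
    · have hp0 : p = 1 := by have := orderOf_pos x; omega
      rw [orderOf_eq_one_iff.1 (hx.trans hp0), orderOf_eq_one_iff.1 (hx'.trans hp0)]
  let F : {g : G // orderOf g = p} × Bool → {g : G // orderOf g = p * q} := fun t =>
    ⟨t.1 * (if t.2 then f t.1 else (f t.1)⁻¹), by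
      split_ifs
      · exact hord _ _ t.1.2 (hf _ t.1.2) (hfc _ t.1.2)
      · exact hord _ _ t.1.2 (by rw [orderOf_inv]; exact hf _ t.1.2) (hfc _ t.1.2).inv_right⟩
  have hF : Function.Injective F := by
    rintro ⟨⟨x, hx⟩, b⟩ ⟨⟨x', hx'⟩, b'⟩ he
    have he' := congrArg Subtype.val he
    simp only [F] at he'
    have hxx : x = x' := by
      refine huniq _ _ _ _ hx ?_ ?_ hx' ?_ ?_ he'
      · split_ifs
        · exact hf _ hx
        · rw [orderOf_inv]; exact hf _ hx
      · split_ifs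
        · exact hfc _ hx
        · exact (hfc _ hx).inv_right
      · split_ifs
        · exact hf _ hx'
        · rw [orderOf_inv]; exact hf _ hx'
      · split_ifs
        · exact hfc _ hx'
        · exact (hfc _ hx').inv_right
    subst hxx
    have h3 := mul_left_cancel he'
    cases b <;> cases b'
    · rfl
    · exact absurd h3.symm (by simpa using hinv x hx)
    · exact absurd h3 (by simpa using hinv x hx)
    · rfl
  have := Nat.card_le_card_of_injective F hF
  rw [Nat.card_prod] at this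
  unfold so
  simpa [mul_comm] using this

omit [Finite G] in
theorem zm_of_dvd {p n : ℕ} (h : p ∣ n) : (n : ZMod p) = 0 := (ZMod.natCast_eq_zero_iff n p).2 h

omit [Finite G] in
theorem zm_one_ne {p : ℕ} (hp : p.Prime) : (1 : ZMod p) ≠ 0 := by
  haveI := Fact.mk hp
  exact one_ne_zero

omit [Finite G] in
theorem zm_two_ne {p : ℕ} (hp : p.Prime) (hp2 : p ≠ 2) : (2 : ZMod p) ≠ 0 := fun h =>
  hp2 ((Nat.prime_dvd_prime_iff_eq hp Nat.prime_two).1
    ((ZMod.natCast_eq_zero_iff 2 p).1 (by exact_mod_cast h)))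

omit [Finite G] in
theorem two_lt_of_prime {p : ℕ} (hp : p.Prime) (hp2 : p ≠ 2) : 2 < p :=
  lt_of_le_of_ne hp.two_le hp2.symm

/-- Two odd primes cannot occur when all elements of order `> 2` have the same count. -/
theorem eq_of_so_const {b : ℕ} (h : ∀ m, 2 < m → Odd m → so G m = 0 ∨ so G m = b) {p q : ℕ}
    (hp : p.Prime) (hq : q.Prime) (hp2 : p ≠ 2) (hq2 : q ≠ 2) (h1 : p ∣ Nat.card G)
    (h2 : q ∣ Nat.card G) : p = q := by
  by_contra hpq
  have hp3 := two_lt_of_prime hp hp2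
  have hq3 := two_lt_of_prime hq hq2
  have e1 : so G p = b := (h p hp3 (hp.odd_of_ne_two hp2)).resolve_left (so_ne_zero_of_prime hp h1)
  have e2 : so G q = b := (h q hq3 (hq.odd_of_ne_two hq2)).resolve_left (so_ne_zero_of_prime hq h2)
  have f1 := zm_of_dvd (frob_p hp h1)
  have f2 := zm_of_dvd ((dvd_mul_right p q).trans (frob_pq hp hq hpq h1 h2))
  rw [e1] at f1
  rw [e1, e2] at f2
  push_cast at f1 f2
  rcases h (p * q) (by nlinarith) ((hp.odd_of_ne_two hp2).mul (hq.odd_of_ne_two hq2)) with e3 | e3 <;>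
    rw [e3] at f2
  · exact zm_one_ne hp (by linear_combination 2 * f1 - f2)
  · exact zm_two_ne hp hp2 (by linear_combination 3 * f1 - f2)

/-- Three values: `1`, `a`, `b`. -/
theorem exists_values_of_ncard_eq_three
    (h : ((fun m : ℕ => Nat.card {g : G // orderOf g = m}) '' Set.range (orderOf : G → ℕ)).ncard = 3) :
    ∃ a b : ℕ, ∀ m : ℕ, so G m = 0 ∨ so G m = 1 ∨ so G m = a ∨ so G m = b := by
  obtain ⟨x, y, z, -, -, -, hS⟩ := Set.ncard_eq_three.1 h
  have hm : ∀ m : ℕ, so G m = 0 ∨ so G m = x ∨ so G m = y ∨ so G m = z := fun m => by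
    by_cases h0 : so G m = 0
    · exact Or.inl h0
    · obtain ⟨g, hg⟩ := so_ne_zero_iff.1 h0
      have : so G m ∈ ({x, y, z} : Set ℕ) := hS ▸ ⟨m, ⟨g, hg⟩, rfl⟩
      exact Or.inr this
  have h1 := hm 1
  rw [so_one] at h1
  rcases h1 with h1 | h1 | h1 | h1
  · omega
  · exact ⟨y, z, fun m => by have := hm m; omega⟩
  · exact ⟨x, z, fun m => by have := hm m; omega⟩
  · exact ⟨x, y, fun m => by have := hm m; omega⟩

end Cfsg.Agent.H92
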