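import Cfsg.Agent.H71.P3Defs
import Cfsg.Agent.H58.Avg
import Cfsg.Agent.H11.Kernel

/-! The nontrivial constituents of the flag character of a symplectic group. -/

set_option autoImplicit false

namespace Cfsg.Agent.H92.P3How

open Cfsg Module Cfsg.Agent.H27 Cfsg.Agent.H71.P3 Cfsg.Agent.H58 MulAction
open scoped Pointwise

theorem fixDim_comap {G H : Type*} [Group G] [Fintype G] [Group H] [Fintype H] (π : G →* H)
    (hπ : Function.Surjective π) (N : Subgroup H) {ψ : H → ℂ} (hψ : IsCharacter H ψ) :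
    fixDim (N.comap π) (fun g => ψ (π g)) = fixDim N ψ := by
  obtain ⟨n, ρ, rfl⟩ := hψ
  have e : Representation.invariants ((ρ.comp π).comp (N.comap π).subtype) =
      Representation.invariants (ρ.comp N.subtype) := by
    ext v
    refine ⟨fun h ⟨y, hy⟩ => ?_, fun h g => h ⟨π g, g.2⟩⟩
    obtain ⟨g, rfl⟩ := hπ y
    exact h ⟨g, hy⟩
  rw [(fixDim_character N ρ).1, ← e]
  exact (fixDim_character (N.comap π) (ρ.comp π)).1

theorem descend {G H X : Type} [Group G] [Fintype G] [Group H] [Finite H] [MulAction G X] [Finite X]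
    [IsPretransitive G X] (π : G →* H) (hπ : Function.Surjective π)
    (hk : ∀ z, π z = 1 → ∀ x : X, z • x = x) {p : ℕ} [Fact p.Prime] (U : Sylow p G)
    (hU : ∃! a : X, ∀ g ∈ (U : Subgroup G), g • a = a) {χ : G → ℂ} (hχ : IsIrrCharacter G χ)
    (h : classInner (H11.permChar G X) χ ≠ 0) : ∃ ψ : H → ℂ, IsIrrCharacter H ψ ∧
      (∀ g, ψ (π g) = χ g) ∧ H74.Cks.avg (Subgroup.normalizer
        ((U.mapSurjective hπ : Subgroup H) : Set H)) ψ ≠ 0 := by
  classical
  haveI := Fintype.ofFinite H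
  obtain ⟨a, ha, hu⟩ := hU
  have hp := H11.isCharacter_permChar (G := G) X
  obtain ⟨ψ, h1, h2⟩ := H11.exists_irr_lift_of_surjective hχ π hπ (le_trans (fun z hz => by
    rw [H11.mem_charKer_iff hp, H11.permChar_one, H11.permChar_apply,
      Set.eq_univ_of_forall (s := fixedBy X z) (hk z hz), Nat.card_univ])
    (H11.charKer_le_of_constituent hp hχ h))
  refine ⟨ψ, h1, h2, ?_⟩
  set N := Subgroup.normalizer ((U.mapSurjective hπ : Subgroup H) : Set H)
  have hle : N.comap π ≤ stabilizer G a := fun g hg => by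
    have : g⁻¹ • a = a := hu _ fun u hu => by
      obtain ⟨u', h3, h4⟩ := (Subgroup.mem_normalizer_iff.1 hg (π u)).1 ⟨u, hu, rfl⟩
      have h5 := hk (g * u * g⁻¹ * u'⁻¹) (by simp [h4]) a
      rw [mul_smul, ha _ (inv_mem h3), mul_smul, mul_smul] at h5
      exact eq_inv_smul_iff.2 h5
    exact (inv_smul_eq_iff.1 this).symm
  have hc : IsCharacter G χ := hχ.imp fun _ e => e.imp fun _ e => e.2
  have hc' : IsCharacter H ψ := h1.imp fun _ e => e.imp fun _ e => e.2
  have h3 := fixDim_anti hle hc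
  rw [classInner_permChar a hc, Nat.cast_ne_zero] at h
  rw [← funext h2, fixDim_comap π hπ N hc', funext h2] at h3
  rw [H74.Cks.avg, finsum_eq_sum_of_fintype, ← sumOn_eq_sum, ← card_mul_fixDim N hc',
    inv_mul_cancel_left₀ (Nat.cast_ne_zero.2 Nat.card_pos.ne'), Nat.cast_ne_zero]
  omega

theorem how (hw1 : Hw1Stmt) (bor : BorStmt) (oa : OaStmt) : HowStmt := by
  intro k F _ _ hk odd χ hχ h1 h
  haveI := Fintype.ofFinite F
  haveI : Fact (ringChar F).Prime := ⟨CharP.char_is_prime F _⟩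
  haveI := (oa (std k F hk odd)).2.2.1
  let π : (std k F hk odd).G →* PSp k F :=
    (QuotientGroup.mk' _).comp (spEquiv (Fin k) F).symm.toMonoidHom
  have hπ : Function.Surjective π :=
    (QuotientGroup.mk'_surjective _).comp (spEquiv (Fin k) F).symm.surjective
  haveI : Finite (PSp k F) := Finite.of_surjective π hπ
  let U : Sylow (ringChar F) (std k F hk odd).G := Sylow.nonempty.some
  obtain ⟨ψ, h2, h3, h4⟩ := descend π hπ (fun z hz x => by
    obtain ⟨c, hc⟩ := (mem_center_isomGroup_iff jBilin_nondegenerate jBilin_isAlt).1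
      ((mem_center_iff_of_equiv (spEquiv (Fin k) F).symm).2 ((QuotientGroup.eq_one_iff _).1 hz))
    have key : ∀ A : Submodule F (Fin k ⊕ Fin k → F), z.1 • A = A := fun A =>
      Submodule.eq_of_le_of_finrank_eq (by
        rintro _ ⟨v, hv, rfl⟩
        exact (hc v).symm ▸ A.smul_mem c hv) (dm_smul z.1 A)
    exact Subtype.ext (Prod.ext (key _) (key _))) U (bor (std k F hk odd) _ U) hχ h
  obtain ⟨m, hm⟩ := hw1 F (ringChar F) k hk (fun e => (std k F hk odd).two_ne_zero (by
    exact_mod_cast (e ▸ ringChar.Nat.cast_ringChar : ((2 : ℕ) : F) = 0))) _ ψ h2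
    (fun e => h1 (funext fun g => by rw [← h3, e])) h4
  exact ⟨m, by rw [← h3, map_one, hm]⟩

end Cfsg.Agent.H92.P3How
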