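import Mathlib
import Cfsg.Agent.H42.Perm
import Cfsg.Agent.H1.TwoPrimes
import Cfsg.Agent.H1.Nilp

/-!
Small permutation groups (degree at most 24) given by a list of all their elements: kernel-checked
certificates for the carrier, the element orders, solvability and non-solvability.
-/

set_option autoImplicit false
set_option maxRecDepth 100000

namespace Cfsg.Agent.H92.PL

open Cfsg.Agent.H42

/-- Membership of an evaluated number in a list. -/
noncomputable def mem (x : ℕ) (l : List ℕ) : Bool := force x fun y => anyL (fun z => Nat.beq y z) l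

theorem mem_iff {x : ℕ} {l : List ℕ} : mem x l = true ↔ x ∈ l := by
  simp [mem, anyL_iff, beq_iff]

/-- Every member is new and is the identity or carried by a generator to a later member. -/
noncomputable def tree (gs l : List ℕ) : Bool :=
  List.rec true (fun x t ih => Bool.rec false ih
    (Bool.rec (Bool.rec (anyL (fun g => mem (pmul g x) t) gs) true (Nat.beq x pid)) false
      (mem x t))) l

theorem tree_cons (gs : List ℕ) (x : ℕ) (t : List ℕ) : tree gs (x :: t) = true ↔
    (x ∉ t ∧ (x = pid ∨ ∃ g ∈ gs, pmul g x ∈ t)) ∧ tree gs t = true := by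
  have e : tree gs (x :: t) = @Bool.rec (fun _ => Bool) false (tree gs t)
    (@Bool.rec (fun _ => Bool) (@Bool.rec (fun _ => Bool) (anyL (fun g => mem (pmul g x) t) gs)
      true (Nat.beq x pid)) false (mem x t)) := rfl
  have e2 : (∃ g ∈ gs, pmul g x ∈ t) ↔ anyL (fun g => mem (pmul g x) t) gs = true := by
    simp only [anyL_iff, mem_iff]
  rw [e, ← mem_iff, ← beq_iff, e2]
  cases mem x t <;> cases Nat.beq x pid <;> cases anyL (fun g => mem (pmul g x) t) gs <;> simp

/-- The group generated by a list of packed permutations. -/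
def grp (gs : List ℕ) : Subgroup (Equiv.Perm GolayPt) := Subgroup.closure (toPerm '' {g | g ∈ gs})

theorem gen_mem {gs : List ℕ} {g : ℕ} (h : g ∈ gs) : toPerm g ∈ grp gs :=
  Subgroup.subset_closure ⟨g, h, rfl⟩

/-- `l` lists the group generated by `gs`. -/
noncomputable def chk (gs l : List ℕ) : Bool :=
  allL isPerm gs && allL isPerm l && mem pid l && tree gs l &&
    allL (fun x => allL (fun g => mem (pmul g x) l) gs) l

structure Lists (gs l : List ℕ) : Prop where
  perm_gs : ∀ g ∈ gs, isPerm g = true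
  perm : ∀ x ∈ l, isPerm x = true
  nodup : l.Nodup
  mem_iff : ∀ σ, σ ∈ grp gs ↔ ∃ x ∈ l, toPerm x = σ

theorem tree_spec {gs : List ℕ} (hgs : ∀ g ∈ gs, isPerm g = true) :
    ∀ l : List ℕ, (∀ x ∈ l, isPerm x = true) → tree gs l = true →
      l.Nodup ∧ ∀ x ∈ l, toPerm x ∈ grp gs := by
  intro l
  induction l with
  | nil => simp
  | cons x t ih =>
    intro hl h
    obtain ⟨⟨h1, h2⟩, h3⟩ := (tree_cons gs x t).1 h
    obtain ⟨h4, h5⟩ := ih (fun y hy => hl y (List.mem_cons_of_mem _ hy)) h3
    refine ⟨List.nodup_cons.2 ⟨h1, h4⟩, fun y hy => ?_⟩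
    rcases List.mem_cons.1 hy with rfl | hy
    · rcases h2 with rfl | ⟨g, hg, h2⟩
      · rw [toPerm_pid]; exact Subgroup.one_mem _
      · have h6 := h5 _ h2
        rw [toPerm_pmul (hgs g hg) (hl y hy)] at h6
        exact (Subgroup.mul_mem_cancel_left _ (gen_mem hg)).1 h6
    · exact h5 y hy

theorem lists_of_chk {gs l : List ℕ} (h : chk gs l = true) : Lists gs l := by
  simp only [chk, Bool.and_eq_true, allL_iff, mem_iff] at h
  obtain ⟨⟨⟨⟨h1, h2⟩, h3⟩, h4⟩, h5⟩ := h
  obtain ⟨h6, h7⟩ := tree_spec h1 l h2 h4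
  refine ⟨h1, h2, h6, fun σ => ⟨fun hσ => ?_, ?_⟩⟩
  · rw [grp, ← Subgroup.mem_toSubmonoid, Subgroup.closure_toSubmonoid_of_finite] at hσ
    induction hσ using Submonoid.closure_induction_left with
    | one => exact ⟨pid, h3, toPerm_pid⟩
    | mul_left a ha y _ ih =>
      obtain ⟨g, hg, rfl⟩ := ha
      obtain ⟨x, hx, rfl⟩ := ih
      exact ⟨_, h5 x hx g hg, toPerm_pmul (h1 g hg) (h2 x hx)⟩
  · rintro ⟨x, hx, rfl⟩
    exact h7 x hx

theorem Lists.card_filter {gs l : List ℕ} (h : Lists gs l) (P : Equiv.Perm GolayPt → Prop)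
    (p : ℕ → Bool) (hp : ∀ x ∈ l, P (toPerm x) ↔ p x = true) :
    Nat.card {σ : grp gs // P σ} = l.countP p := by
  classical
  have h1 : Nat.card {σ : grp gs // P σ} = (toPerm '' ((l.filter p).toFinset : Set ℕ)).ncard := by
    rw [← Nat.card_coe_set_eq]
    refine Nat.card_congr ((Equiv.subtypeSubtypeEquivSubtypeInter _ P).trans
      (Equiv.subtypeEquivRight fun σ => ?_))
    simp only [h.mem_iff, Set.mem_image, List.coe_toFinset, Set.mem_setOf_eq, List.mem_filter]
    constructor
    · rintro ⟨⟨x, hx, rfl⟩, h2⟩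
      exact ⟨x, ⟨hx, (hp x hx).1 h2⟩, rfl⟩
    · rintro ⟨x, ⟨hx, h2⟩, rfl⟩
      exact ⟨⟨x, hx, rfl⟩, (hp x hx).2 h2⟩
  rw [h1, Set.InjOn.ncard_image, Set.ncard_coe_finset,
    List.toFinset_card_of_nodup (h.nodup.filter _), List.countP_eq_length_filter]
  intro x hx y hy he
  simp only [List.coe_toFinset, Set.mem_setOf_eq, List.mem_filter] at hx hy
  exact toPerm_inj (h.perm x hx.1) (h.perm y hy.1) he

theorem Lists.card {gs l : List ℕ} (h : Lists gs l) : Nat.card (grp gs) = l.length := by
  have h1 := h.card_filter (fun _ => True) (fun _ => true) (by simp)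
  rw [List.countP_true] at h1
  rw [← h1]
  exact (Nat.card_congr (Equiv.subtypeUnivEquiv fun _ => trivial)).symm

/-- Order computation with fuel. -/
noncomputable def ordF (g fuel : ℕ) : ℕ → ℕ → ℕ :=
  Nat.rec (motive := fun _ => ℕ → ℕ → ℕ) (fun _ _ => 0) (fun _ ih acc k => force acc fun a =>
    Bool.rec (ih (pmul g a) (Nat.succ k)) k (Nat.beq a pid)) fuel

theorem ordF_spec {g : ℕ} (hg : isPerm g = true) (fuel : ℕ) : ∀ acc k, isPerm acc = true →
    toPerm acc = toPerm g ^ k → 0 < k → (∀ j < k, 0 < j → toPerm g ^ j ≠ 1) →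
    ordF g fuel acc k ≠ 0 → orderOf (toPerm g) = ordF g fuel acc k := by
  induction fuel with
  | zero => intro _ _ _ _ _ _ h; exact absurd rfl h
  | succ n ih =>
    intro acc k ha hk hk0 hj h
    have e : ordF g (n + 1) acc k = @Bool.rec (fun _ => ℕ) (ordF g n (pmul g acc) (k + 1)) k
      (Nat.beq acc pid) :=
      force_eq acc fun a => @Bool.rec (fun _ => ℕ) (ordF g n (pmul g a) (k + 1)) k (Nat.beq a pid)
    rw [e] at h ⊢
    cases hb : Nat.beq acc pid with
    | true =>
      rw [beq_iff.1 hb, toPerm_pid] at hk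
      exact (orderOf_eq_iff hk0).2 ⟨hk.symm, hj⟩
    | false =>
      rw [hb] at h
      refine ih _ _ (isPerm_pmul hg ha) (by rw [toPerm_pmul hg ha, hk, pow_succ']) k.succ_pos
        (fun j hj' hj0 => ?_) h
      rcases Nat.lt_succ_iff_lt_or_eq.1 hj' with h1 | rfl
      · exact hj j h1 hj0
      · rw [← hk, Ne, toPerm_eq_one_iff ha]
        exact beq_false_iff.1 hb

/-- The list `os` is the list of orders of the members of `l`. -/
noncomputable def chkOrd (l : List ℕ) : List ℕ → Bool :=
  List.rec (motive := fun _ => List ℕ → Bool) (fun os => os.isEmpty) (fun x _ ih os =>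
    List.rec false (fun o os' _ => Bool.rec false (ih os')
      (Nat.beq (ordF x o x 1) o && Nat.ble 1 o)) os) l

theorem chkOrd_spec : ∀ (l os : List ℕ), (∀ x ∈ l, isPerm x = true) → chkOrd l os = true →
    l.map (fun x => orderOf (toPerm x)) = os := by
  intro l
  induction l with
  | nil =>
    intro os _ h
    exact (List.isEmpty_iff.1 h).symm
  | cons x t ih =>
    intro os hl h
    cases os with
    | nil => exact absurd h Bool.false_ne_true
    | cons o os' =>
      have e : chkOrd (x :: t) (o :: os') = @Bool.rec (fun _ => Bool) false (chkOrd t os')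
        (Nat.beq (ordF x o x 1) o && Nat.ble 1 o) := rfl
      rw [e] at h
      cases hb : (Nat.beq (ordF x o x 1) o && Nat.ble 1 o) with
      | false => rw [hb] at h; exact absurd h Bool.false_ne_true
      | true =>
        rw [hb] at h
        rw [Bool.and_eq_true, beq_iff, ble_iff] at hb
        have hx := hl x List.mem_cons_self
        rw [List.map_cons, ih os' (fun y hy => hl y (List.mem_cons_of_mem _ hy)) h,
          ordF_spec hx o x 1 hx (pow_one _).symm one_pos (fun j h1 h2 => by omega)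
            (by omega), hb.1]

theorem Lists.card_pow_eq_one {gs l os : List ℕ} (h : Lists gs l) (ho : chkOrd l os = true)
    (n : ℕ) : Nat.card {σ : grp gs // σ ^ n = 1} = os.countP fun o => Nat.beq (n % o) 0 := by
  rw [← chkOrd_spec l os h.perm ho, List.countP_map,
    ← h.card_filter (fun σ => σ ^ n = 1) _ fun x _ => by
      simp only [Function.comp, beq_iff]
      rw [← orderOf_dvd_iff_pow_eq_one, Nat.dvd_iff_mod_eq_zero]]
  exact Nat.card_congr (Equiv.subtypeEquivRight fun σ => by simp [Subtype.ext_iff])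

/-- `l1` is normalized by the generators `gs` and the generators `gs1` are in `l`. -/
noncomputable def chkNormal (gs l gs1 l1 : List ℕ) : Bool :=
  allL (fun g => mem g l) gs1 &&
    allL (fun g => allL (fun x => mem (pmul (pmul g x) (pinv g)) l1) l1) gs

theorem isSolvable_of_normal {gs l gs1 l1 : List ℕ} (h : Lists gs l) (h1 : Lists gs1 l1)
    (hn : chkNormal gs l gs1 l1 = true) {p q a b p' q' a' b' : ℕ} (hp : p.Prime) (hq : q.Prime)
    (hp' : p'.Prime) (hq' : q'.Prime) (c1 : l1.length = p ^ a * q ^ b)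
    (c2 : l.length = l1.length * (p' ^ a' * q' ^ b')) : Group.IsSolvable (grp gs) := by
  simp only [chkNormal, Bool.and_eq_true, allL_iff, mem_iff] at hn
  have hle : grp gs1 ≤ grp gs := (Subgroup.closure_le _).2 (by
    rintro _ ⟨g, hg, rfl⟩
    exact (h.mem_iff _).2 ⟨g, hn.1 g hg, rfl⟩)
  have hnorm : grp gs ≤ Subgroup.normalizer (grp gs1 : Set (Equiv.Perm GolayPt)) :=
    (Subgroup.closure_le _).2 (by
      rintro _ ⟨g, hg, rfl⟩
      refine Subgroup.mem_normalizer_fintype fun σ hσ => ?_
      obtain ⟨x, hx, rfl⟩ := (h1.mem_iff σ).1 hσ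
      refine (h1.mem_iff _).2 ⟨_, hn.2 g hg x hx, ?_⟩
      have hg' := h.perm_gs g hg
      rw [toPerm_pmul (isPerm_pmul hg' (h1.perm x hx)) (isPerm_pinv hg'),
        toPerm_pmul hg' (h1.perm x hx), toPerm_pinv hg'])
  haveI : ((grp gs1).subgroupOf (grp gs)).Normal :=
    (Subgroup.normal_subgroupOf_iff_le_normalizer hle).2 hnorm
  have c3 : Nat.card ((grp gs1).subgroupOf (grp gs)) = l1.length := by
    rw [← h1.card]
    exact Nat.card_congr (Subgroup.subgroupOfEquivOfLe hle).toEquiv
  haveI : Group.IsSolvable ((grp gs1).subgroupOf (grp gs)) :=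
    H1.isSolvable_of_card_dvd hp hq (c3.trans c1).dvd
  haveI : Group.IsSolvable (grp gs ⧸ (grp gs1).subgroupOf (grp gs)) := by
    refine H1.isSolvable_of_card_dvd (a := a') (b := b') hp' hq' (dvd_of_eq ?_)
    have h2 := Subgroup.card_eq_card_quotient_mul_card_subgroup ((grp gs1).subgroupOf (grp gs))
    rw [h.card, c2, c3, mul_comm] at h2
    exact (Nat.eq_of_mul_eq_mul_right (c3 ▸ Nat.card_pos) h2).symm
  exact H1.isSolvable_of_normal_of_quotient ((grp gs1).subgroupOf (grp gs))

theorem isSolvable_of_card {gs l : List ℕ} (h : Lists gs l) {p q a b : ℕ} (hp : p.Prime)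
    (hq : q.Prime) (c : l.length = p ^ a * q ^ b) : Group.IsSolvable (grp gs) :=
  H1.isSolvable_of_card_dvd hp hq (h.card.trans c).dvd

/-- Every member of `X` is a commutator of two members of `X`. -/
noncomputable def chkPerfect (l X : List ℕ) : Bool :=
  allL (fun x => mem x l) X && allL (fun x => anyL (fun y => anyL (fun z =>
    Nat.beq (pmul (pmul (pmul y z) (pinv y)) (pinv z)) x) X) X) X

theorem not_isSolvable {gs l X : List ℕ} (h : Lists gs l) (hX : chkPerfect l X = true) {x : ℕ}
    (hx : x ∈ X) (hx1 : x ≠ pid) : ¬ Group.IsSolvable (grp gs) := by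
  simp only [chkPerfect, Bool.and_eq_true, allL_iff, mem_iff, anyL_iff, beq_iff] at hX
  have key : ∀ n, ∀ y (hy : y ∈ X),
      (⟨toPerm y, (h.mem_iff _).2 ⟨y, hX.1 y hy, rfl⟩⟩ : grp gs) ∈ derivedSeries (grp gs) n := by
    intro n
    induction n with
    | zero => exact fun _ _ => Subgroup.mem_top _
    | succ n ih =>
      intro w hw
      obtain ⟨y, hy, z, hz, he⟩ := hX.2 w hw
      have h1 := Subgroup.commutator_mem_commutator (ih y hy) (ih z hz)
      rw [derivedSeries_succ]
      convert h1 using 1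
      have hy' := h.perm y (hX.1 y hy)
      have hz' := h.perm z (hX.1 z hz)
      apply Subtype.ext
      change toPerm w = toPerm y * toPerm z * (toPerm y)⁻¹ * (toPerm z)⁻¹
      rw [← he, toPerm_pmul (isPerm_pmul (isPerm_pmul hy' hz') (isPerm_pinv hy')) (isPerm_pinv hz'),
        toPerm_pmul (isPerm_pmul hy' hz') (isPerm_pinv hy'), toPerm_pmul hy' hz', toPerm_pinv hy',
        toPerm_pinv hz']
  refine not_isSolvable_of_mem_derivedSeries (fun h1 => hx1 ?_) fun n => key n x hx
  exact (toPerm_eq_one_iff (h.perm x (hX.1 x hx))).1 (congrArg Subtype.val h1)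

end Cfsg.Agent.H92.PL
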