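import Cfsg.Agent.H92.ClassSize
import Cfsg.Agent.H98.SylIn

/-! Real class sizes with equal 2-part (S3860): elementary vocabulary. -/

set_option autoImplicit false

namespace Cfsg.Agent.H92.RC

open Subgroup H98

variable {G : Type*} [Group G]

/-- `u` inverts `x` -/
def Inv (u x : G) : Prop := u * x * u⁻¹ = x⁻¹

/-- `x` is real -/
def Re (x : G) : Prop := ∃ u, Inv u x

/-- `g` is a `2`-element -/
def Two (g : G) : Prop := ∃ k : ℕ, g ^ 2 ^ k = 1

theorem cj_of_comm {c x : G} (h : Commute c x) : c * x * c⁻¹ = x := by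
  rw [h.eq, mul_inv_cancel_right]

theorem comm_of_cj {c x : G} (h : c * x * c⁻¹ = x) : Commute c x := by
  rw [mul_inv_eq_iff_eq_mul] at h; exact h

theorem comm_of_center {z : G} (hz : z ∈ center G) (g : G) : Commute z g :=
  (mem_center_iff.1 hz g).symm

theorem Inv.mul_inv {u v x : G} (hu : Inv u x) (hv : Inv v x) : Commute (u * v) x := by
  apply comm_of_cj
  calc u * v * x * (u * v)⁻¹ = u * (v * x * v⁻¹) * u⁻¹ := by group
    _ = (u * x * u⁻¹)⁻¹ := by rw [hv]; group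
    _ = x := by rw [hu, inv_inv]

theorem Inv.mul_comm {u c x : G} (hu : Inv u x) (hc : Commute c x) : Inv (u * c) x := by
  unfold Inv
  calc u * c * x * (u * c)⁻¹ = u * (c * x * c⁻¹) * u⁻¹ := by group
    _ = x⁻¹ := by rw [cj_of_comm hc, hu]

theorem Inv.comm_mul {u c x : G} (hu : Inv u x) (hc : Commute c x) : Inv (c * u) x := by
  unfold Inv
  calc c * u * x * (c * u)⁻¹ = c * (u * x * u⁻¹) * c⁻¹ := by group
    _ = x⁻¹ := by rw [hu, cj_of_comm hc.inv_right]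

theorem Inv.inv {u x : G} (hu : Inv u x) : Inv u⁻¹ x := by
  have h := hu.mul_inv hu
  have : u⁻¹ = (u * u)⁻¹ * u := by group
  rw [this]
  exact hu.comm_mul h.inv_left

theorem Inv.zpow {u x : G} (hu : Inv u x) (n : ℤ) : Inv u (x ^ n) := by
  unfold Inv at *
  rw [← conj_zpow, hu, inv_zpow]

theorem Inv.pow {u x : G} (hu : Inv u x) (n : ℕ) : Inv u (x ^ n) := by
  simpa using hu.zpow n

theorem Inv.inv_right {u x : G} (hu : Inv u x) : Inv u x⁻¹ := by
  simpa using hu.zpow (-1)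

theorem Inv.of_mem_zpowers {u x y : G} (hu : Inv u x) (hy : y ∈ zpowers x) : Inv u y := by
  obtain ⟨n, rfl⟩ := mem_zpowers_iff.1 hy
  exact hu.zpow n

theorem Inv.odd_pow {u x : G} (hu : Inv u x) {m : ℕ} (hm : Odd m) : Inv (u ^ m) x := by
  obtain ⟨k, rfl⟩ := hm
  rw [pow_succ, pow_mul, sq]
  exact hu.comm_mul ((hu.mul_inv hu).pow_left k)

theorem Inv.conj {u x : G} (hu : Inv u x) (g : G) : Inv (g * u * g⁻¹) (g * x * g⁻¹) := by
  unfold Inv at *
  calc g * u * g⁻¹ * (g * x * g⁻¹) * (g * u * g⁻¹)⁻¹ = g * (u * x * u⁻¹) * g⁻¹ := by group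
    _ = _ := by rw [hu]; group

theorem comm_conj {u x : G} (hu : Commute u x) (g : G) : Commute (g * u * g⁻¹) (g * x * g⁻¹) := by
  have := hu.map (MulAut.conj g)
  simpa using this

theorem Inv.mul_right {u x w : G} (hx : Inv u x) (hw : Inv u w) (h : Commute x w) :
    Inv u (x * w) := by
  unfold Inv at *
  calc u * (x * w) * u⁻¹ = (u * x * u⁻¹) * (u * w * u⁻¹) := by group
    _ = _ := by rw [hx, hw, mul_inv_rev, h.inv_inv.eq]

theorem Inv.sq_eq_one {u x : G} (hx : Inv u x) (h : Commute u x) : x * x = 1 := by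
  unfold Inv at hx
  rw [cj_of_comm h] at hx
  nth_rewrite 2 [hx]
  exact mul_inv_cancel x

theorem inv_of_sq {u x : G} (hx : x * x = 1) (h : Commute u x) : Inv u x := by
  unfold Inv
  rw [cj_of_comm h]
  exact (inv_eq_of_mul_eq_one_right hx).symm

theorem Inv.comm_of_sq {u x : G} (hu : Inv u x) (hx : x * x = 1) : Commute u x := by
  apply comm_of_cj
  rw [hu]
  exact inv_eq_of_mul_eq_one_right hx

theorem Inv.mul_center {u x z : G} (hu : Inv u x) (hz : z ∈ center G) : Inv (u * z) x :=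
  hu.mul_comm (comm_of_center hz x)

theorem Inv.not_center {u x : G} (hu : Inv u x) (hx : x * x ≠ 1) : x ∉ center G :=
  fun h => hx (hu.sq_eq_one (comm_of_center h u).symm)

theorem re_of_sq {x : G} (hx : x * x = 1) : Re x := ⟨1, inv_of_sq hx (Commute.one_left x)⟩

theorem Re.conj {x : G} (hx : Re x) (g : G) : Re (g * x * g⁻¹) :=
  let ⟨_, hu⟩ := hx; ⟨_, hu.conj g⟩

theorem re_iff {x : G} : Re x ↔ IsConj x x⁻¹ := by
  rw [isConj_iff]; rfl

/-- two elements with the same central square: the quotient is inverted by both -/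
theorem inv_div {a b : G} (h : a * a = b * b) (ha : a * a ∈ center G) : Inv a (a * b⁻¹) := by
  unfold Inv
  have h1 : Commute (a * a) b⁻¹ := comm_of_center ha _
  calc a * (a * b⁻¹) * a⁻¹ = (a * a * b⁻¹) * a⁻¹ := by group
    _ = b⁻¹ * (a * a) * a⁻¹ := by rw [h1.eq]
    _ = _ := by rw [h]; group

theorem inv_div' {a b : G} (h : a * a = b * b) (ha : a * a ∈ center G) : Inv b (a * b⁻¹) := by
  have := (inv_div h.symm (h ▸ ha)).inv_right
  simpa using this

theorem center_conj {z : G} (hz : z ∈ center G) (g : G) : g * z * g⁻¹ = z :=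
  cj_of_comm (comm_of_center hz g).symm

theorem conj_mem_center_iff {z g : G} : g * z * g⁻¹ ∈ center G ↔ z ∈ center G := by
  refine ⟨fun h => ?_, fun h => by rwa [center_conj h]⟩
  have := center_conj h g⁻¹
  have h2 : g⁻¹ * (g * z * g⁻¹) * g⁻¹⁻¹ = z := by group
  rw [h2] at this
  rwa [this]

/-! 2-elements -/

theorem two_one : Two (1 : G) := ⟨0, by simp⟩

theorem Two.pow {g : G} (h : Two g) (n : ℕ) : Two (g ^ n) := by
  obtain ⟨k, hk⟩ := h
  exact ⟨k, by rw [← pow_mul, mul_comm, pow_mul, hk, one_pow]⟩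

theorem Two.inv {g : G} (h : Two g) : Two g⁻¹ := by
  obtain ⟨k, hk⟩ := h
  exact ⟨k, by rw [inv_pow, hk, inv_one]⟩

theorem Two.conj {g : G} (h : Two g) (a : G) : Two (a * g * a⁻¹) := by
  obtain ⟨k, hk⟩ := h
  exact ⟨k, by rw [conj_pow, hk]; group⟩

theorem Two.of_sq {g : G} (h : Two (g * g)) : Two g := by
  obtain ⟨k, hk⟩ := h
  exact ⟨k + 1, by rw [pow_succ', pow_mul, sq, hk]⟩

theorem two_of_mem {Q : Subgroup G} (hQ : IsPGroup 2 Q) {g : G} (hg : g ∈ Q) : Two g := by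
  obtain ⟨k, hk⟩ := hQ ⟨g, hg⟩
  exact ⟨k, congrArg Subtype.val hk⟩

theorem Two.isP {g : G} (h : Two g) : IsPGroup 2 (zpowers g) :=
  let ⟨_, hk⟩ := h; H8.isPGroup_zpowers_of_pow_eq_one hk

theorem Two.mul {a b : G} (ha : Two a) (hb : Two b) (h : Commute a b) : Two (a * b) := by
  obtain ⟨k, hk⟩ := ha
  obtain ⟨l, hl⟩ := hb
  refine ⟨k + l, ?_⟩
  rw [h.mul_pow, pow_add, pow_mul, hk, mul_comm (2 ^ k), pow_mul, hl]
  simp

theorem Two.eq_one {g : G} (h : Two g) (ho : Odd (orderOf g)) : g = 1 := by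
  obtain ⟨k, hk⟩ := h
  have h1 := orderOf_dvd_of_pow_eq_one hk
  exact orderOf_eq_one_iff.1 (Nat.eq_one_of_dvd_coprimes
    ((Nat.coprime_two_right.2 ho).pow_right k) dvd_rfl h1)

theorem Two.ord {g : G} (h : Two g) : ∃ k, orderOf g = 2 ^ k := by
  obtain ⟨k, hk⟩ := h
  exact eq_pow_of_dvd_pow Nat.prime_two (orderOf_dvd_of_pow_eq_one hk)

theorem two_of_orderOf {g : G} (h : ∃ k, orderOf g = 2 ^ k) : Two g := by
  obtain ⟨k, hk⟩ := h
  exact ⟨k, by rw [← hk, pow_orderOf_eq_one]⟩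

theorem Two.coprime {w x : G} (h : Two w) (ho : Odd (orderOf x)) :
    (orderOf x).Coprime (orderOf w) := by
  obtain ⟨k, hk⟩ := h.ord
  rw [hk]
  exact (Nat.coprime_two_right.2 ho).pow_right k

theorem exists_odd_pow [Finite G] (u : G) : ∃ m, Odd m ∧ Two (u ^ m) := by
  obtain ⟨k, m, hm, h⟩ := Nat.exists_eq_two_pow_mul_odd (orderOf_pos u).ne'
  exact ⟨m, hm, k, by rw [← pow_mul, mul_comm, ← h, pow_orderOf_eq_one]⟩

theorem exists_parts [Finite G] (g : G) : ∃ x w : G, x ∈ zpowers g ∧ w ∈ zpowers g ∧ g = x * w ∧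
    Odd (orderOf x) ∧ Two w ∧ Commute x w := by
  obtain ⟨a, b, ha, hb, h, h1, h2⟩ := exists_p_parts Nat.prime_two g
  have hc := commute_of_mem_zpowers ha hb
  refine ⟨b, a, hb, ha, by rw [h, hc.eq], ?_, two_of_orderOf h1, hc.symm⟩
  rwa [← Nat.not_even_iff_odd, even_iff_two_dvd]

theorem odd_sq_ne {x : G} (ho : Odd (orderOf x)) (hx : x ≠ 1) : x * x ≠ 1 :=
  fun h => hx (Two.eq_one ⟨1, by rw [pow_one, sq, h]⟩ ho)

theorem odd_conj {x : G} (ho : Odd (orderOf x)) (g : G) : Odd (orderOf (g * x * g⁻¹)) := by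
  rwa [orderOf_conj]

theorem eq_of_sq_eq {a b : G} (ha : Odd (orderOf a)) (hb : Odd (orderOf b)) (h : a * a = b * b) :
    a = b := by
  obtain ⟨k, hk⟩ := ha.mul hb
  have h1 : a ^ (2 * k + 1) = 1 := by rw [← hk, pow_mul, pow_orderOf_eq_one, one_pow]
  have h2 : b ^ (2 * k + 1) = 1 := by rw [← hk, mul_comm, pow_mul, pow_orderOf_eq_one, one_pow]
  calc a = a ^ (2 * k + 1) * a := by rw [h1, one_mul]
    _ = (a * a) ^ (k + 1) := by rw [← sq, ← pow_mul, ← pow_succ]; congr 1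
    _ = (b * b) ^ (k + 1) := by rw [h]
    _ = b ^ (2 * k + 1) * b := by rw [← sq, ← pow_mul, ← pow_succ]; congr 1
    _ = b := by rw [h2, one_mul]

theorem exists_sqrt {a : G} (ha : Odd (orderOf a)) : ∃ n : ℕ, a ^ n * a ^ n = a := by
  obtain ⟨k, hk⟩ := ha
  refine ⟨k + 1, ?_⟩
  rw [← pow_add, show k + 1 + (k + 1) = orderOf a + 1 by omega, pow_succ, pow_orderOf_eq_one,
    one_mul]

/-- an element acting on an odd order element modulo a commuting 2-element centralises it -/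
theorem comm_of_odd {f x q : G} (ho : Odd (orderOf x)) (hq : Two q) (hc : Commute q x)
    (h : f * x * f⁻¹ = q * x) : Commute f x := by
  have h1 : (q * x) ^ orderOf x = 1 := by rw [← h, conj_pow, pow_orderOf_eq_one]; group
  rw [hc.mul_pow, pow_orderOf_eq_one, mul_one] at h1
  have h2 : q = 1 := hq.eq_one (ho.of_dvd_nat (orderOf_dvd_of_pow_eq_one h1))
  rw [h2, one_mul] at h
  exact comm_of_cj h

/-- descending along squares -/
theorem exists_pow_step {w : G} (hw : Two w) (K : Subgroup G) (h : w ∉ K) :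
    ∃ j : ℕ, w ^ 2 ^ j ∉ K ∧ w ^ 2 ^ j * w ^ 2 ^ j ∈ K := by
  obtain ⟨k, hk⟩ := hw
  induction k generalizing w with
  | zero => exact absurd (by rw [show w = 1 by simpa using hk]; exact K.one_mem) h
  | succ k ih =>
    by_cases h2 : w * w ∈ K
    · exact ⟨0, by simpa using h, by simpa using h2⟩
    · obtain ⟨j, h3, h4⟩ := ih h2 (by rw [← sq, ← pow_mul, ← pow_succ', hk])
      refine ⟨j + 1, ?_, ?_⟩ <;> rwa [pow_succ', pow_mul, sq]

theorem isP_sup {Q : Subgroup G} (hQ : IsPGroup 2 Q) {g : G} (hg : Two g)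
    (hn : g ∈ normalizer (Q : Set G)) : IsPGroup 2 ↥(Q ⊔ zpowers g) :=
  hQ.to_sup_of_normal_left' hg.isP ((zpowers_le).2 hn)

theorem mem_normalizer_of [Finite G] {Q : Subgroup G} {g : G} (h : ∀ q ∈ Q, g * q * g⁻¹ ∈ Q) :
    g ∈ normalizer (Q : Set G) :=
  mem_normalizer_fintype (S := (Q : Set G)) h

theorem conj_mem_of_normalizer {Q : Subgroup G} {g q : G} (h : g ∈ normalizer (Q : Set G))
    (hq : q ∈ Q) : g * q * g⁻¹ ∈ Q := (mem_normalizer_iff.1 h q).1 hq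

/-- a 2-group grows in its normalizer -/
theorem exists_step [Finite G] {P T : Subgroup G} (hT : IsPGroup 2 T) (hPT : P ≤ T) (hne : P ≠ T) :
    ∃ t ∈ T, t ∉ P ∧ t ∈ normalizer (P : Set G) ∧ t * t ∈ P := by
  have hnil := hT.isNilpotent
  have h1 : P.subgroupOf T < ⊤ := lt_top_iff_ne_top.2 fun h =>
    hne (le_antisymm hPT (subgroupOf_eq_top.1 h))
  have h2 := normalizerCondition_of_isNilpotent (G := T) _ h1
  obtain ⟨s, hs1, hs2⟩ := SetLike.exists_of_lt h2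
  have hs3 : (s : G) ∈ normalizer (P : Set G) := mem_normalizer_of fun q hq =>
    (mem_normalizer_iff.1 hs1 ⟨q, hPT hq⟩).1 hq
  obtain ⟨j, h3, h4⟩ := exists_pow_step (two_of_mem hT s.2) P hs2
  exact ⟨_, pow_mem s.2 _, h3, pow_mem hs3 _, h4⟩

theorem eq_of_le_card [Finite G] {A B : Subgroup G} (h : A ≤ B) (hc : Nat.card B ≤ Nat.card A) :
    A = B := eq_of_le_of_card_ge h hc

/-- index at most two -/
theorem mul_mem_of_card [Finite G] {R T : Subgroup G} (hR : R ≤ T)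
    (hc : Nat.card T ≤ 2 * Nat.card R) {a b : G} (ha : a ∈ T) (hb : b ∈ T) (ha' : a ∉ R)
    (hb' : b ∉ R) : a * b ∈ R := by
  have h1 := (R.subgroupOf T).card_mul_index
  rw [Nat.card_congr (subgroupOfEquivOfLe hR).toEquiv] at h1
  have hpos : 0 < Nat.card R := Nat.card_pos
  have h2 : (R.subgroupOf T).index ≠ 1 := fun h => ha' (subgroupOf_eq_top.1 (index_eq_one.1 h) ha)
  have h3 : (R.subgroupOf T).index ≠ 0 := index_ne_zero_of_finite
  have h4 : (R.subgroupOf T).index ≤ 2 := by nlinarith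
  have h5 : (R.subgroupOf T).index = 2 := by omega
  exact (mul_mem_iff_of_index_two h5 (a := ⟨a, ha⟩) (b := ⟨b, hb⟩)).2 (iff_of_false ha' hb')

/-! extended centralizers -/

/-- the extended centralizer -/
def Cs (x : G) : Subgroup G where
  carrier := {g | Commute g x ∨ Inv g x}
  one_mem' := Or.inl (Commute.one_left x)
  mul_mem' := by
    rintro a b (ha | ha) (hb | hb)
    exacts [Or.inl (ha.mul_left hb), Or.inr (hb.comm_mul ha), Or.inr (ha.mul_comm hb),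
      Or.inl (ha.mul_inv hb)]
  inv_mem' := by
    rintro a (ha | ha)
    exacts [Or.inl ha.inv_left, Or.inr ha.inv]

theorem mem_Cs {g x : G} : g ∈ Cs x ↔ Commute g x ∨ Inv g x := Iff.rfl

theorem C_le_Cs (x : G) : Ce[x] ≤ Cs x := fun _ h => Or.inl (mem_C.1 h)

theorem Cs_le_Cs {x y : G} (h : y ∈ zpowers x) : Cs x ≤ Cs y := by
  rintro g (hg | hg)
  · exact Or.inl (mem_C.1 (C_le_C_of_mem_zpowers h (mem_C.2 hg)))
  · exact Or.inr (hg.of_mem_zpowers h)

theorem Cs_le_norm (x : G) : Cs x ≤ normalizer ((Ce[x] : Subgroup G) : Set G) := by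
  have key : ∀ g ∈ Cs x, ∀ c ∈ Ce[x], g * c * g⁻¹ ∈ Ce[x] := by
    intro g hg c hc
    have h1 := comm_conj (mem_C.1 hc) g
    rcases hg with hg | hg
    · rw [cj_of_comm hg] at h1; exact mem_C.2 h1
    · rw [hg] at h1; exact mem_C.2 (Commute.inv_right_iff.1 h1)
  intro g hg
  refine mem_normalizer_iff.2 fun c => ⟨key g hg c, fun h => ?_⟩
  have := key g⁻¹ (inv_mem hg) _ h
  simpa [mul_assoc] using this

theorem Inv.conj_Cs {u x k : G} (hu : Inv u x) (hk : k ∈ Cs x) : Inv (k * u * k⁻¹) x := by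
  have h := hu.conj k
  rcases hk with hk | hk
  · rwa [cj_of_comm hk] at h
  · rw [hk] at h; simpa using h.inv_right

/-- centralizer modulo the centre -/
def Cz (v : G) : Subgroup G where
  carrier := {g | g * v * g⁻¹ * v⁻¹ ∈ center G}
  one_mem' := by simp
  mul_mem' := by
    intro a b ha hb
    have h1 := center_conj hb a
    have : a * b * v * (a * b)⁻¹ * v⁻¹ =
        (a * (b * v * b⁻¹ * v⁻¹) * a⁻¹) * (a * v * a⁻¹ * v⁻¹) := by group
    show _ ∈ center G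
    rw [this, h1]
    exact mul_mem hb ha
  inv_mem' := by
    intro a ha
    have h1 := center_conj (inv_mem ha) a⁻¹
    have : a⁻¹ * v * a⁻¹⁻¹ * v⁻¹ = a⁻¹ * (a * v * a⁻¹ * v⁻¹)⁻¹ * a⁻¹⁻¹ := by group
    show _ ∈ center G
    rw [this, h1]
    exact inv_mem ha

theorem mem_Cz {g v : G} : g ∈ Cz v ↔ g * v * g⁻¹ * v⁻¹ ∈ center G := Iff.rfl

theorem Cz_symm {g v : G} (h : g ∈ Cz v) : v ∈ Cz g := by
  have := inv_mem (mem_Cz.1 h)
  rw [mem_Cz]
  convert this using 1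
  group

theorem C_le_Cz (v : G) : Ce[v] ≤ Cz v := fun g h => by
  rw [mem_Cz, cj_of_comm (mem_C.1 h), mul_inv_cancel]; exact one_mem _

theorem mem_Cz_of_comm {g v : G} (h : Commute g v) : g ∈ Cz v := C_le_Cz v (mem_C.2 h)

theorem Inv.mem_Cz {u v : G} (h : Inv u v) (hv : v * v ∈ center G) : u ∈ Cz v := by
  rw [RC.mem_Cz, h, ← mul_inv_rev]; exact inv_mem hv

theorem Cs_le_Cz {v : G} (hv : v * v ∈ center G) : Cs v ≤ Cz v := by
  rintro g (hg | hg)
  exacts [mem_Cz_of_comm hg, hg.mem_Cz hv]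

theorem mem_Cz_mul {g a b : G} (ha : g ∈ Cz a) (hb : g ∈ Cz b) : g ∈ Cz (a * b) :=
  Cz_symm (mul_mem (Cz_symm ha) (Cz_symm hb))

theorem mem_Cz_inv {g a : G} (ha : g ∈ Cz a) : g ∈ Cz a⁻¹ := Cz_symm (inv_mem (Cz_symm ha))

theorem mem_Cz_center {z : G} (hz : z ∈ center G) (g : G) : g ∈ Cz z :=
  mem_Cz_of_comm (comm_of_center hz g).symm

theorem mem_Cz_of_div {g a b : G} (h : a * b⁻¹ ∈ center G) (hb : g ∈ Cz b) : g ∈ Cz a := by
  have := mem_Cz_mul (mem_Cz_center h g) hb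
  simpa using this

theorem mem_Cz_conj {g v : G} (h : g ∈ Cz v) (k : G) : k * g * k⁻¹ ∈ Cz (k * v * k⁻¹) := by
  have := (conj_mem_center_iff (g := k)).2 (mem_Cz.1 h)
  rw [mem_Cz]
  convert this using 1
  group

theorem cj_eq_of_Cz {g v : G} (h : g ∈ Cz v) : ∃ z ∈ center G, g * v * g⁻¹ = z * v :=
  ⟨_, mem_Cz.1 h, by group⟩

theorem Cz_conj_eq {g v : G} (h : g ∈ Cz v) : Cz (g * v * g⁻¹) = Cz v := by
  ext a
  exact ⟨fun ha => mem_Cz_of_div (by simpa using inv_mem (mem_Cz.1 h)) ha,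
    fun ha => mem_Cz_of_div (mem_Cz.1 h) ha⟩

theorem C_conj_eq {g v : G} (h : g ∈ Cz v) : Ce[g * v * g⁻¹] = Ce[v] := by
  obtain ⟨z, hz, h1⟩ := cj_eq_of_Cz h
  rw [h1, C_mul_of_mem_center' hz]

theorem Cz_le_norm (v : G) : Cz v ≤ normalizer ((Ce[v] : Subgroup G) : Set G) := by
  have key : ∀ g ∈ Cz v, ∀ c ∈ Ce[v], g * c * g⁻¹ ∈ Ce[v] := by
    intro g hg c hc
    rw [← C_conj_eq hg]
    exact mem_C.2 (comm_conj (mem_C.1 hc) g)
  intro g hg
  refine mem_normalizer_iff.2 fun c => ⟨key g hg c, fun h => ?_⟩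
  have := key g⁻¹ (inv_mem hg) _ h
  simpa [mul_assoc] using this

/-- commutators with `v` multiply -/
theorem cz_mul {a b v : G} (hb : b ∈ Cz v) :
    a * b * v * (a * b)⁻¹ * v⁻¹ = (b * v * b⁻¹ * v⁻¹) * (a * v * a⁻¹ * v⁻¹) := by
  rw [← center_conj (mem_Cz.1 hb) a]
  group

theorem cz_sq {g v : G} (hv : v * v ∈ center G) (h : g ∈ Cz v) :
    (g * v * g⁻¹ * v⁻¹) * (g * v * g⁻¹ * v⁻¹) = 1 := by
  obtain ⟨z, hz, h1⟩ := cj_eq_of_Cz h
  have h2 : z * v * (z * v) = v * v := by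
    rw [← h1, ← center_conj hv g]; group
  have h3 : z * v * (z * v) = z * z * (v * v) := by
    rw [mul_assoc, ← mul_assoc v, (comm_of_center hz v).symm.eq]; group
  rw [h1, mul_inv_cancel_right]
  rw [h3] at h2
  exact mul_eq_right.1 h2

theorem sq_comm {g v : G} (hv : v * v ∈ center G) (h : g ∈ Cz v) : Commute (g * g) v := by
  apply comm_of_cj
  have := cz_mul (a := g) h
  rw [cz_sq hv h] at this
  exact mul_inv_eq_one.1 this

theorem comm_comm {a b v : G} (ha : a ∈ Cz v) (hb : b ∈ Cz v) :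
    Commute (a * b * a⁻¹ * b⁻¹) v := by
  obtain ⟨z, hz, h1⟩ := cj_eq_of_Cz ha
  obtain ⟨y, hy, h2⟩ := cj_eq_of_Cz hb
  have h3 : a * b * v * (a * b)⁻¹ = b * a * v * (b * a)⁻¹ := by
    calc a * b * v * (a * b)⁻¹ = a * (b * v * b⁻¹) * a⁻¹ := by group
      _ = (a * y * a⁻¹) * (a * v * a⁻¹) := by rw [h2]; group
      _ = y * (z * v) := by rw [center_conj hy, h1]
      _ = z * (y * v) := by rw [← mul_assoc, (comm_of_center hy z).eq, mul_assoc]
      _ = (b * z * b⁻¹) * (b * v * b⁻¹) := by rw [center_conj hz, h2]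
      _ = b * (z * v) * b⁻¹ := by group
      _ = _ := by rw [← h1]; group
  have h4 : Commute ((b * a)⁻¹ * (a * b)) v := by
    apply comm_of_cj
    calc (b * a)⁻¹ * (a * b) * v * ((b * a)⁻¹ * (a * b))⁻¹
        = (b * a)⁻¹ * (a * b * v * (a * b)⁻¹) * (b * a) := by group
      _ = v := by rw [h3]; group
  have h5 := conj_mem_of_normalizer (Cz_le_norm v (mul_mem hb ha)) (mem_C.2 h4)
  have h6 : b * a * ((b * a)⁻¹ * (a * b)) * (b * a)⁻¹ = a * b * a⁻¹ * b⁻¹ := by group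
  rw [h6] at h5
  exact mem_C.1 h5

theorem cz_odd_pow {g v : G} (hv : v * v ∈ center G) (h : g ∈ Cz v) {m : ℕ} (hm : Odd m) :
    g ^ m * v * (g ^ m)⁻¹ = g * v * g⁻¹ := by
  obtain ⟨k, rfl⟩ := hm
  have := cj_of_comm ((sq_comm hv h).pow_left k)
  rw [pow_succ', pow_mul, sq]
  calc g * (g * g) ^ k * v * (g * (g * g) ^ k)⁻¹
      = g * ((g * g) ^ k * v * ((g * g) ^ k)⁻¹) * g⁻¹ := by group
    _ = _ := by rw [this]

theorem cz_conj {g k v : G} (h : g ∈ Cz v) (hk : k ∈ Cz v) :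
    k * g * k⁻¹ * v * (k * g * k⁻¹)⁻¹ = g * v * g⁻¹ := by
  have h1 := conj_mem_of_normalizer (Cz_le_norm v (inv_mem h)) (mem_C.2 (comm_comm hk h))
  have h2 := cj_of_comm (mem_C.1 h1)
  calc k * g * k⁻¹ * v * (k * g * k⁻¹)⁻¹
      = g * (g⁻¹ * (k * g * k⁻¹ * g⁻¹) * g⁻¹⁻¹ * v * (g⁻¹ * (k * g * k⁻¹ * g⁻¹) * g⁻¹⁻¹)⁻¹) * g⁻¹ := by
        group
    _ = _ := by rw [h2]

/-- a Sylow subgroup of a subgroup of `Cs x` inverts `x` -/
theorem exists_inv_syl [Finite G] {R K : Subgroup G} {x u : G} (hR : SylIn 2 R K) (hK : K ≤ Cs x)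
    (hu : u ∈ K) (hx : Inv u x) : ∃ r ∈ R, Inv r x := by
  obtain ⟨m, hm, h2⟩ := exists_odd_pow u
  obtain ⟨k, hk, h3⟩ := hR.exists_conj_le ((zpowers_le).2 (pow_mem hu m)) h2.isP
  exact ⟨_, map_conj_le_iff.1 h3 _ (mem_zpowers _), (hx.odd_pow hm).conj_Cs (hK hk)⟩

/-- a Sylow subgroup of `Cz v` realises every commutator -/
theorem exists_rep_syl [Finite G] {R : Subgroup G} {v g : G} (hv : v * v ∈ center G)
    (hR : SylIn 2 R (Cz v)) (hg : g ∈ Cz v) : ∃ r ∈ R, r * v * r⁻¹ = g * v * g⁻¹ := by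
  obtain ⟨m, hm, h2⟩ := exists_odd_pow g
  obtain ⟨k, hk, h3⟩ := hR.exists_conj_le ((zpowers_le).2 (pow_mem hg m)) h2.isP
  exact ⟨_, map_conj_le_iff.1 h3 _ (mem_zpowers _), by
    rw [cz_conj (pow_mem hg m) hk, cz_odd_pow hv hg hm]⟩

theorem SylIn_mem {R K : Subgroup G} (hR : SylIn 2 R K) {g : G} (hg : Two g) (hK : g ∈ K)
    (hn : g ∈ normalizer (R : Set G)) : g ∈ R := by
  rw [← hR.eq_of_le (sup_le hR.le ((zpowers_le).2 hK)) (isP_sup hR.isPGroup hg hn) le_sup_left]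
  exact (le_sup_right : zpowers g ≤ _) (mem_zpowers g)

end Cfsg.Agent.H92.RC
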