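import Cfsg.Agent.H92.RcB

/-! Real class sizes with equal 2-part (S3860): the case where the 2-part is at least 4. -/

set_option autoImplicit false

namespace Cfsg.Agent.H92.RC

open Subgroup H98

/-- the common 2-part of the class sizes is at least 4 -/
structure Big (G : Type*) [Group G] (c : ℕ) : Prop extends Hyp G c where
  big : ∀ T : Subgroup G, SylIn 2 T ⊤ → 2 * c < Nat.card T

variable {G : Type*} [Group G] [Finite G] {c : ℕ}

theorem Big.exists_T (h : Big G c) {v : G} (hv : Y v) {P : Subgroup G} (hP : IsPGroup 2 P)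
    (hle : P ≤ Cz v) (hc : Nat.card P = 2 * c) :
    ∃ T, SylIn 2 T (Cz v) ∧ P ≤ T ∧ P ≠ T := by
  obtain ⟨T, hT, hPT⟩ := exists_sylIn_ge hle hP
  refine ⟨T, hT, hPT, fun e => ?_⟩
  have := h.big T (h.lemA hv hT)
  rw [← e] at this
  omega

/-- Lemma K -/
theorem Big.lemK (h : Big G c) {x w u : G} (ho : Odd (orderOf x)) (hx : x ≠ 1) (hw : Two w)
    (hc : Commute x w) (hux : Inv u x) (huw : Inv u w) : w ∈ center G := by
  by_contra hz
  obtain ⟨j, h1, h2⟩ := exists_pow_step hw _ hz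
  have hw' := hw.pow (2 ^ j)
  have hc' := hc.pow_right (2 ^ j)
  have hu' := huw.pow (2 ^ j)
  set v := w ^ 2 ^ j
  have hco := hw'.coprime ho
  have hxm := mem_zpowers_mul_of_coprime hc' hco
  have hvm := mem_zpowers_mul_of_coprime' hc' hco
  have hg : x * v * (x * v) ≠ 1 := fun e => odd_sq_ne ho hx
    (((inv_of_sq e (Commute.one_left _)).of_mem_zpowers hxm).sq_eq_one (Commute.one_left _))
  obtain ⟨P₁, hP₁⟩ := exists_sylIn 2 (Cs (x * v))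
  obtain ⟨-, h3, -⟩ := h.card_Cs ⟨u, hux.mul_right hu' hc'⟩ hg hP₁
  obtain ⟨P, f, hle⟩ := exists_fr ho hx hux hP₁.isPGroup (hP₁.le.trans (Cs_le_Cs hxm))
  have h4 := eq_of_le_card hle (by rw [h3, h.card1 f])
  obtain ⟨T, hT, hPT, hne⟩ := h.exists_T ⟨⟨u, hu'⟩, h1, h2⟩ f.two
    (h4 ▸ hP₁.le.trans ((Cs_le_Cs hvm).trans (Cs_le_Cz h2))) (h.card1 f)
  obtain ⟨u', -, h5, h6⟩ := h.lemMN f h2 hT.isPGroup hPT hne hT.le
  exact h1 (h.f1 ho hx hw' hc' hux hu' h5 h6)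

/-- no real elements of order 8 -/
theorem Big.no8 (h : Big G c) {w₀ : G} (hw₀ : Two w₀) (hr₀ : Re w₀) : w₀ * w₀ ∈ center G := by
  by_contra hz
  obtain ⟨j, h1, h2⟩ := exists_pow_step (hw₀.mul hw₀ (Commute.refl _)) _ hz
  rw [(Commute.refl w₀).mul_pow] at h1 h2
  have hw := hw₀.pow (2 ^ j)
  have hr : Re (w₀ ^ 2 ^ j) := let ⟨u, hu⟩ := hr₀; ⟨u, hu.pow _⟩
  set w := w₀ ^ 2 ^ j
  have hw2 : w * w ≠ 1 := fun e => h1 (e ▸ one_mem _)
  obtain ⟨P, hP⟩ := exists_sylIn 2 (Cs w)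
  obtain ⟨hS, hPc, s, hsP, hs⟩ := h.card_Cs hr hw2 hP
  have hm : w * w ∈ zpowers w := mul_mem (mem_zpowers w) (mem_zpowers w)
  have hY : Y (w * w) := ⟨⟨s, hs.of_mem_zpowers hm⟩, h1, h2⟩
  obtain ⟨T, hT, hPT, hne⟩ := h.exists_T hY hP.isPGroup
    (hP.le.trans ((Cs_le_Cs hm).trans (Cs_le_Cz h2))) hPc
  have hST : P ⊓ Ce[w] = T ⊓ Ce[w * w] := h.eq_of_card hY.re h1 hS
    (inf_le_inf hPT (C_le_C_of_mem_zpowers hm)) (hT.isPGroup.to_le inf_le_left) inf_le_right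
  obtain ⟨t, htT, htP⟩ := SetLike.exists_of_lt (lt_of_le_of_ne hPT hne)
  have hS1 : ∀ a ∈ T, Commute a (w * w) → a ∈ P ∧ Commute a w := fun a ha hc => by
    have : a ∈ P ⊓ Ce[w] := hST ▸ mem_inf.2 ⟨ha, mem_C.2 hc⟩
    exact ⟨(mem_inf.1 this).1, mem_C.1 (mem_inf.1 this).2⟩
  have hwP : w ∈ P := SylIn_mem hP hw (Or.inl (Commute.refl w)) (mem_normalizer_of fun q hq => by
    have hq' : w * q * w⁻¹ * q⁻¹ ∈ P := by
      rcases hP.le hq with hc | hc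
      · rw [cj_of_comm hc.symm, mul_inv_cancel]; exact one_mem _
      · have : w * q * w⁻¹ * q⁻¹ = w * w := by
          rw [mul_assoc w, mul_assoc w, hc.inv_right, inv_inv]
        rw [this]
        exact (hS1 _ (h.self_mem h2 hT) (Commute.refl _)).1
    simpa using mul_mem hq' hq)
  -- elements of `S` centralise the conjugate of `w`
  have hS2 : ∀ a ∈ T, Commute a (w * w) → Commute a (t * w * t⁻¹) := fun a ha hc => by
    have h3 := conj_mem_of_normalizer (Cz_le_norm _ (hT.le (inv_mem htT))) (mem_C.2 hc)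
    have h4 := (hS1 _ (mul_mem (mul_mem (inv_mem htT) ha) (inv_mem (inv_mem htT))) (mem_C.1 h3)).2
    simpa [mul_assoc] using comm_conj h4 t
  have hww : Commute w (t * w * t⁻¹) := hS2 w (hPT hwP) ((Commute.refl w).mul_right (Commute.refl w))
  have ht2 := (hS1 _ (mul_mem htT htT) (sq_comm h2 (hT.le htT))).2
  have htη : Inv t (w⁻¹ * (t * w * t⁻¹)) := by
    unfold Inv
    calc t * (w⁻¹ * (t * w * t⁻¹)) * t⁻¹ = (t * w * t⁻¹)⁻¹ * (t * t * w * (t * t)⁻¹) := by group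
      _ = _ := by rw [cj_of_comm ht2]; group
  have hsη : Inv s (w⁻¹ * (t * w * t⁻¹)) := by
    refine hs.inv_right.mul_right ?_ hww.inv_left
    have h3 := hS2 _ (mul_mem (mul_mem (mul_mem (hPT hsP) htT) (inv_mem (hPT hsP))) (inv_mem htT))
      (comm_comm (hT.le (hPT hsP)) (hT.le htT))
    have h4 := (hs.conj t).comm_mul h3
    rwa [show s * t * s⁻¹ * t⁻¹ * (t * s * t⁻¹) = s by group] at h4
  have hη2 : w⁻¹ * (t * w * t⁻¹) * (w⁻¹ * (t * w * t⁻¹)) ≠ 1 := fun e => by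
    refine htP (hS1 t htT (comm_of_cj ?_)).1
    have h3 : (w * w)⁻¹ * (t * (w * w) * t⁻¹) = 1 := by
      rw [← e]
      calc (w * w)⁻¹ * (t * (w * w) * t⁻¹) = w⁻¹ * (w⁻¹ * (t * w * t⁻¹)) * (t * w * t⁻¹) := by group
        _ = w⁻¹ * ((t * w * t⁻¹) * w⁻¹) * (t * w * t⁻¹) := by rw [hww.inv_left.eq]
        _ = _ := by group
    exact (inv_mul_eq_one.1 h3).symm
  have h5 : P ⊓ Ce[w] = T ⊓ Ce[w⁻¹ * (t * w * t⁻¹)] := h.eq_of_card ⟨t, htη⟩ (htη.not_center hη2) hS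
    (fun a ha => mem_inf.2 ⟨hPT (mem_inf.1 ha).1, mem_C.2
      ((mem_C.1 (mem_inf.1 ha).2).inv_right.mul_right (hS2 a (hPT (mem_inf.1 ha).1)
        ((mem_C.1 (mem_inf.1 ha).2).mul_right (mem_C.1 (mem_inf.1 ha).2))))⟩)
    (hT.isPGroup.to_le inf_le_left) inf_le_right
  have h6 : s * t ∈ P ⊓ Ce[w] := h5 ▸ mem_inf.2 ⟨mul_mem (hPT hsP) htT, mem_C.2 (hsη.mul_inv htη)⟩
  exact htP ((P.mul_mem_cancel_left hsP).1 (mem_inf.1 h6).1)

theorem Big.cz (h : Big G c) {x y : G} {P : Subgroup G} (f : Fr x P) (hy : y ∈ P) (hi : Inv y x)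
    (h2 : y * y ∈ center G) : P ≤ Cz y := by
  have key : ∀ p ∈ P, Commute p x → p ∈ Cz y := fun p hp hc => by
    have h1 : p * y * p⁻¹ * y⁻¹ ∈ P := mul_mem (mul_mem (mul_mem hp hy) (inv_mem hp)) (inv_mem hy)
    refine h.lemK f.odd f.ne (two_of_mem f.two h1)
      (((hi.comm_mul hc).mul_comm hc.inv_left).mul_inv hi.inv).symm hi ?_
    exact inv_div' (by rw [← center_conj h2 p]; group) (by
      have := (conj_mem_center_iff (g := p)).2 h2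
      convert this using 1
      group)
  intro p hp
  rcases f.cases hp with hc | hc
  · exact key p hp hc
  · have := mul_mem (key _ (mul_mem hp (inv_mem hy)) (hc.mul_inv hi.inv))
      (mem_Cz_of_comm (Commute.refl y))
    simpa using this

theorem Big.uniq (h : Big G c) {x y y' : G} {P : Subgroup G} (f : Fr x P) (hy : y ∈ P)
    (hy' : y' ∈ P) (hi : Inv y x) (hi' : Inv y' x) (e : y' * y' = y * y)
    (h2 : y * y ∈ center G) : y' * y⁻¹ ∈ center G :=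
  h.lemK f.odd f.ne (two_of_mem f.two (mul_mem hy' (inv_mem hy))) (hi'.mul_inv hi.inv).symm hi
    (inv_div' e (e ▸ h2))

theorem Hyp.memP (h : Hyp G c) {x y d : G} {P : Subgroup G} (f : Fr x P) (hy : y ∈ P)
    (hi : Inv y x) (h2 : d * d ∈ center G) (hle : P ⊓ Ce[x] ≤ Cz d) (hd : d ∈ Cz y) : d ∈ P := by
  refine h.lemB f hy hi (mem_normalizer_of fun q hq => ?_) (h.center_le0 f h2) (h.center_le0 f hd)
  obtain ⟨z, hz, e⟩ := cj_eq_of_Cz (Cz_symm (hle hq))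
  rw [e]
  exact mul_mem (h.center_le0 f hz) hq

theorem Big.czw (h : Big G c) {x y w : G} {P : Subgroup G} (f : Fr x P) (hy : y ∈ P)
    (hi : Inv y x) (h2 : y * y ∈ center G) (hw : w ∈ P) (hc : Commute w x) (e : w * w = y * y) :
    P ≤ Cz w := by
  have h1 := mul_mem hw (inv_mem hy)
  have h3 := h.cz f h1 (hi.inv.comm_mul hc) (h.no8 (two_of_mem f.two h1) ⟨_, inv_div e (e ▸ h2)⟩)
  intro p hp
  simpa using mem_Cz_mul (h3 hp) (h.cz f hy hi h2 hp)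

theorem Big.gamma (h : Big G c) {x y w w' : G} {P : Subgroup G} (f : Fr x P) (hy : y ∈ P)
    (hi : Inv y x) (h2 : y * y ∈ center G) (hw : w ∈ P) (hc : Commute w x) (e : w * w = y * y)
    (hw' : w' ∈ P) (hc' : Commute w' x) (e' : w' * w' = y * y) : w * w'⁻¹ ∈ center G := by
  by_contra hz
  have h1 := mul_mem hw (inv_mem hw')
  have h3 := inv_div (e.trans e'.symm) (e ▸ h2)
  have h4 := h.no8 (two_of_mem f.two h1) ⟨_, h3⟩
  obtain ⟨T, hT, hPT, hne⟩ := h.exists_T ⟨⟨_, h3⟩, hz, h4⟩ f.two (fun p hp =>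
    mem_Cz_mul (h.czw f hy hi h2 hw hc e hp) (mem_Cz_inv (h.czw f hy hi h2 hw' hc' e' hp)))
    (h.card1 f)
  obtain ⟨u, -, h5, h6⟩ := h.lemMN f h4 hT.isPGroup hPT hne hT.le
  exact hz (h.f1 f.odd f.ne (two_of_mem f.two h1) (hc.mul_left hc'.inv_left).symm
    (h5.mul_comm hc) (h3.comm_mul h6) h5 h6)

theorem Y.of_isConj {y d : G} (hy : Y y) (hd : IsConj y d) : Y d := by
  obtain ⟨g, rfl⟩ := isConj_iff.1 hd
  exact hy.conj g

theorem Y.sq_eq {y d : G} (hy : Y y) (hd : IsConj y d) : d * d = y * y := by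
  obtain ⟨g, rfl⟩ := isConj_iff.1 hd
  rw [← center_conj hy.sq g]; group

theorem isConj_cj {y d : G} (hd : IsConj y d) (g : G) : IsConj y (g * d * g⁻¹) :=
  hd.trans (isConj_iff.2 ⟨g, rfl⟩)

theorem Hyp.odd_index (h : Hyp G c) {y : G} (hy : Y y) : ¬ 2 ∣ (Cz y).index := by
  obtain ⟨T, hT⟩ := exists_sylIn 2 (Cz y)
  have h1 := (h.lemA hy hT).not_dvd_relIndex
  rw [relIndex_top_right] at h1
  exact fun h2 => h1 (h2.trans (index_dvd_of_le hT.le))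

theorem mk_eq_iff {y a b : G} : (a : G ⧸ Cz y) = b ↔
    (b * y * b⁻¹) * (a * y * a⁻¹)⁻¹ ∈ center G := by
  rw [QuotientGroup.eq, mem_Cz, ← conj_mem_center_iff (g := a)]
  apply Iff.of_eq
  congr 1
  group

theorem mem_fixed_iff {y a : G} {P : Subgroup G} :
    (a : G ⧸ Cz y) ∈ MulAction.fixedPoints P (G ⧸ Cz y) ↔ P ≤ Cz (a * y * a⁻¹) := by
  have key : ∀ p : G, p • (a : G ⧸ Cz y) = a ↔ p ∈ Cz (a * y * a⁻¹) := fun p => by
    rw [MulAction.Quotient.smul_mk, eq_comm, mk_eq_iff, smul_eq_mul, mem_Cz]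
    apply Iff.of_eq
    congr 1
    group
  exact ⟨fun h p hp => (key p).1 (h ⟨p, hp⟩), fun h p => (key p).2 (h p.2)⟩

/-- no conjugate of `y` centralizes an element of odd order inverted by `y` -/
theorem Big.g3 (h : Big G c) {y₀ y w₀ x : G} (hY : Y y₀) (hy : IsConj y₀ y) (hw₀ : IsConj y₀ w₀)
    (ho : Odd (orderOf x)) (hx : x ≠ 1) (hi : Inv y x) (hc₀ : Commute w₀ x) : False := by
  have hy2 := (hY.of_isConj hy).sq
  obtain ⟨P, f, hyP⟩ := exists_fr ho hx hi (h.two_of_sq hy2).isP ((zpowers_le).2 (Or.inr hi))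
  replace hyP := hyP (mem_zpowers y)
  obtain ⟨k, -, hk⟩ := (syl_inf_Cs f.syl).exists_conj_le ((zpowers_le).2 (mem_C.2 hc₀))
    (h.two_of_sq (hY.of_isConj hw₀).sq).isP
  have hw0 := mem_inf.1 (map_conj_le_iff.1 hk _ (mem_zpowers _))
  have hw := isConj_cj hw₀ k
  set w := k * w₀ * k⁻¹
  have hc := mem_C.1 hw0.2
  have ew := (hY.sq_eq hw).trans (hY.sq_eq hy).symm
  have h1 := f.two.card_modEq_card_fixedPoints (G ⧸ Cz y₀)
  obtain ⟨a, ha⟩ := isConj_iff.1 hy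
  obtain ⟨b, hb⟩ := isConj_iff.1 hw
  have h2 : Nat.card (MulAction.fixedPoints P (G ⧸ Cz y₀)) = 2 := by
    refine Nat.card_eq_two_iff.2 ⟨⟨(a : G ⧸ Cz y₀), mem_fixed_iff.2 (ha ▸ h.cz f hyP hi hy2)⟩,
      ⟨(b : G ⧸ Cz y₀), mem_fixed_iff.2 (hb ▸ h.czw f hyP hi hy2 hw0.1 hc ew)⟩, fun e => ?_, ?_⟩
    · have h3 := mk_eq_iff.1 (congrArg Subtype.val e)
      rw [ha, hb] at h3
      exact f.not_comm (hi.inv.comm_mul hc) (comm_of_center h3 x)
    · refine Set.eq_univ_of_forall ?_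
      rintro ⟨q, hq⟩
      obtain ⟨g, rfl⟩ := QuotientGroup.mk_surjective q
      have h3 := mem_fixed_iff.1 hq
      have hd : IsConj y₀ (g * y₀ * g⁻¹) := isConj_iff.2 ⟨g, rfl⟩
      have ed := (hY.sq_eq hd).trans (hY.sq_eq hy).symm
      have h4 := h.memP f hyP hi (hY.of_isConj hd).sq (inf_le_left.trans h3) (Cz_symm (h3 hyP))
      rcases f.cases h4 with h5 | h5
      · refine Or.inr (Subtype.ext (mk_eq_iff.2 ?_))
        rw [hb]
        exact h.gamma f hyP hi hy2 hw0.1 hc ew h4 h5 ed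
      · refine Or.inl (Subtype.ext (mk_eq_iff.2 ?_).symm)
        rw [ha]
        exact h.uniq f hyP h4 hi h5 ed hy2
  rw [h2] at h1
  exact h.odd_index hY ((Nat.modEq_zero_iff_dvd.1 (h1.trans (by decide))))

theorem sq_div {d e : G} (h : d * d = e * e) (hd : d * d ∈ center G) :
    d * e⁻¹ * (d * e⁻¹) = d * e * d⁻¹ * e⁻¹ := by
  have h1 := center_conj hd (e * d⁻¹)⁻¹
  calc d * e⁻¹ * (d * e⁻¹) = d * e * ((e * e)⁻¹ * d) * e⁻¹ := by group
    _ = _ := by rw [← h]; group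

theorem Big.dich (h : Big G c) {y₀ d e : G} (hY : Y y₀) (hd : IsConj y₀ d) (he : IsConj y₀ e)
    (hn : d ∉ Cz e) : ∃ x w : G, Odd (orderOf x) ∧ x ≠ 1 ∧ w ∈ center G ∧ d * e⁻¹ = x * w ∧
      Inv d x ∧ Inv e x := by
  obtain ⟨x, w, hx, hw, h1, ho, h2, hc⟩ := exists_parts (d * e⁻¹)
  have hsq := (hY.sq_eq hd).trans (hY.sq_eq he).symm
  have hz := (hY.of_isConj hd).sq
  have hi := inv_div hsq hz
  have hx1 : x ≠ 1 := fun e1 => by
    rw [e1, one_mul] at h1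
    have := h.no8 (h1 ▸ h2) ⟨_, hi⟩
    rw [sq_div hsq hz] at this
    exact hn this
  exact ⟨x, w, ho, hx1, h.lemK ho hx1 h2 hc (hi.of_mem_zpowers hx) (hi.of_mem_zpowers hw), h1,
    hi.of_mem_zpowers hx, (inv_div' hsq hz).of_mem_zpowers hx⟩

theorem Hyp.comm_of_Cz (h : Hyp G c) {f x : G} (ho : Odd (orderOf x)) (hf : f ∈ Cz x) :
    Commute f x :=
  let ⟨_, hz, e⟩ := cj_eq_of_Cz hf
  comm_of_odd ho (h.two hz) (comm_of_center hz x) e

theorem mem_Cz_left {f g x w : G} (hw : w ∈ center G) (e : g = x * w) (hf : f ∈ Cz g) :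
    f ∈ Cz x := by
  have := mem_Cz_mul hf (mem_Cz_center (inv_mem hw) f)
  rwa [e, mul_inv_cancel_right] at this

theorem Big.trans (h : Big G c) {y₀ d e f : G} (hY : Y y₀) (hd : IsConj y₀ d) (he : IsConj y₀ e)
    (hf : IsConj y₀ f) (h1 : f ∈ Cz d) (h2 : f ∈ Cz e) : d ∈ Cz e := by
  by_contra hn
  obtain ⟨x, w, ho, hx, hw, e1, hi, -⟩ := h.dich hY hd he hn
  exact h.g3 hY hd hf ho hx hi
    (h.comm_of_Cz ho (mem_Cz_left hw e1 (mem_Cz_mul h1 (mem_Cz_inv h2))))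

/-- the line through `d` -/
def line (y₀ d : G) : Set G := {f | IsConj y₀ f ∧ f ∈ Cz d}

theorem Big.mem_N (h : Big G c) {y₀ d g : G} (hY : Y y₀) (hd : IsConj y₀ d) :
    g ∈ normalizer (line y₀ d) ↔ g * d * g⁻¹ ∈ Cz d := by
  refine ⟨fun hg => ((mem_set_normalizer_iff.1 hg d).1 ⟨hd, mem_Cz_of_comm (Commute.refl d)⟩).2,
    fun hg => mem_normalizer_fintype fun f hf => ⟨isConj_cj hf.1 g, ?_⟩⟩
  exact h.trans hY (isConj_cj hf.1 g) hd (isConj_cj hd g) (Cz_symm (mem_Cz_conj hf.2 g)) hg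

theorem Big.line_eq (h : Big G c) {y₀ d d' : G} (hY : Y y₀) (hd : IsConj y₀ d)
    (hd' : IsConj y₀ d') (e : d' ∈ Cz d) : line y₀ d' = line y₀ d := by
  ext f
  exact ⟨fun hf => ⟨hf.1, h.trans hY hf.1 hd hd' (Cz_symm hf.2) e⟩,
    fun hf => ⟨hf.1, h.trans hY hf.1 hd' hd (Cz_symm hf.2) (Cz_symm e)⟩⟩

theorem Big.uf (h : Big G c) {y₀ d f x : G} {P : Subgroup G} (hY : Y y₀) (hd : IsConj y₀ d)
    (hf : IsConj y₀ f) (fr : Fr x P) (hdP : d ∈ P) (hi : Inv d x) (h1 : f ∈ Cz d)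
    (h2 : P ⊓ Ce[x] ≤ Cz f) : f * d⁻¹ ∈ center G := by
  have h3 := h.memP fr hdP hi (hY.of_isConj hf).sq h2 h1
  rcases fr.cases h3 with h4 | h4
  · exact (h.g3 hY hd hf fr.odd fr.ne hi h4).elim
  · exact h.uniq fr hdP h3 hi h4 ((hY.sq_eq hf).trans (hY.sq_eq hd).symm) (hY.of_isConj hd).sq

theorem Big.sj (h : Big G c) {y₀ d e : G} (hY : Y y₀) (hd : IsConj y₀ d) (he : IsConj y₀ e)
    (hn : d ∉ Cz e) : ∃ Q : Subgroup G,
      SylIn 2 Q (normalizer (line y₀ d) ⊓ normalizer (line y₀ e)) ∧ Q ≤ Cz d ∧ Q ≤ Cz e ∧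
      (∀ f, IsConj y₀ f → f ∈ Cz d → Q ≤ Cz f → f * d⁻¹ ∈ center G) ∧
      (∀ f, IsConj y₀ f → f ∈ Cz e → Q ≤ Cz f → f * e⁻¹ ∈ center G) := by
  obtain ⟨x, w, ho, hx, hw, e1, hi, hi'⟩ := h.dich hY hd he hn
  have hd2 := (hY.of_isConj hd).sq
  have he2 := (hY.of_isConj he).sq
  obtain ⟨P, f, hdP⟩ := exists_fr ho hx hi (h.two_of_sq hd2).isP ((zpowers_le).2 (Or.inr hi))
  replace hdP := hdP (mem_zpowers d)
  have h1 : P ⊓ Ce[x] ≤ Cz d := inf_le_left.trans (h.cz f hdP hi hd2)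
  have h2 : P ⊓ Ce[x] ≤ Cz e := fun p hp => by
    have h3 := mem_Cz_mul (mem_Cz_inv (mem_Cz_mul (C_le_Cz x (mem_inf.1 hp).2)
      (mem_Cz_center hw p))) (h1 hp)
    rwa [← e1, show (d * e⁻¹)⁻¹ * d = e by group] at h3
  have hN : ∀ {a : G}, IsConj y₀ a → Cz a ≤ normalizer (line y₀ a) := fun ha p hp =>
    (h.mem_N hY ha).2 (by
      obtain ⟨z, hz, e⟩ := cj_eq_of_Cz hp
      rw [e]
      exact mul_mem (mem_Cz_of_comm (comm_of_center hz _)) (mem_Cz_of_comm (Commute.refl _)))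
  have huf := fun g hg => h.uf (f := g) hY hd hg f hdP hi
  obtain ⟨P', f', hP'⟩ := exists_fr ho hx hi' (isP_sup f.two0 (h.two_of_sq he2)
    (mem_normalizer_of fun q hq => by
      obtain ⟨z, hz, e⟩ := cj_eq_of_Cz (Cz_symm (h2 hq))
      rw [e]
      exact mul_mem (h.center_le0 f hz) hq))
    (sup_le (inf_le_right.trans (C_le_Cs x)) ((zpowers_le).2 (Or.inr hi')))
  have h4 : P ⊓ Ce[x] = P' ⊓ Ce[x] := eq_of_le_card (le_inf (le_sup_left.trans hP') inf_le_right)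
    (by rw [h.card0 f, h.card0 f'])
  refine ⟨P ⊓ Ce[x], ?_, h1, h2, huf, fun g hg h5 h6 =>
    h.uf hY he hg f' (hP' ((le_sup_right : zpowers e ≤ _) (mem_zpowers e))) hi' h5 (h4 ▸ h6)⟩
  obtain ⟨R, hR, hle⟩ := exists_sylIn_ge (le_inf (h1.trans (hN hd)) (h2.trans (hN he))) f.two0
  by_contra hne
  obtain ⟨r, hrR, hrP, hrn, hr2⟩ := exists_step hR.isPGroup hle (fun e => hne (e ▸ hR))
  have h5 := huf _ (isConj_cj hd r) ((h.mem_N hY hd).1 (mem_inf.1 (hR.le hrR)).1) fun p hp => by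
    have := mem_Cz_conj (h1 (conj_mem_of_normalizer (inv_mem hrn) hp)) r
    simpa [mul_assoc] using this
  have h6 := h.lemB f hdP hi hrn hr2 (h.center_le0 f h5)
  have h7 := (f.cases h6).resolve_left fun hc => hrP (mem_inf.2 ⟨h6, mem_C.2 hc⟩)
  have h8 := hN he (h2 (mem_inf.2 ⟨mul_mem (inv_mem h6) hdP, mem_C.2 (h7.inv.mul_inv hi)⟩))
  have h9 := (h.mem_N hY he).1 (by simpa using mul_mem (mem_inf.1 (hR.le hrR)).2 h8)
  have hsq := (hY.sq_eq hd).trans (hY.sq_eq he).symm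
  have h10 : d * e * d⁻¹ * e⁻¹ * (d * e * d⁻¹ * e⁻¹) ∈ center G := by
    rw [sq_div ((hY.sq_eq (isConj_cj he d)).trans (hY.sq_eq he).symm)
      (hY.of_isConj (isConj_cj he d)).sq]
    exact h9
  rw [← sq_div hsq hd2] at h10
  have h11 := h.two_of_sq h10
  have h12 := (h11.of_sq).mul (h.two (inv_mem hw)) (comm_of_center (inv_mem hw) _).symm
  rw [e1, mul_inv_cancel_right] at h12
  exact hx (h12.eq_one ho)

theorem Big.trans2 (h : Big G c) {y₀ d e d' e' : G} (hY : Y y₀) (hd : IsConj y₀ d)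
    (he : IsConj y₀ e) (hd' : IsConj y₀ d') (he' : IsConj y₀ e') (hn : d ∉ Cz e)
    (h1 : d' ∈ Cz d) (h2 : e' ∈ Cz e) :
    ∃ j : G, j * d * j⁻¹ * d'⁻¹ ∈ center G ∧ j * e * j⁻¹ * e'⁻¹ ∈ center G := by
  have hn' : d' ∉ Cz e' := fun h3 =>
    hn (h.trans hY hd he hd' h1 (h.trans hY hd' he he' (Cz_symm h3) h2))
  obtain ⟨Q, hQ, h3, h4, -, -⟩ := h.sj hY hd he hn
  obtain ⟨Q', hQ', -, -, h5, h6⟩ := h.sj hY hd' he' hn'
  rw [h.line_eq hY hd hd' h1, h.line_eq hY he he' h2] at hQ'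
  obtain ⟨j, hj, e1⟩ := hQ.exists_conj hQ'
  have key : ∀ {a : G}, Q ≤ Cz a → Q' ≤ Cz (j * a * j⁻¹) := fun ha p hp => by
    rw [← e1, mem_map_conj] at hp
    simpa [mul_assoc] using mem_Cz_conj (ha hp) j
  exact ⟨j, h5 _ (isConj_cj hd j) (h.trans hY (isConj_cj hd j) hd' hd
      (Cz_symm ((h.mem_N hY hd).1 (mem_inf.1 hj).1)) (Cz_symm h1)) (key h3),
    h6 _ (isConj_cj he j) (h.trans hY (isConj_cj he j) he' he
      (Cz_symm ((h.mem_N hY he).1 (mem_inf.1 hj).2)) (Cz_symm h2)) (key h4)⟩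

end Cfsg.Agent.H92.RC
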