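import Cfsg.Agent.H92.RcB
import Cfsg.Agent.H52.FStar
import Cfsg.Agent.H82.Extremal

/-! Real class sizes with equal 2-part (S3860): transfer, and frames when the 2-part is 2. -/

set_option autoImplicit false

namespace Cfsg.Agent.H92.RC

open Subgroup H98 H82

variable {G : Type*} [Group G]

theorem extOne_center {H : Subgroup G} {A : Type*} [CommGroup A] (φ : H →* A) (hZ : center G ≤ H)
    (hφ : ∀ z (hz : z ∈ center G), φ ⟨z, hZ hz⟩ = 1) {z : G} (hz : z ∈ center G) (g : G) :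
    extOne φ (z * g) = extOne φ g := by
  by_cases hg : g ∈ H
  · rw [extOne_of_mem φ hg, extOne_of_mem φ (mul_mem (hZ hz) hg)]
    have : (⟨z * g, mul_mem (hZ hz) hg⟩ : H) = ⟨z, hZ hz⟩ * ⟨g, hg⟩ := rfl
    rw [this, map_mul, hφ z hz, one_mul]
  · rw [extOne_of_not_mem φ hg, extOne_of_not_mem φ]
    exact fun h => hg ((H.mul_mem_cancel_left (hZ hz)).1 h)

theorem transfer_cz {H : Subgroup G} [H.FiniteIndex] [Fintype (G ⧸ H)] {A : Type*}
    [CommGroup A] (φ : H →* A) (hZ : center G ≤ H)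
    (hφ : ∀ z (hz : z ∈ center G), φ ⟨z, hZ hz⟩ = 1) {y : G} (hy : y * y ∈ center G) :
    MonoidHom.transfer φ y = ∏ q : G ⧸ H, extOne φ (q.out⁻¹ * y * q.out) := by
  classical
  let T : H.LeftTransversal := default
  let α : G ⧸ H → G := fun q => T.2.leftQuotientEquiv q
  have hα : ∀ q, ((α q : G) : G ⧸ H) = q := fun q => T.2.quotientGroupMk_leftQuotientEquiv q
  have hz : ∀ a : G, a⁻¹ * (y * y) * a = y * y := fun a => by simpa using center_conj hy a⁻¹
  have hyy : ∀ q : G ⧸ H, y • y • q = q := fun q => by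
    obtain ⟨a, rfl⟩ := QuotientGroup.mk_surjective q
    rw [← mul_smul, smul_mk_eq_iff, hz]
    exact hZ hy
  have hyi : ∀ q : G ⧸ H, y⁻¹ • q = y • q := fun q => by rw [inv_smul_eq_iff, hyy]
  have hmem : ∀ q, (α q)⁻¹ * (y * α (y • q)) ∈ H := fun q => by
    rw [← QuotientGroup.eq, hα, ← smul_eq_mul, ← MulAction.Quotient.smul_mk, hα, hyy]
  have h1 : MonoidHom.transfer φ y = ∏ q : G ⧸ H, φ ⟨_, hmem q⟩ := by
    rw [MonoidHom.transfer_def φ T, leftTransversals.diff]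
    refine Finset.prod_congr (by congr!) fun q _ => ?_
    congr 2
    rw [smul_apply_eq_smul_apply_inv_smul, hyi]
    rfl
  rw [h1, ← Finset.prod_filter_mul_prod_filter_not Finset.univ (fun q : G ⧸ H => y • q = q),
    ← Finset.prod_filter_mul_prod_filter_not Finset.univ (fun q : G ⧸ H => y • q = q)]
  congr 1
  · refine Finset.prod_congr rfl fun q hq => ?_
    have hq' : y • q = q := by simpa using hq
    rw [extOne_conj_of_mk_eq φ y (b := α q) (by rw [hα, QuotientGroup.out_eq']),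
      extOne_of_mem φ (smul_mk_eq_iff.1 (by rw [hα, hq']))]
    congr 2
    rw [hq', mul_assoc]
  · rw [Finset.prod_involution (fun q _ => y • q), eq_comm]
    · refine Finset.prod_eq_one fun q hq => extOne_of_not_mem φ fun h => ?_
      have := smul_mk_eq_iff.2 h
      rw [QuotientGroup.out_eq'] at this
      simp [this] at hq
    · intro q _
      rw [← map_mul, ← hφ _ hy]
      congr 1
      apply Subtype.ext
      show (α q)⁻¹ * (y * α (y • q)) * ((α (y • q))⁻¹ * (y * α (y • y • q))) = y * y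
      rw [hyy]
      calc (α q)⁻¹ * (y * α (y • q)) * ((α (y • q))⁻¹ * (y * α q))
          = (α q)⁻¹ * (y * y) * α q := by group
        _ = _ := hz _
    · intro q hq _
      simpa using hq
    · intro q hq
      simp only [Finset.mem_filter, Finset.mem_univ, true_and] at hq ⊢
      rw [hyy]
      exact Ne.symm hq
    · intro q _
      exact hyy q

theorem prod_eq_one_of_inv {H Ω A : Type*} [Group H] [MulAction H Ω] [Fintype Ω] [CommGroup A]
    (hH : IsPGroup 2 H) (g : Ω → A) (h1 : ∀ (a : H) q, g (a • q) = g q) (h2 : ∀ q, g q * g q = 1)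
    (h3 : ∀ q, (∀ a : H, a • q = q) → g q = 1) : ∏ q, g q = 1 := by
  classical
  have h4 := Finset.prod_comp (s := Finset.univ) (fun b : A => b) g
  rw [h4]
  refine Finset.prod_eq_one fun b hb => ?_
  by_cases hb1 : b = 1
  · rw [hb1, one_pow]
  obtain ⟨q, -, rfl⟩ := Finset.mem_image.1 hb
  let X : SubMulAction H Ω := { carrier := {r | g r = g q}, smul_mem' := fun a r hr => (h1 a r).trans hr }
  have h5 := hH.card_modEq_card_fixedPoints X
  have h6 : IsEmpty (MulAction.fixedPoints H X) := ⟨fun r =>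
    hb1 (r.1.2.symm.trans (h3 _ fun a => congrArg Subtype.val (r.2 a)))⟩
  rw [Nat.card_of_isEmpty (α := MulAction.fixedPoints H X)] at h5
  have h7 : Nat.card X = (Finset.univ.filter fun r => g r = g q).card := by
    rw [← Nat.card_eq_finsetCard]
    exact Nat.card_congr (Equiv.subtypeEquivRight fun r => by
      simp only [Finset.mem_filter, Finset.mem_univ, true_and]; rfl)
  obtain ⟨k, hk⟩ := Nat.modEq_zero_iff_dvd.1 h5
  rw [← h7, hk, pow_mul, sq, h2, one_pow]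

variable [Finite G] {c : ℕ}

/-- the transfer of an element with central square -/
theorem tt {N : Subgroup G} (hN : ¬ 2 ∣ N.index) (hZ : center G ≤ N) {A : Type*} [CommGroup A]
    (φ : N →* A) (hφ : ∀ z (hz : z ∈ center G), φ ⟨z, hZ hz⟩ = 1) {t : G} (ht : t * t ∈ center G)
    (htc : t ∈ commutator G) {H : Subgroup G} (hH : IsPGroup 2 H) (htH : t ∈ H) (hc : H ≤ Cz t)
    {α : A} (hα : ∀ g : G, (∀ a ∈ H, g⁻¹ * a * g ∈ N) → ∀ hm : g⁻¹ * t * g ∈ N, φ ⟨_, hm⟩ = α) :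
    α = 1 := by
  classical
  have := Fintype.ofFinite (G ⧸ N)
  let f : G ⧸ N → A := fun q => extOne φ (q.out⁻¹ * t * q.out)
  have hV : ∏ q, f q = 1 := by
    rw [← transfer_cz φ hZ hφ ht]
    exact Abelianization.commutator_subset_ker _ htc
  have hf2 : ∀ q, f q * f q = 1 := fun q => by
    by_cases hq : q.out⁻¹ * t * q.out ∈ N
    · simp only [f]
      rw [extOne_of_mem φ hq, ← map_mul, ← hφ _ ht]
      congr 1
      apply Subtype.ext
      have := center_conj ht q.out⁻¹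
      show q.out⁻¹ * t * q.out * (q.out⁻¹ * t * q.out) = t * t
      rw [← this]; group
    · simp only [f]
      rw [extOne_of_not_mem φ hq, one_mul]
  have hfix : ∀ q : G ⧸ N, (∀ a : H, a • q = q) → f q = α := fun q hq => by
    have h1 : ∀ a ∈ H, q.out⁻¹ * a * q.out ∈ N := fun a ha =>
      smul_mk_eq_iff.1 (by rw [QuotientGroup.out_eq']; exact hq ⟨a, ha⟩)
    simp only [f]
    rw [extOne_of_mem φ (h1 t htH)]
    exact hα _ h1 _
  have hinv : ∀ (a : H) q, f (a • q) = f q := fun a q => by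
    obtain ⟨z, hz, e⟩ := cj_eq_of_Cz (hc (inv_mem a.2))
    simp only [f]
    rw [extOne_conj_of_mk_eq φ t (b := a * q.out), ← extOne_center φ hZ hφ hz (q.out⁻¹ * t * q.out)]
    · congr 1
      calc ((a : G) * q.out)⁻¹ * t * (a * q.out) = q.out⁻¹ * ((a : G)⁻¹ * t * (a : G)⁻¹⁻¹) * q.out := by
            group
        _ = (q.out⁻¹ * z * q.out⁻¹⁻¹) * (q.out⁻¹ * t * q.out) := by rw [e]; group
        _ = _ := by rw [center_conj hz]
    · rw [QuotientGroup.out_eq', ← smul_eq_mul, ← MulAction.Quotient.smul_mk,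
        QuotientGroup.out_eq']
      rfl
  obtain ⟨q₀, hq₀⟩ := hH.nonempty_fixed_point_of_prime_not_dvd_card (G ⧸ N) hN
  have hα2 : α * α = 1 := by rw [← hfix q₀ hq₀]; exact hf2 q₀
  have h1 := prod_eq_one_of_inv hH (fun q => f q * α) (fun a q => by simp only [hinv])
    (fun q => by rw [mul_mul_mul_comm, hf2, hα2, one_mul]) (fun q hq => by rw [hfix q hq, hα2])
  rw [Finset.prod_mul_distrib, hV, one_mul, Finset.prod_const, Finset.card_univ,
    ← Nat.card_eq_fintype_card] at h1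
  obtain ⟨k, hk⟩ : Odd (Nat.card (G ⧸ N)) := by
    rw [← Nat.not_even_iff_odd, even_iff_two_dvd]; exact hN
  rwa [hk, pow_succ, pow_mul, sq, hα2, one_pow, one_mul] at h1

/-- the common 2-part of the class sizes is 2 -/
structure Sm (G : Type*) [Group G] (c : ℕ) : Prop extends Hyp G c where
  small : ∀ T : Subgroup G, SylIn 2 T ⊤ → Nat.card T = 2 * c

theorem Sm.card_le (h : Sm G c) {Q : Subgroup G} (hQ : IsPGroup 2 Q) : Nat.card Q ≤ 2 * c := by
  obtain ⟨T, hT⟩ := exists_sylIn 2 (⊤ : Subgroup G)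
  rw [← h.small T hT]
  exact hT.card_le le_top hQ

theorem Sm.top (h : Sm G c) {x : G} {T : Subgroup G} (f : Fr x T) : SylIn 2 T ⊤ := by
  obtain ⟨S, hS⟩ := exists_sylIn 2 (⊤ : Subgroup G)
  exact hS.of_card_le le_top f.two (by rw [h.small S hS, h.card1 f])

theorem Sm.z0 (h : Sm G c) {e g g' : G} (he : Y e) (hg : g ∈ Cz e) (hg' : g' ∈ Cz e)
    (h1 : ¬ Commute g e) (h2 : ¬ Commute g' e) : g * e * g⁻¹ = g' * e * g'⁻¹ := by
  obtain ⟨T, hT⟩ := exists_sylIn 2 (Cz e)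
  obtain ⟨r, hr, e1⟩ := exists_rep_syl he.sq hT hg
  obtain ⟨r', hr', e2⟩ := exists_rep_syl he.sq hT hg'
  have h3 := mul_mem_of_card (inf_le_left : T ⊓ Ce[e] ≤ T)
    (by rw [h.syl e he.re he.nc _ (syl_inf_Cz hT)]; exact h.card_le hT.isPGroup) (inv_mem hr) hr'
    (fun h4 => h1 (comm_of_cj (by
      rw [← e1, cj_of_comm (Commute.inv_left_iff.1 (mem_C.1 (mem_inf.1 h4).2))])))
    (fun h4 => h2 (comm_of_cj (by rw [← e2, cj_of_comm (mem_C.1 (mem_inf.1 h4).2)])))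
  rw [← e1, ← e2, ← cj_of_comm (mem_C.1 (mem_inf.1 h3).2)]
  nth_rewrite 2 [← cj_of_comm (mem_C.1 (mem_inf.1 h3).2).inv_left]
  group

theorem Sm.inv_of (h : Sm G c) {e g : G} (he : Y e) (h2 : e * e ≠ 1) (hg : g ∈ Cz e)
    (h1 : ¬ Commute g e) : Inv g e := by
  obtain ⟨s, hs⟩ := he.re
  exact (h.z0 he hg (hs.mem_Cz he.sq) h1 fun hc => h2 (hs.sq_eq_one hc)).trans hs

theorem Sm.four (h : Sm G c) {x e : G} {T : Subgroup G} (f : Fr x T) (he : Y e) (hc : Commute e x)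
    (hT : T ≤ Cz e) : T ⊓ Ce[e] = T ⊓ Ce[x] := by
  have h1 := h.syl e he.re he.nc _ (syl_inf_Cz ((h.top f).mono hT le_top))
  refine eq_of_le_card (fun u hu => mem_inf.2 ⟨(mem_inf.1 hu).1, mem_C.2 ?_⟩) (by rw [h1, h.card0 f])
  have hue := mem_C.1 (mem_inf.1 hu).2
  refine (f.cases (mem_inf.1 hu).1).resolve_right fun hi => he.nc ?_
  by_cases h2 : e * e = 1
  · exact h.f1' f.odd f.ne h2 hc.symm hi hue
  · have h3 : T ⊓ Ce[e] < T := lt_of_le_of_ne inf_le_left fun e1 => by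
      have := h.pos he.re he.nc
      rw [e1, h.card1 f] at h1
      omega
    obtain ⟨p, hp, hp'⟩ := SetLike.exists_of_lt h3
    have h4 := h.inv_of he h2 (hT hp) fun hc => hp' (mem_inf.2 ⟨hp, mem_C.2 hc⟩)
    rcases f.cases hp with h5 | h5
    · exact h.f1 f.odd f.ne (h.two_of_sq he.sq) hc.symm (hi.mul_comm h5) (h4.comm_mul hue) hi hue
    · exact h.f1 f.odd f.ne (h.two_of_sq he.sq) hc.symm h5 h4 hi hue

open Classical in
/-- the sign character of a frame -/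
noncomputable def Fr.sgn {x : G} {T : Subgroup G} (f : Fr x T) : T →* ℤˣ :=
  MonoidHom.mk' (fun p => if Commute (p : G) x then 1 else -1) fun a b => by
    rcases f.cases a.2 with ha | ha <;> rcases f.cases b.2 with hb | hb
    · simp [ha, hb, ha.mul_left hb]
    · simp [ha, f.not_comm hb, f.not_comm (hb.comm_mul ha)]
    · simp [hb, f.not_comm ha, f.not_comm (ha.mul_comm hb)]
    · simp [f.not_comm ha, f.not_comm hb, ha.mul_inv hb]

theorem Sm.five (h : Sm G c) {x e : G} {T : Subgroup G} (f : Fr x T) (he : Y e)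
    (hc : e ∈ commutator G) : ∃ g : G, g * e * g⁻¹ ∈ T ∧ T ≤ Cz (g * e * g⁻¹) ∧
      T ⊓ Ce[g * e * g⁻¹] = T ⊓ Ce[x] := by
  by_contra hno
  obtain ⟨H, hH⟩ := exists_sylIn 2 (Cz e)
  have hT := h.top f
  have h1 : (-1 : ℤˣ) = 1 := by
    refine tt (N := T) (by simpa using hT.not_dvd_relIndex) (h.center_le hT le_top) f.sgn
      (fun z hz => if_pos (comm_of_center hz x)) he.sq hc hH.isPGroup (h.self_mem he.sq hH) hH.le
      fun g hg hm => if_neg fun hcx => hno ?_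
    have h2 : T = H.map (MulAut.conj g⁻¹).toMonoidHom :=
      ((h.lemA he hH).map_conj_of_mem (mem_top g⁻¹)).eq_of_le le_top f.two
        (map_conj_le_iff.2 fun a ha => by simpa using hg a ha)
    have h3 : T ≤ Cz (g⁻¹ * e * g⁻¹⁻¹) := fun p hp => by
      rw [h2, mem_map_conj] at hp
      simpa [mul_assoc] using mem_Cz_conj (hH.le hp) g⁻¹
    exact ⟨g⁻¹, by simpa using hm, h3, h.four f (he.conj _) (by simpa using hcx) h3⟩
  exact absurd h1 (by decide)

/-- a frame adapted to `e` -/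
structure Fm (e x y : G) (T : Subgroup G) : Prop where
  fr : Fr x T
  le : T ≤ Cz e
  eq : T ⊓ Ce[e] = T ⊓ Ce[x]
  ymem : y ∈ T
  yinv : Inv y x
  yc : IsConj e y

theorem Fm.comm_iff {e x y p : G} {T : Subgroup G} (f : Fm e x y T) (hp : p ∈ T) :
    Commute p e ↔ Commute p x := by
  have : p ∈ T ⊓ Ce[e] ↔ p ∈ T ⊓ Ce[x] := by rw [f.eq]
  simpa [hp, mem_C] using this

theorem Fm.conj {e x y : G} {T : Subgroup G} (f : Fm e x y T) (g : G) :
    Fm (g * e * g⁻¹) (g * x * g⁻¹) (g * y * g⁻¹) (T.map (MulAut.conj g).toMonoidHom) := by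
  refine ⟨f.fr.conj g, fun p hp => ?_, ?_, conj_mem_map_conj f.ymem, f.yinv.conj g,
    (isConj_iff.2 ⟨g, rfl⟩).symm.trans (f.yc.trans (isConj_iff.2 ⟨g, rfl⟩))⟩
  · simpa [mul_assoc] using mem_Cz_conj (f.le (mem_map_conj.1 hp)) g
  · ext p
    rw [mem_inf, mem_inf, mem_map_conj, mem_C_conj, mem_C_conj, mem_C, mem_C]
    exact and_congr_right fun hp => f.comm_iff hp

theorem Sm.exists_fm (h : Sm G c) {e : G} (he : Y e) (hc : e ∈ commutator G)
    (hN : ∀ N : Subgroup G, N.Normal → IsPGroup 2 N → e ∉ N) {R : Subgroup G} (hR : IsPGroup 2 R)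
    (hle : R ≤ Cz e) : ∃ x y T, Fm e x y T ∧ R ≤ T := by
  obtain ⟨x, ho, hx, hi⟩ := exists_odd_inv (h.two_of_sq he.sq) he.sq hN
  obtain ⟨T, f, heT⟩ := exists_fr ho hx hi (h.two_of_sq he.sq).isP ((zpowers_le).2 (Or.inr hi))
  obtain ⟨g, -, h1, h2⟩ := h.five f he hc
  have f1 := (⟨f, h1, h2, heT (mem_zpowers e), hi, (isConj_iff.2 ⟨g, rfl⟩).symm⟩ :
    Fm (g * e * g⁻¹) x e T).conj g⁻¹
  rw [show g⁻¹ * (g * e * g⁻¹) * g⁻¹⁻¹ = e by group] at f1
  obtain ⟨k, hk, h3⟩ := ((h.top f1.fr).mono f1.le le_top).exists_conj_le hle hR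
  have f2 := f1.conj k⁻¹
  refine ⟨_, _, _, ⟨f2.fr, Cz_conj_eq (inv_mem hk) ▸ f2.le, C_conj_eq (inv_mem hk) ▸ f2.eq, f2.ymem,
    f2.yinv, (isConj_iff.2 ⟨k⁻¹, rfl⟩).trans f2.yc⟩, fun p hp => ?_⟩
  rw [mem_map_conj]
  simpa using map_conj_le_iff.1 h3 p hp

theorem card_two_of {Q S : Subgroup G} (hQ : Q ≤ S) (hne : Q ≠ S)
    (h : ∀ a ∈ S, ∀ b ∈ S, a ∉ Q → b ∉ Q → a * b ∈ Q) : Nat.card S = 2 * Nat.card Q := by
  obtain ⟨u, hu, hu'⟩ := SetLike.exists_of_lt (lt_of_le_of_ne hQ hne)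
  have h1 := (Q.subgroupOf S).card_mul_index
  rw [Nat.card_congr (subgroupOfEquivOfLe hQ).toEquiv] at h1
  have h2 : (Q.subgroupOf S).index = 2 := by
    refine index_eq_two_iff'.2 ⟨⟨u, hu⟩, fun b => ?_⟩
    simp only [mem_subgroupOf, coe_mul]
    by_cases hb : (b : G) ∈ Q
    · exact Or.inr ⟨hb, fun h => hu' ((Q.mul_mem_cancel_right hb).1 h)⟩
    · exact Or.inl ⟨h u hu b b.2 hu' hb, hb⟩
  rw [← h1, h2, mul_comm]

theorem not_mem_two {L : Subgroup G} (hL : IsQuasisimple L) {g : L} (hg : g ∉ center L)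
    (N : Subgroup G) (h1 : N.Normal) (h2 : IsPGroup 2 N) : (g : G) ∉ N := fun hm => by
  rcases H52.IsQuasisimple.normal_eq_top_or_le_center hL (N.subgroupOf L) with h | h
  · exact H52.IsQuasisimple.not_isPGroup (p := 2) hL (h2.to_le (subgroupOf_eq_top.1 h))
  · exact hg (h hm)

theorem mem_commutator {L : Subgroup G} (hL : IsQuasisimple L) {g : G} (hg : g ∈ L) :
    g ∈ commutator G := by
  rw [← H52.IsQuasisimple.commutator_self hL] at hg
  exact commutator_mono le_top le_top hg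

theorem Sm.card_L (h : Sm G c) {L : Subgroup G} [hN : L.Normal] (hL : IsQuasisimple L) {g : L}
    (hr : Re g) (hg : g ∉ center L) {Q S : Subgroup L} (hQ : SylIn 2 Q Ce[g]) (hS : SylIn 2 S ⊤) :
    Nat.card S = 2 * Nat.card Q := by
  have hnorm : ∀ K : Subgroup G, K ≤ normalizer ((K ⊓ L : Subgroup G) : Set G) := fun K k hk =>
    mem_normalizer_of fun q hq => mem_inf.2 ⟨mul_mem (mul_mem hk (mem_inf.1 hq).1) (inv_mem hk),
      hN.conj_mem _ (mem_inf.1 hq).2 k⟩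
  have hsyl : ∀ {R K : Subgroup G}, SylIn 2 R K → SylIn 2 (R ⊓ L) (K ⊓ L) := fun {R K} hR => by
    have := hR.inf_of_normal inf_le_left (hnorm K)
    rwa [← inf_assoc, inf_of_le_left hR.le] at this
  obtain ⟨u, hu⟩ := hr
  have hu' : Inv (u : G) g := congrArg Subtype.val hu
  have hz : (g : G) ∉ center G := fun hz =>
    hg (mem_center_iff.2 fun m => Subtype.ext (mem_center_iff.1 hz m))
  have hQ' := hQ.map_of_injective L.subtype L.subtype_injective
  rw [C_subgroup, subgroupOf_map_subtype] at hQ'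
  have hS' := hS.map_of_injective L.subtype L.subtype_injective
  rw [← MonoidHom.range_eq_map, range_subtype] at hS'
  rw [← card_map_of_injective (K := S) L.subtype_injective,
    ← card_map_of_injective (K := Q) L.subtype_injective]
  obtain ⟨R, hR⟩ := exists_sylIn 2 Ce[(g : G)]
  obtain ⟨T, hT, hRT⟩ := exists_sylIn_ge (le_top : R ≤ ⊤) hR.isPGroup
  have h1 := hsyl hT
  rw [top_inf_eq] at h1
  rw [hS'.card_eq h1, hQ'.card_eq (hsyl hR)]
  refine card_two_of (inf_le_inf_right _ hRT) (fun e => ?_) fun a ha b hb ha' hb' => mem_inf.2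
    ⟨mul_mem_of_card hRT (by rw [h.small T hT, h.syl _ ⟨_, hu'⟩ hz R hR]) (mem_inf.1 ha).1
      (mem_inf.1 hb).1 (fun h2 => ha' (mem_inf.2 ⟨h2, (mem_inf.1 ha).2⟩))
      (fun h2 => hb' (mem_inf.2 ⟨h2, (mem_inf.1 hb).2⟩)), mul_mem (mem_inf.1 ha).2 (mem_inf.1 hb).2⟩
  have h2 : T ⊓ L ≤ Ce[(g : G)] := e ▸ inf_le_left.trans hR.le
  obtain ⟨r, hr, hi⟩ := exists_inv_syl (h1.mono (le_inf (h2.trans (C_le_Cs _)) inf_le_right)
    inf_le_right) inf_le_left (mem_inf.2 ⟨Or.inr hu', u.2⟩) hu'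
  have hY : Y (g : G) := ⟨⟨_, hu'⟩, hz, by rw [hi.sq_eq_one (mem_C.1 (h2 hr))]; exact one_mem _⟩
  obtain ⟨x, y, T', f, -⟩ := h.exists_fm hY (mem_commutator hL g.2) (not_mem_two hL hg)
    IsPGroup.of_bot bot_le
  have h3 := hsyl (h.top f.fr)
  rw [top_inf_eq] at h3
  have h4 := eq_of_le_card (inf_le_inf_right L (inf_le_left : T' ⊓ Ce[(g : G)] ≤ T')) (by
    rw [h3.card_eq h1, ← e,
      (hsyl hR).card_eq (hsyl (syl_inf_Cz ((h.top f.fr).mono f.le le_top)))])
  obtain ⟨k, hk⟩ := isConj_iff.1 f.yc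
  have h5 : y ∈ T' ⊓ Ce[(g : G)] ⊓ L := h4 ▸ mem_inf.2 ⟨f.ymem, hk ▸ hN.conj_mem _ g.2 k⟩
  exact f.fr.not_comm f.yinv ((f.comm_iff f.ymem).1 (mem_C.1 (mem_inf.1 (mem_inf.1 h5).1).2))

theorem Sm.smL (h : Sm G c) {L : Subgroup G} [hN : L.Normal] (hL : IsQuasisimple L)
    (hZ : IsPGroup 2 (center L)) {g : L} (hr : Re g) (hg : g ∉ center L) : ∃ c', Sm L c' := by
  obtain ⟨Q, hQ⟩ := exists_sylIn 2 Ce[g]
  obtain ⟨S, hS⟩ := exists_sylIn 2 (⊤ : Subgroup L)
  refine ⟨Nat.card Q, ⟨hZ, fun x hx hz R hR => ?_⟩, fun T hT => h.card_L hL hr hg hQ hT⟩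
  have h1 := h.card_L hL hr hg hQ hS
  have h2 := h.card_L hL hx hz hR hS
  omega

end Cfsg.Agent.H92.RC
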