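import Cfsg.Agent.H92.RcE

/-! Real class sizes with equal 2-part (S3860): 2-part 2, quasisimple group, real elements of order 4. -/

set_option autoImplicit false

namespace Cfsg.Agent.H92.RC

open Subgroup H98

/-- a quasisimple group with 2-part 2 and a central involution `z` -/
structure Qs (G : Type*) [Group G] (c : ℕ) (z : G) : Prop extends Sm G c where
  qs : IsQuasisimple G
  zc : z ∈ center G
  zs : z * z = 1
  zn : z ≠ 1

variable {G : Type*} [Group G] [Finite G] {c : ℕ} {z₀ : G}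

/-- real square roots of `z` -/
structure DD (z d : G) : Prop where
  sq : d * d = z
  re : Re d

theorem not_mem_two' (hq : IsQuasisimple G) {g : G} (hg : g ∉ center G)
    (N : Subgroup G) (h1 : N.Normal) (h2 : IsPGroup 2 N) : g ∉ N := fun hm => by
  rcases H52.IsQuasisimple.normal_eq_top_or_le_center hq N with h | h
  · exact H52.IsQuasisimple.not_isPGroup (p := 2) hq ((h ▸ h2).of_equiv topEquiv)
  · exact hg (h hm)

theorem mem_commutator' (hq : IsQuasisimple G) (g : G) : g ∈ commutator G := by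
  rw [(H52.isQuasisimple_iff_normal.1 hq).1]; exact mem_top g

theorem Sm.fm (h : Sm G c) (hq : IsQuasisimple G) {e : G} (he : Y e) {R : Subgroup G}
    (hR : IsPGroup 2 R) (hle : R ≤ Cz e) : ∃ x y T, Fm e x y T ∧ R ≤ T :=
  h.exists_fm he (mem_commutator' hq e) (not_mem_two' hq he.nc) hR hle

theorem Qs.sq_ne (h : Qs G c z₀) {d : G} (hd : DD z₀ d) : d * d ≠ 1 := hd.sq ▸ h.zn

theorem Qs.sq_mem (h : Qs G c z₀) {d : G} (hd : DD z₀ d) : d * d ∈ center G := hd.sq ▸ h.zc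

theorem Qs.Y (h : Qs G c z₀) {d : G} (hd : DD z₀ d) : Y d :=
  ⟨hd.re, let ⟨_, hu⟩ := hd.re; hu.not_center (h.sq_ne hd), h.sq_mem hd⟩

theorem Qs.conj (h : Qs G c z₀) {d : G} (hd : DD z₀ d) (g : G) : DD z₀ (g * d * g⁻¹) :=
  ⟨by rw [← center_conj h.zc g, ← hd.sq]; group, hd.re.conj g⟩

theorem Qs.cases (h : Qs G c z₀) {y g : G} (hy : DD z₀ y) (hg : g ∈ Cz y) :
    Commute g y ∨ Inv g y :=
  or_iff_not_imp_left.2 (h.inv_of (h.Y hy) (h.sq_ne hy) hg)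

theorem Qs.not_comm (h : Qs G c z₀) {y g : G} (hy : DD z₀ y) (hg : Inv g y) : ¬ Commute g y :=
  fun hc => h.sq_ne hy (hg.sq_eq_one hc)

theorem Qs.inv_symm (h : Qs G c z₀) {d y : G} (hd : DD z₀ d) (hy : DD z₀ y) (hi : Inv y d) :
    Inv d y :=
  (h.cases hy (Cz_symm (hi.mem_Cz (h.sq_mem hd)))).resolve_left fun hc => h.not_comm hd hi hc.symm

theorem Qs.div_sq (h : Qs G c z₀) {d e : G} (hd : DD z₀ d) (he : DD z₀ e) (hc : Commute d e) :
    d * e⁻¹ * (d * e⁻¹) = 1 :=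
  (inv_div (hd.sq.trans he.sq.symm) (h.sq_mem hd)).sq_eq_one
    ((Commute.refl d).mul_right hc.inv_right)

theorem Qs.mem (h : Qs G c z₀) {d x y : G} {T : Subgroup G} (hd : DD z₀ d) (f : Fm d x y T) :
    d ∈ T := h.self_mem (h.sq_mem hd) ((h.top f.fr).mono f.le le_top)

theorem Qs.ydd (h : Qs G c z₀) {d x y : G} {T : Subgroup G} (hd : DD z₀ d) (f : Fm d x y T) :
    DD z₀ y := by
  obtain ⟨g, rfl⟩ := isConj_iff.1 f.yc
  exact h.conj hd g

theorem Qs.inv_iff (h : Qs G c z₀) {d x y p : G} {T : Subgroup G} (hd : DD z₀ d) (f : Fm d x y T)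
    (hp : p ∈ T) (hn : ¬ Commute p d) : Inv p d ∧ Inv p x :=
  ⟨(h.cases hd (f.le hp)).resolve_left hn,
    (f.fr.cases hp).resolve_left fun hc => hn ((f.comm_iff hp).2 hc)⟩

theorem Fm.not_comm {d x y : G} {T : Subgroup G} (f : Fm d x y T) : ¬ Commute y d :=
  fun hc => f.fr.not_comm f.yinv ((f.comm_iff f.ymem).1 hc)

theorem Qs.alpha (h : Qs G c z₀) {d e x y : G} {T : Subgroup G} (hd : DD z₀ d) (he : DD z₀ e)
    (hc : Commute e d) (hn : e * d⁻¹ ∉ center G) (f : Fm d x y T) (heT : e ∈ T) : Commute y e := by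
  have hy := h.ydd hd f
  have hdT := h.mem hd f
  have hf2 := h.div_sq he hd hc
  have hfT := mul_mem heT (inv_mem hdT)
  have hfx : Commute (e * d⁻¹) x :=
    (f.comm_iff hfT).1 (hc.mul_left (Commute.refl d).inv_left)
  set a := e * d⁻¹ with ha
  have hai : a⁻¹ = a := inv_eq_of_mul_eq_one_right hf2
  have h1 : Inv y (a * (y * a * y⁻¹)⁻¹) := by
    unfold Inv
    calc y * (a * (y * a * y⁻¹)⁻¹) * y⁻¹ = y * a * y⁻¹ * (y * y * a * (y * y)⁻¹)⁻¹ := by group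
      _ = _ := by rw [cj_of_comm (comm_of_center (h.sq_mem hy) a)]; group
  have h2 : Inv a (a * (y * a * y⁻¹)⁻¹) :=
    inv_div (by rw [hf2, show y * a * y⁻¹ * (y * a * y⁻¹) = y * (a * a) * y⁻¹ by group, hf2]; group)
      (hf2 ▸ one_mem _)
  have h3 : Commute (y * a * y⁻¹) x := (f.yinv.mul_comm hfx).mul_inv f.yinv.inv
  have h4 := h.f1 f.fr.odd f.fr.ne (two_of_mem f.fr.two (mul_mem hfT (inv_mem
    (mul_mem (mul_mem f.ymem hfT) (inv_mem f.ymem))))) (hfx.mul_left h3.inv_left).symm f.yinv h1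
    (f.yinv.mul_comm hfx) (h1.mul_inv h2)
  have h5 : a ∈ Cz y := by
    rw [mem_Cz]
    convert h4 using 1
    group
  rcases h.cases hy h5 with h6 | h6
  · exact (hn (h.f1' f.fr.odd f.fr.ne hf2 hfx.symm f.yinv h6.symm)).elim
  · have h7 := h6.mul_inv (h.inv_symm hd hy (h.inv_iff hd f f.ymem f.not_comm).1)
    rw [ha, inv_mul_cancel_right] at h7
    exact h7.symm

/-- commuting elements of `DD` agree modulo the centre -/
theorem Qs.nc (h : Qs G c z₀) {d e : G} (hd : DD z₀ d) (he : DD z₀ e) (hc : Commute e d) :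
    e * d⁻¹ ∈ center G := by
  by_contra hn
  obtain ⟨x, y, T, f, h1⟩ := h.fm h.qs (h.Y hd) (h.two_of_sq (h.sq_mem he)).isP
    ((zpowers_le).2 (mem_Cz_of_comm hc))
  have h2 := h.alpha hd he hc hn f (h1 (mem_zpowers e))
  obtain ⟨x', y', T', f', h3⟩ := h.fm h.qs (h.Y he) (f.fr.two.to_le (inf_le_left : T ⊓ Cz e ≤ T))
    inf_le_right
  have hn' : d * e⁻¹ ∉ center G := fun h4 => hn (by simpa using inv_mem h4)
  have hd' := h3 (mem_inf.2 ⟨h.mem hd f, mem_Cz_of_comm hc.symm⟩)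
  have hy' := h3 (mem_inf.2 ⟨f.ymem, mem_Cz_of_comm h2⟩)
  have h4 := h.alpha he hd hc.symm hn' f' hd'
  have h5 := h.div_sq hd he hc.symm
  refine hn' (h.f1' f'.fr.odd f'.fr.ne h5 ((f'.comm_iff (mul_mem hd' (inv_mem (h.mem he f')))).1
    (hc.symm.mul_left (Commute.refl e).inv_left)).symm
    (f'.yinv.comm_mul ((f'.comm_iff hy').1 h2)) (Inv.comm_of_sq ?_ h5))
  exact ((h.inv_iff hd f f.ymem f.not_comm).1.mul_comm h4).mul_right
    ((h.inv_iff he f' f'.ymem f'.not_comm).1.comm_mul h2).inv_right hc.symm.inv_right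

theorem Qs.nine (h : Qs G c z₀) {d r : G} (hd : DD z₀ d) (hr : r * r ∈ center G)
    (hn : r ∉ center G) : ∃ δ, DD z₀ δ ∧ Inv r δ := by
  obtain ⟨x, ho, hx, hi⟩ := exists_odd_inv (h.two_of_sq hr) hr (not_mem_two' h.qs hn)
  obtain ⟨T, f, hT⟩ := exists_fr ho hx hi (h.two_of_sq hr).isP ((zpowers_le).2 (Or.inr hi))
  replace hT := hT (mem_zpowers r)
  obtain ⟨g, -, h1, h2⟩ := h.five f (h.Y hd) (mem_commutator' h.qs d)
  refine ⟨_, h.conj hd g, (h.cases (h.conj hd g) (h1 hT)).resolve_left fun hc => ?_⟩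
  have : r ∈ T ⊓ Ce[x] := h2 ▸ mem_inf.2 ⟨hT, mem_C.2 hc⟩
  exact f.not_comm hi (mem_C.1 (mem_inf.1 this).2)

theorem Qs.wc (h : Qs G c z₀) {T Q : Subgroup G} (hT : SylIn 2 T ⊤) (hQ : IsPGroup 2 Q)
    (hle : ∀ ξ, DD z₀ ξ → ξ ∈ T → ξ ∈ Q) {δ : G} (hδ : DD z₀ δ) (hm : δ ∈ Q) : δ ∈ T := by
  obtain ⟨T', hT', h1⟩ := exists_sylIn_ge (le_top : Q ≤ ⊤) hQ
  obtain ⟨k, -, hk⟩ := hT.exists_conj_le le_top hT'.isPGroup
  have h2 : {ξ | DD z₀ ξ ∧ ξ ∈ T} = {ξ | DD z₀ ξ ∧ ξ ∈ T'} := by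
    refine Set.eq_of_subset_of_ncard_le (fun ξ hξ => ⟨hξ.1, h1 (hle ξ hξ.1 hξ.2)⟩) ?_
    exact Set.ncard_le_ncard_of_injOn (fun a => k * a * k⁻¹)
      (fun a ha => ⟨h.conj ha.1 k, map_conj_le_iff.1 hk a ha.2⟩) fun a _ b _ e => by simpa using e
  have h3 : δ ∈ {ξ | DD z₀ ξ ∧ ξ ∈ T} := h2 ▸ ⟨hδ, h1 hm⟩
  exact h3.2

theorem Qs.lemW (h : Qs G c z₀) {T : Subgroup G} (hT : SylIn 2 T ⊤) {d r : G} (hd : DD z₀ d)
    (hr : r * r ∈ center G) (hn : r ∉ center G) (hc : ∀ ξ, DD z₀ ξ → ξ ∈ T → Commute r ξ) :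
    False := by
  obtain ⟨δ, hδ, hi⟩ := h.nine hd hr hn
  obtain ⟨Q, hQ, h1⟩ := exists_sylIn_ge (inf_le_right : T ⊓ Cz r ≤ _) (hT.isPGroup.to_le inf_le_left)
  obtain ⟨k, hk, h2⟩ := hQ.exists_conj_le ((zpowers_le).2 (Cz_symm (hi.mem_Cz (h.sq_mem hδ))))
    (h.two_of_sq (h.sq_mem hδ)).isP
  have h3 := h.wc hT hQ.isPGroup (fun ξ h4 h5 => h1 (mem_inf.2
    ⟨h5, mem_Cz_of_comm (hc ξ h4 h5).symm⟩)) (h.conj hδ k) (map_conj_le_iff.1 h2 _ (mem_zpowers δ))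
  obtain ⟨z, hz, e⟩ := cj_eq_of_Cz hk
  have h4 := hi.conj k
  rw [e] at h4
  exact h.not_comm (h.conj hδ k) h4 ((comm_of_center hz _).mul_left (hc _ (h.conj hδ k) h3))

/-- elements of `DD` in `T` not centralizing `d` -/
structure Sig (z d : G) (T : Subgroup G) (y : G) : Prop where
  dd : DD z y
  mem : y ∈ T
  nc : ¬ Commute y d

/-- elements of `C_T(d)` inverted by `y` -/
structure II (d : G) (T : Subgroup G) (y g : G) : Prop where
  mem : g ∈ T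
  comm : Commute g d
  inv : Inv y g

theorem II.zpow {d y g : G} {T : Subgroup G} (hg : II d T y g) (n : ℤ) : II d T y (g ^ n) :=
  ⟨zpow_mem hg.mem n, hg.comm.zpow_left n, hg.inv.zpow n⟩

section
variable {d x y₀ : G} {T : Subgroup G}

theorem Qs.sig_mul (h : Qs G c z₀) (hd : DD z₀ d) (f : Fm d x y₀ T) {y g : G}
    (hy : Sig z₀ d T y) (hg : II d T y g) : Sig z₀ d T (g * y) := by
  have h1 := (h.inv_iff hd f hy.mem hy.nc).1
  refine ⟨⟨?_, d, ?_⟩, mul_mem hg.mem hy.mem, h.not_comm hd (h1.comm_mul hg.comm)⟩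
  · calc g * y * (g * y) = g * (y * g * y⁻¹) * (y * y) := by group
      _ = _ := by rw [hg.inv, hy.dd.sq]; group
  · unfold Inv
    calc d * (g * y) * d⁻¹ = (d * g * d⁻¹) * (d * y * d⁻¹) := by group
      _ = y⁻¹ * (y * g * y⁻¹) := by rw [cj_of_comm hg.comm.symm, h.inv_symm hd hy.dd h1]; group
      _ = _ := by rw [hg.inv]; group

theorem Qs.ii_div (h : Qs G c z₀) (hd : DD z₀ d) (f : Fm d x y₀ T) {y y' : G}
    (hy : Sig z₀ d T y) (hy' : Sig z₀ d T y') : II d T y (y' * y⁻¹) ∧ II d T y' (y' * y⁻¹) := by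
  have h1 := mul_mem hy'.mem (inv_mem hy.mem)
  have h2 := (h.inv_iff hd f hy'.mem hy'.nc).1.mul_inv (h.inv_iff hd f hy.mem hy.nc).1.inv
  have h3 := hy'.dd.sq.trans hy.dd.sq.symm
  exact ⟨⟨h1, h2, inv_div' h3 (h.sq_mem hy'.dd)⟩, ⟨h1, h2, inv_div h3 (h.sq_mem hy'.dd)⟩⟩

theorem Qs.p1 (h : Qs G c z₀) (hd : DD z₀ d) (f : Fm d x y₀ T) {y g : G}
    (hy : Sig z₀ d T y) (hg : II d T y g) (hn : g ∉ center G) :
    ∃ (j : ℕ) (z : G), z ∈ center G ∧ z * z = 1 ∧ g ^ 2 ^ j = z * d := by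
  obtain ⟨j, h1, h2⟩ := exists_pow_step (two_of_mem f.fr.two hg.mem) _ hn
  have hi := hg.inv.pow (2 ^ j)
  have hc := hg.comm.pow_left (2 ^ j)
  have hm := pow_mem hg.mem (2 ^ j)
  set v := g ^ 2 ^ j
  have h3 : ¬ Commute v y := fun h4 => h1 (h.f1' f.fr.odd f.fr.ne (hi.sq_eq_one h4.symm)
    ((f.comm_iff hm).1 hc).symm (h.inv_iff hd f hy.mem hy.nc).2 h4.symm)
  have h4 := (h.cases hy.dd (Cz_symm (hi.mem_Cz h2))).resolve_left h3
  have h5 : DD z₀ v := ⟨by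
    calc v * v = v * (y * v * y⁻¹)⁻¹ := by rw [hi, inv_inv]
      _ = (v * y * v⁻¹) * y⁻¹ := by group
      _ = (y * y)⁻¹ := by rw [h4]; group
      _ = z₀ := by rw [hy.dd.sq, inv_eq_of_mul_eq_one_right h.zs], y, hi⟩
  exact ⟨j, _, h.nc hd h5 hc, h.div_sq h5 hd hc, (inv_mul_cancel_right v d).symm⟩

end

/-- the subgroup `⟨g⟩ Ω₁(Z)` -/
def Cg (g : G) : Subgroup G where
  carrier := {b | ∃ (m : ℤ) (z : G), z ∈ center G ∧ z * z = 1 ∧ b = z * g ^ m}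
  one_mem' := ⟨0, 1, one_mem _, by simp, by simp⟩
  mul_mem' := by
    rintro _ _ ⟨m, z, hz, h1, rfl⟩ ⟨n, w, hw, h2, rfl⟩
    refine ⟨m + n, z * w, mul_mem hz hw, ?_, ?_⟩
    · rw [(comm_of_center hw z).mul_mul_mul_comm, h1, h2, one_mul]
    · rw [(comm_of_center hw _).symm.mul_mul_mul_comm, zpow_add]
  inv_mem' := by
    rintro _ ⟨m, z, hz, h1, rfl⟩
    exact ⟨-m, z⁻¹, inv_mem hz, by rw [← mul_inv_rev, h1, inv_one],
      by rw [mul_inv_rev, zpow_neg, (comm_of_center (inv_mem hz) _).eq]⟩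

theorem zpow_mem_Cg (g : G) (m : ℤ) : g ^ m ∈ Cg g := ⟨m, 1, one_mem _, by simp, by simp⟩

theorem mem_Cg_center (g : G) {z : G} (hz : z ∈ center G) (h : z * z = 1) : z ∈ Cg g :=
  ⟨0, z, hz, h, by simp⟩

theorem comm_Cg {g a b : G} (ha : Commute a g) (hb : b ∈ Cg g) : Commute a b := by
  obtain ⟨m, z, hz, -, rfl⟩ := hb
  exact (comm_of_center hz a).symm.mul_right (ha.zpow_right m)

theorem inv_Cg {g a b : G} (ha : Inv a g) (hb : b ∈ Cg g) : Inv a b := by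
  obtain ⟨m, z, hz, h1, rfl⟩ := hb
  exact (inv_of_sq h1 (comm_of_center hz a).symm).mul_right (ha.zpow m) (comm_of_center hz _)

theorem pow_two_pow_succ {z : G} (h : z * z = 1) (k : ℕ) : z ^ 2 ^ (k + 1) = 1 := by
  rw [pow_succ', pow_mul, sq, h, one_pow]

theorem odd_exp {g b z : G} {k : ℕ} {m : ℤ} (hz : z ∈ center G) (hz2 : z * z = 1)
    (h1 : g ^ 2 ^ (k + 2) = 1) (e : b = z * g ^ m) :
    b ^ 2 ^ (k + 1) = if Even m then 1 else g ^ 2 ^ (k + 1) := by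
  have h2 : (g ^ 2 ^ (k + 1)) ^ (2 : ℤ) = 1 := by
    rw [zpow_two, ← pow_add, ← two_mul, ← pow_succ', h1]
  have h3 : b ^ 2 ^ (k + 1) = (g ^ 2 ^ (k + 1)) ^ m := by
    rw [e, (comm_of_center hz _).mul_pow, pow_two_pow_succ hz2, one_mul, ← zpow_natCast,
      ← zpow_natCast, ← zpow_mul, ← zpow_mul, mul_comm]
  rw [h3]
  rcases Int.even_or_odd' m with ⟨i, rfl | rfl⟩
  · rw [if_pos (even_two_mul i), zpow_mul, h2, one_zpow]
  · rw [if_neg (by simp), zpow_add, zpow_mul, h2, one_zpow, one_mul, zpow_one]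

theorem Qs.cyc (h : Qs G c z₀) {d x y₀ : G} {T : Subgroup G} (hd : DD z₀ d) (f : Fm d x y₀ T)
    {y : G} (hy : Sig z₀ d T y) : ∃ (g : G) (k : ℕ), II d T y g ∧ g ^ 2 ^ (k + 2) = 1 ∧
      g ^ 2 ^ (k + 1) ≠ 1 ∧ ∀ b, II d T y b → b ∈ Cg g := by
  classical
  have hex : ∃ n : ℕ, ∀ b, II d T y b → b ^ 2 ^ n = 1 := by
    obtain ⟨n, hn⟩ := f.fr.two.exists_card_eq
    exact ⟨n, fun b hb => by
      rw [← hn]; exact congrArg Subtype.val (pow_card_eq_one' (G := T) (x := ⟨b, hb.mem⟩))⟩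
  have hdI : II d T y d := ⟨h.mem hd f, Commute.refl d, (h.inv_iff hd f hy.mem hy.nc).1⟩
  have h2 : 2 ≤ Nat.find hex := by
    by_contra hlt
    have h3 := Nat.find_spec hex d hdI
    have h4 : Nat.find hex = 0 ∨ Nat.find hex = 1 := by omega
    rcases h4 with h4 | h4 <;> rw [h4] at h3
    · exact h.sq_ne hd (by rw [show d = 1 by simpa using h3, one_mul])
    · exact h.sq_ne hd (by simpa [sq] using h3)
  obtain ⟨k, hk⟩ := Nat.exists_eq_add_of_le' h2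
  have hall := hk ▸ Nat.find_spec hex
  have h3 := Nat.find_min hex (m := k + 1) (by omega)
  push Not at h3
  obtain ⟨g, hg, hg1⟩ := h3
  have hgz : g ∉ center G := fun hz =>
    hg1 (pow_two_pow_succ (hg.inv.sq_eq_one (comm_of_center hz y).symm) k)
  have hdC : d ∈ Cg g := by
    obtain ⟨j, z, hz, hz2, e⟩ := h.p1 hd f hy hg hgz
    have := mul_mem (inv_mem (mem_Cg_center g hz hz2)) (zpow_mem_Cg g (2 ^ j : ℕ))
    rwa [zpow_natCast, e, inv_mul_cancel_left] at this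
  refine ⟨g, k, hg, hall g hg, hg1, fun b hb => ?_⟩
  obtain ⟨n, hn⟩ := two_of_mem f.fr.two hb.mem
  induction n generalizing b with
  | zero => rw [show b = 1 by simpa using hn]; exact one_mem _
  | succ n ih =>
    have hb2 : II d T y (b * b) := zpow_two b ▸ hb.zpow 2
    obtain ⟨m, z, hz, hz2, e⟩ := ih _ hb2 (by rw [← sq, ← pow_mul, ← pow_succ', hn])
    have h4 := odd_exp hz hz2 (hall g hg) e
    rw [← sq, ← pow_mul, ← pow_succ', hall b hb] at h4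
    obtain ⟨i, rfl⟩ : Even m := by
      by_contra hm
      rw [if_neg hm] at h4
      exact hg1 h4.symm
    have h5 := (h.ii_div hd f (h.sig_mul hd f hy (hg.zpow i)) (h.sig_mul hd f hy hb)).2
    rw [show b * y * (g ^ i * y)⁻¹ = b * (g ^ i)⁻¹ by group] at h5
    have h6 : b * (g ^ i)⁻¹ ∈ Cg g := by
      by_cases h7 : b * (g ^ i)⁻¹ ∈ center G
      · exact mem_Cg_center g h7 (h5.inv.sq_eq_one (comm_of_center h7 _).symm)
      obtain ⟨j, w, hw, hw2, e2⟩ := h.p1 hd f (h.sig_mul hd f hy hb) h5 h7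
      rcases j with _ | j
      · rw [pow_zero, pow_one] at e2
        rw [e2]
        exact mul_mem (mem_Cg_center g hw hw2) hdC
      · have h8 : b⁻¹ * (b * (g ^ i)⁻¹) * b⁻¹⁻¹ = z * (b * (g ^ i)⁻¹)⁻¹ := by
          calc b⁻¹ * (b * (g ^ i)⁻¹) * b⁻¹⁻¹ = (g ^ i)⁻¹ * (b * b) * b⁻¹ := by group
            _ = ((g ^ i)⁻¹ * z * (g ^ i)⁻¹⁻¹) * g ^ i * b⁻¹ := by rw [e]; group
            _ = _ := by rw [center_conj hz]; group
        have h9 : Inv b⁻¹ (w * d) := by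
          unfold Inv
          rw [← e2, ← conj_pow, h8, (comm_of_center hz _).mul_pow, pow_two_pow_succ hz2, one_mul,
            inv_pow]
        have h10 := h9.sq_eq_one ((comm_of_center hw _).symm.mul_right hb.comm.inv_left)
        rw [(comm_of_center hw d).symm.mul_mul_mul_comm, hw2, one_mul] at h10
        exact (h.sq_ne hd h10).elim
    simpa using mul_mem h6 (zpow_mem_Cg g i)

end Cfsg.Agent.H92.RC
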