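import Cfsg.Agent.H54.RfKitP

/-!
# RF-HAT4: the doubled centre
-/

set_option autoImplicit false
set_option linter.unusedSimpArgs false
set_option linter.unnecessarySeqFocus false

namespace Cfsg.Agent.H92.RfHat4

open Cfsg Cfsg.Agent.H15.O8 Cfsg.Agent.H39 Cfsg.Agent.H36.O8T Cfsg.Agent.H54.RF Subgroup
open scoped commutatorElement

universe u v

variable {K : Type v} [Field K] [Finite K] {T : Tits K} {G : Type u} [Group G] [Finite G]
  {M : FF T G} {t : G} {p : K → G}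

omit [Finite G] in
theorem comm_cen {z k y : G} (h1 : Commute k z) (h2 : Commute y z) : ⁅z * k, y⁆ = ⁅k, y⁆ := by
  have := conj_eq_iff.2 ((h1.mul_left h2).mul_left h1.inv_left).symm
  rw [commutatorElement_def, commutatorElement_def, ← this]; group

omit [Finite K] in
set_option maxRecDepth 4000 in
theorem conjW (a : K) {w : U T} (hw : w ∈ W T) :
    x1 T a * w * (x1 T a)⁻¹ = w * x4 T (a * w.a6) := by
  obtain ⟨k1, k2, k3, k4, k5, k6, k7, k8, k9, k10⟩ := hw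
  ext <;> o8s <;> simp only [k1, k2, k3, k4, k5, k6, k7, k8, k9, k10, map_zero] <;> o8ring T

omit [Finite K] in
theorem wvw {w v : U T} (hw : w ∈ W T) (hv : v ∈ E T) : w * v * w = v := by
  rw [← (cW v).1 hv w hw, mul_assoc, sqV w (R_le_V (W_le_R hw)), mul_one]

omit [Finite K] in
theorem eq_W {w : U T} (hw : w ∈ W T) (h : w.a6 = 0) : w = x4 T w.a4 := by
  obtain ⟨k1, k2, k3, k4, k5, k6, k7, k8, k9, k10⟩ := hw
  ext <;> o8s <;> assumption

omit [Finite G] in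
theorem cenQ (h : Pre M t p 0) (a : K) {u : U T} (hu : u ∈ Q T) : Commute (p a) (M.φ u) := by
  obtain ⟨a, rfl⟩ := θ_surj (T := T) a
  obtain ⟨b, hb⟩ := θ_surj (T := T) u.b4
  have h1 := h.y4 a b
  rw [zero_mul, zero_mul, x4_zero, mul_one, conj_eq_iff, hb] at h1
  have h2 := h.cq (T.θ a) (u * (y4 T u.b4)⁻¹) (mul_mem hu (inv_mem (by o8s))) (by
    o8s; exact add_self (T := T) _)
  have := h2.mul_right h1
  rwa [← map_mul, inv_mul_cancel_right] at this

omit [Finite G] in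
theorem cen (c : Ctx2 M t) (h : Pre M t p 0) (a : K) : ∀ k ∈ M.cf.C, Commute (p a) k := by
  have key : ∀ k ∈ M.cf.C, ∃ z ∈ M.cf.C, (∀ l ∈ M.cf.C, Commute l z) ∧ p a * k * (p a)⁻¹ = z * k := by
    intro k hk
    have h1 : p a * k * (p a)⁻¹ * k⁻¹ ∈ M.cf.C :=
      mul_mem ((mem_normalizer_iff.1 (h.nK a) k).1 hk) (inv_mem hk)
    obtain ⟨z, hz, e⟩ := M.cf.cQ _ h1 fun u hu => by
      obtain ⟨u', hu', e'⟩ := (mem_normalizer_iff.1 (M.cf.nQ (inv_mem hk)) (M.φ u)).1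
        ⟨u, hu, rfl⟩
      have e1 : M.φ u = k * M.φ u' * k⁻¹ := by
        rw [show M.φ u' = _ from e']; group
      have e2 := conj_eq_iff.2 (cenQ h a hu').inv_left
      have e3 := conj_eq_iff.2 (cenQ h a hu)
      change _ * M.φ u = M.φ u * _
      calc p a * k * (p a)⁻¹ * k⁻¹ * M.φ u
          = p a * k * ((p a)⁻¹ * M.φ u' * (p a)⁻¹⁻¹) * (p a)⁻¹ * k⁻¹ := by rw [e1]; group
        _ = p a * M.φ u * (p a)⁻¹ * (p a * k * (p a)⁻¹ * k⁻¹) := by rw [e2, e1]; group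
        _ = _ := by rw [e3]
    refine ⟨M.φ z, φK M z, fun l hl => ?_, by rw [show M.φ z = _ from e]; group⟩
    by_cases z1 : z = 1
    · rw [z1, map_one]; exact Commute.one_right _
    · exact ((mem_K M hz z1).1 hl).2
  intro k hk
  rw [← M.cf.perf c.q2] at hk
  refine (mem_centralizer_singleton_iff.1 (commutator_le.2 (fun k hk l hl => ?_) hk :
    k ∈ centralizer {p a})).symm
  obtain ⟨z, zm, hz, e⟩ := key k hk
  obtain ⟨z', zm', hz', e'⟩ := key l hl
  refine mem_centralizer_singleton_iff.2 (conj_eq_iff.1 ?_).symm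
  calc p a * ⁅k, l⁆ * (p a)⁻¹ = ⁅p a * k * (p a)⁻¹, p a * l * (p a)⁻¹⁆ := by
        simp only [commutatorElement_def]; group
    _ = _ := by
        rw [e, e', comm_cen (hz k hk) (hz _ (mul_mem zm' hl)), ← commutatorElement_inv,
          comm_cen (hz' l hl) (hz' k hk), commutatorElement_inv]

omit [Finite G] in
theorem sq (h : Pre M t p 0) : ∃ γ, ∀ s, p s * p s = M.φ (x4 T (γ * s)) := by
  obtain ⟨z, hz⟩ := h.add 1 1
  rw [add_self (T := T), h.zero, one_mul] at hz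
  refine ⟨z, fun s => ?_⟩
  by_cases hs : s = 0
  · rw [hs, h.zero, mul_zero, x4_zero, map_one, mul_one]
  obtain ⟨d, hd⟩ := Nu_surj (T := T) (Units.mk0 s hs)
  have e : (d : K) * T.θ d = s := congrArg Units.val hd
  have e1 := h.tor (d, 1) 1
  simp only [e, mul_one] at e1
  rw [← e1]
  calc _ = M.h (d, 1) * (p 1 * p 1) * (M.h (d, 1))⁻¹ := by group
    _ = _ := by rw [hz, M.hφ, tor_x4, e, mul_comm]

section

variable (c : Ctx2 M t) (h : Pre M t p 0)
include c h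

omit [Finite G] in
theorem pφ (a : K) (u : U T) : Commute (p a) (M.φ u) := cen c h a _ (φK M u)

omit [Finite G] in
theorem cen6 (a : K) {u : U T} (hu : u ∈ E T) : Commute (P6 M p a) (M.φ u) := by
  have := comm_conj' M.n1n1 (pφ c h a (w1 u))
  rwa [M.n1φ _ (w1_mem u), w1_w1 hu] at this

omit [Finite K] [Finite G] in
theorem mov6 (a : K) : P6 M p a * t * (P6 M p a)⁻¹ = t * M.φ (x6 T a) := by
  have := rel_conj M.n1n1 (h.mov a)
  rwa [conj_mul' M.n1n1 t, conj_fix' M.n1n1 c.tn1.symm, n1_x4] at this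

omit [Finite K] [Finite G] c in
theorem odd6 (a : K) {k : G} (hk : Od M t k) : Commute (P6 M p a) k := by
  have := comm_conj' M.n1n1 (h.odd a k hk)
  rwa [conj_fix' M.n1n1 (hk.comm (n1X M))] at this

omit [Finite K] [Finite G] c in
theorem tor6 (d : Kˣ × Kˣ) (a : K) :
    M.h d * P6 M p a * (M.h d)⁻¹ = P6 M p (d.2 * T.θ d.2 * a) := by
  have := rel_conj M.n1n1 (h.tor (d.2, d.1) a)
  rwa [n1_h] at this

theorem key (a u : K) : ∃ w ∈ W T, M.φ (x1 T a) * P6 M p u * (M.φ (x1 T a))⁻¹ =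
    P6 M p u * p (a * u) * M.φ w := by
  by_cases hu : u = 0
  · refine ⟨1, one_mem _, ?_⟩
    rw [hu, mul_zero, P6, h.zero, mul_one, M.n1n1, map_one]; group
  obtain ⟨γ, hγ⟩ := sq h
  have s6 : P6 M p u * P6 M p u = M.φ (x6 T (γ * u)) := by
    rw [P6, ← conj_mul' M.n1n1, hγ, n1_x4]
  set g := M.φ (x1 T a) * P6 M p u * (M.φ (x1 T a))⁻¹ with hg
  set j := P6 M p u * p (a * u) with hj
  have gE : ∀ e ∈ E T, Commute g (M.φ e) := fun e he => by
    have := comm_conj (cen6 c h u (nE.conj_mem e he (x1 T a)⁻¹)) (M.φ (x1 T a))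
    rwa [map_mul, map_mul, map_inv, map_inv, map_inv, show M.φ (x1 T a) * ((M.φ (x1 T a))⁻¹ *
      M.φ e * (M.φ (x1 T a))⁻¹⁻¹) * (M.φ (x1 T a))⁻¹ = M.φ e by group] at this
  have jE : ∀ e ∈ E T, Commute j (M.φ e) := fun e he => (cen6 c h u he).mul_left (pφ c h _ e)
  have jt : j * t * j⁻¹ = t * M.φ (x6 T u * x4 T (a * u)) := by
    calc _ = P6 M p u * (p (a * u) * t * (p (a * u))⁻¹) * (P6 M p u)⁻¹ := by rw [hj]; group
      _ = P6 M p u * t * (P6 M p u)⁻¹ * (P6 M p u * M.φ (x4 T (a * u)) * (P6 M p u)⁻¹) := by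
        rw [h.mov]; group
      _ = _ := by rw [mov6 c h, conj_eq_iff.2 (cen6 c h u rfl), map_mul, mul_assoc]
  have gt : g * t * g⁻¹ = t * M.φ (x6 T u * x4 T (a * u)) := by
    have e1 := conj_eq_iff.2 (c.tφ (x1 T a))
    have e2 := conj_eq_iff.2 (c.tφ (x1 T a)).inv_left
    calc _ = M.φ (x1 T a) * (P6 M p u * ((M.φ (x1 T a))⁻¹ * t * (M.φ (x1 T a))⁻¹⁻¹) *
          (P6 M p u)⁻¹) * (M.φ (x1 T a))⁻¹ := by rw [hg]; group
      _ = M.φ (x1 T a) * t * (M.φ (x1 T a))⁻¹ * M.φ (x1 T a * x6 T u * (x1 T a)⁻¹) := by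
        rw [e2, mov6 c h, map_mul, map_mul, map_inv]; group
      _ = _ := by
        rw [e1, conjW a (by o8s)]; rfl
  have ht : Commute (j⁻¹ * g) t := by
    rw [← conj_eq_iff]
    calc _ = j⁻¹ * (g * t * g⁻¹) * j := by group
      _ = t := by rw [gt, ← jt]; group
  have hE : ∀ e ∈ E T, Commute (j⁻¹ * g) (M.φ e) := fun e he => (jE e he).inv_left.mul_left (gE e he)
  obtain ⟨w, wE, o, ho, -, hd⟩ := c.cw ht fun w hw => hE w (V_le_E (R_le_V (W_le_R hw)))
  have wW : w ∈ W T := cE w fun e he => c.dec_φ hd ho (hE e he)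
  have ww : M.φ w * M.φ w = 1 := by rw [← map_mul, sqV w (R_le_V (W_le_R wW)), map_one]
  have jo : Commute j o := (odd6 h u ho).mul_left (h.odd _ o ho)
  have g2 : g * g = M.φ (x1 T a * x6 T (γ * u) * (x1 T a)⁻¹) := by
    rw [map_mul, map_mul, map_inv, ← s6, hg]; group
  have j2 : j * j = M.φ (x6 T (γ * u) * x4 T (γ * (a * u))) := by
    rw [map_mul, ← s6, ← hγ, hj]
    exact (h.c46 (a * u) u).symm.mul_mul_mul_comm _ _ ▸ rfl
  have oo : ∀ x : U T, M.φ x = o * o → o = 1 := fun x e =>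
    eq_one_of_odd_sq ho.2.2 (c.zl _ (e ▸ φX M x) (mul_mem ho.1 ho.1))
  have cw := (jE w wE).eq
  refine ⟨w, wW, ?_⟩
  rcases hd with e | e
  · have e1 : g = j * M.φ w * o := by rw [mul_assoc, ← e]; group
    have e2 : g * g = j * j * (o * o) := by
      calc _ = j * M.φ w * (o * j) * M.φ w * o := by rw [e1]; group
        _ = j * (M.φ w * j) * (o * M.φ w) * o := by rw [← jo.eq]; group
        _ = j * j * (M.φ w * M.φ w) * (o * o) := by rw [← cw, (ho.φ w).eq]; group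
        _ = _ := by rw [ww, mul_one]
    rw [g2, j2, ← inv_mul_eq_iff_eq_mul, ← map_inv, ← map_mul] at e2
    rw [e1, oo _ e2, mul_one]
  · exfalso
    have e1 : g = j * M.φ w * t * o := by rw [mul_assoc, mul_assoc, ← mul_assoc (M.φ w), ← e]; group
    have e3 := c.tconj jt
    have vE : x6 T u * x4 T (a * u) ∈ E T := mul_mem rfl rfl
    have e2 : g * g = j * j * M.φ (x6 T u * x4 T (a * u)) * (o * o) := by
      calc _ = j * M.φ w * t * (o * j) * M.φ w * t * o := by rw [e1]; group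
        _ = j * M.φ w * t * j * (o * (M.φ w * t)) * o := by rw [← jo.eq]; group
        _ = j * M.φ w * (t * j) * (M.φ w * t) * (o * o) := by
          rw [((ho.φ w).mul_right ho.2.1).eq]; group
        _ = j * M.φ w * (t * j * t) * M.φ w * (o * o) := by rw [(c.tφ w).eq]; group
        _ = j * (M.φ (w * (x6 T u * x4 T (a * u))) * j) * M.φ w * (o * o) := by
          rw [e3, map_mul M.φ w]; simp only [mul_assoc]
        _ = j * j * M.φ (w * (x6 T u * x4 T (a * u)) * w) * (o * o) := by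
          rw [← (jE _ (mul_mem wE vE)).eq, map_mul _ (w * _)]; simp only [mul_assoc]
        _ = _ := by rw [wvw wW vE]
    rw [g2, j2, ← map_mul] at e2
    have e4 := e2
    rw [← inv_mul_eq_iff_eq_mul, ← map_inv, ← map_mul] at e4
    rw [oo _ e4, mul_one, mul_one] at e2
    have e5 := congrArg U.a6 (M.inj e2)
    o8s at e5
    exact hu (by linear_combination -e5)

theorem key2 : ∃ ω, ∀ a u, M.φ (x1 T a) * P6 M p u * (M.φ (x1 T a))⁻¹ =
    P6 M p u * p (a * u) * M.φ (x4 T (ω * (a * u))) := by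
  obtain ⟨γ, hγ⟩ := sq h
  choose w wW hw using key c h
  have w0 : ∀ u, w 0 u = 1 := fun u => by
    have := hw 0 u
    rw [x1_zero, map_one, zero_mul, h.zero, one_mul, inv_one, mul_one] at this
    exact φ_eq_one M (left_eq_mul.1 this)
  have st : ∀ a b u, p ((b + a) * u) * M.φ (w (b + a) u) =
      p (b * u) * p (a * u) * M.φ (w b u * (w a u * x4 T (b * (w a u).a6))) := by
    intro a b u
    refine mul_left_cancel (a := P6 M p u) ?_
    rw [← mul_assoc, ← hw, x1_add, map_mul]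
    calc _ = M.φ (x1 T b) * (M.φ (x1 T a) * P6 M p u * (M.φ (x1 T a))⁻¹) * (M.φ (x1 T b))⁻¹ := by
          group
      _ = M.φ (x1 T b) * P6 M p u * (M.φ (x1 T b))⁻¹ *
          (M.φ (x1 T b) * p (a * u) * (M.φ (x1 T b))⁻¹) *
          (M.φ (x1 T b) * M.φ (w a u) * (M.φ (x1 T b))⁻¹) := by rw [hw]; group
      _ = P6 M p u * p (b * u) * (M.φ (w b u) * p (a * u)) *
          M.φ (w a u * x4 T (b * (w a u).a6)) := by
          rw [hw, conj_eq_iff.2 (pφ c h _ _).symm, ← conjW b (wW a u), map_mul, map_mul, map_inv]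
          simp only [mul_assoc]
      _ = _ := by rw [← (pφ c h _ _).eq, map_mul M.φ (w b u)]; simp only [mul_assoc]
  have add6 : ∀ a b u, (w (b + a) u).a6 = (w b u).a6 + (w a u).a6 := by
    intro a b u
    obtain ⟨z, hz⟩ := h.add (b * u) (a * u)
    have e := st a b u
    rw [hz, ← add_mul, mul_assoc, mul_right_inj, ← map_mul] at e
    have e1 := congrArg U.a6 (M.inj e)
    obtain ⟨k1, k2, k3, k4, k5, k6, k7, k8, k9, k10⟩ := wW a u
    obtain ⟨l1, l2, l3, l4, l5, l6, l7, l8, l9, l10⟩ := wW b u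
    rw [e1]
    o8s
    simp only [k1, k2, k3, k4, k5, k6, k7, k8, k9, k10, l1, l2, l3, l4, l5, l6, l7, l8, l9, l10,
      map_zero]
    ring
  have v6 : ∀ a u, a ≠ 0 → (w a u).a6 = γ * u := by
    intro a u ha
    have e := st a a u
    rw [add_self (T := T), w0, zero_mul, h.zero, hγ, map_one, mul_one, ← map_mul, ← mul_assoc,
      ← mul_assoc, mul_assoc (x4 T _), sqV _ (R_le_V (W_le_R (wW a u))), mul_one, ← x4_add] at e
    have e1 : γ * (a * u) + a * (w a u).a6 = 0 := congrArg U.a4 (φ_eq_one M e.symm)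
    have := T.charP
    refine mul_left_cancel₀ ha ?_
    grind
  have γ0 : γ = 0 := by
    obtain ⟨a, h0, h1, -⟩ := N_not_add (T := T) c.q2
    have := add6 1 a 1
    rw [v6 _ _ h0, v6 _ _ h1, v6 _ _ one_ne_zero] at this
    simpa using this
  have w4 : ∀ a u, w a u = x4 T (w a u).a4 := fun a u => eq_W (wW a u) (by
    by_cases ha : a = 0
    · rw [ha, w0]; rfl
    · rw [v6 a u ha, γ0, zero_mul])
  refine ⟨(w 1 1).a4, fun a u => ?_⟩
  rw [hw, w4]
  by_cases ha : a = 0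
  · rw [ha, w0, zero_mul, mul_zero]; rfl
  by_cases hu : u = 0
  · have := hw a 0
    rw [mul_zero, P6, h.zero, mul_one, M.n1n1, mul_one, mul_one, one_mul, mul_inv_cancel] at this
    rw [hu, φ_eq_one M this.symm, mul_zero, mul_zero]; rfl
  rw [hom_pair (wt1 T) (fun d => Nu T d.2) (fun d => Nu T d.1) w16 (fun a u => a * u)
    (fun d => by rw [i16]; rfl) (fun a u => (w a u).a4) (fun d => ?_) ha hu]
  have e := congrArg (fun x => M.h d * x * (M.h d)⁻¹) (hw 1 1)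
  have e1 : M.h d * (M.φ (x1 T 1) * P6 M p 1 * (M.φ (x1 T 1))⁻¹) * (M.h d)⁻¹ =
      M.h d * M.φ (x1 T 1) * (M.h d)⁻¹ * (M.h d * P6 M p 1 * (M.h d)⁻¹) *
        (M.h d * M.φ (x1 T 1) * (M.h d)⁻¹)⁻¹ := by group
  have e2 : M.h d * (P6 M p 1 * p (1 * 1) * M.φ (w 1 1)) * (M.h d)⁻¹ =
      M.h d * P6 M p 1 * (M.h d)⁻¹ * (M.h d * p (1 * 1) * (M.h d)⁻¹) *
        (M.h d * M.φ (w 1 1) * (M.h d)⁻¹) := by group
  have e3 : (d.1 : K) * T.θ d.1 = wt1 T d * (d.2 * T.θ d.2) := congrArg Units.val (i16 (T := T) d)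
  rw [e1, e2, M.hφ, M.hφ, tor_x1, tor6 h, h.tor, hw, w4 1 1, tor_x4, mul_one, mul_one, mul_one,
    mul_one, e3, mul_right_inj] at e
  rw [Nu_val, Nu_val, M.inj e, e3]
  rfl

end

theorem hat4 : Hat4Stmt.{u, v} := by
  intro K _ _ T G _ _ M t c p h
  obtain ⟨ω, hω⟩ := key2 c h
  have ω0 : ω = 0 := by
    have e1 := rel_conj M.n1n1 (hω 1 1)
    rw [braid1, n1_P6, conj_mul' M.n1n1, conj_mul' M.n1n1, n1_P6, n1_p, n1_x4, mul_one,
      mul_one] at e1
    have e2 : M.φ (x1 T 1) * M.n1 * M.φ (x1 T 1) * p 1 * (M.φ (x1 T 1) * M.n1 * M.φ (x1 T 1))⁻¹ =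
        M.φ (x1 T 1) * (M.n1 * (M.φ (x1 T 1) * p 1 * (M.φ (x1 T 1))⁻¹) * M.n1⁻¹) *
          (M.φ (x1 T 1))⁻¹ := by group
    rw [e2, conj_eq_iff.2 (pφ c h _ _).symm, inv_eq_of_mul_eq_one_right M.n1n1, n1_p, hω, mul_one,
      mul_one, (show Commute (p 1) (P6 M p 1) from h.c46 1 1).eq, mul_right_inj] at e1
    exact congrArg U.a4 (M.inj e1)
  have line : ∀ a u, M.φ (x1 T a) * P6 M p u * (M.φ (x1 T a))⁻¹ = P6 M p u * p (a * u) := by
    intro a u
    rw [hω, ω0, zero_mul, x4_zero, map_one, mul_one]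
  refine ⟨fun a b => ?_, h.mov, cen c h, h.odd, h.tor, h.c46, line⟩
  have e := line (a + b) 1
  rw [x1_add, map_mul, show M.φ (x1 T a) * M.φ (x1 T b) * P6 M p 1 *
    (M.φ (x1 T a) * M.φ (x1 T b))⁻¹ = M.φ (x1 T a) * (M.φ (x1 T b) * P6 M p 1 * (M.φ (x1 T b))⁻¹) *
      (M.φ (x1 T a))⁻¹ by group, line, show M.φ (x1 T a) * (P6 M p 1 * p (b * 1)) *
      (M.φ (x1 T a))⁻¹ = M.φ (x1 T a) * P6 M p 1 * (M.φ (x1 T a))⁻¹ *
      (M.φ (x1 T a) * p (b * 1) * (M.φ (x1 T a))⁻¹) by group, line,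
    conj_eq_iff.2 (pφ c h _ _).symm, mul_one, mul_one, mul_one, mul_assoc, mul_right_inj] at e
  exact e.symm

end Cfsg.Agent.H92.RfHat4
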