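import Cfsg.Agent.H97.U4Defs

/-! Project U4F, pieces AQ and AJ: the automizers of `Q` and of `J`. -/

set_option autoImplicit false
set_option linter.unusedSectionVars false

namespace Cfsg.Agent.H92.U4Aq

open Cfsg.Agent.H97 Cfsg.Agent.H97.U4 Subgroup
open Cfsg.Agent.H97.U5 (Hm Cp zp)
open Cfsg.Agent.H96.VB hiding LA LB

universe u

variable {K : Type u} [Field K] [Finite K] {T : Hm K} {p : ℕ} [Fact p.Prime] [CharP K p]

section Q

/-- conjugation -/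
def cQ (s : U T) : MulAut (Q T) := MulAut.conjNormal s

theorem ext_cQ (s : U T) {x : U T} (hx : x ∈ Q T) : ext (cQ s) x = s * x * s⁻¹ := by
  rw [ext_apply _ hx]; rfl

variable {A : Subgroup (MulAut (Q T))} {α : MulAut (Q T)}

theorem rho_of {s : U T} (e : ∀ x ∈ Q T, ext α x = s * x * s⁻¹) : rhoW T α = piW T s :=
  rhoW_eq.2 fun x hx => by rw [e x hx, wv_conj s hx, piW_apply]

theorem rho_cQ (s : U T) : rhoW T (cQ s) = piW T s := rho_of fun _ hx => ext_cQ s hx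

theorem cQ_mem (hA : U5.LA p (Q T) A) (s : U T) : cQ s ∈ A := hA.cj s _ fun _ hx => ext_cQ s hx

theorem piW_mem (s : U T) : piW T s ∈ AW T := range_piW T ▸ ⟨s, rfl⟩

theorem exists_piW {u : Equiv.Perm (W K)} (h : u ∈ AW T) : ∃ s, piW T s = u := by
  rw [← range_piW] at h; exact h

theorem ker_p (H : InnQStmt T p) : IsPGroup p (rhoW T).ker :=
  fun β => ⟨1, Subtype.ext (by rw [pow_one]; exact (H.1 β.1 β.2).2)⟩

theorem kerQ (H : InnQStmt T p) (hA : U5.LA p (Q T) A) : KerQ T A := fun α hα h0 => by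
  have h1 : ∀ g ∈ A, ∀ β ∈ A ⊓ (rhoW T).ker, g * β * g⁻¹ ∈ A ⊓ (rhoW T).ker := fun g hg β hβ =>
    mem_inf.2 ⟨mul_mem (mul_mem hg hβ.1) (inv_mem hg),
      (MonoidHom.normal_ker (rhoW T)).conj_mem β hβ.2 g⟩
  obtain ⟨s, hs⟩ := hA.two (A ⊓ (rhoW T).ker) inf_le_left (fun g hg => mem_normalizer_iff.2 fun β =>
    ⟨h1 g hg β, fun hβ => by simpa [mul_assoc] using h1 _ (inv_mem hg) _ hβ⟩)
    (ker_p H).to_inf_right α ⟨hα, h0⟩
  exact ⟨s, uW_eq_one.1 ((rho_of hs).symm.trans h0), hs⟩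

theorem conj_of (hA : U5.LA p (Q T) A) (k : KerQ T A) (hα : α ∈ A) {s : U T}
    (e : rhoW T α * piW T s * (rhoW T α)⁻¹ ∈ AW T) :
    ∃ s' : U T, ∀ x ∈ Q T, ext α (s * x * s⁻¹) = s' * ext α x * s'⁻¹ := by
  obtain ⟨s', hs⟩ := exists_piW e
  obtain ⟨z, -, hz⟩ := k (cQ s'⁻¹ * (α * cQ s * α⁻¹)) (mul_mem (cQ_mem hA _)
    (mul_mem (mul_mem hα (cQ_mem hA s)) (inv_mem hα))) (by
      rw [map_mul, map_mul, map_mul, map_inv, rho_cQ, rho_cQ, ← hs, map_inv, inv_mul_cancel])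
  refine ⟨s' * z, fun x hx => ?_⟩
  have h3 := hz _ (ext_mem α hx)
  have h4 : s * x * s⁻¹ ∈ Q T := nQ.conj_mem x hx s
  rw [ext_mul, ext_mul, ext_mul, ext_inv_ext, ext_cQ _ hx, ext_cQ _ (ext_mem α h4)] at h3
  calc _ = s' * (z * ext α x * z⁻¹) * s'⁻¹ := by rw [← h3]; group
    _ = _ := by group

theorem nor_of (e : Nm α) : rhoW T α ∈ NW T := mem_normalizer_fintype fun u hu => by
  obtain ⟨s, rfl⟩ := exists_piW hu
  obtain ⟨s', hs⟩ := e s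
  rw [← rho_cQ, ← map_inv, ← map_mul, ← map_mul, rho_of (s := s') fun x hx => by
    rw [ext_mul, ext_mul, ext_cQ _ (ext_mem _ hx), hs _ (ext_mem _ hx), ext_ext_inv]]
  exact piW_mem s'

theorem sq_iff (h2 : (2 : K) = 0) {x : U T} (hx : x ∈ Q T) :
    x * x = 1 ↔ hm T (wv x) (wv x) = 0 := by
  have h : x.d = 0 := hx
  have e : (x * x).a = hm T (wv x) (wv x) := by
    simp only [U.mul_a, hm, wv, h]
    linear_combination (x.a - x.t * T.σ x.m) * h2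
  refine ⟨fun H => by rw [← e, H]; rfl, fun H => U.ext ?_ (e.trans H) ?_ ?_⟩
  · simp only [U.mul_t, U.one_t]; linear_combination x.t * h2
  · simp only [U.mul_m, U.one_m, h]; linear_combination x.m * h2
  · simp only [U.mul_d, U.one_d, h, add_zero]

/-- **AQ** -/
theorem aq (H : InnQStmt T p) : AQStmt T p := fun A hA => by
  have k := kerQ H hA
  refine ⟨k, ⟨fun u hu => ?_, ?_, ?_, fun M hM pM hle u hu => ?_, ?_, fun h2 => ?_⟩,
    fun α hα => ⟨nor_of, fun e s =>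
      conj_of hA k hα ((mem_normalizer_iff.1 e _).1 (piW_mem s))⟩⟩
  · obtain ⟨s, rfl⟩ := exists_piW hu
    exact ⟨_, cQ_mem hA s, rho_cQ s⟩
  · rintro _ ⟨α, -, rfl⟩ v w
    obtain ⟨x, hx, rfl⟩ := wv_surj (T := T) v
    obtain ⟨y, hy, rfl⟩ := wv_surj (T := T) w
    rw [← wv_mul hy, rhoW_wv α (mul_mem hx hy), rhoW_wv α hx, rhoW_wv α hy, ext_map_mul α hx hy,
      wv_mul (ext_mem α hy)]
  · rintro _ ⟨α, -, rfl⟩ v w h
    obtain ⟨x, hx, rfl⟩ := wv_surj (T := T) v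
    obtain ⟨y, hy, rfl⟩ := wv_surj (T := T) w
    rw [rhoW_wv α hx, rhoW_wv α hy, perp_wv (ext_mem α hx) (ext_mem α hy), ← ext_map_comm α hx hy,
      (perp_wv hx hy).1 h, ext_map_one]
  · obtain ⟨α, hα, rfl⟩ := hM hu
    obtain ⟨s, hs⟩ := hA.syl (A ⊓ M.comap (rhoW T)) inf_le_left
      (pM.comap_of_ker_isPGroup (rhoW T) (ker_p H)).to_inf_right
      (fun s β e => mem_inf.2 ⟨hA.cj s β e, by
        rw [mem_comap, rho_of e]; exact hle (piW_mem s)⟩) α ⟨hα, hu⟩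
    exact rho_of hs ▸ piW_mem s
  · rintro _ ⟨α, hα, rfl⟩ u hu u1 e
    obtain ⟨s, rfl⟩ := exists_piW hu
    obtain ⟨s', hs⟩ := conj_of hA k hα e
    exact nor_of (hA.ti α hα s (fun hs => u1 (uW_eq_one.2 hs)) s' hs)
  · rintro _ ⟨α, -, rfl⟩ v h
    obtain ⟨x, hx, rfl⟩ := wv_surj (T := T) v
    rw [rhoW_wv α hx, ← sq_iff h2 (ext_mem α hx), ← ext_map_mul α hx hx, (sq_iff h2 hx).2 h,
      ext_map_one]

end Q

section J

/-- conjugation -/
def cJ (s : U T) : MulAut (J T) := MulAut.conjNormal s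

theorem ext_cJ (s : U T) {x : U T} (hx : x ∈ J T) : ext (cJ s) x = s * x * s⁻¹ := by
  rw [ext_apply _ hx]; rfl

variable {A : Subgroup (MulAut (J T))} {α : MulAut (J T)}

theorem rhoV_of {s : U T} (e : ∀ x ∈ J T, ext α x = s * x * s⁻¹) : rhoV T α = vX T s.t :=
  rhoV_eq.2 fun x hx => by rw [e x hx, vv_conj s hx]

theorem rho_cJ (s : U T) : rhoV T (cJ s) = vX T s.t := rhoV_of fun _ hx => ext_cJ s hx

theorem rhoV_inj : Function.Injective (rhoV T) := (injective_iff_map_eq_one _).2 fun α h =>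
  MulEquiv.ext fun x => Subtype.ext (by
    rw [← ext_coe]
    exact vv_inj (ext_mem α x.2) x.2 (rhoV_eq.1 h x x.2))

theorem conjV_of {s : U T} (e : rhoV T α * vX T s.t * (rhoV T α)⁻¹ ∈ XV T) :
    ∃ s' : U T, ∀ x ∈ J T, ext α (s * x * s⁻¹) = s' * ext α x * s'⁻¹ := by
  obtain ⟨t, ht⟩ := (mem_XV T).1 e
  refine ⟨xt T t, fun x hx => ?_⟩
  have h4 : s * x * s⁻¹ ∈ J T := nJ.conj_mem x hx s
  refine vv_inj (ext_mem α h4) (nJ.conj_mem _ (ext_mem α hx) _) ?_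
  rw [← rhoV_vv α h4, vv_conj s hx, vv_conj _ (ext_mem α hx), ← rhoV_vv α hx, xt_t, ← ht]
  simp

theorem norV_of (e : Nm α) : rhoV T α ∈ NV T := mem_normalizer_fintype fun u hu => by
  obtain ⟨t, rfl⟩ := (mem_XV T).1 hu
  obtain ⟨s', hs⟩ := e (xt T t)
  rw [show vX T t = rhoV T (cJ (xt T t)) from (rho_cJ (xt T t)).symm, ← map_inv, ← map_mul,
    ← map_mul, rhoV_of (s := s') fun x hx => by
      rw [ext_mul, ext_mul, ext_cJ _ (ext_mem _ hx), hs _ (ext_mem _ hx), ext_ext_inv]]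
  exact vX_mem T _

theorem vg0 (hA : LA0 p (J T) A) : VG0 T p (A.map (rhoV T)) := by
  refine ⟨fun u hu => ?_, ?_, fun M hM pM hle u hu => ?_⟩
  · obtain ⟨t, rfl⟩ := (mem_XV T).1 hu
    exact ⟨_, hA.cj (xt T t) _ fun _ hx => ext_cJ _ hx, rho_cJ (xt T t)⟩
  · rintro _ ⟨α, -, rfl⟩ v w
    rw [← vv_uv v, ← vv_uv w, ← vv_mul (uv_mem v), rhoV_vv α (mul_mem (uv_mem v) (uv_mem w)),
      rhoV_vv α (uv_mem v), rhoV_vv α (uv_mem w), ext_map_mul α (uv_mem v) (uv_mem w),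
      vv_mul (ext_mem α (uv_mem v))]
  · obtain ⟨α, hα, rfl⟩ := hM hu
    obtain ⟨s, hs⟩ := hA.syl (A ⊓ M.comap (rhoV T)) inf_le_left
      (pM.comap_of_injective (rhoV T) rhoV_inj).to_inf_right
      (fun s β e => mem_inf.2 ⟨hA.cj s β e, by
        rw [mem_comap, rhoV_of e]; exact hle (vX_mem T _)⟩) α ⟨hα, hu⟩
    exact rhoV_of hs ▸ vX_mem T _

/-- **AJ** -/
theorem aj : AJStmt T p := by
  refine ⟨fun α => ⟨norV_of, fun e s => conjV_of ((mem_normalizer_iff.1 e _).1 (vX_mem T _))⟩,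
    fun A => vg0, fun A hA => ⟨vg0 ⟨hA.cj, hA.syl⟩, ?_⟩⟩
  rintro _ ⟨α, hα, rfl⟩ u hu u1 e
  obtain ⟨t, rfl⟩ := (mem_XV T).1 hu
  obtain ⟨s', hs⟩ := conjV_of (s := xt T t) e
  exact norV_of (hA.ti α hα (xt T t) (fun hs => u1 ((vX_eq_one T).2 hs)) s' hs)

end J

end Cfsg.Agent.H92.U4Aq
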