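import Cfsg.Agent.H42.VpDefs
import Cfsg.Agent.H23.Cyclic

/-! Project VP, piece D: a character vanishing on a `p`-element has degree divisible by `p`. -/

set_option autoImplicit false

namespace Cfsg.Agent.H92.VpD

open Cfsg Cfsg.Agent.H42.Vp

universe u

theorem d : DStmt.{u} := by
  rintro G _ _ p hp ⟨χ, n, ρ, hρ, rfl⟩ g m hg h0
  obtain ⟨M, hM⟩ := H23.exists_isPModular hp
  have h := H23.val_char_sub_lt_one hM (θ := ρ.character) ⟨n, ρ, rfl⟩ (s := g) (k := m)
    (by rw [← hg, pow_orderOf_eq_one])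
  have h1 : ρ.character 1 = (Module.finrank ℂ (Fin n → ℂ) : ℂ) := ρ.char_one
  change ρ.character g = 0 at h0
  change p ∣ ⌊(ρ.character 1).re⌋₊
  rw [h0, h1, zero_sub, ← Int.cast_natCast, ← Int.cast_neg, H19.val_intCast_lt_one_iff hM,
    Int.dvd_neg, Int.natCast_dvd_natCast] at h
  rw [h1, Complex.natCast_re, Nat.floor_natCast]
  exact h

end Cfsg.Agent.H92.VpD
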